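import Cfsg.Statements.S3900
import Cfsg.Agent.Lib.H1.Cores

/-! Values of left-normed commutator words and coprime action. -/

set_option autoImplicit false

namespace H57.Bw

open Subgroup
open scoped commutatorElement

universe u

/-- left normed commutator values with `k + 1` entries -/
def V {G : Type*} [Group G] : ℕ → Set G
  | 0 => Set.univ
  | (k + 1) => {x | ∃ a ∈ V k, ∃ b : G, x = a * b * a⁻¹ * b⁻¹}

theorem foldl_mem {G : Type*} [Group G] (k : ℕ) : ∀ f : Fin (k + 1) → G,
    ((List.ofFn f).tail).foldl (fun a b => a * b * a⁻¹ * b⁻¹) (f 0) ∈ V k := by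
  induction k with
  | zero => intro f; exact Set.mem_univ _
  | succ k ih =>
    intro f
    refine ⟨_, ih (fun i => f i.castSucc), f (Fin.last (k + 1)), ?_⟩
    rw [List.ofFn_succ, List.tail_cons, List.ofFn_succ', List.concat_eq_append,
      List.foldl_append, List.ofFn_succ (f := fun i : Fin (k + 1) => f i.castSucc), List.tail_cons]
    rfl

theorem exists_foldl {G : Type*} [Group G] (k : ℕ) : ∀ x ∈ (V k : Set G),
    ∃ f : Fin (k + 1) → G, x = ((List.ofFn f).tail).foldl (fun a b => a * b * a⁻¹ * b⁻¹) (f 0) := by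
  induction k with
  | zero => intro x _; exact ⟨fun _ => x, by simp⟩
  | succ k ih =>
    rintro x ⟨a, ha, b, rfl⟩
    obtain ⟨f, hf⟩ := ih a ha
    refine ⟨Fin.snoc f b, ?_⟩
    rw [List.ofFn_succ, List.tail_cons, List.ofFn_succ', List.concat_eq_append,
      List.foldl_append]
    rw [List.ofFn_succ, List.tail_cons] at hf
    have h1 : ∀ i : Fin k, (Fin.snoc f b : Fin (k + 2) → G) i.castSucc.succ = f i.succ := by
      intro i
      rw [Fin.succ_castSucc]
      exact Fin.snoc_castSucc (α := fun _ => G) _ _ _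
    have h2 : (Fin.snoc f b : Fin (k + 2) → G) (Fin.last k).succ = b := by
      rw [Fin.succ_last]
      exact Fin.snoc_last (α := fun _ => G) _ _
    have h3 : (Fin.snoc f b : Fin (k + 2) → G) 0 = f 0 := by
      have := Fin.snoc_castSucc (α := fun _ => G) b f 0
      simpa using this
    simp only [h1, h2, h3, List.foldl_cons, List.foldl_nil]
    rw [← hf]

theorem V_iff {G : Type*} [Group G] (k : ℕ) (x : G) : x ∈ (V k : Set G) ↔
    ∃ f : Fin (k + 1) → G, x = ((List.ofFn f).tail).foldl (fun a b => a * b * a⁻¹ * b⁻¹) (f 0) := by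
  refine ⟨exists_foldl k x, ?_⟩
  rintro ⟨f, rfl⟩
  exact foldl_mem k f

theorem V_map {G H : Type*} [Group G] [Group H] (φ : G →* H) (k : ℕ) : ∀ x ∈ (V k : Set G),
    φ x ∈ (V k : Set H) := by
  induction k with
  | zero => intro x _; exact Set.mem_univ _
  | succ k ih =>
    rintro x ⟨a, ha, b, rfl⟩
    exact ⟨φ a, ih a ha, φ b, by simp only [map_mul, map_inv]⟩

theorem V_conj {G : Type*} [Group G] (k : ℕ) (x : G) (hx : x ∈ (V k : Set G)) (g : G) :
    g * x * g⁻¹ ∈ (V k : Set G) := V_map (MulAut.conj g).toMonoidHom k x hx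

/-- lifting values along surjections -/
theorem V_lift {G H : Type*} [Group G] [Group H] (φ : G →* H) (hφ : Function.Surjective φ) (k : ℕ) :
    ∀ y ∈ (V k : Set H), ∃ x ∈ (V k : Set G), φ x = y := by
  induction k with
  | zero => intro y _; obtain ⟨x, hx⟩ := hφ y; exact ⟨x, Set.mem_univ _, hx⟩
  | succ k ih =>
    rintro y ⟨a, ha, b, rfl⟩
    obtain ⟨a', ha', rfl⟩ := ih a ha
    obtain ⟨b', rfl⟩ := hφ b
    exact ⟨a' * b' * a'⁻¹ * b'⁻¹, ⟨a', ha', b', rfl⟩, by simp only [map_mul, map_inv]⟩

theorem V_mem_lcs {G : Type*} [Group G] (k : ℕ) : ∀ x ∈ (V k : Set G),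
    x ∈ (⊤ : Subgroup G).lowerCentralSeries k := by
  induction k with
  | zero => intro x _; exact mem_top x
  | succ k ih =>
    rintro x ⟨a, ha, b, rfl⟩
    rw [Subgroup.lowerCentralSeries_succ]
    exact commutator_mem_commutator (ih a ha) (mem_top b)

theorem closure_V_normal {G : Type*} [Group G] (k : ℕ) : (closure (V k : Set G)).Normal := by
  constructor
  intro n hn g
  induction hn using closure_induction with
  | mem x hx => exact subset_closure (V_conj k x hx g)
  | one => simp
  | mul x y _ _ hx hy =>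
    have : g * (x * y) * g⁻¹ = (g * x * g⁻¹) * (g * y * g⁻¹) := by group
    rw [this]; exact mul_mem hx hy
  | inv x _ hx =>
    have : g * x⁻¹ * g⁻¹ = (g * x * g⁻¹)⁻¹ := by group
    rw [this]; exact inv_mem hx

theorem lcs_le_closure {G : Type*} [Group G] (k : ℕ) :
    (⊤ : Subgroup G).lowerCentralSeries k ≤ closure (V k : Set G) := by
  induction k with
  | zero =>
    intro x _
    exact subset_closure (Set.mem_univ x)
  | succ k ih =>
    rw [Subgroup.lowerCentralSeries_succ]
    refine le_trans (commutator_mono ih le_rfl) ?_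
    haveI := closure_V_normal (G := G) (k + 1)
    rw [commutator_le]
    intro a ha b _
    induction ha using closure_induction with
    | mem x hx => exact subset_closure ⟨x, hx, b, rfl⟩
    | one => simp
    | mul x y _ _ hx hy =>
      have h : ⁅x * y, b⁆ = (x * ⁅y, b⁆ * x⁻¹) * ⁅x, b⁆ := by simp only [commutatorElement_def]; group
      rw [h]
      exact mul_mem (Normal.conj_mem inferInstance _ hy x) hx
    | inv x _ hx =>
      have h : ⁅x⁻¹, b⁆ = x⁻¹ * ⁅x, b⁆⁻¹ * x⁻¹⁻¹ := by simp only [commutatorElement_def]; group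
      rw [h]
      exact Normal.conj_mem inferInstance _ (inv_mem hx) x⁻¹

/-- `[q, x, …, x]` with `n` entries `x` -/
def it {G : Type*} [Group G] (x q : G) : ℕ → G
  | 0 => q
  | (n + 1) => it x q n * x * (it x q n)⁻¹ * x⁻¹

theorem it_succ {G : Type*} [Group G] (x q : G) (n : ℕ) :
    it x q (n + 1) = it x q n * x * (it x q n)⁻¹ * x⁻¹ := rfl

theorem it_shift {G : Type*} [Group G] (x q : G) (n : ℕ) :
    it x q (n + 1) = it x (q * x * q⁻¹ * x⁻¹) n := by
  induction n with
  | zero => rfl
  | succ n ih => rw [it_succ, ih]; rfl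

theorem it_map {G H : Type*} [Group G] [Group H] (φ : G →* H) (x q : G) (n : ℕ) :
    φ (it x q n) = it (φ x) (φ q) n := by
  induction n with
  | zero => rfl
  | succ n ih => rw [it_succ, it_succ, ← ih]; simp only [map_mul, map_inv]

theorem it_mem_V {G : Type*} [Group G] (x q : G) (n : ℕ) : it x q n ∈ (V n : Set G) := by
  induction n with
  | zero => exact Set.mem_univ _
  | succ n ih => exact ⟨_, ih, x, rfl⟩

theorem it_succ_mem_V {G : Type*} [Group G] (x q : G) (n : ℕ) : it x q (n + 1) ∈ (V n : Set G) := by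
  rw [it_shift]; exact it_mem_V _ _ _

theorem it_mem {G : Type*} [Group G] {Q : Subgroup G} {x q : G} (hx : x ∈ normalizer (Q : Set G))
    (hq : q ∈ Q) (n : ℕ) : it x q n ∈ Q := by
  induction n with
  | zero => exact hq
  | succ n ih =>
    rw [it_succ]
    have h1 : x * (it x q n)⁻¹ * x⁻¹ ∈ Q := (mem_normalizer_iff.1 hx _).1 (Q.inv_mem ih)
    have h2 := Q.mul_mem ih h1
    simpa only [mul_assoc] using h2

/-- if a commutator `[q₁, x]` of coprime order commutes with `x` then it is trivial -/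
theorem eq_one_of_comm {G : Type*} [Group G] [Finite G] {x q₁ : G}
    (hco : (orderOf (q₁ * x * q₁⁻¹ * x⁻¹)).Coprime (orderOf x))
    (hc : (q₁ * x * q₁⁻¹ * x⁻¹) * x = x * (q₁ * x * q₁⁻¹ * x⁻¹)) : q₁ * x * q₁⁻¹ * x⁻¹ = 1 := by
  have h1 : orderOf ((q₁ * x * q₁⁻¹ * x⁻¹) * x) = orderOf (q₁ * x * q₁⁻¹ * x⁻¹) * orderOf x :=
    Commute.orderOf_mul_eq_mul_orderOf_of_coprime hc hco
  have h2 : (q₁ * x * q₁⁻¹ * x⁻¹) * x = q₁ * x * q₁⁻¹ := by group
  have h3 : orderOf (q₁ * x * q₁⁻¹) = orderOf x := by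
    have := orderOf_injective (MulAut.conj q₁).toMonoidHom (MulAut.conj q₁).injective x
    simpa using this
  rw [h2, h3] at h1
  have h4 : 0 < orderOf x := orderOf_pos x
  have h5 : orderOf (q₁ * x * q₁⁻¹ * x⁻¹) = 1 := by
    have : 1 * orderOf x = orderOf (q₁ * x * q₁⁻¹ * x⁻¹) * orderOf x := by rw [one_mul]; exact h1
    exact (Nat.eq_of_mul_eq_mul_right h4 this).symm
  exact orderOf_eq_one_iff.1 h5

theorem order_coprime {G : Type*} [Group G] [Finite G] {Q : Subgroup G} {x q : G} (hq : q ∈ Q)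
    (hco : (Nat.card Q).Coprime (orderOf x)) : (orderOf q).Coprime (orderOf x) := by
  refine Nat.Coprime.coprime_dvd_left ?_ hco
  exact Subgroup.orderOf_dvd_natCard Q hq

/-- coprime Engel lemma -/
theorem comm_of_it {G : Type*} [Group G] [Finite G] {Q : Subgroup G} {x : G}
    (hx : x ∈ normalizer (Q : Set G)) (hco : (Nat.card Q).Coprime (orderOf x)) {q : G} (hq : q ∈ Q)
    (n : ℕ) (h : it x q (n + 1) = 1) : x * q = q * x := by
  induction n with
  | zero =>
    rw [it_succ] at h
    change q * x * q⁻¹ * x⁻¹ = 1 at h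
    have : q * x = (q * x * q⁻¹ * x⁻¹) * (x * q) := by group
    rw [this, h, one_mul]
  | succ n ih =>
    apply ih
    have h1 : it x q (n + 1) * x = x * it x q (n + 1) := by
      rw [it_succ] at h
      have : it x q (n + 1) * x = (it x q (n + 1) * x * (it x q (n + 1))⁻¹ * x⁻¹) *
        (x * it x q (n + 1)) := by group
      rw [this, h, one_mul]
    have h2 := order_coprime (it_mem hx hq (n + 1)) hco
    rw [it_succ] at h1 h2 ⊢
    exact eq_one_of_comm h2 h1

/-- the property used: values centralise the subgroups of coprime order they normalise -/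
def L (k : ℕ) (G : Type*) [Group G] : Prop :=
  ∀ x ∈ (V k : Set G), ∀ Q : Subgroup G, x ∈ normalizer (Q : Set G) →
    (Nat.card Q).Coprime (orderOf x) → ∀ q ∈ Q, x * q = q * x

theorem L_of_hyp {G : Type*} [Group G] [Finite G] {k : ℕ}
    (h : ∀ x ∈ (V k : Set G), ∀ y ∈ (V k : Set G), (orderOf x).Coprime (orderOf y) →
      (∀ r : ℕ, r.Prime → r ∣ orderOf x * orderOf y → r ∣ orderOf (x * y)) ∨
        orderOf x * orderOf y ≤ orderOf (x * y)) : L k G := by
  intro x hx Q hxQ hco q hq
  apply comm_of_it hxQ hco hq k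
  by_contra hne
  have h1 := order_coprime (it_mem hxQ hq (k + 1)) hco
  have h2 := h _ (it_succ_mem_V x q k) x hx h1
  have h3 : it x q (k + 1) * x = it x q k * x * (it x q k)⁻¹ := by rw [it_succ]; group
  have h4 : orderOf (it x q (k + 1) * x) = orderOf x := by
    rw [h3]
    have := orderOf_injective (MulAut.conj (it x q k)).toMonoidHom (MulAut.conj _).injective x
    simpa using this
  rw [h4] at h2
  have h5 : orderOf (it x q (k + 1)) ≠ 1 := fun h => hne (orderOf_eq_one_iff.1 h)
  rcases h2 with h2 | h2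
  · obtain ⟨r, hr, hrd⟩ := Nat.exists_prime_and_dvd h5
    exact Nat.Prime.one_lt hr |>.ne' (Nat.eq_one_of_dvd_coprimes h1 hrd (h2 r hr (dvd_mul_of_dvd_left hrd _)))
  · have h6 : 0 < orderOf x := orderOf_pos x
    have h7 : 0 < orderOf (it x q (k + 1)) := orderOf_pos _
    have h8 : 2 ≤ orderOf (it x q (k + 1)) := by omega
    nlinarith

theorem L_subgroup {G : Type*} [Group G] {k : ℕ} (h : L k G) (H : Subgroup G) : L k H := by
  intro x hx Q hxQ hco q hq
  have h1 := h (x : G) (V_map H.subtype k x hx) (Q.map H.subtype) ?_ ?_ (q : G) ⟨q, hq, rfl⟩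
  · exact Subtype.ext h1
  · rw [mem_normalizer_iff]
    intro g
    constructor
    · rintro ⟨y, hy, rfl⟩
      exact ⟨x * y * x⁻¹, (mem_normalizer_iff.1 hxQ y).1 hy, rfl⟩
    · rintro ⟨y, hy, hyg⟩
      have : g = (x : G)⁻¹ * y * x := by
        have h2 : (y : G) = x * g * (x : G)⁻¹ := hyg
        rw [h2]; group
      refine ⟨x⁻¹ * y * x, ?_, by rw [this]; rfl⟩
      rw [SetLike.mem_coe, mem_normalizer_iff.1 hxQ]
      have : x * (x⁻¹ * y * x) * x⁻¹ = y := by group
      rw [this]; exact hy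
  · rw [card_map_of_injective H.subtype_injective]
    have : orderOf (x : G) = orderOf x := Subgroup.orderOf_coe x
    rw [this]; exact hco

end H57.Bw
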