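import Cfsg.Agent.Lib.H57.Bw1
import Cfsg.Agent.Lib.H39.PNilp
import Cfsg.Agent.Lib.H2.Nilp
import Cfsg.Agent.Lib.H26.TransferPow

/-! Solvable case of the nilpotency criterion for `γ_{k+1}`. -/

set_option autoImplicit false

namespace H57.Bw

open Subgroup
open scoped commutatorElement

universe u

theorem isNilpotent_of_central {C : Type*} [Group C] [Finite C] {r : ℕ} [Fact r.Prime]
    (Z : Subgroup C) [Z.Normal] (hZ : Z ≤ center C) (hi : ∃ j, Z.index = r ^ j) :
    Group.IsNilpotent C := by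
  obtain ⟨j, hj⟩ := hi
  have h1 : IsPGroup r (C ⧸ Z) := IsPGroup.of_card (n := j) (by rw [← Subgroup.index_eq_card, hj])
  haveI h2 := h1.isNilpotent
  exact Subgroup.isNilpotent_of_ker_le_center (QuotientGroup.mk' Z)
    (by rw [QuotientGroup.ker_mk']; exact hZ)

/-- a normal nilpotent `F`, `N / F` an `r`-group: the centraliser in `N` of `O_{r'}(F)` is nilpotent -/
theorem hash {G : Type*} [Group G] [Finite G] {r : ℕ} [hrp : Fact r.Prime] {F N : Subgroup G}
    [F.Normal] [N.Normal] (hF : Group.IsNilpotent F) (hFN : F ≤ N)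
    (hr : ∃ j, F.relIndex N = r ^ j)
    (hmax : ∀ K : Subgroup G, K.Normal → Group.IsNilpotent K → K ≤ F) {x : G} (hxN : x ∈ N)
    (hx : ∀ Q : Subgroup G, x ∈ normalizer (Q : Set G) → (Nat.card Q).Coprime (orderOf x) →
      ∀ q ∈ Q, x * q = q * x) (hxr : ∃ j, orderOf x = r ^ j) : x ∈ F := by
  obtain ⟨j, hj⟩ := hr
  obtain ⟨i, hi⟩ := hxr
  set E₀ : Subgroup F := Cfsg.pPrimeCore r F with hE₀
  have hchar : E₀.Characteristic := H1.Cores.pPrimeCore_characteristic r
  set E : Subgroup G := E₀.map F.subtype with hE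
  have hEn : E.Normal := inferInstance
  have hEF : E ≤ F := by rw [hE]; exact map_subtype_le _
  have hEcard : (Nat.card E).Coprime r := by
    rw [hE, card_map_of_injective F.subtype_injective]
    exact H1.Cores.coprime_card_pPrimeCore r
  have hEidx : ∃ l, E.relIndex F = r ^ l := by
    obtain ⟨N₀, hN₀, hco, m, hm⟩ := H39.PNilp.iff_exists.1 (H2.Nilp.hasNPC_of_nilpotent (p := r) hF)
    have h1 : N₀ ≤ E₀ := H1.Cores.le_pPrimeCore hN₀ hco
    have h2 : E₀.index ∣ r ^ m := by rw [← hm]; exact index_dvd_of_le h1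
    obtain ⟨l, _, hl⟩ := (Nat.dvd_prime_pow hrp.out).1 h2
    refine ⟨l, ?_⟩
    rw [relIndex, hE, ← hl]
    congr 1
    exact comap_map_eq_self_of_injective F.subtype_injective E₀
  obtain ⟨l, hl⟩ := hEidx
  have hEN : E.relIndex N = r ^ (l + j) := by
    rw [← relIndex_mul_relIndex E F N hEF hFN, hl, hj, pow_add]
  set C : Subgroup G := N ⊓ centralizer (E : Set G) with hC
  have hCn : C.Normal := inferInstance
  have hCnil : Group.IsNilpotent C := by
    apply isNilpotent_of_central (r := r) (E.subgroupOf C)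
    · intro z hz
      rw [mem_center_iff]
      intro c
      apply Subtype.ext
      have h1 := mem_centralizer_iff.1 (mem_inf.1 c.2).2 (z : G) (mem_subgroupOf.1 hz)
      exact h1.symm
    · have h1 : (E.subgroupOf C).index = E.relIndex C := rfl
      have h2 : E.relIndex C ∣ E.relIndex N := by
        have h3 : E ⊔ C ≤ N := sup_le (hEF.trans hFN) inf_le_left
        have h4 := relIndex_mul_relIndex E (E ⊔ C) N le_sup_left h3
        have h5 : E.relIndex (E ⊔ C) = E.relIndex C := by
          rw [sup_comm, relIndex_sup_right]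
        rw [← h5]
        exact ⟨_, h4.symm⟩
      rw [hEN] at h2
      obtain ⟨m, _, hm⟩ := (Nat.dvd_prime_pow hrp.out).1 h2
      exact ⟨m, by rw [h1, hm]⟩
  have hCF := hmax C hCn hCnil
  apply hCF
  refine mem_inf.2 ⟨hxN, ?_⟩
  rw [mem_centralizer_iff]
  intro q hq
  have h1 := hx E (by rw [normalizer_eq_top]; exact mem_top x) ?_ q hq
  · exact h1.symm
  · rw [hi]
    exact Nat.Coprime.pow_right i hEcard

/-- coprime elements of `G / F` centralise `N / F` -/
theorem cent_of_coprime {G : Type*} [Group G] [Finite G] {k : ℕ} (hL : L k G) {r : ℕ}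
    [hrp : Fact r.Prime] {F N : Subgroup G}
    [F.Normal] [N.Normal] (hF : Group.IsNilpotent F) (hFN : F ≤ N)
    (hr : ∃ j, F.relIndex N = r ^ j)
    (hmax : ∀ K : Subgroup G, K.Normal → Group.IsNilpotent K → K ≤ F) (g : G)
    (hg : (orderOf (QuotientGroup.mk' F g)).Coprime r) :
    ∀ n ∈ N, QuotientGroup.mk' F g * QuotientGroup.mk' F n =
      QuotientGroup.mk' F n * QuotientGroup.mk' F g := by
  obtain ⟨P⟩ : Nonempty (Sylow r N) := inferInstance
  set R : Subgroup G := (P : Subgroup N).map N.subtype with hR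
  have hRN : R ≤ N := map_subtype_le _
  have hRp : IsPGroup r R := P.isPGroup'.map _
  have hsup : normalizer (R : Set G) ⊔ N = ⊤ := Sylow.normalizer_sup_eq_top P
  have hFR : F ⊔ R = N := by
    apply le_antisymm (sup_le hFN hRN)
    obtain ⟨j, hj⟩ := hr
    have h1 : (F ⊔ R).relIndex N ∣ r ^ j := by
      rw [← hj]
      exact ⟨_, by rw [mul_comm]; exact (relIndex_mul_relIndex F (F ⊔ R) N le_sup_left (sup_le hFN hRN)).symm⟩
    have h2 : (F ⊔ R).relIndex N ∣ (P : Subgroup N).index := by
      have h3 : R.relIndex N = (P : Subgroup N).index := by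
        rw [relIndex, hR]
        congr 1
        exact comap_map_eq_self_of_injective N.subtype_injective _
      rw [← h3]
      exact ⟨_, by rw [mul_comm]; exact (relIndex_mul_relIndex R (F ⊔ R) N le_sup_right (sup_le hFN hRN)).symm⟩
    have h3 : ¬ r ∣ (P : Subgroup N).index := P.not_dvd_index
    obtain ⟨m, _, hm⟩ := (Nat.dvd_prime_pow hrp.out).1 h1
    have h4 : m = 0 := by
      by_contra hm0
      apply h3
      refine dvd_trans ?_ h2
      rw [hm]
      exact dvd_pow_self r hm0
    rw [h4, pow_zero] at hm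
    exact relIndex_eq_one.1 hm
  -- lift
  obtain ⟨h, hh, hmk⟩ : ∃ h ∈ normalizer (R : Set G), QuotientGroup.mk' F h = QuotientGroup.mk' F g := by
    have h1 : g ∈ normalizer (R : Set G) ⊔ F := by
      have h2 : normalizer (R : Set G) ⊔ F = ⊤ := by
        rw [eq_top_iff, ← hsup]
        apply sup_le le_sup_left
        rw [← hFR]
        exact sup_le le_sup_right (le_normalizer.trans le_sup_left)
      rw [h2]; exact mem_top g
    obtain ⟨h, hh, f, hf, rfl⟩ := mem_sup_of_normal_right.1 h1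
    refine ⟨h, hh, ?_⟩
    rw [map_mul]
    have : QuotientGroup.mk' F f = 1 := (QuotientGroup.eq_one_iff f).2 hf
    rw [this, mul_one]
  obtain ⟨u, v, huv, ⟨m, hm⟩, hv⟩ := H26.TransferPow.exists_pPart r h
  have hmkv : QuotientGroup.mk' F (h ^ v) = QuotientGroup.mk' F g := by
    have h1 : QuotientGroup.mk' F (h ^ u) = 1 := by
      rw [← orderOf_eq_one_iff]
      have h2 : orderOf (QuotientGroup.mk' F (h ^ u)) ∣ r ^ m := by
        rw [← hm]; exact orderOf_map_dvd _ _
      have h3 : orderOf (QuotientGroup.mk' F (h ^ u)) ∣ orderOf (QuotientGroup.mk' F g) := by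
        rw [map_pow, hmk]; exact orderOf_pow_dvd _
      have h4 : (orderOf (QuotientGroup.mk' F g)).Coprime (r ^ m) := Nat.Coprime.pow_right m hg
      exact Nat.eq_one_of_dvd_coprimes h4 h3 h2
    rw [← hmk]
    conv_rhs => rw [huv, map_mul, h1, one_mul]
  have hvn : h ^ v ∈ normalizer (R : Set G) := pow_mem hh v
  have hkey : ∀ q ∈ R, QuotientGroup.mk' F g * QuotientGroup.mk' F q =
      QuotientGroup.mk' F q * QuotientGroup.mk' F g := by
    intro q hq
    have h1 : it (h ^ v) q (k + 1) ∈ R := it_mem hvn hq _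
    have h2 : it (h ^ v) q (k + 1) ∈ F := by
      refine hash hF hFN hr hmax (hRN h1) (hL _ (it_succ_mem_V _ _ _)) ?_
      obtain ⟨n, hn⟩ := hRp ⟨_, h1⟩
      have h3 : orderOf (it (h ^ v) q (k + 1)) ∣ r ^ n := by
        rw [orderOf_dvd_iff_pow_eq_one]
        exact congrArg Subtype.val hn
      obtain ⟨i, _, hi⟩ := (Nat.dvd_prime_pow hrp.out).1 h3
      exact ⟨i, hi⟩
    have h3 : it (QuotientGroup.mk' F g) (QuotientGroup.mk' F q) (k + 1) = 1 := by
      rw [← hmkv, ← it_map]
      exact (QuotientGroup.eq_one_iff _).2 h2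
    refine comm_of_it (Q := R.map (QuotientGroup.mk' F)) ?_ ?_ (mem_map_of_mem _ hq) k h3
    · rw [← hmkv]
      exact (le_normalizer_map _) (mem_map_of_mem _ hvn)
    · have h4 : IsPGroup r (R.map (QuotientGroup.mk' F)) := hRp.map _
      obtain ⟨n, hn⟩ := IsPGroup.iff_card.1 h4
      rw [hn]
      exact Nat.Coprime.pow_left n hg.symm
  intro n hn
  rw [← hFR] at hn
  obtain ⟨f, hf, q, hq, rfl⟩ := mem_sup_of_normal_left.1 hn
  have h1 : QuotientGroup.mk' F f = 1 := (QuotientGroup.eq_one_iff f).2 hf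
  rw [map_mul, h1, one_mul]
  exact hkey q hq

end H57.Bw
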