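import Cfsg.Agent.Lib.H57.Bw2
import Cfsg.Agent.Lib.H1.SZ
import Cfsg.Agent.Lib.H71.Basic2

/-! Solvable case of the nilpotency criterion for `γ_{k+1}`, II. -/

set_option autoImplicit false

namespace H57.Bw

open Subgroup
open scoped commutatorElement

universe u

theorem nilp_of_le {G : Type*} [Group G] {A B : Subgroup G} (hB : Group.IsNilpotent B)
    (h : A ≤ B) : Group.IsNilpotent A := by
  rw [Subgroup.isNilpotent_iff_lowerCentralSeries] at hB ⊢
  obtain ⟨n, hn⟩ := hB
  exact ⟨n, le_bot_iff.1 (hn ▸ lowerCentralSeries_mono n h)⟩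

theorem nilp_of_comm {H : Type*} [Group H] [Finite H]
    (h : ∀ r s : ℕ, r.Prime → s.Prime → r ≠ s → ∀ x y : H, (∃ i, orderOf x = r ^ i) →
      (∃ j, orderOf y = s ^ j) → x * y = y * x) : Group.IsNilpotent H := by
  refine (Group.isNilpotent_of_finite_tfae.out 3 0 rfl rfl).1 ?_
  intro p hp P
  rw [← normalizer_eq_top_iff, ← index_eq_one]
  by_contra hne
  obtain ⟨s, hs, hsd⟩ := Nat.exists_prime_and_dvd hne
  haveI : Fact s.Prime := ⟨hs⟩
  obtain ⟨S⟩ : Nonempty (Sylow s H) := inferInstance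
  have hle : (S : Subgroup H) ≤ normalizer ((P : Subgroup H) : Set H) ∨
      (P : Subgroup H) ≤ normalizer ((P : Subgroup H) : Set H) ∧ s = p := by
    by_cases hsp : s = p
    · exact Or.inr ⟨le_normalizer, hsp⟩
    · left
      intro y hy
      obtain ⟨j, hj⟩ := IsPGroup.iff_orderOf.1 S.isPGroup' ⟨y, hy⟩
      rw [orderOf_mk] at hj
      have hc : ∀ x ∈ (P : Subgroup H), x * y = y * x := by
        intro x hx
        obtain ⟨i, hi⟩ := IsPGroup.iff_orderOf.1 P.isPGroup' ⟨x, hx⟩
        rw [orderOf_mk] at hi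
        exact h p s hp.out hs (Ne.symm hsp) x y ⟨i, hi⟩ ⟨j, hj⟩
      rw [mem_normalizer_iff]
      intro x
      constructor
      · intro hx
        rw [← hc x hx]; simpa using hx
      · intro hx
        have h1 := hc _ hx
        have h2 : x = y⁻¹ * (y * x * y⁻¹) * y := by group
        rw [h2, mul_assoc, h1, ← mul_assoc, inv_mul_cancel, one_mul]
        exact hx
  rcases hle with hle | ⟨hle, rfl⟩
  · exact S.not_dvd_index (hsd.trans (index_dvd_of_le hle))
  · exact P.not_dvd_index (hsd.trans (index_dvd_of_le hle))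

theorem relIndex_comap_mk {G : Type*} [Group G] [Finite G] (F : Subgroup G) [F.Normal]
    (K : Subgroup (G ⧸ F)) : F.relIndex (K.comap (QuotientGroup.mk' F)) = Nat.card K := by
  have h1 := H1.Cores.card_comap_mk' F K
  have hle : F ≤ K.comap (QuotientGroup.mk' F) := by
    intro x hx
    rw [mem_comap]
    have : QuotientGroup.mk' F x = 1 := (QuotientGroup.eq_one_iff x).2 hx
    rw [this]; exact one_mem _
  have h2 : Nat.card F * F.relIndex (K.comap (QuotientGroup.mk' F)) =
      Nat.card (K.comap (QuotientGroup.mk' F)) := by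
    have h3 := card_mul_index (F.subgroupOf (K.comap (QuotientGroup.mk' F)))
    rw [← h3]
    congr 1
    exact (Nat.card_congr (subgroupOfEquivOfLe hle).toEquiv).symm
  rw [h1] at h2
  exact Nat.eq_of_mul_eq_mul_left Nat.card_pos h2

theorem le_comap_mk {G : Type*} [Group G] (F : Subgroup G) [F.Normal]
    (K : Subgroup (G ⧸ F)) : F ≤ K.comap (QuotientGroup.mk' F) := by
  intro x hx
  rw [mem_comap]
  have : QuotientGroup.mk' F x = 1 := (QuotientGroup.eq_one_iff x).2 hx
  rw [this]; exact one_mem _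

theorem nilp_quot {G : Type*} [Group G] [Finite G] {k : ℕ} (hL : L k G)
    (F : Subgroup G) [F.Normal] (hsol : Group.IsSolvable (G ⧸ F))
    (hFnil : Group.IsNilpotent F)
    (hmax : ∀ K : Subgroup G, K.Normal → Group.IsNilpotent K → K ≤ F)
    (hsub : ∀ H : Subgroup G, H ≠ ⊤ → Group.IsNilpotent (H.lowerCentralSeries k)) :
    Group.IsNilpotent (G ⧸ F) := by
  by_cases hFt : F = ⊤
  · subst hFt
    have h1 : Nat.card (G ⧸ (⊤ : Subgroup G)) = 1 := by
      rw [← Subgroup.index_eq_card, index_top]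
    have : Subsingleton (G ⧸ (⊤ : Subgroup G)) := (Nat.card_eq_one_iff_unique.1 h1).1
    infer_instance
  obtain ⟨M, hMn, hFM, hMi⟩ := H1.SZ.exists_normal_prime_index F hFt hsol
  have hMt : M ≠ ⊤ := by
    rintro rfl
    rw [index_top] at hMi
    exact Nat.not_prime_one hMi
  have hMnil := hsub M hMt
  have hMF : M.lowerCentralSeries k ≤ F := hmax _ inferInstance hMnil
  set M' : Subgroup (G ⧸ F) := M.map (QuotientGroup.mk' F) with hM'
  have hM'n : M'.Normal := Normal.map hMn _ (QuotientGroup.mk'_surjective F)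
  have hM'nil : Group.IsNilpotent M' := by
    rw [Subgroup.isNilpotent_iff_lowerCentralSeries]
    refine ⟨k, ?_⟩
    rw [hM', ← map_lowerCentralSeries, Subgroup.map_eq_bot_iff, QuotientGroup.ker_mk']
    exact hMF
  have hM'i : M'.index ∣ M.index := index_map_dvd M (QuotientGroup.mk'_surjective F)
  have hclaim : ∀ r : ℕ, r.Prime → r ≠ M.index → ∀ x y : G ⧸ F, (∃ i, orderOf x = r ^ i) →
      (orderOf y).Coprime r → x * y = y * x := by
    rintro r hr hrp x y ⟨i, hx⟩ hy
    have : Fact r.Prime := ⟨hr⟩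
    have hxM : x ∈ M' := by
      apply H71.Basic2.mem_of_orderOf_coprime_index
      rw [hx]
      apply Nat.Coprime.pow_left
      exact Nat.Coprime.coprime_dvd_right hM'i ((Nat.coprime_primes hr hMi).2 hrp)
    have h1 : IsPGroup r (zpowers (⟨x, hxM⟩ : M')) := by
      apply IsPGroup.of_card (n := i)
      rw [Nat.card_zpowers, orderOf_mk, hx]
    obtain ⟨Q, hQ⟩ := h1.exists_le_sylow
    have hQn : (Q : Subgroup M').Normal := inferInstance
    have hQc : (Q : Subgroup M').Characteristic := Sylow.characteristic_of_normal Q hQn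
    set Q' : Subgroup (G ⧸ F) := (Q : Subgroup M').map M'.subtype with hQ'
    have hQ'n : Q'.Normal := inferInstance
    have hQ'p : IsPGroup r Q' := Q.isPGroup'.map _
    have hxQ' : x ∈ Q' := ⟨⟨x, hxM⟩, hQ (mem_zpowers _), rfl⟩
    obtain ⟨j, hj⟩ := IsPGroup.iff_card.1 hQ'p
    obtain ⟨g, rfl⟩ := QuotientGroup.mk'_surjective F y
    obtain ⟨n, rfl⟩ := QuotientGroup.mk'_surjective F x
    have h2 := cent_of_coprime (N := Q'.comap (QuotientGroup.mk' F)) hL hFnil (le_comap_mk F Q')
      ⟨j, by rw [relIndex_comap_mk, hj]⟩ hmax g hy n hxQ'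
    exact h2.symm
  apply nilp_of_comm
  rintro r s hr hs hrs x y ⟨i, hx⟩ ⟨j, hy⟩
  by_cases hrp : r = M.index
  · have hsp : s ≠ M.index := fun h => hrs (hrp.trans h.symm)
    refine (hclaim s hs hsp y x ⟨j, hy⟩ ?_).symm
    rw [hx]
    exact Nat.Coprime.pow_left _ ((Nat.coprime_primes hr hs).2 hrs)
  · refine hclaim r hr hrp x y ⟨i, hx⟩ ?_
    rw [hy]
    exact Nat.Coprime.pow_left _ ((Nat.coprime_primes hs hr).2 (Ne.symm hrs))

/-- in a nilpotent group, if Sylow subgroups have trivial values then the group has -/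
theorem V_trivial {H : Type*} [Group H] [Finite H] {k : ℕ} (hH : Group.IsNilpotent H)
    (h : ∀ r : ℕ, r.Prime → ∀ P : Sylow r H, ∀ y ∈ (V k : Set (P : Subgroup H)), y = 1) :
    ∀ y ∈ (V k : Set H), y = 1 := by
  intro y hy
  rw [← orderOf_eq_one_iff]
  by_contra hne
  obtain ⟨r, hr, hrd⟩ := Nat.exists_prime_and_dvd hne
  have : Fact r.Prime := ⟨hr⟩
  obtain ⟨N, hN, hco, m, hm⟩ := H39.PNilp.iff_exists.1
    (H2.Nilp.hasNPC_of_nilpotent (G := H) (p := r) hH)
  have hyN : y ∈ N := by
    obtain ⟨R⟩ : Nonempty (Sylow r H) := inferInstance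
    have hf := QuotientGroup.mk'_surjective N
    have hRf : (R : Subgroup H).map (QuotientGroup.mk' N) = ⊤ := by
      have h3 : ¬ r ∣ ((R : Subgroup H).map (QuotientGroup.mk' N)).index := by
        intro hd
        exact R.not_dvd_index (hd.trans (index_map_dvd _ hf))
      rw [← index_eq_one]
      have h4 : ((R : Subgroup H).map (QuotientGroup.mk' N)).index ∣ r ^ m := by
        rw [← hm, Subgroup.index_eq_card N]
        exact index_dvd_card _
      obtain ⟨i, _, hi⟩ := (Nat.dvd_prime_pow hr).1 h4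
      rcases Nat.eq_zero_or_pos i with hi0 | hi0
      · rw [hi, hi0, pow_zero]
      · exact absurd (hi ▸ dvd_pow_self r hi0.ne') h3
    let f' : (R : Subgroup H) →* H ⧸ N := (QuotientGroup.mk' N).comp (R : Subgroup H).subtype
    have hf' : Function.Surjective f' := by
      intro z
      have hz : z ∈ (R : Subgroup H).map (QuotientGroup.mk' N) := hRf ▸ mem_top z
      obtain ⟨w, hw, rfl⟩ := hz
      exact ⟨⟨w, hw⟩, rfl⟩
    obtain ⟨x, hx, hxy⟩ := V_lift f' hf' k _ (V_map (QuotientGroup.mk' N) k y hy)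
    have h1 := h r hr R x hx
    rw [h1, map_one] at hxy
    exact (QuotientGroup.eq_one_iff y).1 hxy.symm
  have h1 : orderOf y ∣ Nat.card N := Subgroup.orderOf_dvd_natCard N hyN
  exact hr.one_lt.ne' (Nat.eq_one_of_dvd_coprimes hco (hrd.trans h1) dvd_rfl)

theorem V_quot {G : Type*} [Group G] [Finite G] {k : ℕ} (hL : L k G)
    (F : Subgroup G) [F.Normal] (hq : Group.IsNilpotent (G ⧸ F))
    (hFnil : Group.IsNilpotent F)
    (hmax : ∀ K : Subgroup G, K.Normal → Group.IsNilpotent K → K ≤ F) :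
    ∀ y ∈ (V k : Set (G ⧸ F)), y = 1 := by
  apply V_trivial hq
  intro r hr P y hy
  have : Fact r.Prime := ⟨hr⟩
  have hPn : (P : Subgroup (G ⧸ F)).Normal := inferInstance
  obtain ⟨j, hj⟩ := IsPGroup.iff_card.1 P.isPGroup'
  obtain ⟨R, hR⟩ := Sylow.mapSurjective_surjective (QuotientGroup.mk'_surjective F) r P
  have hRP : (R : Subgroup G).map (QuotientGroup.mk' F) = (P : Subgroup (G ⧸ F)) := by
    rw [← hR]; rfl
  let f : (R : Subgroup G) →* (P : Subgroup (G ⧸ F)) :=
    ((QuotientGroup.mk' F).comp (R : Subgroup G).subtype).codRestrict (P : Subgroup (G ⧸ F))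
      (fun x => by rw [← hRP]; exact mem_map_of_mem _ x.2)
  have hf : Function.Surjective f := by
    rintro ⟨z, hz⟩
    rw [← hRP] at hz
    obtain ⟨w, hw, rfl⟩ := hz
    exact ⟨⟨w, hw⟩, rfl⟩
  obtain ⟨x, hx, rfl⟩ := V_lift f hf k _ hy
  have hxV : (x : G) ∈ (V k : Set G) := V_map (R : Subgroup G).subtype k x hx
  have hxF : (x : G) ∈ F := by
    refine hash (r := r) (N := (P : Subgroup (G ⧸ F)).comap (QuotientGroup.mk' F)) hFnil
      (le_comap_mk F _) ⟨j, by rw [relIndex_comap_mk, hj]⟩ hmax ?_ (hL _ hxV) ?_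
    · rw [mem_comap, ← hRP]; exact mem_map_of_mem _ x.2
    · obtain ⟨i, hi⟩ := IsPGroup.iff_orderOf.1 R.isPGroup' x
      exact ⟨i, by rw [← hi]; exact Subgroup.orderOf_coe x⟩
  apply Subtype.ext
  exact (QuotientGroup.eq_one_iff (x : G)).2 hxF

theorem solv_case {G : Type u} [Group G] [Finite G] {k : ℕ} (hL : L k G)
    (hsol : Group.IsSolvable G)
    (hsub : ∀ H : Subgroup G, H ≠ ⊤ → Group.IsNilpotent (H.lowerCentralSeries k)) :
    Group.IsNilpotent ((⊤ : Subgroup G).lowerCentralSeries k) := by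
  obtain ⟨F, hFn, hFnil, hmax⟩ : ∃ F : Subgroup G, F.Normal ∧ Group.IsNilpotent F ∧
      ∀ K : Subgroup G, K.Normal → Group.IsNilpotent K → K ≤ F :=
    ⟨Cfsg.fittingSubgroup G, inferInstance, H1.Cores.isNilpotent_fittingSubgroup,
      fun K h1 h2 => H1.Cores.le_fittingSubgroup h1 h2⟩
  have hq := nilp_quot hL F inferInstance hFnil hmax hsub
  have hV := V_quot hL F hq hFnil hmax
  have hle : (⊤ : Subgroup G).lowerCentralSeries k ≤ F := by
    have h1 : (⊤ : Subgroup (G ⧸ F)).lowerCentralSeries k ≤ ⊥ := by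
      refine (lcs_le_closure k).trans ?_
      rw [closure_le]
      intro y hy
      exact hV y hy
    have h2 : ((⊤ : Subgroup G).lowerCentralSeries k).map (QuotientGroup.mk' F) ≤ ⊥ := by
      rw [map_lowerCentralSeries, map_top_of_surjective _ (QuotientGroup.mk'_surjective F)]
      exact h1
    intro x hx
    have h3 := h2 (mem_map_of_mem _ hx)
    exact (QuotientGroup.eq_one_iff x).1 h3
  exact nilp_of_le hFnil hle

end H57.Bw
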