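import Cfsg.Agent.Lib.H57.Bw1

/-! Minimal 2-groups on which an element of odd order acts nontrivially: involutions as values. -/

set_option autoImplicit false

namespace H57.Bw

open Subgroup
open scoped commutatorElement

structure MinD {S : Type*} [Group S] (g : S) (D : Subgroup S) : Prop where
  two : IsPGroup 2 D
  odd : (orderOf g).Coprime 2
  norm : g ∈ normalizer (D : Set S)
  nc : ¬ ∀ q ∈ D, g * q = q * g
  min : ∀ E : Subgroup S, E ≤ D → E ≠ D → g ∈ normalizer (E : Set S) → ∀ q ∈ E, g * q = q * g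

theorem exists_minD {S : Type*} [Group S] [Finite S] {g : S} {Q : Subgroup S} (hQ : IsPGroup 2 Q)
    (hg : (orderOf g).Coprime 2) (hn : g ∈ normalizer (Q : Set S))
    (hnc : ¬ ∀ q ∈ Q, g * q = q * g) : ∃ D, MinD g D := by
  obtain ⟨n, hn'⟩ : ∃ n, n = Nat.card Q := ⟨_, rfl⟩
  induction n using Nat.strong_induction_on generalizing Q with
  | _ n ih =>
    by_cases h : ∀ E : Subgroup S, E ≤ Q → E ≠ Q → g ∈ normalizer (E : Set S) → ∀ q ∈ E, g * q = q * g
    · exact ⟨Q, hQ, hg, hn, hnc, h⟩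
    · push Not at h
      obtain ⟨E, hEQ, hne, hEn, q, hq, hqc⟩ := h
      refine ih (Nat.card E) ?_ (hQ.to_le hEQ) hEn (fun h => hqc (h q hq)) rfl
      rw [hn']
      by_contra hcon
      push Not at hcon
      exact hne (eq_of_le_of_card_ge hEQ hcon)

variable {S : Type*} [Group S] [Finite S] {g : S} {D : Subgroup S}

theorem MinD.cop (h : MinD g D) : (Nat.card D).Coprime (orderOf g) := by
  have : Fact (Nat.Prime 2) := ⟨Nat.prime_two⟩
  obtain ⟨n, hn⟩ := IsPGroup.iff_card.1 h.two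
  rw [hn]
  exact Nat.Coprime.pow_left n h.odd.symm

theorem MinD.not_all (h : MinD g D) : ¬ ∀ q ∈ D, g * (q * g * q⁻¹ * g⁻¹) = (q * g * q⁻¹ * g⁻¹) * g := by
  intro hall
  apply h.nc
  intro q hq
  apply comm_of_it h.norm h.cop hq 1
  rw [it_succ]
  have h1 : it g q 1 = q * g * q⁻¹ * g⁻¹ := rfl
  rw [h1]
  have h2 := hall q hq
  rw [← h2]; group

theorem MinD.comm_mem (h : MinD g D) {q : S} (hq : q ∈ D) : q * g * q⁻¹ * g⁻¹ ∈ D := by
  exact it_mem h.norm hq 1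

theorem MinD.central (h : MinD g D) {A : Subgroup S} (hAD : A ≤ D) (hne : A ≠ D)
    (hgA : g ∈ normalizer (A : Set S)) (hDA : D ≤ normalizer (A : Set S)) :
    ∀ a ∈ A, ∀ u ∈ D, a * u = u * a := by
  have hcA := h.min A hAD hne hgA
  have hC : D ⊓ centralizer (A : Set S) = D := by
    by_contra hne'
    have hgC : g ∈ normalizer ((D ⊓ centralizer (A : Set S) : Subgroup S) : Set S) := by
      apply mem_normalizer_fintype
      intro c hc
      obtain ⟨hc1, hc2⟩ := mem_inf.1 hc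
      refine mem_inf.2 ⟨(mem_normalizer_iff.1 h.norm c).1 hc1, ?_⟩
      rw [mem_centralizer_iff]
      intro a ha
      have h1 := hcA a ha
      have h2 := mem_centralizer_iff.1 hc2 a ha
      have h3 : g⁻¹ * a = a * g⁻¹ := by
        have : g⁻¹ * a = g⁻¹ * (a * g) * g⁻¹ := by group
        rw [this, ← h1]; group
      calc a * (g * c * g⁻¹) = (a * g) * c * g⁻¹ := by group
        _ = (g * a) * c * g⁻¹ := by rw [h1]
        _ = g * (a * c) * g⁻¹ := by group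
        _ = g * (c * a) * g⁻¹ := by rw [h2]
        _ = g * c * (a * g⁻¹) := by group
        _ = g * c * (g⁻¹ * a) := by rw [h3]
        _ = g * c * g⁻¹ * a := by group
    have h1 := h.min _ inf_le_left hne' hgC
    apply h.not_all
    intro q hq
    apply h1
    refine mem_inf.2 ⟨h.comm_mem hq, ?_⟩
    rw [mem_centralizer_iff]
    intro a ha
    have hb : q⁻¹ * a * q ∈ A := by
      have := (mem_normalizer_iff.1 (hDA (D.inv_mem hq)) a).1 ha
      simpa using this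
    have h2 := hcA _ hb
    have h3 := hcA _ ha
    have h4 : g⁻¹ * a = a * g⁻¹ := by
      have : g⁻¹ * a = g⁻¹ * (a * g) * g⁻¹ := by group
      rw [this, ← h3]; group
    calc a * (q * g * q⁻¹ * g⁻¹) = q * ((q⁻¹ * a * q) * g) * q⁻¹ * g⁻¹ := by group
      _ = q * (g * (q⁻¹ * a * q)) * q⁻¹ * g⁻¹ := by rw [h2]
      _ = q * g * q⁻¹ * (a * g⁻¹) := by group
      _ = q * g * q⁻¹ * (g⁻¹ * a) := by rw [h4]
      _ = q * g * q⁻¹ * g⁻¹ * a := by group
  intro a ha u hu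
  have h1 : u ∈ D ⊓ centralizer (A : Set S) := by rw [hC]; exact hu
  exact mem_centralizer_iff.1 (mem_inf.1 h1).2 a ha

theorem MinD.ne_bot (h : MinD g D) : D ≠ ⊥ := by
  rintro rfl
  apply h.nc
  intro q hq
  rw [mem_bot] at hq
  rw [hq]; simp

theorem MinD.der_ne (h : MinD g D) : ⁅D, D⁆ ≠ D := by
  intro heq
  have : Fact (Nat.Prime 2) := ⟨Nat.prime_two⟩
  have h1 : Group.IsNilpotent D := h.two.isNilpotent
  rw [Subgroup.isNilpotent_iff_lowerCentralSeries] at h1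
  obtain ⟨n, hn⟩ := h1
  have h2 : ∀ m, D.lowerCentralSeries m = D := by
    intro m
    induction m with
    | zero => rfl
    | succ m ih => rw [Subgroup.lowerCentralSeries_succ, ih, heq]
  exact h.ne_bot ((h2 n).symm.trans hn)

theorem MinD.norm_der (h : MinD g D) : g ∈ normalizer ((⁅D, D⁆ : Subgroup S) : Set S) := by
  have h1 : D.map (MulAut.conj g).toMonoidHom = D := by
    apply eq_of_le_of_card_ge
    · rintro _ ⟨x, hx, rfl⟩
      exact (mem_normalizer_iff.1 h.norm x).1 hx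
    · rw [card_map_of_injective (MulAut.conj g).injective]
  have h2 : (⁅D, D⁆ : Subgroup S).map (MulAut.conj g).toMonoidHom = ⁅D, D⁆ := by
    rw [Subgroup.map_commutator, h1]
  apply mem_normalizer_fintype
  intro x hx
  have h3 : (MulAut.conj g).toMonoidHom x ∈ (⁅D, D⁆ : Subgroup S).map (MulAut.conj g).toMonoidHom :=
    mem_map_of_mem _ hx
  rw [h2] at h3
  exact h3

theorem der_le (D : Subgroup S) : ⁅D, D⁆ ≤ D := by
  rw [commutator_le]
  intro a ha b hb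
  rw [commutatorElement_def]
  exact D.mul_mem (D.mul_mem (D.mul_mem ha hb) (D.inv_mem ha)) (D.inv_mem hb)

theorem MinD.der_cent (h : MinD g D) : ∀ a ∈ ⁅D, D⁆, ∀ u ∈ D, a * u = u * a := by
  apply h.central (der_le D) h.der_ne h.norm_der
  have h1 : D ≤ normalizer (D : Set S) := le_normalizer
  have h2 : D ≤ normalizer ((⁅D, D⁆ : Subgroup S) : Set S) := by
    intro x hx
    apply mem_normalizer_fintype
    intro y hy
    have h3 : x * y * x⁻¹ = ⁅x, y⁆ * y := by rw [commutatorElement_def]; group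
    rw [h3]
    exact mul_mem (commutator_mem_commutator hx (der_le D hy)) hy
  exact h2

theorem MinD.g_der (h : MinD g D) : ∀ a ∈ ⁅D, D⁆, g * a = a * g :=
  h.min _ (der_le D) h.der_ne h.norm_der

theorem MinD.surj (h : MinD g D) : ∀ e ∈ D, ∃ u ∈ D, ∃ d ∈ ⁅D, D⁆, u * g * u⁻¹ * g⁻¹ = e * d := by
  let K : Subgroup S :=
    { carrier := {e | e ∈ D ∧ ∃ u ∈ D, ∃ d ∈ ⁅D, D⁆, u * g * u⁻¹ * g⁻¹ = e * d}
      one_mem' := ⟨D.one_mem, 1, D.one_mem, 1, one_mem _, by simp⟩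
      mul_mem' := by
        rintro e e' ⟨he, u, hu, d, hd, h1⟩ ⟨he', u', hu', d', hd', h1'⟩
        refine ⟨D.mul_mem he he', u * u', D.mul_mem hu hu',
          ⁅e'⁻¹, e⁻¹ * u⁆ * (d' * d), ?_, ?_⟩
        · exact mul_mem (commutator_mem_commutator (D.inv_mem he') (D.mul_mem (D.inv_mem he) hu))
            (mul_mem hd' hd)
        · have h2 : u * u' * g * (u * u')⁻¹ * g⁻¹ =
              u * (u' * g * u'⁻¹ * g⁻¹) * u⁻¹ * (u * g * u⁻¹ * g⁻¹) := by group
          rw [h2, h1, h1', commutatorElement_def]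
          have h3 : d' * (u⁻¹ * (e * d)) = (u⁻¹ * e * d) * d' := by
            rw [h.der_cent d' hd' _ (D.mul_mem (D.inv_mem hu) (D.mul_mem he (der_le D hd)))]
            group
          have h4 : d * d' = d' * d := h.der_cent d hd d' (der_le D hd')
          calc u * (e' * d') * u⁻¹ * (e * d) = u * e' * (d' * (u⁻¹ * (e * d))) := by group
            _ = u * e' * ((u⁻¹ * e * d) * d') := by rw [h3]
            _ = u * e' * u⁻¹ * e * (d * d') := by group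
            _ = u * e' * u⁻¹ * e * (d' * d) := by rw [h4]
            _ = e * e' * (e'⁻¹ * (e⁻¹ * u) * e'⁻¹⁻¹ * (e⁻¹ * u)⁻¹ * (d' * d)) := by group
      inv_mem' := by
        rintro e ⟨he, u, hu, d, hd, h1⟩
        refine ⟨D.inv_mem he, u⁻¹, D.inv_mem hu, ⁅e, u⁻¹⁆ * d⁻¹, ?_, ?_⟩
        · exact mul_mem (commutator_mem_commutator he (D.inv_mem hu)) (inv_mem hd)
        · have h2 : u⁻¹ * g * u⁻¹⁻¹ * g⁻¹ = u⁻¹ * (u * g * u⁻¹ * g⁻¹)⁻¹ * u := by group
          rw [h2, h1, commutatorElement_def]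
          have h3 : d⁻¹ * (e⁻¹ * u) = (e⁻¹ * u) * d⁻¹ :=
            h.der_cent _ (inv_mem hd) _ (D.mul_mem (D.inv_mem he) hu)
          calc u⁻¹ * (e * d)⁻¹ * u = u⁻¹ * (d⁻¹ * (e⁻¹ * u)) := by group
            _ = u⁻¹ * ((e⁻¹ * u) * d⁻¹) := by rw [h3]
            _ = e⁻¹ * (e * u⁻¹ * e⁻¹ * u⁻¹⁻¹ * d⁻¹) := by group }
  have hK : K = D := by
    by_contra hne
    have hKD : K ≤ D := fun x hx => hx.1
    have hgK : g ∈ normalizer (K : Set S) := by
      apply mem_normalizer_fintype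
      rintro e ⟨he, u, hu, d, hd, h1⟩
      refine ⟨(mem_normalizer_iff.1 h.norm e).1 he, g * u * g⁻¹, (mem_normalizer_iff.1 h.norm u).1 hu,
        g * d * g⁻¹, (mem_normalizer_iff.1 h.norm_der d).1 hd, ?_⟩
      calc g * u * g⁻¹ * g * (g * u * g⁻¹)⁻¹ * g⁻¹ = g * (u * g * u⁻¹ * g⁻¹) * g⁻¹ := by group
        _ = g * (e * d) * g⁻¹ := by rw [h1]
        _ = g * e * g⁻¹ * (g * d * g⁻¹) := by group
    have h1 := h.min K hKD hne hgK
    apply h.not_all
    intro q hq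
    apply h1
    exact ⟨h.comm_mem hq, q, hq, 1, one_mem _, by rw [mul_one]⟩
  intro e he
  rw [← hK] at he
  exact he.2

theorem MinD.surjn (h : MinD g D) (n : ℕ) : ∀ e ∈ D, ∃ u ∈ D, ∃ d ∈ ⁅D, D⁆, it g u n = e * d := by
  induction n with
  | zero => intro e he; exact ⟨e, he, 1, one_mem _, by rw [mul_one]; rfl⟩
  | succ n ih =>
    intro e he
    obtain ⟨u₁, hu₁, d₁, hd₁, h1⟩ := h.surj e he
    obtain ⟨u, hu, d₂, hd₂, h2⟩ := ih u₁ hu₁
    refine ⟨u, hu, d₁, hd₁, ?_⟩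
    rw [it_succ, h2, ← h1]
    have h3 := h.g_der d₂ hd₂
    calc u₁ * d₂ * g * (u₁ * d₂)⁻¹ * g⁻¹ = u₁ * (d₂ * g) * d₂⁻¹ * u₁⁻¹ * g⁻¹ := by group
      _ = u₁ * (g * d₂) * d₂⁻¹ * u₁⁻¹ * g⁻¹ := by rw [h3]
      _ = u₁ * g * u₁⁻¹ * g⁻¹ := by group

theorem MinD.comm_pow (h : MinD g D) {e v : S} (he : e ∈ D) (hv : v ∈ D) (i : ℕ) :
    e ^ i * v * (e ^ i)⁻¹ * v⁻¹ = (e * v * e⁻¹ * v⁻¹) ^ i := by
  have hc : (e * v * e⁻¹ * v⁻¹) ∈ ⁅D, D⁆ := by
    rw [← commutatorElement_def]; exact commutator_mem_commutator he hv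
  induction i with
  | zero => simp
  | succ i ih =>
    rw [pow_succ (e * v * e⁻¹ * v⁻¹), ← ih]
    have h1 := h.der_cent _ hc (v * (e ^ i)⁻¹ * v⁻¹)
      (D.mul_mem (D.mul_mem hv (D.inv_mem (D.pow_mem he i))) (D.inv_mem hv))
    calc e ^ (i + 1) * v * (e ^ (i + 1))⁻¹ * v⁻¹
        = e ^ i * ((e * v * e⁻¹ * v⁻¹) * (v * (e ^ i)⁻¹ * v⁻¹)) := by
          rw [pow_succ]; group
      _ = e ^ i * ((v * (e ^ i)⁻¹ * v⁻¹) * (e * v * e⁻¹ * v⁻¹)) := by rw [h1]
      _ = e ^ i * v * (e ^ i)⁻¹ * v⁻¹ * (e * v * e⁻¹ * v⁻¹) := by group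

theorem MinD.exists_inv (h : MinD g D) (k : ℕ) :
    (∃ u ∈ D, orderOf (it g u k) = 2) ∨
    (∃ j, k = j + 1 ∧ ∃ u ∈ D, ∃ v ∈ D, orderOf (it g u j * v * (it g u j)⁻¹ * v⁻¹) = 2) := by
  have : Fact (Nat.Prime 2) := ⟨Nat.prime_two⟩
  have hz : ∃ z ∈ D, orderOf z = 2 := by
    obtain ⟨n, hn⟩ := IsPGroup.iff_card.1 h.two
    have h1 : 2 ∣ Nat.card D := by
      rw [hn]
      apply dvd_pow_self
      rintro rfl
      rw [pow_zero] at hn
      exact h.ne_bot (card_eq_one.1 hn)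
    obtain ⟨z, hz⟩ := exists_prime_orderOf_dvd_card' 2 h1
    exact ⟨z, z.2, by rw [← hz]; exact Subgroup.orderOf_coe z⟩
  by_cases hD : ⁅D, D⁆ = ⊥
  · left
    obtain ⟨z, hzD, hz⟩ := hz
    obtain ⟨u, hu, d, hd, h1⟩ := h.surjn k z hzD
    rw [hD, mem_bot] at hd
    rw [hd, mul_one] at h1
    exact ⟨u, hu, by rw [h1, hz]⟩
  · rcases Nat.eq_zero_or_pos k with hk | hk
    · left
      obtain ⟨z, hzD, hz⟩ := hz
      exact ⟨z, hzD, by rw [hk]; exact hz⟩
    · right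
      obtain ⟨j, rfl⟩ : ∃ j, k = j + 1 := ⟨k - 1, by omega⟩
      refine ⟨j, rfl, ?_⟩
      obtain ⟨e, he, v, hv, hev⟩ : ∃ e ∈ D, ∃ v ∈ D, e * v * e⁻¹ * v⁻¹ ≠ 1 := by
        by_contra hcon
        push Not at hcon
        apply hD
        rw [eq_bot_iff, commutator_le]
        intro e he v hv
        rw [mem_bot, commutatorElement_def]
        exact hcon e he v hv
      have hc : (e * v * e⁻¹ * v⁻¹) ∈ D :=
        der_le D (by rw [← commutatorElement_def]; exact commutator_mem_commutator he hv)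
      obtain ⟨m, hm⟩ := IsPGroup.iff_orderOf.1 h.two ⟨_, hc⟩
      rw [orderOf_mk] at hm
      have hm0 : m ≠ 0 := by
        rintro rfl
        rw [pow_zero, orderOf_eq_one_iff] at hm
        exact hev hm
      obtain ⟨m, rfl⟩ : ∃ m', m = m' + 1 := ⟨m - 1, by omega⟩
      have h2 : orderOf ((e * v * e⁻¹ * v⁻¹) ^ (2 ^ m)) = 2 := by
        rw [orderOf_pow_of_dvd (pow_ne_zero _ two_ne_zero) (by rw [hm]; exact pow_dvd_pow 2 (Nat.le_succ m)), hm,
          pow_succ, Nat.mul_div_cancel_left _ (by positivity)]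
      obtain ⟨u, hu, d, hd, h3⟩ := h.surjn j (e ^ (2 ^ m)) (D.pow_mem he _)
      refine ⟨u, hu, v, hv, ?_⟩
      have h4 : it g u j * v * (it g u j)⁻¹ * v⁻¹ = e ^ (2 ^ m) * v * (e ^ (2 ^ m))⁻¹ * v⁻¹ := by
        rw [h3]
        have h5 := h.der_cent d hd v hv
        calc e ^ (2 ^ m) * d * v * (e ^ (2 ^ m) * d)⁻¹ * v⁻¹
            = e ^ (2 ^ m) * (d * v) * d⁻¹ * (e ^ (2 ^ m))⁻¹ * v⁻¹ := by group
          _ = e ^ (2 ^ m) * (v * d) * d⁻¹ * (e ^ (2 ^ m))⁻¹ * v⁻¹ := by rw [h5]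
          _ = e ^ (2 ^ m) * v * (e ^ (2 ^ m))⁻¹ * v⁻¹ := by group
      rw [h4, h.comm_pow he hv, h2]

end H57.Bw
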