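import Cfsg.Agent.Lib.H57.Bw3
import Cfsg.Agent.Lib.H57.Bw4
import Cfsg.Agent.Lib.H55.BaerSuzuki
import Cfsg.Agent.S0071

/-! Nonsolvable case. -/

set_option autoImplicit false

namespace H57.Bw

open Subgroup
open scoped commutatorElement

universe u v

theorem it_mem_lcs {G : Type*} [Group G] {H : Subgroup G} {x q : G} (hx : x ∈ H) (hq : q ∈ H)
    (n : ℕ) : it x q n ∈ H.lowerCentralSeries n := by
  induction n with
  | zero => exact hq
  | succ n ih =>
    rw [Subgroup.lowerCentralSeries_succ, it_succ]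
    exact commutator_mem_commutator ih hx

theorem it_invert {S : Type*} [Group S] {t w : S} (h : t * w * t⁻¹ = w⁻¹) (n : ℕ) :
    it t w n = w ^ (2 ^ n) := by
  induction n with
  | zero => rw [pow_zero, pow_one]; rfl
  | succ n ih =>
    rw [it_succ, ih]
    have h1 : t * (w ^ 2 ^ n)⁻¹ * t⁻¹ = w ^ 2 ^ n := by
      have h2 : t * (w ^ 2 ^ n)⁻¹ * t⁻¹ = ((t * w * t⁻¹) ^ 2 ^ n)⁻¹ := by
        rw [conj_pow]; group
      rw [h2, h, inv_pow, inv_inv]
    calc w ^ 2 ^ n * t * (w ^ 2 ^ n)⁻¹ * t⁻¹ = w ^ 2 ^ n * (t * (w ^ 2 ^ n)⁻¹ * t⁻¹) := by group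
      _ = w ^ 2 ^ n * w ^ 2 ^ n := by rw [h1]
      _ = w ^ 2 ^ (n + 1) := by rw [← pow_add, pow_succ]; congr 1; ring

/-- contradiction from a value which is a 2-element mapping to an involution of a simple quotient -/
theorem no_inv {G : Type u} {S : Type v} [Group G] [Finite G] [Group S] [Finite S] [IsSimpleGroup S]
    {k : ℕ} (π : G →* S) (hπ : Function.Surjective π) (hns : ¬ Group.IsSolvable S) (hL : L k G)
    (hsub : ∀ H : Subgroup G, H ≠ ⊤ → Group.IsNilpotent (H.lowerCentralSeries k))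
    {x : G} (hx : x ∈ (V k : Set G)) (hx2 : ∃ i, orderOf x = 2 ^ i) (hxi : orderOf (π x) = 2) :
    False := by
  have : Fact (Nat.Prime 2) := ⟨Nat.prime_two⟩
  obtain ⟨w, hwo, hw, hw1⟩ : ∃ w : S, Odd (orderOf w) ∧ π x * w * (π x)⁻¹ = w⁻¹ ∧ w ≠ 1 := by
    by_contra hcon
    push Not at hcon
    have ht : π x * π x = 1 := by rw [← sq, ← hxi]; exact pow_orderOf_eq_one _
    obtain ⟨N, hN, hN2, hxN⟩ := H55.BaerSuzuki.exists_normal_of_involution (π x) ht
      (fun w h1 h2 => hcon w h1 h2)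
    rcases hN.eq_bot_or_eq_top with hb | hb
    · rw [hb, mem_bot] at hxN
      rw [hxN, orderOf_one] at hxi
      omega
    · rw [hb] at hN2
      have h1 : IsPGroup 2 S := by
        intro s
        obtain ⟨n, hn⟩ := hN2 ⟨s, mem_top s⟩
        exact ⟨n, congrArg Subtype.val hn⟩
      have h2 : Group.IsNilpotent S := h1.isNilpotent
      exact hns inferInstance
  set W : Subgroup S := zpowers w with hW
  have hWt : normalizer (W : Set S) ≠ ⊤ := by
    intro htop
    have hWn : W.Normal := normalizer_eq_top_iff.1 htop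
    rcases hWn.eq_bot_or_eq_top with hb | hb
    · apply hw1
      rw [hW, zpowers_eq_bot] at hb
      exact hb
    · apply hns
      have hcyc : IsCyclic S := ⟨w, fun s => by
        have : s ∈ W := by rw [hb]; exact mem_top s
        exact this⟩
      have h3 : Group.IsNilpotent S := @CommGroup.isNilpotent _ (IsCyclic.commGroup)
      infer_instance
  have htW : π x ∈ normalizer (W : Set S) := by
    apply mem_normalizer_fintype
    rintro _ ⟨m, rfl⟩
    refine ⟨-m, ?_⟩
    have : π x * w ^ m * (π x)⁻¹ = (π x * w * (π x)⁻¹) ^ m := by rw [conj_zpow]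
    change w ^ (-m) = π x * w ^ m * (π x)⁻¹
    rw [this, hw, inv_zpow, zpow_neg]
  have hwW : w ∈ normalizer (W : Set S) := le_normalizer (mem_zpowers w)
  set H : Subgroup G := (normalizer (W : Set S)).comap π with hH
  have hHt : H ≠ ⊤ := by
    intro htop
    apply hWt
    rw [eq_top_iff]
    intro s _
    obtain ⟨a, rfl⟩ := hπ s
    have : a ∈ H := by rw [htop]; exact mem_top a
    exact this
  have hxH : x ∈ H := htW
  obtain ⟨a, ha⟩ := hπ w
  have haH : a ∈ H := by rw [hH, mem_comap, ha]; exact hwW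
  set Y : Subgroup G := H.lowerCentralSeries k with hY
  have hYn : Group.IsNilpotent Y := hsub H hHt
  have hxY : x ∈ normalizer (Y : Set G) := H.self_le_normalizer_lowerCentralSeries k hxH
  have hyY : it x a k ∈ Y := it_mem_lcs hxH haH k
  have hπy : π (it x a k) = w ^ 2 ^ k := by rw [it_map, ha, it_invert hw]
  -- odd part
  obtain ⟨u, v, huv, ⟨m, hm⟩, hv⟩ := H26.TransferPow.exists_pPart 2 (it x a k)
  set y := it x a k with hy
  have hπv : π (y ^ v) = w ^ 2 ^ k := by
    have h1 : π (y ^ u) = 1 := by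
      rw [← orderOf_eq_one_iff]
      have h2 : orderOf (π (y ^ u)) ∣ 2 ^ m := by
        rw [← hm]; exact orderOf_map_dvd _ _
      have h3 : orderOf (π (y ^ u)) ∣ orderOf w := by
        rw [map_pow, hπy, ← pow_mul]; exact orderOf_pow_dvd _
      have h4 : (orderOf w).Coprime (2 ^ m) := Nat.Coprime.pow_right m (Nat.coprime_two_right.2 hwo)
      exact Nat.eq_one_of_dvd_coprimes h4 h3 h2
    rw [← hπy]
    conv_rhs => rw [huv, map_mul, h1, one_mul]
  have hyv : y ^ v ∈ Y := Y.pow_mem hyY v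
  have hyvQ : (⟨y ^ v, hyv⟩ : Y) ∈ Cfsg.pPrimeCore 2 Y := by
    obtain ⟨N₀, hN₀, hco, l, hl⟩ := H39.PNilp.iff_exists.1 (H2.Nilp.hasNPC_of_nilpotent (p := 2) hYn)
    have h1 : N₀ ≤ Cfsg.pPrimeCore 2 Y := H1.Cores.le_pPrimeCore hN₀ hco
    apply h1
    apply H71.Basic2.mem_of_orderOf_coprime_index
    rw [hl, orderOf_mk]
    exact Nat.Coprime.pow_right l hv
  set Q : Subgroup G := (Cfsg.pPrimeCore 2 Y).map Y.subtype with hQ
  have hchar : (Cfsg.pPrimeCore 2 Y).Characteristic := H1.Cores.pPrimeCore_characteristic 2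
  have hyQ : y ^ v ∈ Q := ⟨_, hyvQ, rfl⟩
  have hxQ : x ∈ normalizer (Q : Set G) := by
    apply mem_normalizer_fintype
    rintro _ ⟨q, hq, rfl⟩
    -- conjugation by `x` as an automorphism of `Y`
    have h1 : ∀ z : Y, x * z * x⁻¹ ∈ Y := fun z => (mem_normalizer_iff.1 hxY z).1 z.2
    have h1' : ∀ z : Y, x⁻¹ * z * x ∈ Y := fun z => by
      have := (mem_normalizer_iff.1 ((normalizer (Y : Set G)).inv_mem hxY) z).1 z.2
      simpa using this
    let α : Y ≃* Y :=
      { toFun := fun z => ⟨x * z * x⁻¹, h1 z⟩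
        invFun := fun z => ⟨x⁻¹ * z * x, h1' z⟩
        left_inv := fun z => by apply Subtype.ext; simp [mul_assoc]
        right_inv := fun z => by apply Subtype.ext; simp [mul_assoc]
        map_mul' := fun z z' => by apply Subtype.ext; simp [mul_assoc] }
    have h2 := hchar.fixed α
    refine ⟨α q, ?_, rfl⟩
    rw [← h2] at hq
    exact hq
  have hQc : (Nat.card Q).Coprime (orderOf x) := by
    obtain ⟨i, hi⟩ := hx2
    rw [hQ, card_map_of_injective Y.subtype_injective, hi]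
    exact Nat.Coprime.pow_right i (H1.Cores.coprime_card_pPrimeCore 2)
  have hfin := hL x hx Q hxQ hQc _ hyQ
  have h1 := congrArg π hfin
  rw [map_mul, map_mul, hπv] at h1
  have h2 : π x * w ^ 2 ^ k * (π x)⁻¹ = (w ^ 2 ^ k)⁻¹ := by
    have : π x * w ^ 2 ^ k * (π x)⁻¹ = (π x * w * (π x)⁻¹) ^ 2 ^ k := by rw [conj_pow]
    rw [this, hw, inv_pow]
  rw [h1, mul_inv_cancel_right] at h2
  have h3 : w ^ 2 ^ (k + 1) = 1 := by
    have : w ^ 2 ^ (k + 1) = w ^ 2 ^ k * w ^ 2 ^ k := by rw [← pow_add, pow_succ]; congr 1; ring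
    rw [this]
    nth_rw 1 [h2]
    exact inv_mul_cancel _
  have h4 : orderOf w ∣ 2 ^ (k + 1) := orderOf_dvd_of_pow_eq_one h3
  have h5 : orderOf w = 1 := by
    have h6 : (orderOf w).Coprime (2 ^ (k + 1)) :=
      Nat.Coprime.pow_right _ (Nat.coprime_two_right.2 hwo)
    exact Nat.eq_one_of_dvd_coprimes h6 dvd_rfl h4
  exact hw1 (orderOf_eq_one_iff.1 h5)

/-- lifting a 2-subgroup with an element normalising it -/
theorem exists_lift {G : Type u} {S : Type v} [Group G] [Finite G] [Group S] [Finite S]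
    (π : G →* S) (hπ : Function.Surjective π) {D : Subgroup S} {g : S} (hD : IsPGroup 2 D)
    (hg : g ∈ normalizer (D : Set S)) :
    ∃ D' : Subgroup G, IsPGroup 2 D' ∧ D'.map π = D ∧ ∃ g' ∈ normalizer (D' : Set G), π g' = g := by
  have : Fact (Nat.Prime 2) := ⟨Nat.prime_two⟩
  set X : Subgroup G := (normalizer (D : Set S)).comap π with hX
  set M : Subgroup X := (D.comap π).subgroupOf X with hM
  have hMn : M.Normal := by
    constructor
    intro n hn y
    have h1 : π (n : G) ∈ D := hn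
    have h2 : π (y : G) ∈ normalizer (D : Set S) := y.2
    change π ((y * n * y⁻¹ : X) : G) ∈ D
    rw [coe_mul, coe_mul, coe_inv, map_mul, map_mul, map_inv]
    exact (mem_normalizer_iff.1 h2 _).1 h1
  obtain ⟨P⟩ : Nonempty (Sylow 2 M) := inferInstance
  have hsup := Sylow.normalizer_sup_eq_top P
  set P₁ : Subgroup X := (P : Subgroup M).map M.subtype with hP₁
  have hP₁2 : IsPGroup 2 P₁ := P.isPGroup'.map _
  let f : M →* D := (π.comp (X.subtype.comp M.subtype)).codRestrict D (fun m => m.2)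
  have hf : Function.Surjective f := by
    rintro ⟨d, hd⟩
    obtain ⟨a, rfl⟩ := hπ d
    have haX : a ∈ X := le_normalizer (H := D) hd
    exact ⟨⟨⟨a, haX⟩, hd⟩, rfl⟩
  have hPf : (P : Subgroup M).map f = ⊤ := by
    have h1 : ¬ 2 ∣ ((P : Subgroup M).map f).index := by
      intro hd
      exact P.not_dvd_index (hd.trans (index_map_dvd _ hf))
    obtain ⟨n, hn⟩ := IsPGroup.iff_card.1 hD
    have h2 : ((P : Subgroup M).map f).index ∣ 2 ^ n := by rw [← hn]; exact index_dvd_card _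
    obtain ⟨i, _, hi⟩ := (Nat.dvd_prime_pow Nat.prime_two).1 h2
    rcases Nat.eq_zero_or_pos i with hi0 | hi0
    · rw [hi0, pow_zero] at hi; exact index_eq_one.1 hi
    · exact absurd (hi ▸ dvd_pow_self 2 hi0.ne') h1
  have hsurj : ∀ d ∈ D, ∃ b : X, b ∈ P₁ ∧ π b = d := by
    intro d hd
    have h1 : (⟨d, hd⟩ : D) ∈ (P : Subgroup M).map f := by rw [hPf]; exact mem_top _
    obtain ⟨b, hb, hbd⟩ := h1
    exact ⟨b, ⟨b, hb, rfl⟩, congrArg Subtype.val hbd⟩
  refine ⟨P₁.map X.subtype, hP₁2.map _, ?_, ?_⟩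
  · apply le_antisymm
    · rintro _ ⟨_, ⟨_, ⟨b, hb, rfl⟩, rfl⟩, rfl⟩
      exact b.2
    · intro d hd
      obtain ⟨b, hb, hbd⟩ := hsurj d hd
      exact ⟨b, ⟨b, hb, rfl⟩, hbd⟩
  · obtain ⟨g₀, rfl⟩ := hπ g
    have hg₀ : g₀ ∈ X := hg
    have h1 : (⟨g₀, hg₀⟩ : X) ∈ normalizer (P₁ : Set X) ⊔ M := by rw [hsup]; exact mem_top _
    obtain ⟨h, hh, m, hm, hhm⟩ := mem_sup_of_normal_right.1 h1
    obtain ⟨b, hb, hbm⟩ := hsurj (π (m : G)) hm
    refine ⟨((h * b : X) : G), ?_, ?_⟩
    · have h2 : h * b ∈ normalizer (P₁ : Set X) := mul_mem hh (le_normalizer hb)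
      exact (le_normalizer_map X.subtype) (mem_map_of_mem _ h2)
    · have h3 := congrArg (fun z : X => π (z : G)) hhm
      simp only [coe_mul, map_mul] at h3 ⊢
      rw [hbm]; exact h3

theorem step_A {G : Type u} {S : Type v} [Group G] [Finite G] [Group S] [Finite S] [IsSimpleGroup S]
    {k : ℕ} (π : G →* S) (hπ : Function.Surjective π) (hns : ¬ Group.IsSolvable S)
    (hFT : Odd (Nat.card S) → Group.IsSolvable S) (hL : L k G)
    (hsub : ∀ H : Subgroup G, H ≠ ⊤ → Group.IsNilpotent (H.lowerCentralSeries k)) : False := by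
  have : Fact (Nat.Prime 2) := ⟨Nat.prime_two⟩
  obtain ⟨P⟩ : Nonempty (Sylow 2 S) := inferInstance
  have hno : ¬ ∃ N : Subgroup S, N.Normal ∧ N.IsComplement' (P : Subgroup S) := by
    rintro ⟨N, hN, hc⟩
    rcases hN.eq_bot_or_eq_top with hb | hb
    · apply hns
      have h1 : (P : Subgroup S) = ⊤ := by
        rw [hb] at hc
        exact isComplement'_bot_left.1 hc
      have h2 : IsPGroup 2 S := by
        intro s
        have hs : s ∈ (P : Subgroup S) := by rw [h1]; exact mem_top s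
        obtain ⟨n, hn⟩ := P.isPGroup' ⟨s, hs⟩
        exact ⟨n, congrArg Subtype.val hn⟩
      have h3 : Group.IsNilpotent S := h2.isNilpotent
      infer_instance
    · apply hns
      have h1 : (P : Subgroup S) = ⊥ := by
        rw [hb] at hc
        exact isComplement'_top_left.1 hc
      have h2 : ¬ 2 ∣ Nat.card S := by
        intro hd
        have := (P.not_dvd_index)
        rw [h1, index_bot] at this
        exact this hd
      exact hFT (Nat.odd_iff.2 (by omega))
  rw [Cfsg.Agent.S0071.result P] at hno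
  push Not at hno
  obtain ⟨Q, hQP, g, hg, hgo, hgc⟩ := hno
  have hQ2 : IsPGroup 2 Q := P.isPGroup'.to_le hQP
  obtain ⟨D, hD⟩ := exists_minD hQ2 hgo hg (by
    intro hcon
    apply hgc
    rw [mem_centralizer_iff]
    intro q hq
    exact (hcon q hq).symm)
  obtain ⟨D', hD'2, hD'D, g', hg', hgg⟩ := exists_lift π hπ hD.two hD.norm
  have hl : ∀ u ∈ D, ∃ u' ∈ D', π u' = u := by
    intro u hu
    rw [← hD'D] at hu
    exact hu
  have h2e : ∀ x ∈ D', ∃ i, orderOf x = 2 ^ i := by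
    intro x hx
    obtain ⟨i, hi⟩ := IsPGroup.iff_orderOf.1 hD'2 ⟨x, hx⟩
    rw [orderOf_mk] at hi
    exact ⟨i, hi⟩
  rcases hD.exists_inv k with ⟨u, hu, ho⟩ | ⟨j, rfl, u, hu, v, hv, ho⟩
  · obtain ⟨u', hu', rfl⟩ := hl u hu
    refine no_inv π hπ hns hL hsub (it_mem_V g' u' k) (h2e _ (it_mem hg' hu' k)) ?_
    rw [it_map, hgg]; exact ho
  · obtain ⟨u', hu', rfl⟩ := hl u hu
    obtain ⟨v', hv', rfl⟩ := hl v hv
    refine no_inv π hπ hns hL hsub (x := it g' u' j * v' * (it g' u' j)⁻¹ * v'⁻¹)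
      ⟨_, it_mem_V g' u' j, v', rfl⟩ (h2e _ ?_) ?_
    · have h1 := it_mem hg' hu' j
      exact D'.mul_mem (D'.mul_mem (D'.mul_mem h1 hv') (D'.inv_mem h1)) (D'.inv_mem hv')
    · simp only [map_mul, map_inv]
      rw [it_map, hgg]; exact ho

end H57.Bw
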