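import Cfsg.Agent.Lib.H57.Bw5
import Cfsg.Agent.Lib.H73.Nilp
import Cfsg.Agent.Lib.H74.Fitting

/-! The nilpotency criterion for `γ_{k+1}(G)`. -/

set_option autoImplicit false

namespace H57.Bw

open Subgroup
open scoped commutatorElement

universe u

theorem comm_of_coprime {K : Type*} [Group K] [Finite K] [Group.IsNilpotent K] {x y : K}
    (h : (orderOf x).Coprime (orderOf y)) : x * y = y * x := by
  have hco : ((centralizer ({x} : Set K)).index).Coprime (orderOf y) := by
    rw [Nat.coprime_iff_gcd_eq_one]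
    by_contra hne
    obtain ⟨p, hp, hpd⟩ := Nat.exists_prime_and_dvd hne
    have : Fact p.Prime := ⟨hp⟩
    have h1 : p ∣ (centralizer ({x} : Set K)).index := hpd.trans (Nat.gcd_dvd_left _ _)
    have h2 : p ∣ orderOf y := hpd.trans (Nat.gcd_dvd_right _ _)
    have h3 : (orderOf x).Coprime p := Nat.Coprime.coprime_dvd_right h2 h
    obtain ⟨P⟩ : Nonempty (Sylow p K) := inferInstance
    have h4 : (P : Subgroup K) ≤ centralizer ({x} : Set K) := by
      intro g hg
      obtain ⟨i, hi⟩ := IsPGroup.iff_orderOf.1 P.isPGroup' ⟨g, hg⟩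
      rw [orderOf_mk] at hi
      have h5 : Commute g x := H73.Nilp.commute_of_coprime ⟨i, hi⟩ h3
      rw [mem_centralizer_singleton_iff]
      exact h5.eq
    exact P.not_dvd_index (h1.trans (index_dvd_of_le h4))
  have h1 : y ^ (centralizer ({x} : Set K)).index ∈ centralizer ({x} : Set K) :=
    H74.Fitting.pow_index_mem_of_nilpotent _ y
  have h2 : y ∈ centralizer ({x} : Set K) := by
    have h3 : y ∈ zpowers (y ^ (centralizer ({x} : Set K)).index) := by
      rw [mem_zpowers_pow_iff]
      exact hco
    exact (zpowers_le.2 h1) h3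
  rw [mem_centralizer_singleton_iff] at h2
  exact h2.symm

theorem forward {G : Type*} [Group G] [Finite G] {k : ℕ}
    (h : Group.IsNilpotent ((⊤ : Subgroup G).lowerCentralSeries k)) {x y : G}
    (hx : x ∈ (V k : Set G)) (hy : y ∈ (V k : Set G)) (hco : (orderOf x).Coprime (orderOf y)) :
    orderOf x * orderOf y ≤ orderOf (x * y) := by
  have h1 : (⟨x, V_mem_lcs k x hx⟩ : (⊤ : Subgroup G).lowerCentralSeries k) * ⟨y, V_mem_lcs k y hy⟩ =
      ⟨y, V_mem_lcs k y hy⟩ * ⟨x, V_mem_lcs k x hx⟩ := by
    apply comm_of_coprime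
    rw [orderOf_mk, orderOf_mk]
    exact hco
  have h2 : Commute x y := congrArg Subtype.val h1
  rw [h2.orderOf_mul_eq_mul_orderOf_of_coprime hco]

theorem solvable_of_lcs {T : Type*} [Group T] {k : ℕ}
    (h : Group.IsNilpotent ((⊤ : Subgroup T).lowerCentralSeries k)) : Group.IsSolvable T := by
  have h1 : Group.IsNilpotent (T ⧸ (⊤ : Subgroup T).lowerCentralSeries k) := by
    rw [Subgroup.nilpotent_iff_lowerCentralSeries]
    refine ⟨k, ?_⟩
    have h2 := map_lowerCentralSeries (⊤ : Subgroup T)
      (QuotientGroup.mk' ((⊤ : Subgroup T).lowerCentralSeries k)) k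
    rw [map_top_of_surjective _ (QuotientGroup.mk'_surjective _)] at h2
    rw [← h2, Subgroup.map_eq_bot_iff, QuotientGroup.ker_mk']
  refine Group.isSolvable_of_ker_le_range (G' := (⊤ : Subgroup T).lowerCentralSeries k)
    (G'' := T ⧸ (⊤ : Subgroup T).lowerCentralSeries k) (Subgroup.subtype _) (QuotientGroup.mk' _) ?_
  rw [QuotientGroup.ker_mk', range_subtype]

theorem exists_max_normal (G : Type*) [Group G] [Finite G] [Nontrivial G] :
    ∃ R : Subgroup G, ∃ _ : R.Normal, R ≠ ⊤ ∧ IsSimpleGroup (G ⧸ R) := by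
  obtain ⟨R, hR⟩ := Set.Finite.exists_maximal (s := {N : Subgroup G | N.Normal ∧ N ≠ ⊤})
    (Set.toFinite _) ⟨⊥, inferInstance, bot_ne_top⟩
  obtain ⟨⟨hRn, hRt⟩, hmax⟩ := hR
  refine ⟨R, hRn, hRt, ?_⟩
  have hnt : Nontrivial (G ⧸ R) := by
    by_contra hcon
    rw [not_nontrivial_iff_subsingleton] at hcon
    apply hRt
    rw [← index_eq_one, Subgroup.index_eq_card]
    exact Nat.card_unique
  refine { toNontrivial := hnt, eq_bot_or_eq_top_of_normal := ?_ }
  intro N hN
  by_cases ht : N.comap (QuotientGroup.mk' R) = ⊤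
  · right
    rw [eq_top_iff]
    intro s _
    obtain ⟨a, rfl⟩ := QuotientGroup.mk'_surjective R s
    have : a ∈ N.comap (QuotientGroup.mk' R) := by rw [ht]; exact mem_top a
    exact this
  · left
    have h1 : N.comap (QuotientGroup.mk' R) ≤ R :=
      hmax ⟨hN.comap _, ht⟩ (le_comap_mk R N)
    rw [eq_bot_iff]
    intro s hs
    obtain ⟨a, rfl⟩ := QuotientGroup.mk'_surjective R s
    have : a ∈ R := h1 hs
    rw [mem_bot]
    exact (QuotientGroup.eq_one_iff a).2 this

theorem main (hFT : ∀ (S : Type u) [Group S] [Finite S], Odd (Nat.card S) → Group.IsSolvable S)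
    (k : ℕ) (n : ℕ) : ∀ (G : Type u) [Group G] [Finite G], Nat.card G = n → L k G →
      Group.IsNilpotent ((⊤ : Subgroup G).lowerCentralSeries k) := by
  induction n using Nat.strong_induction_on with
  | _ n ih =>
    intro G _ _ hn hL
    have hsub' : ∀ H : Subgroup G, H ≠ ⊤ →
        Group.IsNilpotent ((⊤ : Subgroup H).lowerCentralSeries k) := by
      intro H hH
      refine ih (Nat.card H) ?_ H rfl (L_subgroup hL H)
      rw [← hn]
      by_contra hcon
      push Not at hcon
      exact hH (eq_top_of_card_eq H (le_antisymm (card_le_card_group H) hcon))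
    have hsub : ∀ H : Subgroup G, H ≠ ⊤ → Group.IsNilpotent (H.lowerCentralSeries k) := by
      intro H hH
      have h1 := hsub' H hH
      have h2 := top_subtype_lowerCentralSeries H k
      rw [← h2]
      exact Group.nilpotent_of_mulEquiv
        (((⊤ : Subgroup H).lowerCentralSeries k).equivMapOfInjective H.subtype H.subtype_injective)
    by_cases hsol : Group.IsSolvable G
    · exact solv_case hL hsol hsub
    · exfalso
      have hnt : Nontrivial G := by
        by_contra hcon
        rw [not_nontrivial_iff_subsingleton] at hcon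
        exact hsol inferInstance
      obtain ⟨R, hRn, hRt, hRs⟩ := exists_max_normal G
      refine step_A (QuotientGroup.mk' R) (QuotientGroup.mk'_surjective R) ?_ (hFT (G ⧸ R)) hL hsub
      intro hq
      apply hsol
      have h1 : Group.IsSolvable R := solvable_of_lcs (hsub' R hRt)
      refine Group.isSolvable_of_ker_le_range (G' := R) (G'' := G ⧸ R) R.subtype (QuotientGroup.mk' R) ?_
      rw [QuotientGroup.ker_mk', range_subtype]

end H57.Bw
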