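import Cfsg.Agent.Lib.H57.Ess3

/-!
`p`-groups with a unique abelian subgroup of index `p` and their essential subgroups.
-/

set_option autoImplicit false
open Cfsg Cfsg.FusionSystem H86.FusBasic H86.FusSat H86.FusAlperin H57.Ess H57.TvPair

namespace H57.IdxP

variable {Ω : Type*} [Group Ω]

/-- The centre of `S`, as a subgroup of the ambient group. -/
abbrev ZZ (S : Subgroup Ω) : Subgroup Ω := S ⊓ Subgroup.centralizer (S : Set Ω)

theorem mem_ZZ {S : Subgroup Ω} {z : Ω} : z ∈ ZZ S ↔ z ∈ S ∧ ∀ s ∈ S, s * z = z * s := by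
  rw [Subgroup.mem_inf, Subgroup.mem_centralizer_iff]
  rfl

structure Setup (p : ℕ) (S A : Subgroup Ω) : Prop where
  le : A ≤ S
  comm : ∀ a ∈ A, ∀ b ∈ A, a * b = b * a
  idx : A.relIndex S = p
  nonab : ∃ x ∈ S, ∃ y ∈ S, x * y ≠ y * x
  uniq : ∀ B : Subgroup Ω, B ≤ S → (∀ a ∈ B, ∀ b ∈ B, a * b = b * a) → B.relIndex S = p → B = A

variable {p : ℕ} [hp : Fact p.Prime] {S A : Subgroup Ω}

/-- Generation: a subgroup of prime index together with an outside element. -/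
theorem gen_of_relIndex {A S : Subgroup Ω} (hAS : A ≤ S) (hnorm : ∀ s ∈ S, ∀ a ∈ A, s * a * s⁻¹ ∈ A)
    (hidx : A.relIndex S = p) {x : Ω} (hx : x ∈ S) (hxA : x ∉ A) {s : Ω} (hs : s ∈ S) :
    ∃ k : ℤ, ∃ a ∈ A, s = a * x ^ k := by
  have hn : (A.subgroupOf S).Normal := by
    constructor
    intro a ha g
    exact hnorm g g.2 a ha
  have hcard : Nat.card (S ⧸ A.subgroupOf S) = p := hidx
  have h1 : (QuotientGroup.mk (⟨x, hx⟩ : S) : S ⧸ A.subgroupOf S) ≠ 1 := by
    rw [Ne, QuotientGroup.eq_one_iff, Subgroup.mem_subgroupOf]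
    exact hxA
  have h2 := mem_zpowers_of_prime_card hcard h1 (g' := (QuotientGroup.mk (⟨s, hs⟩ : S) : S ⧸ A.subgroupOf S))
  obtain ⟨k, hk⟩ := Subgroup.mem_zpowers_iff.1 h2
  refine ⟨k, s * (x ^ k)⁻¹, ?_, by group⟩
  rw [← QuotientGroup.mk_zpow, QuotientGroup.eq, Subgroup.mem_subgroupOf] at hk
  have h3 : (x ^ k)⁻¹ * s ∈ A := hk
  have h4 := hnorm (x ^ k) (zpow_mem hx k) _ h3
  have : x ^ k * ((x ^ k)⁻¹ * s) * (x ^ k)⁻¹ = s * (x ^ k)⁻¹ := by group
  rwa [this] at h4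

namespace Setup

variable (h : Setup p S A)
include h

omit hp in
theorem ne_top [Fact p.Prime] : ∃ x ∈ S, x ∉ A := by
  by_contra hne
  push_neg at hne
  have h1 := h.idx
  rw [Subgroup.relIndex_eq_one.2 hne] at h1
  exact (Fact.out : p.Prime).one_lt.ne h1

theorem norm [Finite S] : ∀ s ∈ S, ∀ a ∈ A, s * a * s⁻¹ ∈ A := by
  intro s hs a ha
  have h1 : A.map (MulAut.conj s).toMonoidHom = A := by
    apply h.uniq
    · rintro _ ⟨y, hy, rfl⟩
      exact mul_mem (mul_mem hs (h.le hy)) (inv_mem hs)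
    · rintro _ ⟨y, hy, rfl⟩ _ ⟨z, hz, rfl⟩
      rw [← map_mul, ← map_mul, h.comm y hy z hz]
    · have h2 : S.map (MulAut.conj s).toMonoidHom = S := by
        apply Subgroup.eq_of_le_of_card_ge
        · rintro _ ⟨y, hy, rfl⟩
          exact mul_mem (mul_mem hs hy) (inv_mem hs)
        · rw [Subgroup.card_map_of_injective (MulAut.conj s).injective]
      conv_lhs => rw [← h2]
      rw [← h.idx]
      exact Subgroup.relIndex_map_map_of_injective _ _ (MulAut.conj s).injective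
  rw [← h1]
  exact ⟨a, ha, rfl⟩

theorem gen [Finite S] {x : Ω} (hx : x ∈ S) (hxA : x ∉ A) {s : Ω} (hs : s ∈ S) :
    ∃ k : ℤ, ∃ a ∈ A, s = a * x ^ k :=
  gen_of_relIndex h.le h.norm h.idx hx hxA hs

/-- An element of `A` commuting with an outside element is central. -/
theorem mem_Z_of [Finite S] {x : Ω} (hx : x ∈ S) (hxA : x ∉ A) {a : Ω} (ha : a ∈ A)
    (hc : x * a = a * x) : a ∈ ZZ S := by
  rw [mem_ZZ]
  refine ⟨h.le ha, fun s hs => ?_⟩
  obtain ⟨k, b, hb, rfl⟩ := h.gen hx hxA hs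
  have h1 : Commute x a := hc
  have h2 : x ^ k * a = a * x ^ k := h1.zpow_left k
  rw [mul_assoc, h2, ← mul_assoc, h.comm b hb a ha, mul_assoc]

/-- The centre is contained in `A`. -/
theorem Z_le [Finite S] : ZZ S ≤ A := by
  intro z hz
  by_contra hzA
  rw [mem_ZZ] at hz
  obtain ⟨x, hx, y, hy, hxy⟩ := h.nonab
  obtain ⟨k, a, ha, rfl⟩ := h.gen hz.1 hzA hx
  obtain ⟨l, b, hb, rfl⟩ := h.gen hz.1 hzA hy
  apply hxy
  have h1 : ∀ s ∈ S, ∀ j : ℤ, s * z ^ j = z ^ j * s := by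
    intro s hs j
    have h1 : Commute s z := hz.2 s hs
    exact h1.zpow_right j
  calc a * z ^ k * (b * z ^ l) = a * (z ^ k * b) * z ^ l := by group
    _ = a * (b * z ^ k) * z ^ l := by rw [h1 b (h.le hb)]
    _ = (a * b) * (z ^ k * z ^ l) := by group
    _ = (b * a) * (z ^ l * z ^ k) := by
      rw [h.comm a ha b hb, ← zpow_add, ← zpow_add, add_comm]
    _ = b * (a * z ^ l) * z ^ k := by group
    _ = b * (z ^ l * a) * z ^ k := by rw [h1 a (h.le ha)]
    _ = b * z ^ l * (a * z ^ k) := by group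

/-- `K ≤ S` not in `A`: `K ∩ A` has index `p` in `K`. -/
theorem relIndex_of_not_le [Finite S] {K : Subgroup Ω} (hK : K ≤ S) (hKA : ¬ K ≤ A) :
    A.relIndex K = p := by
  have h1 : A.relIndex K ∣ p := by
    rw [← h.idx]
    have hn : (A.subgroupOf S).Normal := ⟨fun a ha g => h.norm g g.2 a ha⟩
    have h2 : (A.subgroupOf S).relIndex (K.subgroupOf S) = A.relIndex K :=
      Subgroup.relIndex_subgroupOf hK
    rw [← h2]
    exact Subgroup.relIndex_dvd_index_of_normal _ _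
  rcases (Nat.dvd_prime hp.out).1 h1 with h2 | h2
  · exact absurd (Subgroup.relIndex_eq_one.1 h2) hKA
  · exact h2

theorem card_eq [Finite S] {K : Subgroup Ω} (hK : K ≤ S) (hKA : ¬ K ≤ A) :
    Nat.card K = Nat.card (K ⊓ A : Subgroup Ω) * p := by
  have h1 := h.relIndex_of_not_le hK hKA
  have h2 := Subgroup.card_mul_index (A.subgroupOf K)
  rw [← h2]
  have h4 : (A.subgroupOf K).index = p := h1
  have h3 : (K ⊓ A).subgroupOf K = A.subgroupOf K := Subgroup.inf_subgroupOf_left _ _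
  rw [h4, ← h3]
  congr 1
  exact (Nat.card_congr (Subgroup.subgroupOfEquivOfLe inf_le_left).toEquiv)

theorem pow_mem_Z [Finite S] {x : Ω} (hx : x ∈ S) (hxA : x ∉ A) : x ^ p ∈ ZZ S := by
  have hn : (A.subgroupOf S).Normal := ⟨fun a ha g => h.norm g g.2 a ha⟩
  have h1 : x ^ p ∈ A := by
    have h2 : (⟨x, hx⟩ : S) ^ (A.subgroupOf S).index ∈ A.subgroupOf S := Subgroup.pow_index_mem _ _
    have h3 : (A.subgroupOf S).index = p := h.idx
    rw [h3] at h2
    exact h2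
  exact h.mem_Z_of hx hxA h1 (by rw [← pow_succ, ← pow_succ'])

end Setup

end H57.IdxP
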