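import Cfsg.Agent.Lib.H57.IdxP

/-!
Essential subgroups over a `p`-group with a unique abelian subgroup of index `p`.
-/

set_option autoImplicit false
open scoped commutatorElement
open Cfsg Cfsg.FusionSystem H86.FusBasic H86.FusSat H86.FusAlperin H57.Ess H57.TvPair

namespace H57.IdxP

variable {Ω : Type*} [Group Ω]

/-- The second centre, in the ambient group. -/
abbrev ZTwo (S : Subgroup Ω) : Subgroup Ω := (Subgroup.upperCentralSeries ↥S 2).map S.subtype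

theorem mem_ZTwo {S : Subgroup Ω} {w : Ω} :
    w ∈ ZTwo S ↔ w ∈ S ∧ ∀ s ∈ S, w * s * w⁻¹ * s⁻¹ ∈ ZZ S := by
  constructor
  · rintro ⟨x, hx, rfl⟩
    refine ⟨x.2, fun s hs => ?_⟩
    have h1 := Subgroup.mem_upperCentralSeries_succ_iff.1 hx ⟨s, hs⟩
    rw [Subgroup.upperCentralSeries_one, Subgroup.mem_center_iff] at h1
    rw [mem_ZZ]
    refine ⟨(⁅x, ⟨s, hs⟩⁆ : S).2, fun t ht => ?_⟩
    exact congrArg Subtype.val (h1 ⟨t, ht⟩)
  · rintro ⟨hw, h⟩
    refine ⟨⟨w, hw⟩, ?_, rfl⟩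
    refine Subgroup.mem_upperCentralSeries_succ_iff.2 fun s => ?_
    rw [Subgroup.upperCentralSeries_one, Subgroup.mem_center_iff]
    intro t
    exact Subtype.ext ((mem_ZZ.1 (h s s.2)).2 t t.2)

variable {p : ℕ} [hp : Fact p.Prime] {S A : Subgroup Ω}

theorem ZZ_le_ZTwo : ZZ S ≤ ZTwo S := by
  intro z hz
  rw [mem_ZZ] at hz
  rw [mem_ZTwo]
  refine ⟨hz.1, fun s hs => ?_⟩
  rw [← hz.2 s hs]
  have : s * z * z⁻¹ * s⁻¹ = 1 := by group
  rw [this]; exact one_mem _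

theorem ZZ_le_of_essential {F : FusionSystem S} {P : Subgroup Ω} (hP : F.IsEssential p P) :
    ZZ S ≤ P := by
  intro z hz
  rw [mem_ZZ] at hz
  exact centralizerIn_le_of_essential hP (mem_centralizerIn.2 ⟨hz.1, fun y hy => hz.2 y (hP.1.1 hy)⟩)

namespace Setup

variable (h : Setup p S A)
include h

theorem eq_of_le [Finite S] {F : FusionSystem S} {P : Subgroup Ω} (hP : F.IsEssential p P)
    (hPA : P ≤ A) : P = A := by
  apply le_antisymm hPA
  intro a ha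
  exact centralizerIn_le_of_essential hP
    (mem_centralizerIn.2 ⟨h.le ha, fun y hy => h.comm y (hPA hy) a ha⟩)

/-- `P ∩ A` together with `x ∈ P ∖ A` generates `P`. -/
theorem eq_sup [Finite S] {P : Subgroup Ω} (hPS : P ≤ S) {x : Ω} (hx : x ∈ P) (hxA : x ∉ A) :
    P = (P ⊓ A) ⊔ Subgroup.zpowers x := by
  apply le_antisymm
  · intro s hs
    obtain ⟨k, a, ha, rfl⟩ := h.gen (hPS hx) hxA (hPS hs)
    refine mul_mem (Subgroup.mem_sup_left ⟨?_, ha⟩)
      (Subgroup.mem_sup_right (Subgroup.zpow_mem_zpowers x k))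
    have : a = (a * x ^ k) * (x ^ k)⁻¹ := by group
    rw [this]
    exact mul_mem hs (Subgroup.inv_mem _ (zpow_mem hx k))
  · refine sup_le inf_le_left ?_
    rw [Subgroup.zpowers_le]; exact hx

theorem abel_inf [Finite S] {F : FusionSystem S} {P : Subgroup Ω} (hP : F.IsEssential p P)
    (hcomm : ∀ a ∈ P, ∀ b ∈ P, a * b = b * a) {x : Ω} (hx : x ∈ P) (hxA : x ∉ A) :
    P ⊓ A = ZZ S := by
  apply le_antisymm
  · rintro y ⟨hy, hyA⟩
    exact h.mem_Z_of (hP.1.1 hx) hxA hyA (hcomm x hx y hy)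
  · exact le_inf (ZZ_le_of_essential hP) h.Z_le

theorem abel_card [Finite S] (hS : IsPGroup p S) {F : FusionSystem S} (hF : F.IsSaturated p)
    {P : Subgroup Ω} (hP : F.IsEssential p P)
    (hcomm : ∀ a ∈ P, ∀ b ∈ P, a * b = b * a) {x : Ω} (hx : x ∈ P) (hxA : x ∉ A) :
    Nat.card (autInducedBy S P) = p ∧ ∃ D : Plane P p, (∀ A, D.rho A ∈ F.autGroup P) ∧
        (∀ u, u ∈ autInducedBy S P ↔ ∃ t, u = D.rho (up t)) ∧
        ∀ v, ((D.π v).toAdd 1 = 0 ↔ (v : Ω) ∈ ZZ S) := by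
  refine plane_of_essential hS hF hP (fun a b => Subtype.ext (hcomm a a.2 b b.2))
    ((ZZ S).subgroupOf P) ?_ ?_
  · intro v hv g hg _
    have h1 := (mem_ZZ.1 (Subgroup.mem_subgroupOf.1 hv)).2 g hg
    rw [h1, mul_inv_cancel_right]
  · show (ZZ S).relIndex P = p
    rw [← h.abel_inf hP hcomm hx hxA, Subgroup.inf_relIndex_left]
    exact h.relIndex_of_not_le hP.1.1 fun hle => hxA (hle hx)

/-- In the nonabelian case the centre of `P` is `Z(S)`. -/
theorem center_eq [Finite S] {F : FusionSystem S} {P : Subgroup Ω} (hP : F.IsEssential p P)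
    (hnc : ¬ ∀ a ∈ P, ∀ b ∈ P, a * b = b * a) {x : Ω} (hx : x ∈ P) (hxA : x ∉ A) {y : Ω} :
    (y ∈ P ∧ ∀ s ∈ P, s * y = y * s) ↔ y ∈ ZZ S := by
  constructor
  · rintro ⟨hy, hc⟩
    by_cases hyA : y ∈ A
    · exact h.mem_Z_of (hP.1.1 hx) hxA hyA (hc x hx)
    · exfalso
      apply hnc
      -- `P = (P ∩ A)⟨y⟩` with `P ∩ A` abelian and `y` central in `P`
      intro a ha b hb
      obtain ⟨k, a', ha', rfl⟩ := h.gen (hP.1.1 hy) hyA (hP.1.1 ha)
      obtain ⟨l, b', hb', rfl⟩ := h.gen (hP.1.1 hy) hyA (hP.1.1 hb)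
      have ha'' : a' ∈ P := by
        have : a' = (a' * y ^ k) * (y ^ k)⁻¹ := by group
        rw [this]; exact mul_mem ha (inv_mem (zpow_mem hy k))
      have hb'' : b' ∈ P := by
        have : b' = (b' * y ^ l) * (y ^ l)⁻¹ := by group
        rw [this]; exact mul_mem hb (inv_mem (zpow_mem hy l))
      have h1 : ∀ s ∈ P, ∀ j : ℤ, s * y ^ j = y ^ j * s := by
        intro s hs j
        have h1 : Commute s y := hc s hs
        exact h1.zpow_right j
      calc a' * y ^ k * (b' * y ^ l) = a' * (y ^ k * b') * y ^ l := by group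
        _ = a' * (b' * y ^ k) * y ^ l := by rw [h1 b' hb'']
        _ = (a' * b') * (y ^ k * y ^ l) := by group
        _ = (b' * a') * (y ^ l * y ^ k) := by
          rw [h.comm a' ha' b' hb', ← zpow_add, ← zpow_add, add_comm]
        _ = b' * (a' * y ^ l) * y ^ k := by group
        _ = b' * (y ^ l * a') * y ^ k := by rw [h1 a' ha'']
        _ = b' * y ^ l * (a' * y ^ k) := by group
  · intro hy
    have h1 := mem_ZZ.1 hy
    exact ⟨ZZ_le_of_essential hP hy, fun s hs => h1.2 s (hP.1.1 hs)⟩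

/-- The nonabelian case. -/
theorem nonabel [Finite S] (hS : IsPGroup p S) {F : FusionSystem S} (hF : F.IsSaturated p)
    {P : Subgroup Ω} (hP : F.IsEssential p P)
    (hnc : ¬ ∀ a ∈ P, ∀ b ∈ P, a * b = b * a) {x : Ω} (hx : x ∈ P) (hxA : x ∉ A) :
    P ⊓ A = ZTwo S ∧ (ZZ S).relIndex (ZTwo S) = p := by
  have hfP : Finite P := finite_of_le hP.1.1
  have hPr := radical_of_essential hS hP
  have hlt := lt_of_essential hS hF hP
  have hcard := h.card_eq hP.1.1 (fun hle => hxA (hle hx))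
  -- `P ∩ A` is not invariant
  have h1 : ∃ α ∈ F.autGroup P, ∃ v : P, (v : Ω) ∈ A ∧ ((α v : P) : Ω) ∉ A := by
    by_contra hne
    push_neg at hne
    have hall : ∀ g ∈ S, g ∈ Subgroup.normalizer (P : Set Ω) → g ∈ A → g ∈ P := by
      intro g hg hgN hgA
      refine mem_of_chain hS hP.1 hPr (chain3 (A.subgroupOf P) ⊤) 2 (chain3_mono le_top) rfl rfl
        ?_ hg hgN ?_
      · intro i hi α hα v hv
        match i, hi with
        | 0, _ =>
          have h1 : v = 1 := hv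
          rw [h1, map_one]; exact one_mem _
        | 1, _ => exact hne α hα v hv
      · intro i hi v hv
        match i, hi with
        | 0, _ =>
          show v⁻¹ * conjAut P hgN v ∈ (⊥ : Subgroup P)
          rw [Subgroup.mem_bot]
          apply Subtype.ext
          show (v : Ω)⁻¹ * (g * v * g⁻¹) = 1
          have h2 : (v : Ω) ∈ A := hv
          rw [h.comm g hgA v h2]
          group
        | 1, _ =>
          show (v : Ω)⁻¹ * (g * v * g⁻¹) ∈ A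
          have h2 := h.norm (v : Ω)⁻¹ (inv_mem (hP.1.1 v.2)) g hgA
          have h3 : (v : Ω)⁻¹ * (g * v * g⁻¹) = ((v : Ω)⁻¹ * g * ((v : Ω)⁻¹)⁻¹) * g⁻¹ := by group
          rw [h3]
          exact mul_mem h2 (inv_mem hgA)
    obtain ⟨g, ⟨hgS, hgN⟩, hgP⟩ := SetLike.exists_of_lt (H86.FusCentric.lt_inf_normalizer hS hlt)
    apply hgP
    obtain ⟨k, a, ha, rfl⟩ := h.gen (hP.1.1 hx) hxA hgS
    have hxN : x ^ k ∈ Subgroup.normalizer (P : Set Ω) := Subgroup.le_normalizer (zpow_mem hx k)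
    refine mul_mem (hall a (h.le ha) ?_ ha) (zpow_mem hx k)
    have : a = (a * x ^ k) * (x ^ k)⁻¹ := by group
    rw [this]; exact mul_mem hgN (inv_mem hxN)
  obtain ⟨α, hα, v, hv, hαv⟩ := h1
  -- the image `B` of `P ∩ A`
  let P0 : Subgroup P := A.subgroupOf P
  let B0 : Subgroup P := P0.map α.toMonoidHom
  have hP0 : P0.index = p := h.relIndex_of_not_le hP.1.1 (fun hle => hxA (hle hx))
  have hB0 : B0.index = p := by rw [← hP0]; exact Subgroup.index_map_equiv P0 α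
  have hP0n : P0.Normal := ⟨fun n hn g => h.norm g (hP.1.1 g.2) n hn⟩
  have hB0n : B0.Normal := hP0n.map _ α.surjective
  have hBc : ∀ a ∈ B0, ∀ b ∈ B0, a * b = b * a := by
    rintro _ ⟨a, ha, rfl⟩ _ ⟨b, hb, rfl⟩
    rw [← map_mul, ← map_mul]
    congr 1
    exact Subtype.ext (h.comm a ha b hb)
  set y : P := α v with hy
  have hyB : y ∈ B0 := ⟨v, hv, rfl⟩
  have hyS : (y : Ω) ∈ S := hP.1.1 y.2
  -- `P0 ∩ B0 ≤ Z`
  have hint : ∀ b ∈ P0 ⊓ B0, (b : Ω) ∈ ZZ S := by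
    rintro b ⟨hb, hb'⟩
    exact h.mem_Z_of hyS hαv hb (congrArg Subtype.val (hBc y hyB b hb'))
  -- `P0 ≤ Z2`
  have hP0Z2 : ∀ a ∈ P0, (a : Ω) ∈ ZTwo S := by
    intro a ha
    rw [mem_ZTwo]
    refine ⟨hP.1.1 a.2, fun s hs => ?_⟩
    obtain ⟨k, b, hb, rfl⟩ := h.gen hyS hαv hs
    have h2 : a * y ^ k * a⁻¹ * (y ^ k)⁻¹ ∈ P0 ⊓ B0 := by
      refine ⟨?_, ?_⟩
      · have h3 := hP0n.conj_mem _ (inv_mem ha) (y ^ k)
        have h4 := mul_mem ha h3
        have : a * y ^ k * a⁻¹ * (y ^ k)⁻¹ = a * (y ^ k * a⁻¹ * (y ^ k)⁻¹) := by group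
        rw [this]; exact h4
      · have h3 := hB0n.conj_mem _ (zpow_mem hyB k) a
        exact mul_mem h3 (Subgroup.inv_mem _ (zpow_mem hyB k))
    have h3 := hint _ h2
    have h4 : (a : Ω) * (b * (y : Ω) ^ k) * (a : Ω)⁻¹ * (b * (y : Ω) ^ k)⁻¹ =
        b * (((a * y ^ k * a⁻¹ * (y ^ k)⁻¹ : P) : Ω)) * b⁻¹ := by
      have h5 : (a : Ω) * b = b * a := h.comm a ha b hb
      calc (a : Ω) * (b * (y : Ω) ^ k) * (a : Ω)⁻¹ * (b * (y : Ω) ^ k)⁻¹
          = ((a : Ω) * b) * (y : Ω) ^ k * (a : Ω)⁻¹ * ((y : Ω) ^ k)⁻¹ * b⁻¹ := by group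
        _ = (b * a) * (y : Ω) ^ k * (a : Ω)⁻¹ * ((y : Ω) ^ k)⁻¹ * b⁻¹ := by rw [h5]
        _ = _ := by push_cast; group
    rw [h4, (mem_ZZ.1 h3).2 b (h.le hb), mul_inv_cancel_right]
    exact h3
  -- `Z2 ≤ P`
  have hZ2P : ZTwo S ≤ P := by
    intro g hg
    rw [mem_ZTwo] at hg
    have hZP := ZZ_le_of_essential hP
    have hgN : g ∈ Subgroup.normalizer (P : Set Ω) := by
      rw [Subgroup.mem_normalizer_iff]
      intro s
      have h2 : ∀ s ∈ P, g * s * g⁻¹ ∈ P := by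
        intro s hs
        have h3 := hZP (hg.2 s (hP.1.1 hs))
        have := mul_mem h3 hs
        have h4 : g * s * g⁻¹ * s⁻¹ * s = g * s * g⁻¹ := by group
        rwa [h4] at this
      refine ⟨h2 s, fun hs => ?_⟩
      have h3 : (ZTwo S) ≤ S := Subgroup.map_subtype_le _
      -- use the inverse of `g`
      have hg' : g⁻¹ ∈ ZTwo S := inv_mem (mem_ZTwo.2 hg)
      rw [mem_ZTwo] at hg'
      have h4 := hZP (hg'.2 _ (hP.1.1 hs))
      have h5 := mul_mem h4 hs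
      have h6 : g⁻¹ * (g * s * g⁻¹) * g⁻¹⁻¹ * (g * s * g⁻¹)⁻¹ * (g * s * g⁻¹) = s := by group
      rwa [h6] at h5
    refine mem_of_chain hS hP.1 hPr (chain3 ((ZZ S).subgroupOf P) ⊤) 2 (chain3_mono le_top) rfl rfl
      ?_ hg.1 hgN ?_
    · intro i hi β hβ w hw
      match i, hi with
      | 0, _ =>
        have h1 : w = 1 := hw
        rw [h1, map_one]; exact one_mem _
      | 1, _ =>
        have h2 := (h.center_eq hP hnc hx hxA).2 (Subgroup.mem_subgroupOf.1 hw)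
        refine (h.center_eq hP hnc hx hxA).1 ⟨(β w).2, fun s hs => ?_⟩
        have h3 := h2.2 (β⁻¹ ⟨s, hs⟩ : P) (β⁻¹ ⟨s, hs⟩ : P).2
        have h4 : β⁻¹ ⟨s, hs⟩ * w = w * β⁻¹ ⟨s, hs⟩ := Subtype.ext h3
        have h5 := congrArg β h4
        rw [map_mul, map_mul, MulAut.apply_inv_self] at h5
        exact congrArg Subtype.val h5
    · intro i hi w hw
      match i, hi with
      | 0, _ =>
        show w⁻¹ * conjAut P hgN w ∈ (⊥ : Subgroup P)
        rw [Subgroup.mem_bot]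
        apply Subtype.ext
        show (w : Ω)⁻¹ * (g * w * g⁻¹) = 1
        have h2 : (w : Ω) ∈ ZZ S := hw
        rw [(mem_ZZ.1 h2).2 g hg.1]
        group
      | 1, _ =>
        show (w : Ω)⁻¹ * (g * w * g⁻¹) ∈ ZZ S
        have h2 := hg.2 w (hP.1.1 w.2)
        have h3 := (mem_ZZ.1 h2).2 (w : Ω)⁻¹ (inv_mem (hP.1.1 w.2))
        have h4 : (w : Ω)⁻¹ * (g * w * g⁻¹) = ((w : Ω)⁻¹ * (g * w * g⁻¹ * (w : Ω)⁻¹)) * w := by group
        rw [h4, h3]
        have h5 : g * (w : Ω) * g⁻¹ * (w : Ω)⁻¹ * (w : Ω)⁻¹ * w = g * w * g⁻¹ * (w : Ω)⁻¹ := by group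
        rw [h5]; exact h2
  -- `Z2 ≤ A`
  have hZ2A : ZTwo S ≤ A := by
    intro w hw
    by_contra hwA
    have hw' := mem_ZTwo.1 hw
    have hAZ : A ≤ ZTwo S := by
      intro a ha
      rw [mem_ZTwo]
      refine ⟨h.le ha, fun s hs => ?_⟩
      obtain ⟨k, b, hb, rfl⟩ := h.gen hw'.1 hwA hs
      have hwk := mem_ZTwo.1 (zpow_mem hw k)
      have h2 := hwk.2 a (h.le ha)
      have h3 : a * (b * w ^ k) * a⁻¹ * (b * w ^ k)⁻¹ =
          b * (w ^ k * a * (w ^ k)⁻¹ * a⁻¹)⁻¹ * b⁻¹ := by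
        have h5 : a * b = b * a := h.comm a ha b hb
        calc a * (b * w ^ k) * a⁻¹ * (b * w ^ k)⁻¹ = (a * b) * w ^ k * a⁻¹ * (w ^ k)⁻¹ * b⁻¹ := by group
          _ = _ := by rw [h5]; group
      have h6 := (mem_ZZ.1 (inv_mem h2)).2 b (h.le hb)
      rw [h3, h6, mul_inv_cancel_right]
      exact inv_mem h2
    apply hlt.not_ge
    intro s hs
    obtain ⟨k, b, hb, rfl⟩ := h.gen hw'.1 hwA hs
    exact mul_mem (hZ2P (hAZ hb)) (zpow_mem (hZ2P hw) k)
  have heq : P ⊓ A = ZTwo S := by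
    apply le_antisymm
    · rintro a ⟨ha, haA⟩
      exact hP0Z2 ⟨a, ha⟩ haA
    · exact le_inf hZ2P hZ2A
  refine ⟨heq, ?_⟩
  -- index
  have h2 : (ZZ S).relIndex (ZTwo S) ∣ p ∨ True := Or.inr trivial
  have hZle : ZZ S ≤ P := ZZ_le_of_essential hP
  have h3 : P0 ⊓ B0 = (ZZ S).subgroupOf P := by
    apply le_antisymm
    · intro b hb
      exact hint b hb
    · intro b hb
      have hb' : (b : Ω) ∈ ZZ S := hb
      refine ⟨h.Z_le hb', ?_⟩
      -- `b` is central in `P`, so is its preimage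
      have h4 := (h.center_eq hP hnc hx hxA).2 hb'
      refine ⟨α⁻¹ b, ?_, MulAut.apply_inv_self _ _ _⟩
      have h5 : ((α⁻¹ b : P) : Ω) ∈ ZZ S := by
        refine (h.center_eq hP hnc hx hxA).1 ⟨(α⁻¹ b).2, fun s hs => ?_⟩
        have h6 := h4.2 (α ⟨s, hs⟩ : P) (α ⟨s, hs⟩ : P).2
        have h7 : α ⟨s, hs⟩ * b = b * α ⟨s, hs⟩ := Subtype.ext h6
        have h8 := congrArg (α⁻¹ : MulAut P) h7
        rw [map_mul, map_mul, MulAut.inv_apply_self] at h8
        exact congrArg Subtype.val h8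
      exact h.Z_le h5
  have h4 : (P0 ⊓ B0).relIndex P0 ∣ p := by
    rw [Subgroup.inf_relIndex_left, ← hB0]
    exact Subgroup.relIndex_dvd_index_of_normal B0 P0
  have h5 : (ZZ S).relIndex (ZTwo S) = ((ZZ S).subgroupOf P).relIndex P0 := by
    have h6 : P0 = (ZTwo S).subgroupOf P := by
      rw [← heq]
      exact (Subgroup.inf_subgroupOf_left _ _).symm
    rw [h6, Subgroup.relIndex_subgroupOf hZ2P]
  rw [h5, ← h3]
  rcases (Nat.dvd_prime hp.out).1 h4 with h6 | h6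
  · exfalso
    rw [h3, ← h5] at h6
    have h7 : ZTwo S ≤ ZZ S := Subgroup.relIndex_eq_one.1 h6
    apply hnc
    have h8 := h.eq_sup hP.1.1 hx hxA
    intro a ha b hb
    obtain ⟨k, a', ha', rfl⟩ := h.gen (hP.1.1 hx) hxA (hP.1.1 ha)
    obtain ⟨l, b', hb', rfl⟩ := h.gen (hP.1.1 hx) hxA (hP.1.1 hb)
    have hz : ∀ c ∈ A, ∀ j : ℤ, c * x ^ j ∈ P → c ∈ ZZ S := by
      intro c hc j hcj
      apply h7
      rw [← heq]
      refine ⟨?_, hc⟩
      have : c = (c * x ^ j) * (x ^ j)⁻¹ := by group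
      rw [this]; exact mul_mem hcj (Subgroup.inv_mem _ (zpow_mem hx j))
    have h9 := (mem_ZZ.1 (hz a' ha' k ha)).2
    have h10 := (mem_ZZ.1 (hz b' hb' l hb)).2
    have hxS : ∀ j : ℤ, x ^ j ∈ S := fun j => zpow_mem (hP.1.1 hx) j
    calc a' * x ^ k * (b' * x ^ l) = a' * (x ^ k * b') * x ^ l := by group
      _ = a' * (b' * x ^ k) * x ^ l := by rw [h10 _ (hxS k)]
      _ = (a' * b') * (x ^ k * x ^ l) := by group
      _ = (b' * a') * (x ^ l * x ^ k) := by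
        rw [h.comm a' ha' b' hb', ← zpow_add, ← zpow_add, add_comm]
      _ = b' * (a' * x ^ l) * x ^ k := by group
      _ = b' * (x ^ l * a') * x ^ k := by rw [h9 _ (hxS l)]
      _ = b' * x ^ l * (a' * x ^ k) := by group
  · exact h6

end Setup

end H57.IdxP
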