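import Cfsg.Agent.Lib.H57.IdxP2

/-!
The commutator map `a ↦ [a, x]` on the abelian subgroup of index `p`; the structure of `S`.
-/

set_option autoImplicit false
open scoped commutatorElement
open Cfsg Cfsg.FusionSystem H86.FusBasic H86.FusSat H86.FusAlperin H57.Ess H57.TvPair

namespace H57.IdxP

variable {Ω : Type*} [Group Ω] {p : ℕ} [hp : Fact p.Prime] {S A : Subgroup Ω}

namespace Setup

variable (h : Setup p S A)

/-- `a ↦ [a, x]`. -/
def del [Finite S] {x : Ω} (hx : x ∈ S) : A →* A where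
  toFun a := ⟨(a : Ω) * (x * (a : Ω)⁻¹ * x⁻¹), mul_mem a.2 (h.norm x hx _ (Subgroup.inv_mem _ a.2))⟩
  map_one' := by apply Subtype.ext; simp
  map_mul' a b := by
    apply Subtype.ext
    show (a : Ω) * b * (x * ((a : Ω) * b)⁻¹ * x⁻¹) = (a : Ω) * (x * (a : Ω)⁻¹ * x⁻¹) * (b * (x * (b : Ω)⁻¹ * x⁻¹))
    have h1 := h.norm x hx _ (Subgroup.inv_mem _ a.2)
    have h2 := h.norm x hx _ (Subgroup.inv_mem _ b.2)
    have h3 := h.comm _ h1 _ b.2
    have h4 := h.comm _ h1 _ h2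
    calc (a : Ω) * b * (x * ((a : Ω) * b)⁻¹ * x⁻¹)
        = a * b * ((x * (b : Ω)⁻¹ * x⁻¹) * (x * (a : Ω)⁻¹ * x⁻¹)) := by group
      _ = a * b * ((x * (a : Ω)⁻¹ * x⁻¹) * (x * (b : Ω)⁻¹ * x⁻¹)) := by rw [h4]
      _ = a * (b * (x * (a : Ω)⁻¹ * x⁻¹)) * (x * (b : Ω)⁻¹ * x⁻¹) := by group
      _ = a * ((x * (a : Ω)⁻¹ * x⁻¹) * b) * (x * (b : Ω)⁻¹ * x⁻¹) := by rw [h3]
      _ = _ := by group

theorem del_coe [Finite S] {x : Ω} (hx : x ∈ S) (a : A) :
    ((h.del hx a : A) : Ω) = a * x * (a : Ω)⁻¹ * x⁻¹ := by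
  show (a : Ω) * (x * (a : Ω)⁻¹ * x⁻¹) = _
  group

theorem del_eq_one_iff [Finite S] {x : Ω} (hx : x ∈ S) (hxA : x ∉ A) (a : A) :
    h.del hx a = 1 ↔ (a : Ω) ∈ ZZ S := by
  constructor
  · intro h1
    have h2 : (a : Ω) * x * (a : Ω)⁻¹ * x⁻¹ = 1 := by
      rw [← h.del_coe hx a, h1]; rfl
    refine h.mem_Z_of hx hxA a.2 ?_
    calc x * (a : Ω) = (a * x * (a : Ω)⁻¹ * x⁻¹) * (x * a) := by rw [h2, one_mul]
      _ = a * x := by group
  · intro h1
    apply Subtype.ext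
    rw [h.del_coe hx a, ← (mem_ZZ.1 h1).2 x hx]
    show x * (a : Ω) * (a : Ω)⁻¹ * x⁻¹ = 1
    group

theorem ker_del [Finite S] {x : Ω} (hx : x ∈ S) (hxA : x ∉ A) :
    (h.del hx).ker = (ZZ S).subgroupOf A := by
  ext a
  rw [MonoidHom.mem_ker, h.del_eq_one_iff hx hxA, Subgroup.mem_subgroupOf]

theorem del_mem_Z_iff [Finite S] {x : Ω} (hx : x ∈ S) (hxA : x ∉ A) (a : A) :
    ((h.del hx a : A) : Ω) ∈ ZZ S ↔ (a : Ω) ∈ ZTwo S := by
  rw [h.del_coe hx a]
  constructor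
  · intro h1
    rw [mem_ZTwo]
    refine ⟨h.le a.2, fun s hs => ?_⟩
    obtain ⟨k, b, hb, rfl⟩ := h.gen hx hxA hs
    set z := (a : Ω) * x * (a : Ω)⁻¹ * x⁻¹ with hz
    have h2 : (a : Ω) * x * (a : Ω)⁻¹ = z * x := by rw [hz]; group
    have h3 : (a : Ω) * x ^ k * (a : Ω)⁻¹ = z ^ k * x ^ k := by
      have hc : Commute z x := ((mem_ZZ.1 h1).2 x hx).symm
      rw [← hc.mul_zpow, ← h2, conj_zpow]
    have h4 : (a : Ω) * (b * x ^ k) * (a : Ω)⁻¹ * (b * x ^ k)⁻¹ = b * z ^ k * b⁻¹ := by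
      have h5 : (a : Ω) * b = b * a := h.comm a a.2 b hb
      calc (a : Ω) * (b * x ^ k) * (a : Ω)⁻¹ * (b * x ^ k)⁻¹
          = ((a : Ω) * b) * x ^ k * (a : Ω)⁻¹ * (x ^ k)⁻¹ * b⁻¹ := by group
        _ = b * (a * x ^ k * (a : Ω)⁻¹) * (x ^ k)⁻¹ * b⁻¹ := by rw [h5]; group
        _ = _ := by rw [h3]; group
    have h6 := zpow_mem h1 k
    rw [h4, (mem_ZZ.1 h6).2 b (h.le hb), mul_inv_cancel_right]
    exact h6
  · intro h1
    exact (mem_ZTwo.1 h1).2 x hx

include h in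
theorem finA [Finite S] : Finite A := finite_of_le h.le

/-- Cardinality of the image under `del`. -/
theorem card_map_del [Finite S] {x : Ω} (hx : x ∈ S) (hxA : x ∉ A) (K : Subgroup A) :
    Nat.card (K.map (h.del hx)) * Nat.card (K ⊓ (ZZ S).subgroupOf A : Subgroup A) = Nat.card K := by
  have hf := h.finA
  rw [← Subgroup.relIndex_ker, h.ker_del hx hxA]
  have h1 := Subgroup.card_mul_index (((ZZ S).subgroupOf A).subgroupOf K)
  rw [mul_comm, ← h1]
  congr 1
  have h3 : (K ⊓ (ZZ S).subgroupOf A).subgroupOf K = ((ZZ S).subgroupOf A).subgroupOf K :=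
    Subgroup.inf_subgroupOf_left _ _
  rw [← h3]
  exact (Nat.card_congr (Subgroup.subgroupOfEquivOfLe inf_le_left).toEquiv).symm

/-- The range of `del` is the commutator subgroup. -/
theorem commutator_eq [Finite S] {x : Ω} (hx : x ∈ S) (hxA : x ∉ A) :
    (commutator ↥S).map S.subtype = (h.del hx).range.map A.subtype := by
  apply le_antisymm
  · let R : Subgroup S := ((h.del hx).range.map A.subtype).subgroupOf S
    have hmem : ∀ a ∈ A, ∀ (ha : a ∈ A), a * x * a⁻¹ * x⁻¹ ∈ (h.del hx).range.map A.subtype := by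
      intro a _ ha
      exact ⟨h.del hx ⟨a, ha⟩, ⟨_, rfl⟩, h.del_coe hx ⟨a, ha⟩⟩
    have hconjx : ∀ r ∈ (h.del hx).range.map A.subtype, x * r * x⁻¹ ∈ (h.del hx).range.map A.subtype := by
      rintro _ ⟨_, ⟨a, rfl⟩, rfl⟩
      refine ⟨h.del hx ⟨x * a * x⁻¹, h.norm x hx a a.2⟩, ⟨_, rfl⟩, ?_⟩
      show ((h.del hx ⟨x * a * x⁻¹, h.norm x hx a a.2⟩ : A) : Ω) = x * ((h.del hx a : A) : Ω) * x⁻¹
      rw [h.del_coe, h.del_coe]
      group
    have hfR : Finite ((h.del hx).range.map A.subtype : Subgroup Ω) := by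
      have := h.finA
      exact finite_of_le (Subgroup.map_subtype_le _)
    have hxN : x ∈ Subgroup.normalizer (((h.del hx).range.map A.subtype : Subgroup Ω) : Set Ω) := by
      rw [Subgroup.mem_normalizer_iff_map_conj_eq]
      apply Subgroup.eq_of_le_of_card_ge
      · rintro _ ⟨r, hr, rfl⟩
        exact hconjx r hr
      · exact (Subgroup.card_map_of_injective (MulAut.conj x).injective).ge
    have hRn : R.Normal := by
      rw [Subgroup.normal_subgroupOf_iff_le_normalizer ((Subgroup.map_subtype_le _).trans h.le)]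
      intro s hs
      obtain ⟨k, b, hb, rfl⟩ := h.gen hx hxA hs
      refine mul_mem ?_ (zpow_mem hxN k)
      rw [Subgroup.mem_normalizer_iff]
      intro r
      have hcon : ∀ b ∈ A, ∀ r ∈ (h.del hx).range.map A.subtype, b * r * b⁻¹ = r := by
        intro b hb r hr
        rw [h.comm b hb r (Subgroup.map_subtype_le _ hr), mul_inv_cancel_right]
      constructor
      · intro hr
        rw [hcon b hb r hr]; exact hr
      · intro hr
        have h1 := hcon b⁻¹ (Subgroup.inv_mem _ hb) _ hr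
        have h2 : b⁻¹ * (b * r * b⁻¹) * b⁻¹⁻¹ = r := by group
        rw [h2] at h1
        rw [h1]; exact hr
    have hQ : ∀ s t : S ⧸ R, s * t = t * s := by
      intro s t
      obtain ⟨s, rfl⟩ := QuotientGroup.mk'_surjective R s
      obtain ⟨t, rfl⟩ := QuotientGroup.mk'_surjective R t
      obtain ⟨k, a, ha, hs⟩ := h.gen hx hxA s.2
      obtain ⟨l, b, hb, ht⟩ := h.gen hx hxA t.2
      let ξ : S := ⟨x, hx⟩
      have hs' : s = ⟨a, h.le ha⟩ * ξ ^ k := Subtype.ext hs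
      have ht' : t = ⟨b, h.le hb⟩ * ξ ^ l := Subtype.ext ht
      have hcx : ∀ c (hc : c ∈ A), Commute (QuotientGroup.mk' R ⟨c, h.le hc⟩) (QuotientGroup.mk' R ξ) := by
        intro c hc
        show _ * _ = _ * _
        rw [← map_mul, ← map_mul]
        apply QuotientGroup.eq.2
        have h1 : (⟨c, h.le hc⟩ * ξ : S)⁻¹ * (ξ * ⟨c, h.le hc⟩) ∈ R := by
          have h2 := hmem c⁻¹ (Subgroup.inv_mem _ hc) (Subgroup.inv_mem _ hc)
          show (c * x)⁻¹ * (x * c) ∈ (h.del hx).range.map A.subtype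
          have h3 := Subgroup.mem_normalizer_iff.1 (Subgroup.inv_mem _ hxN) _ |>.1 h2
          have h4 : x⁻¹ * (c⁻¹ * x * c⁻¹⁻¹ * x⁻¹) * x⁻¹⁻¹ = (c * x)⁻¹ * (x * c) := by group
          rwa [h4] at h3
        exact h1
      have hcab : Commute (QuotientGroup.mk' R ⟨a, h.le ha⟩) (QuotientGroup.mk' R ⟨b, h.le hb⟩) := by
        show _ * _ = _ * _
        rw [← map_mul, ← map_mul]
        congr 1
        exact Subtype.ext (h.comm a ha b hb)
      rw [hs', ht', map_mul, map_mul, map_zpow, map_zpow]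
      have e1 : Commute (QuotientGroup.mk' R ⟨a, h.le ha⟩) (QuotientGroup.mk' R ⟨b, h.le hb⟩ * (QuotientGroup.mk' R ξ) ^ l) :=
        hcab.mul_right ((hcx a ha).zpow_right l)
      have e2 : Commute ((QuotientGroup.mk' R ξ) ^ k) (QuotientGroup.mk' R ⟨b, h.le hb⟩ * (QuotientGroup.mk' R ξ) ^ l) :=
        Commute.mul_right ((hcx b hb).symm.zpow_left k) ((Commute.refl _).zpow_zpow k l)
      exact (Commute.mul_left e1 e2).eq
    have h1 : commutator ↥S ≤ R := by
      rw [commutator_def, Subgroup.commutator_le]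
      intro s _ t _
      have h2 := hQ (QuotientGroup.mk' R s) (QuotientGroup.mk' R t)
      rw [← QuotientGroup.eq_one_iff]
      have h3 : (QuotientGroup.mk' R) ⁅s, t⁆ = 1 := by
        rw [map_commutatorElement, commutatorElement_eq_one_iff_mul_comm]
        exact h2
      exact h3
    refine (Subgroup.map_mono h1).trans ?_
    rw [Subgroup.subgroupOf_map_subtype]
    exact inf_le_left
  · rintro _ ⟨_, ⟨a, rfl⟩, rfl⟩
    refine ⟨⁅(⟨a, h.le a.2⟩ : S), ⟨x, hx⟩⁆, ?_, ?_⟩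
    · rw [commutator_def]
      exact Subgroup.commutator_mem_commutator (Subgroup.mem_top _) (Subgroup.mem_top _)
    · rw [commutatorElement_def]
      exact (h.del_coe hx a).symm

end Setup

end H57.IdxP
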