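import Cfsg.Agent.Lib.H57.IdxP3

/-!
Structure of `p`-groups with a unique abelian subgroup `A` of index `p` having an essential subgroup other than `A`.
-/

set_option autoImplicit false
open scoped commutatorElement
open Cfsg Cfsg.FusionSystem H86.FusBasic H86.FusSat H86.FusAlperin H57.Ess H57.TvPair

namespace H57.IdxP

variable {Ω : Type*} [Group Ω] {p : ℕ} [hp : Fact p.Prime] {S A : Subgroup Ω}

theorem card_subgroupOf {H K : Subgroup Ω} (h : H ≤ K) : Nat.card (H.subgroupOf K) = Nat.card H :=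
  Nat.card_congr (Subgroup.subgroupOfEquivOfLe h).toEquiv

theorem card_mul_relIndex' {H K : Subgroup Ω} (h : H ≤ K) :
    Nat.card H * H.relIndex K = Nat.card K := by
  rw [← card_subgroupOf h]
  exact Subgroup.card_mul_index _

theorem relIndex_eq_p {P N : Subgroup Ω} [Finite N] (hN : IsPGroup p N) (hlt : P < N)
    (hc : Nat.card N ≤ p * Nat.card P) : P.relIndex N = p := by
  have h1 := card_mul_relIndex' hlt.le
  have hfP : Finite P := finite_of_le hlt.le
  have hpos : 0 < Nat.card P := Nat.card_pos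
  obtain ⟨k, hk⟩ : ∃ k, P.relIndex N = p ^ k := by
    obtain ⟨n, hn⟩ := IsPGroup.iff_card.1 hN
    have h2 : P.relIndex N ∣ p ^ n := by rw [← hn, ← h1]; exact Dvd.intro_left _ rfl
    obtain ⟨k, -, hk⟩ := (Nat.dvd_prime_pow hp.out).1 h2
    exact ⟨k, hk⟩
  have h3 : k ≠ 0 := by
    rintro rfl
    rw [pow_zero] at hk
    exact hlt.not_ge (Subgroup.relIndex_eq_one.1 hk)
  have h4 : p ^ k ≤ p ^ 1 := by
    rw [pow_one, ← hk]
    rw [← h1, mul_comm p] at hc
    exact Nat.le_of_mul_le_mul_left hc hpos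
  have h5 := (Nat.pow_le_pow_iff_right hp.out.one_lt).1 h4
  have h6 : k = 1 := by omega
  rw [hk, h6, pow_one]

namespace Setup

variable (h : Setup p S A)
include h

/-- `δ(Z₂ ∩ A)` has order `|Z₂ ∩ A : Z|`. -/
theorem card_del_Z2 [Finite S] {x : Ω} (hx : x ∈ S) (hxA : x ∉ A) :
    Nat.card (((ZTwo S).subgroupOf A).map (h.del hx)) * Nat.card (ZZ S) =
      Nat.card (ZTwo S ⊓ A : Subgroup Ω) := by
  have h1 := h.card_map_del hx hxA ((ZTwo S).subgroupOf A)
  have h2 : (ZTwo S).subgroupOf A ⊓ (ZZ S).subgroupOf A = (ZZ S).subgroupOf A :=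
    inf_eq_right.2 (Subgroup.comap_mono ZZ_le_ZTwo)
  rw [h2, card_subgroupOf h.Z_le] at h1
  rw [h1, ← Subgroup.inf_subgroupOf_right]
  exact card_subgroupOf inf_le_right

/-- The index of a nonabelian essential subgroup in its normalizer. -/
theorem nonabel_index [Finite S] (hS : IsPGroup p S) {F : FusionSystem S} (hF : F.IsSaturated p)
    {P : Subgroup Ω} (hP : F.IsEssential p P)
    (hnc : ¬ ∀ a ∈ P, ∀ b ∈ P, a * b = b * a) {x : Ω} (hx : x ∈ P) (hxA : x ∉ A) :
    P.relIndex (normalizerIn S P) = p := by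
  obtain ⟨heq, hidx⟩ := h.nonabel hS hF hP hnc hx hxA
  have hlt := lt_of_essential hS hF hP
  have hxS := hP.1.1 hx
  have hfA := h.finA
  have hfN : Finite (normalizerIn S P) := finite_of_le (normalizerIn_le S P)
  refine relIndex_eq_p (hS.to_le (normalizerIn_le S P)) (H86.FusCentric.lt_inf_normalizer hS hlt) ?_
  have hZ2A : ZTwo S ≤ A := heq ▸ inf_le_right
  have hZcard : Nat.card (ZZ S) * p = Nat.card (ZTwo S) := by
    rw [← hidx]; exact card_mul_relIndex' ZZ_le_ZTwo
  let Kn : Subgroup A := (normalizerIn S P).subgroupOf A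
  let ZA : Subgroup A := (ZZ S).subgroupOf A
  let Z2A : Subgroup A := (ZTwo S).subgroupOf A
  have h1 := h.card_map_del hxS hxA Kn
  have hfZ : Finite (ZZ S) := finite_of_le inf_le_left
  have h2 : Nat.card (Kn ⊓ ZA : Subgroup A) ≤ Nat.card (ZZ S) := by
    rw [← card_subgroupOf h.Z_le]
    exact Subgroup.card_le_of_le inf_le_right
  -- the image
  let L := Kn.map (h.del hxS)
  have hL : L ≤ Z2A := by
    rintro _ ⟨a, ha, rfl⟩
    show ((h.del hxS a : A) : Ω) ∈ ZTwo S
    rw [← heq]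
    refine ⟨?_, (h.del hxS a).2⟩
    rw [h.del_coe]
    have h3 : (a : Ω) ∈ normalizerIn S P := ha
    rw [mem_normalizerIn] at h3
    exact mul_mem ((h3.2 x).1 hx) (Subgroup.inv_mem _ hx)
  have hLZ : L ⊓ ZA ≤ Z2A.map (h.del hxS) := by
    rintro _ ⟨⟨a, ha, rfl⟩, hz⟩
    exact ⟨a, (h.del_mem_Z_iff hxS hxA a).1 hz, rfl⟩
  have h3 : Nat.card (Z2A.map (h.del hxS)) = p := by
    have h4 := h.card_del_Z2 hxS hxA
    rw [inf_eq_left.2 hZ2A, ← hZcard, mul_comm] at h4
    exact Nat.eq_of_mul_eq_mul_left Nat.card_pos h4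
  have h5 : Nat.card L ≤ p * p := by
    have h6 := Subgroup.card_mul_index (ZA.subgroupOf L)
    have h7 : Nat.card (ZA.subgroupOf L) ≤ p := by
      have h8 : (L ⊓ ZA).subgroupOf L = ZA.subgroupOf L := Subgroup.inf_subgroupOf_left _ _
      rw [← h8, Nat.card_congr (Subgroup.subgroupOfEquivOfLe (inf_le_left : L ⊓ ZA ≤ L)).toEquiv, ← h3]
      exact Subgroup.card_le_of_le hLZ
    have h9 : (ZA.subgroupOf L).index ≤ p := by
      have h10 : ZA.relIndex L ∣ ZA.relIndex Z2A := by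
        have hn : (ZA.subgroupOf Z2A).Normal := ⟨fun n hn g => by
          have : g * n * g⁻¹ = n := by
            apply Subtype.ext; apply Subtype.ext
            have h11 := h.comm _ (g : A).2 _ (n : A).2
            show ((g : A) : Ω) * ((n : A) : Ω) * (((g : A) : Ω))⁻¹ = ((n : A) : Ω)
            rw [h11, mul_inv_cancel_right]
          rw [this]; exact hn⟩
        rw [← Subgroup.relIndex_subgroupOf hL]
        exact Subgroup.relIndex_dvd_index_of_normal _ _
      have h11 : ZA.relIndex Z2A = p := by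
        rw [← hidx]; exact Subgroup.relIndex_subgroupOf hZ2A
      rw [h11] at h10
      exact Nat.le_of_dvd hp.out.pos h10
    rw [← h6]
    exact Nat.mul_le_mul h7 h9
  have h12 : Nat.card (normalizerIn S P ⊓ A : Subgroup Ω) = Nat.card Kn := by
    rw [← card_subgroupOf (inf_le_right : normalizerIn S P ⊓ A ≤ A), Subgroup.inf_subgroupOf_right]
  have h13 := h.card_eq (normalizerIn_le S P) (fun hle => hxA (hle (le_normalizerIn hP.1.1 hx)))
  have h14 := h.card_eq hP.1.1 (fun hle => hxA (hle hx))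
  rw [heq, ← hZcard] at h14
  rw [h13, h14, h12, ← h1]
  calc Nat.card (Kn.map (h.del hxS)) * Nat.card (Kn ⊓ ZA : Subgroup A) * p
      ≤ (p * p) * Nat.card (ZZ S) * p := by gcongr
    _ = p * (Nat.card (ZZ S) * p * p) := by ring

/-- Description of all essential subgroups (S5254). -/
theorem cases [Finite S] (hS : IsPGroup p S) {F : FusionSystem S} (hF : F.IsSaturated p)
    {P : Subgroup Ω} (hP : F.IsEssential p P) :
    (P = A ∨ (∃ x ∈ S, x ∉ A ∧ P = ZZ S ⊔ Subgroup.zpowers x) ∨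
      (ZTwo S ≤ A ∧ ∃ x ∈ S, x ∉ A ∧ P = ZTwo S ⊔ Subgroup.zpowers x)) ∧
      P.relIndex (normalizerIn S P) = p := by
  by_cases hPA : P ≤ A
  · have h1 := h.eq_of_le hP hPA
    refine ⟨Or.inl h1, ?_⟩
    rw [h1]
    have h2 : normalizerIn S A = S := by
      apply le_antisymm (normalizerIn_le S A)
      intro s hs
      rw [mem_normalizerIn]
      refine ⟨hs, fun a => ⟨h.norm s hs a, fun ha => ?_⟩⟩
      have h3 := h.norm s⁻¹ (Subgroup.inv_mem _ hs) _ ha
      have h4 : s⁻¹ * (s * a * s⁻¹) * s⁻¹⁻¹ = a := by group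
      rwa [h4] at h3
    rw [h2]
    exact h.idx
  · obtain ⟨x, hx, hxA⟩ := SetLike.not_le_iff_exists.1 hPA
    have hxS := hP.1.1 hx
    by_cases hc : ∀ a ∈ P, ∀ b ∈ P, a * b = b * a
    · refine ⟨Or.inr (Or.inl ⟨x, hxS, hxA, ?_⟩), ?_⟩
      · rw [← h.abel_inf hP hc hx hxA]
        exact h.eq_sup hP.1.1 hx hxA
      · obtain ⟨h1, -⟩ := h.abel_card hS hF hP hc hx hxA
        exact index_normalizer_of_card hP (fun a b => Subtype.ext (hc a a.2 b b.2)) h1
    · obtain ⟨h1, -⟩ := h.nonabel hS hF hP hc hx hxA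
      refine ⟨Or.inr (Or.inr ⟨h1 ▸ inf_le_right, x, hxS, hxA, ?_⟩), h.nonabel_index hS hF hP hc hx hxA⟩
      rw [← h1]
      exact h.eq_sup hP.1.1 hx hxA

/-- The key structural fact. -/
theorem key [Finite S] (hS : IsPGroup p S) {F : FusionSystem S} (hF : F.IsSaturated p)
    {P : Subgroup Ω} (hP : F.IsEssential p P) (hne : P ≠ A) :
    ZTwo S ≤ A ∧ (ZZ S).relIndex (ZTwo S) = p := by
  have hPA : ¬ P ≤ A := fun hle => hne (h.eq_of_le hP hle)
  obtain ⟨x, hx, hxA⟩ := SetLike.not_le_iff_exists.1 hPA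
  have hxS := hP.1.1 hx
  have hfA := h.finA
  by_cases hc : ∀ a ∈ P, ∀ b ∈ P, a * b = b * a
  · have hinf := h.abel_inf hP hc hx hxA
    obtain ⟨h1, -⟩ := h.abel_card hS hF hP hc hx hxA
    have h2 : P.relIndex (normalizerIn S P) = p :=
      index_normalizer_of_card hP (fun a b => Subtype.ext (hc a a.2 b b.2)) h1
    have hNA : normalizerIn S P ⊓ A = ZTwo S ⊓ A := by
      apply le_antisymm
      · rintro a ⟨ha, haA⟩
        refine ⟨?_, haA⟩
        have h3 := (h.del_mem_Z_iff hxS hxA ⟨a, haA⟩).1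
        apply h3
        rw [← hinf]
        refine ⟨?_, (h.del hxS ⟨a, haA⟩).2⟩
        rw [h.del_coe]
        exact mul_mem (((mem_normalizerIn.1 ha).2 x).1 hx) (Subgroup.inv_mem _ hx)
      · rintro a ⟨ha, haA⟩
        refine ⟨?_, haA⟩
        have h3 : ∀ b ∈ ZTwo S, ∀ s ∈ P, b * s * b⁻¹ ∈ P := by
          intro b hb s hs
          have h4 := (mem_ZTwo.1 hb).2 s (hP.1.1 hs)
          have h5 := mul_mem (ZZ_le_of_essential hP h4) hs
          have h6 : b * s * b⁻¹ * s⁻¹ * s = b * s * b⁻¹ := by group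
          rwa [h6] at h5
        refine mem_normalizerIn.2 ⟨h.le haA, fun s => ⟨h3 a ha s, fun hs => ?_⟩⟩
        have h4 := h3 a⁻¹ (Subgroup.inv_mem _ ha) _ hs
        have h5 : a⁻¹ * (a * s * a⁻¹) * a⁻¹⁻¹ = s := by group
        rwa [h5] at h4
    have h3 := h.card_eq (normalizerIn_le S P) (fun hle => hxA (hle (le_normalizerIn hP.1.1 hx)))
    have h4 := h.card_eq hP.1.1 (fun hle => hxA (hle hx))
    have h5 := card_mul_relIndex' (le_normalizerIn hP.1.1 : P ≤ normalizerIn S P)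
    rw [h2, h3, h4, hNA, hinf] at h5
    have h6 : Nat.card (ZZ S) * p = Nat.card (ZTwo S ⊓ A : Subgroup Ω) :=
      Nat.eq_of_mul_eq_mul_right hp.out.pos h5
    have hfZ : Finite (ZZ S) := finite_of_le inf_le_left
    have hle : ZTwo S ≤ A := by
      intro w hw
      by_contra hwA
      have hw' := mem_ZTwo.1 hw
      have hAZ : A ≤ ZTwo S := by
        intro a ha
        rw [← h.del_mem_Z_iff hw'.1 hwA ⟨a, ha⟩, h.del_coe]
        have h7 := hw'.2 a (h.le ha)
        have h8 := Subgroup.inv_mem _ h7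
        have h9 : (w * a * w⁻¹ * a⁻¹)⁻¹ = a * w * a⁻¹ * w⁻¹ := by group
        rwa [h9] at h8
      rw [inf_eq_right.2 hAZ] at h6
      -- another abelian subgroup of index `p`
      have hBS : ZZ S ⊔ Subgroup.zpowers w ≤ S := sup_le inf_le_left (by
        rw [Subgroup.zpowers_le]; exact hw'.1)
      have hBc : ∀ a ∈ ZZ S ⊔ Subgroup.zpowers w, ∀ b ∈ ZZ S ⊔ Subgroup.zpowers w,
          a * b = b * a := by
        have hle1 : ZZ S ⊔ Subgroup.zpowers w ≤
            Subgroup.centralizer ((ZZ S ⊔ Subgroup.zpowers w : Subgroup Ω) : Set Ω) := by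
          refine sup_le ?_ ?_
          · intro z hz
            rw [Subgroup.mem_centralizer_iff]
            intro b hb
            exact (mem_ZZ.1 hz).2 b (hBS hb)
          · rw [Subgroup.zpowers_le, Subgroup.mem_centralizer_iff]
            have hle2 : ZZ S ⊔ Subgroup.zpowers w ≤ Subgroup.centralizer ({w} : Set Ω) := by
              refine sup_le ?_ ?_
              · intro z hz
                rw [Subgroup.mem_centralizer_singleton_iff]
                exact ((mem_ZZ.1 hz).2 w hw'.1).symm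
              · rw [Subgroup.zpowers_le, Subgroup.mem_centralizer_singleton_iff]
            intro b hb
            exact Subgroup.mem_centralizer_singleton_iff.1 (hle2 hb)
        intro a ha b hb
        exact (Subgroup.mem_centralizer_iff.1 (hle1 ha) b hb).symm
      have hBinf : (ZZ S ⊔ Subgroup.zpowers w) ⊓ A = ZZ S := by
        apply le_antisymm
        · rintro y ⟨hy, hyA⟩
          exact h.mem_Z_of hw'.1 hwA hyA (hBc w (Subgroup.mem_sup_right (Subgroup.mem_zpowers w)) y hy)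
        · exact le_inf le_sup_left h.Z_le
      have hBcard := h.card_eq hBS (fun hle => hwA (hle (Subgroup.mem_sup_right (Subgroup.mem_zpowers w))))
      rw [hBinf, h6] at hBcard
      have hB : ZZ S ⊔ Subgroup.zpowers w = A := by
        apply h.uniq _ hBS hBc
        have h10 := card_mul_relIndex' hBS
        have h11 := card_mul_relIndex' h.le
        rw [h.idx] at h11
        rw [hBcard, ← h11] at h10
        exact Nat.eq_of_mul_eq_mul_left Nat.card_pos h10
      exact hwA (hB ▸ Subgroup.mem_sup_right (Subgroup.mem_zpowers w))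
    refine ⟨hle, ?_⟩
    rw [inf_eq_left.2 hle] at h6
    have h7 := card_mul_relIndex' (ZZ_le_ZTwo (S := S))
    rw [← h6] at h7
    exact Nat.eq_of_mul_eq_mul_left Nat.card_pos h7
  · obtain ⟨h1, h2⟩ := h.nonabel hS hF hP hc hx hxA
    exact ⟨h1 ▸ inf_le_right, h2⟩

/-- The commutator subgroup. -/
abbrev DD (S : Subgroup Ω) : Subgroup Ω := (commutator ↥S).map S.subtype

omit hp in
theorem DD_le [Finite S] [Fact p.Prime] {x : Ω} (hx : x ∈ S) (hxA : x ∉ A) : DD S ≤ A := by
  rw [DD, h.commutator_eq hx hxA]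
  exact Subgroup.map_subtype_le _

theorem DD_subgroupOf [Finite S] {x : Ω} (hx : x ∈ S) (hxA : x ∉ A) :
    (DD S).subgroupOf A = (h.del hx).range := by
  rw [DD, h.commutator_eq hx hxA, Subgroup.subgroupOf,
    Subgroup.comap_map_eq_self_of_injective A.subtype_injective]

theorem card_ZZ_inf_DD [Finite S] {x : Ω} (hx : x ∈ S) (hxA : x ∉ A) (hZ2A : ZTwo S ≤ A)
    (hidx : (ZZ S).relIndex (ZTwo S) = p) : Nat.card (ZZ S ⊓ DD S : Subgroup Ω) = p := by
  have hfA := h.finA
  have hfZ : Finite (ZZ S) := finite_of_le inf_le_left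
  have h1 : (ZZ S ⊓ DD S).subgroupOf A = ((ZTwo S).subgroupOf A).map (h.del hx) := by
    have h2 : (ZZ S ⊓ DD S).subgroupOf A = (ZZ S).subgroupOf A ⊓ (DD S).subgroupOf A := rfl
    rw [h2, h.DD_subgroupOf hx hxA]
    apply le_antisymm
    · rintro _ ⟨hz, ⟨a, rfl⟩⟩
      exact ⟨a, (h.del_mem_Z_iff hx hxA a).1 hz, rfl⟩
    · rintro _ ⟨a, ha, rfl⟩
      exact ⟨(h.del_mem_Z_iff hx hxA a).2 ha, ⟨a, rfl⟩⟩
  rw [← card_subgroupOf (inf_le_left.trans h.Z_le : ZZ S ⊓ DD S ≤ A), h1]
  have h4 := h.card_del_Z2 hx hxA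
  have hZcard : Nat.card (ZZ S) * p = Nat.card (ZTwo S) := by
    rw [← hidx]; exact card_mul_relIndex' ZZ_le_ZTwo
  rw [inf_eq_left.2 hZ2A, ← hZcard, mul_comm] at h4
  exact Nat.eq_of_mul_eq_mul_left Nat.card_pos h4

theorem index_sup [Finite S] {x : Ω} (hx : x ∈ S) (hxA : x ∉ A) (hZ2A : ZTwo S ≤ A)
    (hidx : (ZZ S).relIndex (ZTwo S) = p) : ((ZZ S ⊔ DD S).subgroupOf A).index = p := by
  have hfA := h.finA
  have hle : ZZ S ⊔ DD S ≤ A := sup_le h.Z_le (h.DD_le hx hxA)
  have h1 := h.card_ZZ_inf_DD hx hxA hZ2A hidx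
  have h2 := h.card_map_del hx hxA ⊤
  rw [← MonoidHom.range_eq_map, ← h.DD_subgroupOf hx hxA, card_subgroupOf (h.DD_le hx hxA),
    top_inf_eq, card_subgroupOf h.Z_le, Subgroup.card_top] at h2
  -- in the abelian group `A`
  have hn : ((DD S).subgroupOf A).Normal := ⟨fun n hn g => by
    have : g * n * g⁻¹ = n := by
      apply Subtype.ext
      show (g : Ω) * n * (g : Ω)⁻¹ = n
      rw [h.comm g g.2 n n.2, mul_inv_cancel_right]
    rw [this]; exact hn⟩
  have h3 : ((DD S).subgroupOf A).relIndex ((ZZ S).subgroupOf A ⊔ (DD S).subgroupOf A) =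
      ((DD S).subgroupOf A).relIndex ((ZZ S).subgroupOf A) := Subgroup.relIndex_sup_right _ _
  have h4 : (ZZ S).subgroupOf A ⊔ (DD S).subgroupOf A = (ZZ S ⊔ DD S).subgroupOf A :=
    (Subgroup.subgroupOf_sup h.Z_le (h.DD_le hx hxA)).symm
  rw [h4, Subgroup.relIndex_subgroupOf hle, Subgroup.relIndex_subgroupOf h.Z_le] at h3
  have h5 := card_mul_relIndex' (le_sup_right : DD S ≤ ZZ S ⊔ DD S)
  have h6 := card_mul_relIndex' (inf_le_left : ZZ S ⊓ DD S ≤ ZZ S)
  rw [Subgroup.inf_relIndex_left, h1] at h6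
  have h7 := Subgroup.card_mul_index ((ZZ S ⊔ DD S).subgroupOf A)
  rw [card_subgroupOf hle, ← h2, ← h5, h3, ← h6] at h7
  have hfD : Finite (DD S) := finite_of_le (h.DD_le hx hxA)
  have hpos1 : 0 < Nat.card (DD S) := Nat.card_pos
  have hpos2 : 0 < (DD S).relIndex (ZZ S) := by
    have : (DD S).relIndex (ZZ S) ≠ 0 := by
      intro h0
      rw [h0, mul_zero] at h6
      have : 0 < Nat.card (ZZ S) := by
        have : Finite (ZZ S) := finite_of_le inf_le_left
        exact Nat.card_pos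
      omega
    omega
  have h8 : Nat.card (DD S) * (DD S).relIndex (ZZ S) * ((ZZ S ⊔ DD S).subgroupOf A).index =
      Nat.card (DD S) * (DD S).relIndex (ZZ S) * p := by
    rw [h7]; ring
  exact Nat.eq_of_mul_eq_mul_left (Nat.mul_pos hpos1 hpos2) h8

/-- The iterated images of `A` under `δ`. -/
theorem lcs_not_le [Finite S] {x : Ω} (hx : x ∈ S) (hxA : x ∉ A) (hZ2A : ZTwo S ≤ A)
    (hidx : (ZZ S).relIndex (ZTwo S) = p) {m : ℕ} (hm : (ZZ S).relIndex S = p ^ m) (h3 : 3 ≤ m) :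
    ¬ Subgroup.lowerCentralSeries S (m - 2) ≤ ZZ S := by
  have hfA := h.finA
  let M : ℕ → Subgroup A := fun i => (fun K : Subgroup A => K.map (h.del hx))^[i] ⊤
  have hM0 : M 0 = ⊤ := rfl
  have hMs : ∀ i, M (i + 1) = (M i).map (h.del hx) := fun i => Function.iterate_succ_apply' _ _ _
  have hMle : ∀ i, (M i).map A.subtype ≤ Subgroup.lowerCentralSeries S i := by
    intro i
    induction i with
    | zero =>
      intro y hy
      exact h.le (Subgroup.map_subtype_le _ hy)
    | succ i ih =>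
      rw [hMs]
      rintro _ ⟨_, ⟨a, ha, rfl⟩, rfl⟩
      show ((h.del hx a : A) : Ω) ∈ ⁅Subgroup.lowerCentralSeries S i, S⁆
      rw [h.del_coe]
      exact Subgroup.commutator_mem_commutator (ih ⟨a, ha, rfl⟩) hx
  have hcardA : Nat.card (M 1) = p ^ (m - 1) := by
    have h2 := h.card_map_del hx hxA ⊤
    rw [top_inf_eq, card_subgroupOf h.Z_le, Subgroup.card_top] at h2
    have h4 := card_mul_relIndex' (inf_le_left : ZZ S ≤ S)
    have h5 := card_mul_relIndex' h.le
    rw [h.idx, ← h2] at h5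
    rw [hm, ← h5] at h4
    have hfZ : Finite (ZZ S) := finite_of_le inf_le_left
    have hpos : 0 < Nat.card (ZZ S) := Nat.card_pos
    rw [hMs, hM0]
    have h6 : p ^ m = p ^ (m - 1) * p := by
      rw [← pow_succ]; congr 1; omega
    rw [h6] at h4
    have h7 : (Nat.card (ZZ S) * p) * p ^ (m - 1) =
        (Nat.card (ZZ S) * p) * Nat.card (Subgroup.map (h.del hx) ⊤) := by
      calc (Nat.card (ZZ S) * p) * p ^ (m - 1) = Nat.card (ZZ S) * (p ^ (m - 1) * p) := by ring
        _ = _ := by rw [h4]; ring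
    exact (Nat.eq_of_mul_eq_mul_left (Nat.mul_pos hpos hp.out.pos) h7).symm
  have hstep : ∀ i, 1 ≤ i → Nat.card (M i) ≤ Nat.card (M (i + 1)) * p := by
    intro i hi
    have h2 := h.card_map_del hx hxA (M i)
    rw [← hMs] at h2
    rw [← h2]
    apply Nat.mul_le_mul_left
    have h5 : M i ⊓ (ZZ S).subgroupOf A ≤ (ZZ S ⊓ DD S).subgroupOf A := by
      have h6 : (ZZ S ⊓ DD S).subgroupOf A = (ZZ S).subgroupOf A ⊓ (DD S).subgroupOf A := rfl
      rw [h6, h.DD_subgroupOf hx hxA]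
      refine le_inf inf_le_right (inf_le_left.trans ?_)
      obtain ⟨j, rfl⟩ := Nat.exists_eq_add_of_le' hi
      rw [hMs]
      rintro _ ⟨a, -, rfl⟩
      exact ⟨a, rfl⟩
    have h7 := Subgroup.card_le_of_le h5
    rwa [card_subgroupOf (inf_le_left.trans h.Z_le : ZZ S ⊓ DD S ≤ A),
      h.card_ZZ_inf_DD hx hxA hZ2A hidx] at h7
  have hall : ∀ j, p ^ (m - 1) ≤ Nat.card (M (j + 1)) * p ^ j := by
    intro j
    induction j with
    | zero => rw [pow_zero, mul_one]; exact hcardA.ge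
    | succ j ih =>
      refine ih.trans ?_
      rw [pow_succ, mul_comm (p ^ j) p, ← mul_assoc]
      exact Nat.mul_le_mul_right _ (hstep (j + 1) (by omega))
  intro hle
  have h1 := hall (m - 2)
  have h2 : m - 2 + 1 = m - 1 := by omega
  have h4 : M (m - 2 + 1) = ⊥ := by
    rw [hMs, eq_bot_iff]
    rintro _ ⟨a, ha, rfl⟩
    rw [Subgroup.mem_bot]
    exact (h.del_eq_one_iff hx hxA a).2 (hle (hMle (m - 2) ⟨a, ha, rfl⟩))
  rw [h4, Subgroup.card_bot, one_mul] at h1
  have h5 := (Nat.pow_le_pow_iff_right hp.out.one_lt).1 h1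
  omega

end Setup

/-- The hypotheses in the form of the statements. -/
theorem setup_of [Finite S] (hna : ¬ IsMulCommutative ↥S)
    (hA : A ≤ S ∧ IsMulCommutative ↥A ∧ (A.subgroupOf S).index = p)
    (huniq : ∀ B : Subgroup Ω, B ≤ S → IsMulCommutative ↥B → (B.subgroupOf S).index = p → B = A) :
    Setup p S A := by
  refine ⟨hA.1, fun a ha b hb => ?_, hA.2.2, ?_, fun B hB hc hi => huniq B hB ?_ hi⟩
  · have := hA.2.1.is_comm.comm ⟨a, ha⟩ ⟨b, hb⟩
    exact congrArg Subtype.val this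
  · by_contra hne
    push_neg at hne
    exact hna ⟨⟨fun a b => Subtype.ext (hne a a.2 b b.2)⟩⟩
  · exact ⟨⟨fun a b => Subtype.ext (hc a a.2 b b.2)⟩⟩

end H57.IdxP
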