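import Cfsg.Agent.Lib.H57.Zeta

/-!
`O_p(F) = 1`, `A` the unique abelian subgroup of index `p`, not essential: `S` has maximal class.
-/

set_option autoImplicit false
open scoped commutatorElement
open Cfsg Cfsg.FusionSystem H86.FusBasic H86.FusSat H86.FusAlperin H57.Ess H57.TvPair H57.Zeta

namespace H57.IdxP

variable {Ω : Type*} [Group Ω] {p : ℕ} [hp : Fact p.Prime] {S A : Subgroup Ω}

theorem ZZ_ne_bot [Finite S] (hS : IsPGroup p S) (hne : S ≠ ⊥) : ZZ S ≠ ⊥ := by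
  have hnt : Nontrivial S := (Subgroup.nontrivial_iff_ne_bot S).2 hne
  have h1 := hS.center_nontrivial
  obtain ⟨z, hz⟩ := exists_ne (1 : Subgroup.center S)
  intro h
  have h2 : ((z : S) : Ω) ∈ ZZ S := by
    rw [mem_ZZ]
    exact ⟨(z : S).2, fun s hs => congrArg Subtype.val (Subgroup.mem_center_iff.1 z.2 ⟨s, hs⟩)⟩
  rw [h, Subgroup.mem_bot] at h2
  exact hz (Subtype.ext (Subtype.ext h2))

/-- If `O_p(F) = 1` and `S ≠ 1` there is an essential subgroup. -/
theorem exists_essential [Finite S] (hS : IsPGroup p S) {F : FusionSystem S} (hF : F.IsSaturated p)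
    (hcore : F.core = ⊥) (hne : S ≠ ⊥) : ∃ P, F.IsEssential p P := by
  by_contra h
  push_neg at h
  apply hne
  rw [eq_bot_iff, ← hcore]
  apply H89.Normal3.isNormal_le_core
  refine H89.Normal.isNormal_of_essential hS hF fun P hP => ?_
  rcases hP with rfl | hP
  · exact ⟨le_rfl, fun α _ x _ => (α x).2⟩
  · exact absurd hP (h P)

theorem aut_DD (α : MulAut S) {z : S} (hz : (z : Ω) ∈ Setup.DD S) : ((α z : S) : Ω) ∈ Setup.DD S := by
  obtain ⟨y, hy, hyz⟩ := hz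
  have h1 : y = z := Subtype.ext hyz
  subst h1
  have h2 : (commutator S).map α.toMonoidHom = commutator S := by
    have h3 : (commutator S).Characteristic := inferInstance
    exact Subgroup.characteristic_iff_map_eq.1 h3 α
  exact ⟨α y, by rw [← h2]; exact ⟨y, hy, rfl⟩, rfl⟩

/-- The line of the plane: commutators. -/
theorem line_mem_DD {F : FusionSystem S} {P : Subgroup Ω} (hPS : P ≤ S) {D : Plane P p}
    (hup : ∀ u, u ∈ autInducedBy S P ↔ ∃ t, u = D.rho (up t)) (t : ZMod p) :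
    ((D.ι (Multiplicative.ofAdd ![t, 0]) : P) : Ω) ∈ Setup.DD S := by
  obtain ⟨g, hgN, hgS, hg⟩ := mem_autInducedBy'.1 ((hup _).2 ⟨t, rfl⟩)
  let v : P := D.ι (Multiplicative.ofAdd ![0, 1])
  have h1 : D.rho (up t) v = v * D.ι (Multiplicative.ofAdd ![t, 0]) := by
    rw [D.rho_apply, D.act_ι, ← map_mul, ← ofAdd_add]
    congr 2
    ext i
    fin_cases i
    · simp [up, Matrix.mulVec, dotProduct, Fin.sum_univ_two]
    · simp [up, Matrix.mulVec, dotProduct, Fin.sum_univ_two]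
  rw [hg] at h1
  have h2 : (⁅(⟨v, hPS v.2⟩ : S)⁻¹, ⟨g, hgS⟩⁆ : S) ∈ commutator S := by
    rw [commutator_def]
    exact Subgroup.commutator_mem_commutator (Subgroup.mem_top _) (Subgroup.mem_top _)
  refine ⟨_, h2, ?_⟩
  have h3 := congrArg Subtype.val h1
  rw [conjAut_apply, Subgroup.coe_mul] at h3
  show (v : Ω)⁻¹ * g * ((v : Ω)⁻¹)⁻¹ * g⁻¹ = _
  rw [inv_inv]
  calc (v : Ω)⁻¹ * g * v * g⁻¹ = (v : Ω)⁻¹ * (g * v * g⁻¹) := by group
    _ = _ := by rw [h3]; group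

/-- `AbEss` data for an abelian essential subgroup over a subgroup `T` of order `p` of `Z(S)` containing the line. -/
theorem abEss_of [Finite S] (hS : IsPGroup p S) {F : FusionSystem S} (hF : F.IsSaturated p)
    {P : Subgroup Ω} (hP : F.IsEssential p P) (hcomm : ∀ a b : P, a * b = b * a)
    {D : Plane P p} (hcard : Nat.card (autInducedBy S P) = p) (hrho : ∀ A, D.rho A ∈ F.autGroup P)
    (hup : ∀ u, u ∈ autInducedBy S P ↔ ∃ t, u = D.rho (up t))
    (hker : ∀ v : P, (D.π v).toAdd 1 = 0 ↔ (v : Ω) ∈ ZZ S) {T : Subgroup Ω}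
    (hT : T = ZZ S ⊓ Setup.DD S) (hTc : Nat.card T = p) : AbEss F T D := by
  have hZP := ZZ_le_of_essential hP
  have hTP : T ≤ P := hT ▸ inf_le_left.trans hZP
  refine ⟨hP, hcomm, hcard, hrho, hup, hker, ?_, hTP⟩
  have hline : ∀ t : ZMod p, ((D.ι (Multiplicative.ofAdd ![t, 0]) : P) : Ω) ∈ T := by
    intro t
    rw [hT]
    refine ⟨?_, line_mem_DD (F := F) hP.1.1 hup t⟩
    show _ ∈ ZZ S
    rw [← hker, D.ret]
    rfl
  have hfT : Finite T := finite_of_le (hTP.trans hP.1.1)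
  have hinj : Function.Injective (fun t : ZMod p => (⟨_, hline t⟩ : T)) := by
    intro s t hst
    have h1 : D.ι (Multiplicative.ofAdd ![s, 0]) = D.ι (Multiplicative.ofAdd ![t, 0]) :=
      Subtype.ext (show ((D.ι (Multiplicative.ofAdd ![s, 0]) : P) : Ω) = (D.ι (Multiplicative.ofAdd ![t, 0]) : P) from congrArg (fun z : T => (z : Ω)) hst)
    have h2 := Multiplicative.ofAdd.injective (D.ι_injective h1)
    simpa using congrFun h2 0
  have hbij := (Nat.bijective_iff_injective_and_card _).2 ⟨hinj, by rw [Nat.card_zmod, hTc]⟩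
  intro v
  constructor
  · intro hv
    obtain ⟨t, ht⟩ := hbij.2 ⟨v, hv⟩
    exact ⟨t, Subtype.ext (congrArg Subtype.val ht).symm⟩
  · rintro ⟨t, rfl⟩
    exact hline t

namespace Setup

variable (h : Setup p S A)
include h

theorem S_ne_bot : S ≠ ⊥ := by
  rintro rfl
  obtain ⟨x, hx, y, hy, hxy⟩ := h.nonab
  rw [Subgroup.mem_bot] at hx hy
  rw [hx, hy] at hxy
  exact hxy rfl

theorem aut_pres_ZZ [Finite S] {F : FusionSystem S} {P : Subgroup Ω} (hP : F.IsEssential p P)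
    (hnc : ¬ ∀ a ∈ P, ∀ b ∈ P, a * b = b * a) {x : Ω} (hx : x ∈ P) (hxA : x ∉ A)
    (β : MulAut P) {w : P} (hw : (w : Ω) ∈ ZZ S) : ((β w : P) : Ω) ∈ ZZ S := by
  have h2 := (h.center_eq hP hnc hx hxA).2 hw
  refine (h.center_eq hP hnc hx hxA).1 ⟨(β w).2, fun s hs => ?_⟩
  have h3 := h2.2 (β⁻¹ ⟨s, hs⟩ : P) (β⁻¹ ⟨s, hs⟩ : P).2
  have h4 : β⁻¹ ⟨s, hs⟩ * w = w * β⁻¹ ⟨s, hs⟩ := Subtype.ext h3
  have h5 := congrArg β h4
  rw [map_mul, map_mul, MulAut.apply_inv_self] at h5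
  exact congrArg Subtype.val h5

theorem main [Finite S] (hS : IsPGroup p S) {F : FusionSystem S} (hF : F.IsSaturated p)
    (hp2 : p ≠ 2) (hcore : F.core = ⊥) (hAe : ¬ F.IsEssential p A) :
    (∃ x ∈ S, x ∉ A ∧ F.IsEssential p (ZZ S ⊔ Subgroup.zpowers x)) ∧ ZZ S ≤ DD S ∧
      ∀ n : ℕ, Nat.card S = p ^ n → 3 ≤ n → Subgroup.lowerCentralSeries S (n - 2) ≠ ⊥ := by
  have hne := h.S_ne_bot
  have hZne := ZZ_ne_bot hS hne
  have hout : ∀ P, F.IsEssential p P → ∃ x ∈ P, x ∉ A := by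
    intro P hP
    have h1 : ¬ P ≤ A := fun hle => hAe (h.eq_of_le hP hle ▸ hP)
    exact SetLike.not_le_iff_exists.1 h1
  -- an abelian essential subgroup
  obtain ⟨P, hP, hPc⟩ : ∃ P, F.IsEssential p P ∧ ∀ a ∈ P, ∀ b ∈ P, a * b = b * a := by
    by_contra hno
    push_neg at hno
    apply hZne
    rw [eq_bot_iff, ← hcore]
    apply H89.Normal3.isNormal_le_core
    refine H89.Normal.isNormal_of_essential hS hF fun Q hQ => ?_
    rcases hQ with rfl | hQ
    · exact ⟨inf_le_left, fun α _ x hx => aut_ZZ α hx⟩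
    · refine ⟨ZZ_le_of_essential hQ, fun α _ x hx => ?_⟩
      obtain ⟨y, hy, hyA⟩ := hout Q hQ
      obtain ⟨a, ha, b, hb, hab⟩ := hno Q hQ
      exact h.aut_pres_ZZ hQ (fun hc => hab (hc a ha b hb)) hy hyA α hx
  obtain ⟨x, hx, hxA⟩ := hout P hP
  have hPA : P ≠ A := fun hPA => hxA (hPA ▸ hx)
  have hxS := hP.1.1 hx
  obtain ⟨hZ2A, hidx⟩ := h.key hS hF hP hPA
  have hTc := h.card_ZZ_inf_DD hxS hxA hZ2A hidx
  set T := ZZ S ⊓ DD S with hT
  have hTZ : T ≤ ZZ S := inf_le_left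
  have hTinv : ∀ α ∈ F.autGroup S, ∀ t : S, (t : Ω) ∈ T → ((α t : S) : Ω) ∈ T := by
    intro α _ t ht
    exact ⟨aut_ZZ α ht.1, aut_DD α ht.2⟩
  have hab : ∀ Q, F.IsEssential p Q → (∀ a ∈ Q, ∀ b ∈ Q, a * b = b * a) →
      ∃ D : Plane Q p, AbEss F T D := by
    intro Q hQ hQc
    obtain ⟨y, hy, hyA⟩ := hout Q hQ
    obtain ⟨h1, D, h2, h3, h4⟩ := h.abel_card hS hF hQ hQc hy hyA
    exact ⟨D, abEss_of hS hF hQ (fun a b => Subtype.ext (hQc a a.2 b b.2)) h1 h2 h3 h4 hT hTc⟩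
  obtain ⟨D, hD⟩ := hab P hP hPc
  obtain ⟨τ, hτ, -⟩ := hD.exists_inv hS hF
  have hWn : F.IsNormal (Wof τ) := by
    refine H89.Normal.isNormal_of_essential hS hF fun Q hQ => ?_
    rcases hQ with rfl | hQ
    · exact ⟨(Wof_le τ).trans inf_le_left, fun α hα x hx => Wof_inv hS hF hTZ hTinv hτ hα hx⟩
    · have hZQ := ZZ_le_of_essential hQ
      refine ⟨(Wof_le τ).trans hZQ, fun α hα z hz => ?_⟩
      by_cases hQc : ∀ a ∈ Q, ∀ b ∈ Q, a * b = b * a
      · obtain ⟨D', hD'⟩ := hab Q hQ hQc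
        exact hD'.W_inv hS hF hTZ hp2 hTinv hτ hα hz
      · obtain ⟨y, hy, hyA⟩ := hout Q hQ
        have hQS := hQ.1.1
        let φ : ZZ S →* Ω := Q.subtype.comp (α.toMonoidHom.comp (Subgroup.inclusion hZQ))
        have hφ : φ ∈ F.Hom (ZZ S) :=
          restrict_mem F ((H86.FusBasic.mem_autGroup' F hQS).1 hα) hZQ
        obtain ⟨σ, hσ, hσx⟩ := extend_ZZ hS hF hφ
          (fun w => h.aut_pres_ZZ hQ hQc hy hyA α (w := ⟨w, hZQ w.2⟩) w.2)
        have hzZ : (z : Ω) ∈ ZZ S := Wof_le _ hz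
        have h2 := Wof_inv hS hF hTZ hTinv hτ hσ (z := ⟨z, hzZ.1⟩) hz
        have h3 : ((σ ⟨z, hzZ.1⟩ : S) : Ω) = α z := hσx ⟨z, hzZ⟩
        rwa [h3] at h2
  have hW : Wof τ = ⊥ := by
    rw [eq_bot_iff, ← hcore]
    exact H89.Normal3.isNormal_le_core hWn
  have hZT : ZZ S = T := hD.ZZ_le_sup hS hF hTZ hp2 hτ hW
  refine ⟨⟨x, hxS, hxA, ?_⟩, ?_, ?_⟩
  · rw [← h.abel_inf hP hPc hx hxA, ← h.eq_sup hP.1.1 hx hxA]
    exact hP
  · rw [hZT]; exact inf_le_right
  · intro n hn hn3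
    have hcZ : Nat.card (ZZ S) = p := by rw [hZT]; exact hTc
    have h1 := card_mul_relIndex' (inf_le_left : ZZ S ≤ S)
    have h2 : (ZZ S).relIndex S = p ^ (n - 1) := by
      rw [hcZ, hn] at h1
      have h3 : p ^ n = p * p ^ (n - 1) := by rw [← pow_succ']; congr 1; omega
      rw [h3] at h1
      exact Nat.eq_of_mul_eq_mul_left hp.out.pos h1
    rcases hn3.eq_or_lt with rfl | hlt
    · intro h3
      obtain ⟨a, ha, b, hb, hab⟩ := h.nonab
      apply hab
      have h4 : ⁅a, b⁆ ∈ Subgroup.lowerCentralSeries S (3 - 2) :=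
        Subgroup.commutator_mem_commutator ha hb
      rw [h3, Subgroup.mem_bot, commutatorElement_eq_one_iff_mul_comm] at h4
      exact h4
    · have h3 := h.lcs_not_le hxS hxA hZ2A hidx h2 (by omega)
      intro h4
      apply h3
      have h5 : n - 2 = (n - 1 - 2) + 1 := by omega
      rw [h5] at h4
      have h6 : ⁅Subgroup.lowerCentralSeries S (n - 1 - 2), S⁆ = ⊥ := h4
      rw [Subgroup.commutator_eq_bot_iff_le_centralizer] at h6
      refine le_inf ?_ h6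
      -- lower central series is contained in S
      have h7 : ∀ i, Subgroup.lowerCentralSeries S i ≤ S := by
        intro i
        induction i with
        | zero => exact le_rfl
        | succ i ih =>
          show ⁅Subgroup.lowerCentralSeries S i, S⁆ ≤ S
          rw [Subgroup.commutator_le]
          intro a ha b hb
          exact mul_mem (mul_mem (mul_mem (ih ha) hb) (Subgroup.inv_mem _ (ih ha))) (Subgroup.inv_mem _ hb)
      exact h7 _

end Setup

end H57.IdxP
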