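import Cfsg.Agent.Lib.H5.ZStar

set_option autoImplicit false

/-! Z* modulo a central involution (for S3330, helper54). -/

open Subgroup

namespace H57.RCU

universe u

section basic

variable {B : Type u} [Group B]

theorem mem_zp {j : B} (hj2 : j * j = 1) {x : B} : x ∈ zpowers j ↔ x = 1 ∨ x = j := by
  constructor
  · rintro ⟨k, rfl⟩
    have h2 : j ^ (2 : ℤ) = 1 := by rw [zpow_two, hj2]
    rcases Int.even_or_odd k with hk | hk
    · obtain ⟨l, rfl⟩ := hk
      left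
      show j ^ (l + l) = 1
      rw [← two_mul, zpow_mul, h2, one_zpow]
    · obtain ⟨l, rfl⟩ := hk
      right
      show j ^ (2 * l + 1) = j
      rw [zpow_add, zpow_mul, h2, one_zpow, one_mul, zpow_one]
  · rintro (rfl | rfl)
    · exact one_mem _
    · exact mem_zpowers _

theorem zp_normal {j : B} (hjc : ∀ g : B, g * j = j * g) : (zpowers j).Normal := by
  refine ⟨fun x hx g => ?_⟩
  obtain ⟨k, rfl⟩ := hx
  have : g * j ^ k * g⁻¹ = j ^ k := by
    have hc : Commute g j := hjc g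
    rw [(hc.zpow_right k).eq, mul_inv_cancel_right]
  show g * j ^ k * g⁻¹ ∈ zpowers j
  rw [this]
  exact zpow_mem (mem_zpowers j) k

end basic

theorem zmod {B : Type u} [Group B] [Finite B] {j : B} (hj2 : j * j = 1)
    (hjc : ∀ g : B, g * j = j * g) [(zpowers j).Normal] (Q : Sylow 2 B) (hjQ : j ∈ Q) {u : B} (hu : u * u = 1)
    (hu1 : u ≠ 1) (huj : u ≠ j) (hiso : ∀ g : B, g * u * g⁻¹ ∈ Q → g * u * g⁻¹ = u ∨ g * u * g⁻¹ = u * j)
    (hN : ∀ N : Subgroup (B ⧸ zpowers j), N.Normal → Odd (Nat.card N) → N = ⊥) (g : B) :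
    g * u * g⁻¹ = u ∨ g * u * g⁻¹ = u * j := by
  haveI : Fact (Nat.Prime 2) := ⟨Nat.prime_two⟩
  have hZQ : ∀ x ∈ zpowers j, x ∈ Q := by
    intro x hx
    exact (zpowers_le.2 hjQ : zpowers j ≤ (Q : Subgroup B)) hx
  let Qb : Sylow 2 (B ⧸ zpowers j) := Q.mapSurjective (QuotientGroup.mk'_surjective (zpowers j))
  have hQb : ∀ x : B, (x : B ⧸ zpowers j) ∈ Qb → x ∈ Q := by
    intro x hx
    have h1 : (x : B ⧸ zpowers j) ∈ (Q : Subgroup B).map (QuotientGroup.mk' (zpowers j)) := hx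
    obtain ⟨p, hp, hpx⟩ := h1
    have h2 : p⁻¹ * x ∈ zpowers j := QuotientGroup.eq.1 hpx
    have h3 : x = p * (p⁻¹ * x) := by group
    rw [h3]
    exact (Q : Subgroup B).mul_mem hp (hZQ _ h2)
  have ho : orderOf (u : B ⧸ zpowers j) = 2 := by
    apply orderOf_eq_prime
    · rw [pow_two, ← QuotientGroup.mk_mul, hu, QuotientGroup.mk_one]
    · intro h1
      rw [QuotientGroup.eq_one_iff, mem_zp hj2] at h1
      exact h1.elim hu1 huj
  have key : ∀ g : B ⧸ zpowers j, g * (u : B ⧸ zpowers j) * g⁻¹ ∈ Qb → g * (u : B ⧸ zpowers j) * g⁻¹ = u := by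
    intro g
    obtain ⟨x, rfl⟩ := QuotientGroup.mk_surjective g
    intro hx
    rw [← QuotientGroup.mk_inv, ← QuotientGroup.mk_mul, ← QuotientGroup.mk_mul] at hx ⊢
    rcases hiso x (hQb _ hx) with h1 | h1
    · rw [h1]
    · rw [h1, QuotientGroup.eq]
      rw [mul_inv_rev, mul_assoc, inv_mul_cancel, mul_one]
      exact inv_mem (mem_zpowers j)
  have hcore : Cfsg.pPrimeCore 2 (B ⧸ zpowers j) = ⊥ := hN _ (H1.Cores.pPrimeCore_normal 2)
    (Nat.coprime_two_right.mp (H1.Cores.coprime_card_pPrimeCore 2))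
  have h2 := H5.ZStar.sylow_form Qb (u : B ⧸ zpowers j) ho key (g : B ⧸ zpowers j)
  rw [hcore, mem_bot] at h2
  rw [← QuotientGroup.mk_mul, ← QuotientGroup.mk_inv, ← QuotientGroup.mk_mul, ← QuotientGroup.mk_inv,
    ← QuotientGroup.mk_mul, QuotientGroup.eq_one_iff, mem_zp hj2] at h2
  have hui : u⁻¹ = u := inv_eq_of_mul_eq_one_right hu
  rcases h2 with h2 | h2
  · left
    have : u * g = g * u := by
      have h3 : u * g * u⁻¹ * g⁻¹ = 1 := h2
      have h4 : u * g = (u * g * u⁻¹ * g⁻¹) * g * u := by group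
      rw [h4, h3, one_mul]
    rw [← this, mul_inv_cancel_right]
  · right
    have h4 : g * u⁻¹ * g⁻¹ = u⁻¹ * (u * g * u⁻¹ * g⁻¹) := by group
    rw [hui] at h2 h4
    rw [h4, h2]

end H57.RCU
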