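import Cfsg.Agent.Lib.H57.RCUa
import Cfsg.Agent.Lib.H57.RCUz

set_option autoImplicit false

/-! S3330 (helper54), piece CU. -/

open Equiv Subgroup H54.RA

namespace H57.RCU

universe u

variable {G : Type u} [Group G] {Φ : EE →* G} {n : G}

lemma ni (h : TM Φ n) : n⁻¹ = n := inv_eq_of_mul_eq_one_right h.nn

/-- conjugation by `n` -/
lemma nconj (h : TM Φ n) (x : EE) : ∃ y : EE, y.1.1 = x.1.2 ∧ y.1.2 = x.1.1 ∧ n * Φ x * n⁻¹ = Φ y :=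
  ⟨mkE x.1.2 x.1.1 x.2.symm, rfl, rfl, h.nc x.1.1 x.1.2 x.2⟩

lemma eq_of (h : TM Φ n) {x y : EE} (hxy : Φ x = Φ y) : x = y := h.inj hxy

lemma comm_iff (h : TM Φ n) (x y : EE) : Φ x * Φ y = Φ y * Φ x ↔ x * y = y * x := by
  rw [← map_mul, ← map_mul]
  exact ⟨fun h1 => h.inj h1, fun h1 => by rw [h1]⟩

/-- elements of `M` commuting with `j` lie in the range -/
lemma B_sub (h : TM Φ n) {g : G} (hg : g * Φ (mkE b0 1 sb0) = Φ (mkE b0 1 sb0) * g)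
    (hM : g ∈ Φ.range ∨ g * n ∈ Φ.range) : g ∈ Φ.range := by
  rcases hM with hM | ⟨x, hx⟩
  · exact hM
  · exfalso
    have hgx : g = Φ x * n := by rw [hx, mul_assoc, h.nn, mul_one]
    have h1 : n * Φ (mkE b0 1 sb0) * n⁻¹ = Φ (mkE 1 b0 sb0.symm) := h.nc b0 1 sb0
    have h2 : Φ x * Φ (mkE 1 b0 sb0.symm) * (Φ x)⁻¹ = Φ (mkE b0 1 sb0) := by
      rw [← h1]
      calc Φ x * (n * Φ (mkE b0 1 sb0) * n⁻¹) * (Φ x)⁻¹
          = (Φ x * n) * Φ (mkE b0 1 sb0) * (Φ x * n)⁻¹ := by group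
        _ = g * Φ (mkE b0 1 sb0) * g⁻¹ := by rw [← hgx]
        _ = Φ (mkE b0 1 sb0) := by rw [hg, mul_inv_cancel_right]
    rw [← map_inv, ← map_mul, ← map_mul] at h2
    have h3 := congrArg (fun z : EE => z.1.1) (h.inj h2)
    have h4 : x.1.1 * 1 * x.1.1⁻¹ = b0 := h3
    rw [mul_one, mul_inv_cancel] at h4
    exact d_b1 h4.symm

lemma M_inv (h : TM Φ n) {g : G} (hM : g ∈ Φ.range ∨ g * n ∈ Φ.range) :
    g⁻¹ ∈ Φ.range ∨ g⁻¹ * n ∈ Φ.range := by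
  rcases hM with hM | ⟨x, hx⟩
  · exact Or.inl (inv_mem hM)
  · right
    have hgx : g = Φ x * n := by rw [hx, mul_assoc, h.nn, mul_one]
    obtain ⟨y, -, -, hy⟩ := nconj h x⁻¹
    refine ⟨y, ?_⟩
    rw [← hy, hgx, map_inv, mul_inv_rev, ni h]

lemma M_mul (h : TM Φ n) {m g : G} (hm : m ∈ Φ.range) (hM : g ∈ Φ.range ∨ g * n ∈ Φ.range) :
    m * g ∈ Φ.range ∨ m * g * n ∈ Φ.range := by
  rcases hM with hM | hM
  · exact Or.inl (mul_mem hm hM)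
  · right; rw [mul_assoc]; exact mul_mem hm hM

/-- fusion of `j` in `G` seen from `M`. -/
lemma fuse (h : TM Φ n)
    (hP : ∀ y : G, y * Φ (mkE b0 1 sb0) = Φ (mkE b0 1 sb0) * y → y * y = 1 → ∃ b : G,
      b * Φ (mkE b0 1 sb0) = Φ (mkE b0 1 sb0) * b ∧ b * y * b⁻¹ ∈ Φ.range)
    {g m : G} (hm : m ∈ Φ.range)
    (hc : (m * Φ tE * m⁻¹) * (g * Φ (mkE b0 1 sb0) * g⁻¹) = (g * Φ (mkE b0 1 sb0) * g⁻¹) * (m * Φ tE * m⁻¹)) :
    ∃ z : EE, g * Φ (mkE b0 1 sb0) * g⁻¹ = Φ z ∧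
      ((∃ ρ : Perm (Fin 5), z.1.1 = ρ * b0 * ρ⁻¹ ∧ z.1.2 = 1) ∨
        (z.1.1 = 1 ∧ ∃ ρ : Perm (Fin 5), z.1.2 = ρ * b0 * ρ⁻¹)) := by
  set J := Φ (mkE b0 1 sb0) with hJ
  have htt : Φ tE * Φ tE = 1 := by
    rw [← map_mul]
    have : tE * tE = 1 := Subtype.ext (Prod.ext d_tt d_tt)
    rw [this, map_one]
  obtain ⟨b, hb, hbr⟩ := hP (g⁻¹ * (m * Φ tE * m⁻¹) * g)
    (by
      calc g⁻¹ * (m * Φ tE * m⁻¹) * g * J = g⁻¹ * ((m * Φ tE * m⁻¹) * (g * J * g⁻¹)) * g := by group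
        _ = g⁻¹ * ((g * J * g⁻¹) * (m * Φ tE * m⁻¹)) * g := by rw [hc]
        _ = J * (g⁻¹ * (m * Φ tE * m⁻¹) * g) := by group)
    (by
      calc g⁻¹ * (m * Φ tE * m⁻¹) * g * (g⁻¹ * (m * Φ tE * m⁻¹) * g)
          = g⁻¹ * m * (Φ tE * Φ tE) * m⁻¹ * g := by group
        _ = 1 := by rw [htt]; group)
  have h1 : (b * g⁻¹ * m) * Φ tE * (b * g⁻¹ * m)⁻¹ ∈ Φ.range := by
    have : (b * g⁻¹ * m) * Φ tE * (b * g⁻¹ * m)⁻¹ = b * (g⁻¹ * (m * Φ tE * m⁻¹) * g) * b⁻¹ := by group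
    rw [this]; exact hbr
  have h2 := M_mul h hm (M_inv h (h.fus _ (Or.inl h1)))
  have h3 : m * (b * g⁻¹ * m)⁻¹ = g * b⁻¹ := by group
  rw [h3] at h2
  have h4 : (g * b⁻¹) * J * (g * b⁻¹)⁻¹ = g * J * g⁻¹ := by
    have hb' : b⁻¹ * J * b = J := by rw [mul_assoc, ← hb, inv_mul_cancel_left]
    calc (g * b⁻¹) * J * (g * b⁻¹)⁻¹ = g * (b⁻¹ * J * b) * g⁻¹ := by group
      _ = g * J * g⁻¹ := by rw [hb']
  rcases h2 with ⟨x, hx⟩ | ⟨x, hx⟩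
  · refine ⟨x * mkE b0 1 sb0 * x⁻¹, ?_, Or.inl ⟨x.1.1, rfl, ?_⟩⟩
    · rw [map_mul, map_mul, map_inv, hx, ← hJ, h4]
    · show x.1.2 * 1 * x.1.2⁻¹ = 1
      rw [mul_one, mul_inv_cancel]
  · have hgx : g * b⁻¹ = Φ x * n := by rw [hx, mul_assoc, h.nn, mul_one]
    refine ⟨x * mkE 1 b0 sb0.symm * x⁻¹, ?_, Or.inr ⟨?_, x.1.2, rfl⟩⟩
    · rw [map_mul, map_mul, map_inv, ← h4, hgx, ← h.nc b0 1 sb0, ← hJ]
      group
    · show x.1.1 * 1 * x.1.1⁻¹ = 1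
      rw [mul_one, mul_inv_cancel]

/-- the isolation of `u` -/
lemma isol (h : TM Φ n)
    (hP : ∀ y : G, y * Φ (mkE b0 1 sb0) = Φ (mkE b0 1 sb0) * y → y * y = 1 → ∃ b : G,
      b * Φ (mkE b0 1 sb0) = Φ (mkE b0 1 sb0) * b ∧ b * y * b⁻¹ ∈ Φ.range)
    {g : G} (hg : g * Φ (mkE b0 1 sb0) = Φ (mkE b0 1 sb0) * g)
    (hr : g * Φ (mkE u0 1 su0) * g⁻¹ ∈ Φ.range) :
    g * Φ (mkE u0 1 su0) * g⁻¹ = Φ (mkE u0 1 su0) ∨
      g * Φ (mkE u0 1 su0) * g⁻¹ = Φ (mkE u0 1 su0) * Φ (mkE b0 1 sb0) := by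
  obtain ⟨y, hy⟩ := hr
  obtain ⟨ρ, hρs, hρ⟩ := d_u0
  obtain ⟨ρ', hρs', hρ'⟩ := d_u0b0
  -- `u` and `u j` are conjugate to `j`
  have hu : Φ (mkE u0 1 su0) = Φ (mkE ρ 1 (by rw [hρs]; simp)) * Φ (mkE b0 1 sb0) *
      (Φ (mkE ρ 1 (by rw [hρs]; simp)))⁻¹ := by
    rw [← map_inv, ← map_mul, ← map_mul]
    congr 1
    exact Subtype.ext (Prod.ext hρ.symm (by show (1 : Perm (Fin 5)) = 1 * 1 * 1⁻¹; simp))
  have huj : Φ (mkE u0 1 su0) * Φ (mkE b0 1 sb0) = Φ (mkE ρ' 1 (by rw [hρs']; simp)) * Φ (mkE b0 1 sb0) *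
      (Φ (mkE ρ' 1 (by rw [hρs']; simp)))⁻¹ := by
    rw [← map_inv, ← map_mul, ← map_mul, ← map_mul]
    congr 1
    exact Subtype.ext (Prod.ext hρ'.symm (by show (1 : Perm (Fin 5)) * 1 = 1 * 1 * 1⁻¹; simp))
  have huu : Φ (mkE u0 1 su0) * Φ (mkE u0 1 su0) = 1 := by
    rw [← map_mul]
    have : mkE u0 1 su0 * mkE u0 1 su0 = 1 := Subtype.ext (Prod.ext d_uu (one_mul 1))
    rw [this, map_one]
  have hyy : y * y = 1 := by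
    apply h.inj
    rw [map_mul, hy, map_one]
    calc g * Φ (mkE u0 1 su0) * g⁻¹ * (g * Φ (mkE u0 1 su0) * g⁻¹)
        = g * (Φ (mkE u0 1 su0) * Φ (mkE u0 1 su0)) * g⁻¹ := by group
      _ = 1 := by rw [huu]; group
  have hy1 : y.1.1 * y.1.1 = 1 := congrArg (fun z : EE => z.1.1) hyy
  have hy2 : y.1.2 * y.1.2 = 1 := congrArg (fun z : EE => z.1.2) hyy
  -- `y` commutes with `b0` in the first component
  have hyc : y * mkE b0 1 sb0 = mkE b0 1 sb0 * y := by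
    rw [← comm_iff h, hy]
    have hub : Φ (mkE u0 1 su0) * Φ (mkE b0 1 sb0) = Φ (mkE b0 1 sb0) * Φ (mkE u0 1 su0) := by
      rw [comm_iff h]; exact Subtype.ext (Prod.ext d_ub rfl)
    have hg' : g⁻¹ * Φ (mkE b0 1 sb0) = Φ (mkE b0 1 sb0) * g⁻¹ := by
      rw [inv_mul_eq_iff_eq_mul, ← mul_assoc, hg, mul_inv_cancel_right]
    calc g * Φ (mkE u0 1 su0) * g⁻¹ * Φ (mkE b0 1 sb0)
        = g * Φ (mkE u0 1 su0) * (g⁻¹ * Φ (mkE b0 1 sb0)) := by group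
      _ = g * (Φ (mkE u0 1 su0) * Φ (mkE b0 1 sb0)) * g⁻¹ := by rw [hg']; group
      _ = (g * Φ (mkE b0 1 sb0)) * Φ (mkE u0 1 su0) * g⁻¹ := by rw [hub]; group
      _ = Φ (mkE b0 1 sb0) * (g * Φ (mkE u0 1 su0) * g⁻¹) := by rw [hg]; group
  have hyb : y.1.1 * b0 = b0 * y.1.1 := congrArg (fun z : EE => z.1.1) hyc
  -- a conjugate of `t` commuting with `y` and `j`
  have hyb2 : (y.1.1 * b0) * (y.1.1 * b0) = 1 := by
    calc (y.1.1 * b0) * (y.1.1 * b0) = y.1.1 * (b0 * y.1.1) * b0 := by group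
      _ = (y.1.1 * y.1.1) * (b0 * b0) := by rw [← hyb]; group
      _ = 1 := by rw [hy1, d_bb, one_mul]
  obtain ⟨a, ha, hac⟩ := d_tr y.1.1 hy1
  obtain ⟨a', ha', hac'⟩ := d_tr _ hyb2
  obtain ⟨c, hc, hcc⟩ := d_tr y.1.2 hy2
  have hz1 := fuse h hP (g := g * Φ (mkE ρ 1 (by rw [hρs]; simp))) (m := Φ (mkE a c (by rw [ha, hc])))
    ⟨_, rfl⟩ (by
      have e1 : g * Φ (mkE ρ 1 (by rw [hρs]; simp)) * Φ (mkE b0 1 sb0) *
          (g * Φ (mkE ρ 1 (by rw [hρs]; simp)))⁻¹ = Φ y := by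
        rw [hy, hu]; group
      rw [e1, ← map_inv, ← map_mul, ← map_mul, comm_iff h]
      exact Subtype.ext (Prod.ext hac hcc))
  have hz2 := fuse h hP (g := g * Φ (mkE ρ' 1 (by rw [hρs']; simp))) (m := Φ (mkE a' c (by rw [ha', hc])))
    ⟨_, rfl⟩ (by
      have e1 : g * Φ (mkE ρ' 1 (by rw [hρs']; simp)) * Φ (mkE b0 1 sb0) *
          (g * Φ (mkE ρ' 1 (by rw [hρs']; simp)))⁻¹ = Φ (y * mkE b0 1 sb0) := by
        have e2 : g * Φ (mkE ρ' 1 (by rw [hρs']; simp)) * Φ (mkE b0 1 sb0) *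
            (g * Φ (mkE ρ' 1 (by rw [hρs']; simp)))⁻¹ =
            g * (Φ (mkE u0 1 su0) * Φ (mkE b0 1 sb0)) * g⁻¹ := by rw [huj]; group
        have hg' : g⁻¹ * Φ (mkE b0 1 sb0) = Φ (mkE b0 1 sb0) * g⁻¹ := by
          rw [inv_mul_eq_iff_eq_mul, ← mul_assoc, hg, mul_inv_cancel_right]
        rw [e2, map_mul, hy]
        calc g * (Φ (mkE u0 1 su0) * Φ (mkE b0 1 sb0)) * g⁻¹
            = g * Φ (mkE u0 1 su0) * (Φ (mkE b0 1 sb0) * g⁻¹) := by group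
          _ = g * Φ (mkE u0 1 su0) * g⁻¹ * Φ (mkE b0 1 sb0) := by rw [← hg']; group
      rw [e1, ← map_inv, ← map_mul, ← map_mul, comm_iff h]
      refine Subtype.ext (Prod.ext hac' ?_)
      show (c * t5 * c⁻¹) * (y.1.2 * 1) = (y.1.2 * 1) * (c * t5 * c⁻¹)
      rw [mul_one]; exact hcc)
  have e1 : g * Φ (mkE ρ 1 (by rw [hρs]; simp)) * Φ (mkE b0 1 sb0) *
      (g * Φ (mkE ρ 1 (by rw [hρs]; simp)))⁻¹ = Φ y := by
    rw [hy, hu]; group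
  have e2 : g * Φ (mkE ρ' 1 (by rw [hρs']; simp)) * Φ (mkE b0 1 sb0) *
      (g * Φ (mkE ρ' 1 (by rw [hρs']; simp)))⁻¹ = Φ (y * mkE b0 1 sb0) := by
    have e2 : g * Φ (mkE ρ' 1 (by rw [hρs']; simp)) * Φ (mkE b0 1 sb0) *
        (g * Φ (mkE ρ' 1 (by rw [hρs']; simp)))⁻¹ =
        g * (Φ (mkE u0 1 su0) * Φ (mkE b0 1 sb0)) * g⁻¹ := by rw [huj]; group
    have hg' : g⁻¹ * Φ (mkE b0 1 sb0) = Φ (mkE b0 1 sb0) * g⁻¹ := by
      rw [inv_mul_eq_iff_eq_mul, ← mul_assoc, hg, mul_inv_cancel_right]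
    rw [e2, map_mul, hy]
    calc g * (Φ (mkE u0 1 su0) * Φ (mkE b0 1 sb0)) * g⁻¹
        = g * Φ (mkE u0 1 su0) * (Φ (mkE b0 1 sb0) * g⁻¹) := by group
      _ = g * Φ (mkE u0 1 su0) * g⁻¹ * Φ (mkE b0 1 sb0) := by rw [← hg']; group
  rw [e1] at hz1
  rw [e2] at hz2
  obtain ⟨z, hz, hzt⟩ := hz1
  obtain ⟨z', hz', hzt'⟩ := hz2
  have hyz := h.inj hz
  have hyz' := h.inj hz'
  subst hyz
  have g1 : z'.1.1 = y.1.1 * b0 := by rw [← hyz']; rfl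
  have g2 : z'.1.2 = y.1.2 := by rw [← hyz']; exact mul_one _
  rcases hzt with ⟨σ, hσ, hσ2⟩ | ⟨hσ1, σ, hσ⟩
  · -- `y = (σ b0 σ⁻¹, 1)`
    have h5 : σ * b0 * σ⁻¹ * b0 = b0 * (σ * b0 * σ⁻¹) := by rw [← hσ]; exact hyb
    rcases d_fin σ h5 with h6 | h6 | h6
    · exfalso
      rcases hzt' with ⟨τ, hτ, -⟩ | ⟨-, τ, hτ⟩
      · rw [g1, hσ, h6, d_bb] at hτ
        have : b0 = 1 := by
          have h7 : τ⁻¹ * (τ * b0 * τ⁻¹) * τ = b0 := by group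
          rw [← h7, ← hτ]; group
        exact d_b1 this
      · rw [g2, hσ2] at hτ
        have : b0 = 1 := by
          have h7 : τ⁻¹ * (τ * b0 * τ⁻¹) * τ = b0 := by group
          rw [← h7, ← hτ]; group
        exact d_b1 this
    · left
      rw [← hy]
      congr 1
      exact Subtype.ext (Prod.ext (hσ.trans h6) hσ2)
    · right
      rw [← hy, ← map_mul]
      congr 1
      refine Subtype.ext (Prod.ext (hσ.trans h6) ?_)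
      show y.1.2 = 1 * 1
      rw [hσ2, one_mul]
  · exfalso
    have hne : y.1.2 ≠ 1 := by
      intro h7
      rw [hσ] at h7
      have : b0 = 1 := by
        have h8 : σ⁻¹ * (σ * b0 * σ⁻¹) * σ = b0 := by group
        rw [← h8, h7]; group
      exact d_b1 this
    rcases hzt' with ⟨τ, -, hτ⟩ | ⟨hτ, -⟩
    · rw [g2] at hτ; exact hne hτ
    · rw [g1, hσ1, one_mul] at hτ; exact d_b1 hτ

end H57.RCU
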