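import Cfsg.Agent.Lib.H54.RA1

set_option autoImplicit false
set_option maxRecDepth 100000

/-! S3330 (helper54), piece CU: computations in `Sym(5)` and elementary facts. -/

open Equiv Subgroup H54.RA

namespace H57.RCU

def u0 : Perm (Fin 5) := swap 0 1 * swap 2 4

theorem su0 : Perm.sign u0 = Perm.sign (1 : Perm (Fin 5)) := by decide +kernel

theorem d_cent : ∀ σ : Perm (Fin 5), σ * b0 = b0 * σ → σ * σ * (σ * σ) = 1 := by decide +kernel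

theorem d_tr : ∀ σ : Perm (Fin 5), σ * σ = 1 → ∃ ρ : Perm (Fin 5), Perm.sign ρ = 1 ∧
    (ρ * t5 * ρ⁻¹) * σ = σ * (ρ * t5 * ρ⁻¹) := by decide +kernel

theorem d_fin : ∀ ρ : Perm (Fin 5), (ρ * b0 * ρ⁻¹) * b0 = b0 * (ρ * b0 * ρ⁻¹) →
    (ρ * b0 * ρ⁻¹ = b0 ∨ ρ * b0 * ρ⁻¹ = u0 ∨ ρ * b0 * ρ⁻¹ = u0 * b0) := by decide +kernel

theorem d_u0 : ∃ ρ : Perm (Fin 5), Perm.sign ρ = 1 ∧ ρ * b0 * ρ⁻¹ = u0 := by decide +kernel
theorem d_u0b0 : ∃ ρ : Perm (Fin 5), Perm.sign ρ = 1 ∧ ρ * b0 * ρ⁻¹ = u0 * b0 := by decide +kernel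
theorem d_tu : t5 * u0 * t5⁻¹ = u0 * b0 := by decide +kernel
theorem d_ub : u0 * b0 = b0 * u0 := by decide +kernel
theorem d_bb : b0 * b0 = 1 := by decide +kernel
theorem d_uu : u0 * u0 = 1 := by decide +kernel
theorem d_tt : t5 * t5 = 1 := by decide +kernel
theorem d_tb : t5 * b0 = b0 * t5 := by decide +kernel
theorem d_b1 : b0 ≠ 1 := by decide +kernel
theorem d_u1 : u0 ≠ 1 := by decide +kernel
theorem d_ub1 : u0 ≠ b0 := by decide +kernel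
theorem d_t12 : ∃ ρ : Perm (Fin 5), Perm.sign ρ = 1 ∧ ρ * t5 * ρ⁻¹ = swap 1 2 := by decide +kernel
theorem d_t23 : ∃ ρ : Perm (Fin 5), Perm.sign ρ = 1 ∧ ρ * t5 * ρ⁻¹ = swap 2 3 := by decide +kernel

end H57.RCU
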