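import Cfsg.Agent.Lib.H57.RCU

set_option autoImplicit false

/-! S3330 (helper54), piece CU, part 2. -/

open Equiv Subgroup H54.RA

namespace H57.RCU

universe u

variable {G : Type u} [Group G] [Finite G] {Φ : EE →* G} {n : G}

/-- a Sylow 2-subgroup of `C(j)` inside the range, containing `j` -/
lemma exQ (h : TM Φ n) : ∃ Q : Sylow 2 ↥(centralizer ({Φ (mkE b0 1 sb0)} : Set G)),
    (∀ x : ↥(centralizer ({Φ (mkE b0 1 sb0)} : Set G)), x ∈ Q → (x : G) ∈ Φ.range) ∧
    ∀ x : ↥(centralizer ({Φ (mkE b0 1 sb0)} : Set G)), (x : G) = Φ (mkE b0 1 sb0) → x ∈ Q := by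
  haveI : Fact (Nat.Prime 2) := ⟨Nat.prime_two⟩
  set J := Φ (mkE b0 1 sb0) with hJ
  set B := centralizer ({J} : Set G) with hB
  have hmem : ∀ g : G, g ∈ B ↔ g * J = J * g := fun g => by
    rw [hB, mem_centralizer_singleton_iff]
  have hJJ : J * J = 1 := by
    rw [hJ, ← map_mul]
    have : mkE b0 1 sb0 * mkE b0 1 sb0 = 1 := Subtype.ext (Prod.ext d_bb (one_mul 1))
    rw [this, map_one]
  have htt : Φ tE * Φ tE = 1 := by
    rw [← map_mul]
    have : tE * tE = 1 := Subtype.ext (Prod.ext d_tt d_tt)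
    rw [this, map_one]
  have htB : Φ tE ∈ B := by
    rw [hmem, hJ, comm_iff h]
    exact Subtype.ext (Prod.ext d_tb rfl)
  let tB : B := ⟨Φ tE, htB⟩
  let jB : B := ⟨J, (hmem J).2 rfl⟩
  have hjc : ∀ g : B, g * jB = jB * g := fun g => Subtype.ext ((hmem g).1 g.2)
  haveI : (zpowers jB).Normal := zp_normal hjc
  have p1 : IsPGroup 2 (zpowers tB) := by
    apply IsPGroup.of_card (n := 1) 
    have : tB * tB = 1 := Subtype.ext htt
    have h1 : tB ≠ 1 := by
      intro h2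
      have h3 : Φ tE = 1 := congrArg Subtype.val h2
      rw [← map_one Φ] at h3
      have h4 : t5 = 1 := congrArg (fun z : EE => z.1.1) (h.inj h3)
      exact absurd h4 (by decide +kernel)
    rw [Nat.card_zpowers, orderOf_eq_prime (p := 2) (by rw [pow_two]; exact this) h1]
    rfl
  have p2 : IsPGroup 2 (zpowers jB) := by
    apply IsPGroup.of_card (n := 1) 
    have : jB * jB = 1 := Subtype.ext hJJ
    have h1 : jB ≠ 1 := by
      intro h2
      have h3 : J = 1 := congrArg Subtype.val h2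
      rw [hJ, ← map_one Φ] at h3
      have h4 : b0 = 1 := congrArg (fun z : EE => z.1.1) (h.inj h3)
      exact d_b1 h4
    rw [Nat.card_zpowers, orderOf_eq_prime (p := 2) (by rw [pow_two]; exact this) h1]
    rfl
  obtain ⟨Q, hQ⟩ := (p1.to_sup_of_normal_right p2).exists_le_sylow
  have htQ : tB ∈ Q := hQ (le_sup_left (α := Subgroup B) (mem_zpowers tB))
  have hjQ : jB ∈ Q := hQ (le_sup_right (α := Subgroup B) (mem_zpowers jB))
  refine ⟨Q, ?_, ?_⟩
  · by_contra hcon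
    push Not at hcon
    obtain ⟨x, hxQ, hxr⟩ := hcon
    let MB : Subgroup B := Φ.range.subgroupOf B
    let H : Subgroup (Q : Subgroup B) := MB.subgroupOf (Q : Subgroup B)
    have hmemH : ∀ q : (Q : Subgroup B), q ∈ H ↔ ((q : B) : G) ∈ Φ.range := fun q => by
      rw [mem_subgroupOf, mem_subgroupOf]
    have hlt : H < ⊤ := by
      rw [lt_top_iff_ne_top]
      intro h1
      have : (⟨x, hxQ⟩ : (Q : Subgroup B)) ∈ H := by rw [h1]; exact mem_top _
      rw [hmemH] at this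
      exact hxr this
    haveI : Group.IsNilpotent (Q : Subgroup B) := Q.2.isNilpotent
    obtain ⟨q, hq, hqn⟩ := SetLike.exists_of_lt (Group.normalizerCondition_of_isNilpotent H hlt)
    apply hqn
    rw [mem_normalizer_iff] at hq
    have h1 := (hq ⟨tB, htQ⟩).1 (by rw [hmemH]; exact ⟨tE, rfl⟩)
    rw [hmemH] at h1
    have h2 : ((q : B) : G) * Φ tE * ((q : B) : G)⁻¹ ∈ Φ.range := h1
    rw [hmemH]
    exact B_sub h ((hmem _).1 (q : B).2) (h.fus _ (Or.inl h2))
  · intro x hx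
    have : x = jB := Subtype.ext hx
    rw [this]; exact hjQ

lemma exhP (h : TM Φ n) (y : G) (hy : y * Φ (mkE b0 1 sb0) = Φ (mkE b0 1 sb0) * y) (hyy : y * y = 1) :
    ∃ b : G, b * Φ (mkE b0 1 sb0) = Φ (mkE b0 1 sb0) * b ∧ b * y * b⁻¹ ∈ Φ.range := by
  haveI : Fact (Nat.Prime 2) := ⟨Nat.prime_two⟩
  obtain ⟨Q, hQ, -⟩ := exQ h
  let yB : ↥(centralizer ({Φ (mkE b0 1 sb0)} : Set G)) := ⟨y, mem_centralizer_singleton_iff.2 hy⟩
  have p1 : IsPGroup 2 (zpowers yB) := by
    have h2 : yB ^ 2 = 1 := by rw [pow_two]; exact Subtype.ext hyy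
    obtain ⟨k, -, hk⟩ := (Nat.dvd_prime_pow Nat.prime_two).1
      (show orderOf yB ∣ 2 ^ 1 by rw [pow_one]; exact orderOf_dvd_of_pow_eq_one h2)
    apply IsPGroup.of_card (n := k)
    rw [Nat.card_zpowers, hk]
  obtain ⟨Q', hQ'⟩ := p1.exists_le_sylow
  obtain ⟨b, hb⟩ := MulAction.exists_smul_eq ↥(centralizer ({Φ (mkE b0 1 sb0)} : Set G)) Q' Q
  have h3 : b * yB * b⁻¹ ∈ Q := by
    rw [← hb]
    have : b * yB * b⁻¹ = MulAut.conj b • yB := rfl
    rw [this]
    exact Subgroup.smul_mem_pointwise_smul _ _ _ (hQ' (mem_zpowers yB))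
  exact ⟨b, mem_centralizer_singleton_iff.1 b.2, hQ _ h3⟩

end H57.RCU
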