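import Cfsg.Agent.Lib.H57.RCUb

set_option autoImplicit false

/-! S3330 (helper54), piece CU, part 3. -/

open Equiv Subgroup H54.RA

namespace H57.RCU

universe u

variable {G : Type u} [Group G] {Φ : EE →* G} {n : G}

lemma M_mulr (h : TM Φ n) {m g : G} (hm : m ∈ Φ.range) (hM : g ∈ Φ.range ∨ g * n ∈ Φ.range) :
    g * m ∈ Φ.range ∨ g * m * n ∈ Φ.range := by
  rcases hM with hM | ⟨x, hx⟩
  · exact Or.inl (mul_mem hM hm)
  · right
    obtain ⟨z, rfl⟩ := hm
    obtain ⟨y, -, -, hy⟩ := nconj h z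
    have hgx : g = Φ x * n := by rw [hx, mul_assoc, h.nn, mul_one]
    refine ⟨x * y, ?_⟩
    rw [map_mul, ← hy, hgx, ni h]
    group

lemma odd_one {H : Type*} [Group H] {x : H} {k : ℕ} (hk : Odd k) (h1 : x ^ k = 1) (h4 : x ^ 4 = 1) : x = 1 := by
  rw [← orderOf_eq_one_iff]
  have h2 := orderOf_dvd_of_pow_eq_one h1
  have h3 := orderOf_dvd_of_pow_eq_one h4
  have hco : Nat.Coprime k 4 := by
    have : Nat.Coprime k 2 := Nat.coprime_two_right.2 hk
    exact Nat.Coprime.pow_right 2 this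
  exact Nat.eq_one_of_dvd_coprimes hco h2 h3

section quot

variable {B : Type u} [Group B] [Finite B] {j : B} [(zpowers j).Normal]

lemma lift_odd (hj2 : j * j = 1) (N : Subgroup (B ⧸ zpowers j)) (hodd : Odd (Nat.card N))
    {ν : B ⧸ zpowers j} (hν : ν ∈ N) : ∃ y : B, (y : B ⧸ zpowers j) = ν ∧ Odd (orderOf y) := by
  obtain ⟨y, rfl⟩ := QuotientGroup.mk_surjective ν
  set k := Nat.card N with hk
  have h1 : (y : B ⧸ zpowers j) ^ k = 1 := by
    have : (⟨(y : B ⧸ zpowers j), hν⟩ : N) ^ k = 1 := pow_card_eq_one'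
    exact congrArg Subtype.val this
  refine ⟨y ^ (k + 1), ?_, ?_⟩
  · rw [QuotientGroup.mk_pow, pow_succ, h1, one_mul]
  · have h2 : y ^ k ∈ zpowers j := by
      rw [← QuotientGroup.eq_one_iff, QuotientGroup.mk_pow]; exact h1
    have h3 : (y ^ (k + 1)) ^ k = 1 := by
      rw [← pow_mul, mul_comm, pow_mul]
      obtain ⟨l, hl⟩ := hodd.add_one
      rw [hl, ← two_mul, pow_mul]
      rcases (mem_zp hj2).1 h2 with h4 | h4
      · rw [h4, one_pow, one_pow]
      · rw [h4, pow_two, hj2, one_pow]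
    exact hodd.of_dvd_nat (orderOf_dvd_of_pow_eq_one h3)

lemma comm_lift (hj2 : j * j = 1) (hj1 : j ≠ 1) (hjc : ∀ g : B, g * j = j * g) {y s : B}
    (hy : Odd (orderOf y)) (h : (s : B ⧸ zpowers j) * y * (s : B ⧸ zpowers j)⁻¹ = y) : s * y = y * s := by
  rw [← QuotientGroup.mk_mul, ← QuotientGroup.mk_inv, ← QuotientGroup.mk_mul, eq_comm, QuotientGroup.eq,
    mem_zp hj2] at h
  rcases h with h | h
  · have h2 : s * y * s⁻¹ = y := by
      have : s * y * s⁻¹ = y * (y⁻¹ * (s * y * s⁻¹)) := by group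
      rw [this, h, mul_one]
    calc s * y = (s * y * s⁻¹) * s := by group
      _ = y * s := by rw [h2]
  · exfalso
    have h2 : s * y * s⁻¹ = y * j := by
      have : s * y * s⁻¹ = y * (y⁻¹ * (s * y * s⁻¹)) := by group
      rw [this, h]
    have h3 : (s * y * s⁻¹) ^ (orderOf y) = 1 := by
      rw [conj_pow, pow_orderOf_eq_one]; group
    rw [h2] at h3
    have hc : Commute y j := hjc y
    rw [hc.mul_pow, pow_orderOf_eq_one, one_mul] at h3
    obtain ⟨l, hl⟩ := hy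
    rw [hl, pow_succ, pow_mul, pow_two, hj2, one_pow, one_mul] at h3
    exact hj1 h3

end quot

/-- the map `Alt(5) → C(j)` -/
def alt (Φ : EE →* G) (J : G) (h : ∀ τ : Perm (Fin 5), ∀ hs : Perm.sign (1 : Perm (Fin 5)) = Perm.sign τ,
    Φ (mkE 1 τ hs) ∈ centralizer ({J} : Set G)) :
    alternatingGroup (Fin 5) →* ↥(centralizer ({J} : Set G)) where
  toFun τ := ⟨Φ (mkE 1 τ.1 (by rw [Perm.mem_alternatingGroup.1 τ.2]; simp)), h _ _⟩
  map_one' := Subtype.ext (by
    show Φ (mkE 1 1 _) = 1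
    rw [← map_one Φ]; rfl)
  map_mul' a b := Subtype.ext (by
    show Φ (mkE 1 (a.1 * b.1) _) = Φ (mkE 1 a.1 _) * Φ (mkE 1 b.1 _)
    rw [← map_mul]
    congr 1)

variable [Finite G]

lemma noN (h : TM Φ n) {J : G} (hJ : J = Φ (mkE b0 1 sb0)) {j : ↥(centralizer ({J} : Set G))} (hj : (j : G) = J)
    [(zpowers j).Normal] (N : Subgroup (↥(centralizer ({J} : Set G)) ⧸ zpowers j))
    (hNn : N.Normal) (hodd : Odd (Nat.card N)) : N = ⊥ := by
  have hmem : ∀ g : G, g ∈ centralizer ({J} : Set G) ↔ g * J = J * g := fun g => by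
    rw [mem_centralizer_singleton_iff]
  have hJJ : J * J = 1 := by
    rw [hJ, ← map_mul]
    have : mkE b0 1 sb0 * mkE b0 1 sb0 = 1 := Subtype.ext (Prod.ext d_bb (one_mul 1))
    rw [this, map_one]
  have hJ1 : J ≠ 1 := by
    intro h3
    rw [hJ, ← map_one Φ] at h3
    have h4 : b0 = 1 := congrArg (fun z : EE => z.1.1) (h.inj h3)
    exact d_b1 h4
  have hj2 : j * j = 1 := Subtype.ext (by show (j : G) * j = 1; rw [hj]; exact hJJ)
  have hj1 : j ≠ 1 := fun h1 => hJ1 (by rw [← hj, h1]; rfl)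
  have hjc : ∀ g : ↥(centralizer ({J} : Set G)), g * j = j * g := fun g =>
    Subtype.ext (by show (g : G) * j = j * g; rw [hj]; exact (hmem g).1 g.2)
  have halt : ∀ τ : Perm (Fin 5), ∀ hs : Perm.sign (1 : Perm (Fin 5)) = Perm.sign τ,
      Φ (mkE 1 τ hs) ∈ centralizer ({J} : Set G) := by
    intro τ hs
    rw [hmem, hJ, comm_iff h]
    refine Subtype.ext (Prod.ext ?_ ?_)
    · show 1 * b0 = b0 * 1
      rw [one_mul, mul_one]
    · show τ * 1 = 1 * τ
      rw [one_mul, mul_one]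
  -- (c)
  have hc : ∀ y : ↥(centralizer ({J} : Set G)), (y : ↥(centralizer ({J} : Set G)) ⧸ zpowers j) ∈ N →
      Odd (orderOf y) → (y : G) ∈ Φ.range → y = 1 := by
    intro y hyN hyo ⟨x, hx⟩
    have hxc : x * mkE b0 1 sb0 = mkE b0 1 sb0 * x := by
      rw [← comm_iff h, hx, ← hJ]; exact (hmem y).1 y.2
    have hx1 : x.1.1 * b0 = b0 * x.1.1 := congrArg (fun z : EE => z.1.1) hxc
    have hxk : x ^ (orderOf y) = 1 := by
      apply h.inj
      rw [map_pow, hx, map_one]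
      have := congrArg Subtype.val (pow_orderOf_eq_one y)
      exact this
    have hx1k : x.1.1 ^ (orderOf y) = 1 := congrArg (fun z : EE => z.1.1) hxk
    have hx11 : x.1.1 = 1 := by
      apply odd_one hyo hx1k
      have := d_cent x.1.1 hx1
      rw [show (4 : ℕ) = 2 + 2 from rfl, pow_add, pow_two]
      exact this
    have hs : Perm.sign (1 : Perm (Fin 5)) = Perm.sign x.1.2 := by
      have := x.2
      have h5 : Perm.sign x.1.1 = Perm.sign x.1.2 := this
      rw [← h5, hx11]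
    have hs' : x.1.2 ∈ alternatingGroup (Fin 5) := by
      rw [Perm.mem_alternatingGroup, ← hs]; simp
    let α := alt Φ J halt
    let N1 : Subgroup (alternatingGroup (Fin 5)) :=
      N.comap ((QuotientGroup.mk' (zpowers j)).comp α)
    haveI : N1.Normal := hNn.comap _
    have hyα : y = α ⟨x.1.2, hs'⟩ := by
      apply Subtype.ext
      rw [← hx]
      show Φ x = Φ (mkE 1 x.1.2 _)
      congr 1
      exact Subtype.ext (Prod.ext hx11 rfl)
    rcases (inferInstance : N1.Normal).eq_bot_or_eq_top with h1 | h1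
    · have h2 : (⟨x.1.2, hs'⟩ : alternatingGroup (Fin 5)) ∈ N1 := by
        show (QuotientGroup.mk' (zpowers j)) (α ⟨x.1.2, hs'⟩) ∈ N
        rw [← hyα]; exact hyN
      rw [h1, mem_bot] at h2
      rw [hyα, h2, map_one]
    · exfalso
      have hb : b0 ∈ alternatingGroup (Fin 5) := by
        rw [Perm.mem_alternatingGroup, sb0]; simp
      have h2 : (⟨b0, hb⟩ : alternatingGroup (Fin 5)) ∈ N1 := by rw [h1]; exact mem_top _
      have h3 : (QuotientGroup.mk' (zpowers j)) (α ⟨b0, hb⟩) ∈ N := h2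
      have h4 : (QuotientGroup.mk' (zpowers j)) (α ⟨b0, hb⟩) = 1 := by
        have h5 : (⟨_, h3⟩ : N) = 1 := by
          apply odd_one hodd pow_card_eq_one'
          apply Subtype.ext
          show ((QuotientGroup.mk' (zpowers j)) (α ⟨b0, hb⟩)) ^ 4 = 1
          rw [← map_pow, ← map_pow]
          have : (⟨b0, hb⟩ : alternatingGroup (Fin 5)) ^ 4 = 1 := by
            apply Subtype.ext
            show b0 ^ 4 = 1
            rw [show (4 : ℕ) = 2 + 2 from rfl, pow_add, pow_two, d_bb, one_mul]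
          rw [this, map_one, map_one]
        exact congrArg Subtype.val h5
      rw [QuotientGroup.mk'_apply, QuotientGroup.eq_one_iff, mem_zp hj2] at h4
      rcases h4 with h4 | h4
      · have h5 : Φ (mkE 1 b0 sb0.symm) = Φ 1 := (congrArg Subtype.val h4).trans (map_one Φ).symm
        exact d_b1 (congrArg (fun z : EE => z.1.2) (h.inj h5))
      · have h5 : Φ (mkE 1 b0 sb0.symm) = Φ (mkE b0 1 sb0) := (congrArg Subtype.val h4).trans (hj.trans hJ)
        exact d_b1 (congrArg (fun z : EE => z.1.2) (h.inj h5))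
  -- (e)
  have hinv : ∀ ρ : Perm (Fin 5), ∀ hρ : Perm.sign (1 : Perm (Fin 5)) = Perm.sign ρ, ∀ s : ↥(centralizer ({J} : Set G)),
      (s : G) = Φ (mkE 1 ρ hρ) * Φ tE * (Φ (mkE 1 ρ hρ))⁻¹ →
      ∀ ν ∈ N, (s : ↥(centralizer ({J} : Set G)) ⧸ zpowers j) * ν * (s : ↥(centralizer ({J} : Set G)) ⧸ zpowers j)⁻¹ = ν⁻¹ := by
    intro ρ hρ s hs ν hν
    set m := Φ (mkE 1 ρ hρ) with hm
    have htt : Φ tE * Φ tE = 1 := by
      rw [← map_mul]
      have : tE * tE = 1 := Subtype.ext (Prod.ext d_tt d_tt)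
      rw [this, map_one]
    have hss : s * s = 1 := by
      apply Subtype.ext
      show (s : G) * s = 1
      rw [hs]
      calc m * Φ tE * m⁻¹ * (m * Φ tE * m⁻¹) = m * (Φ tE * Φ tE) * m⁻¹ := by group
        _ = 1 := by rw [htt]; group
    let φ : N →* N :=
      { toFun := fun x => ⟨(s : ↥(centralizer ({J} : Set G)) ⧸ zpowers j) * x *
          (s : ↥(centralizer ({J} : Set G)) ⧸ zpowers j)⁻¹, hNn.conj_mem _ x.2 _⟩
        map_one' := Subtype.ext (by simp)
        map_mul' := fun a b => Subtype.ext (by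
          show _ * (_ * _) * _ = _ * _ * _ * (_ * _ * _)
          group) }
    have hf : MonoidHom.FixedPointFree φ := by
      intro x hx
      have hx' : (s : ↥(centralizer ({J} : Set G)) ⧸ zpowers j) * x *
          (s : ↥(centralizer ({J} : Set G)) ⧸ zpowers j)⁻¹ = x := congrArg Subtype.val hx
      obtain ⟨y, hy, hyo⟩ := lift_odd hj2 N hodd x.2
      rw [← hy] at hx'
      have h1 := comm_lift hj2 hj1 hjc hyo hx'
      have h1' : (s : G) * y = y * s := congrArg Subtype.val h1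
      have h2 : (m⁻¹ * (y : G) * m) * Φ tE = Φ tE * (m⁻¹ * (y : G) * m) := by
        rw [hs] at h1'
        calc (m⁻¹ * (y : G) * m) * Φ tE = m⁻¹ * (y * (m * Φ tE * m⁻¹)) * m := by group
          _ = m⁻¹ * ((m * Φ tE * m⁻¹) * y) * m := by rw [h1']
          _ = Φ tE * (m⁻¹ * (y : G) * m) := by group
      have h3 := M_mulr h (inv_mem (⟨_, rfl⟩ : m ∈ Φ.range)) (M_mul h (⟨_, rfl⟩ : m ∈ Φ.range) (h.ct _ h2))
      have h4 : m * (m⁻¹ * (y : G) * m) * m⁻¹ = y := by group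
      rw [h4] at h3
      have h5 := B_sub h (by rw [← hJ]; exact (hmem _).1 y.2) h3
      have h6 := hc y (by rw [hy]; exact x.2) hyo h5
      apply Subtype.ext
      rw [← hy, h6]
      rfl
    have hsq : φ^[2] = _root_.id := by
      funext x
      apply Subtype.ext
      show (s : ↥(centralizer ({J} : Set G)) ⧸ zpowers j) * ((s : ↥(centralizer ({J} : Set G)) ⧸ zpowers j) * x *
          (s : ↥(centralizer ({J} : Set G)) ⧸ zpowers j)⁻¹) * (s : ↥(centralizer ({J} : Set G)) ⧸ zpowers j)⁻¹ = x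
      have hs2 : (s : ↥(centralizer ({J} : Set G)) ⧸ zpowers j) * s = 1 := by
        rw [← QuotientGroup.mk_mul, hss, QuotientGroup.mk_one]
      have hs3 : (s : ↥(centralizer ({J} : Set G)) ⧸ zpowers j)⁻¹ = s := inv_eq_of_mul_eq_one_right hs2
      rw [hs3]
      calc (s : ↥(centralizer ({J} : Set G)) ⧸ zpowers j) * (s * x * s) * s
          = (s * s) * x * (s * s) := by group
        _ = x := by rw [hs2]; group
    have := MonoidHom.FixedPointFree.coe_eq_inv_of_sq_eq_one hf hsq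
    exact congrArg Subtype.val (congrFun this ⟨ν, hν⟩)
  rw [eq_bot_iff]
  intro ν hν
  rw [mem_bot]
  obtain ⟨y, hy, hyo⟩ := lift_odd hj2 N hodd hν
  obtain ⟨ρ1, hρ1, e1⟩ := d_t12
  obtain ⟨ρ2, hρ2, e2⟩ := d_t23
  have hT : ∀ ρ : Perm (Fin 5), ∀ hρ : Perm.sign (1 : Perm (Fin 5)) = Perm.sign ρ,
      Φ (mkE 1 ρ hρ) * Φ tE * (Φ (mkE 1 ρ hρ))⁻¹ ∈ centralizer ({J} : Set G) := by
    intro ρ hρ
    apply mul_mem (mul_mem (halt _ _) _) (inv_mem (halt _ _))
    rw [hmem, hJ, comm_iff h]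
    exact Subtype.ext (Prod.ext d_tb rfl)
  have hs1 : Perm.sign (1 : Perm (Fin 5)) = Perm.sign ρ1 := by rw [hρ1]; simp
  have hs2 : Perm.sign (1 : Perm (Fin 5)) = Perm.sign ρ2 := by rw [hρ2]; simp
  let s1 : ↥(centralizer ({J} : Set G)) := ⟨_, hT ρ1 hs1⟩
  let s2 : ↥(centralizer ({J} : Set G)) := ⟨_, hT ρ2 hs2⟩
  have i1 := hinv ρ1 hs1 s1 rfl
  have i2 := hinv ρ2 hs2 s2 rfl
  have hw : ((s1 * s2 : ↥(centralizer ({J} : Set G))) : ↥(centralizer ({J} : Set G)) ⧸ zpowers j) * y *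
      ((s1 * s2 : ↥(centralizer ({J} : Set G))) : ↥(centralizer ({J} : Set G)) ⧸ zpowers j)⁻¹ = y := by
    rw [hy, QuotientGroup.mk_mul, mul_inv_rev]
    calc (s1 : ↥(centralizer ({J} : Set G)) ⧸ zpowers j) * s2 * ν * ((s2 : ↥(centralizer ({J} : Set G)) ⧸ zpowers j)⁻¹ * (s1 : ↥(centralizer ({J} : Set G)) ⧸ zpowers j)⁻¹)
        = s1 * (s2 * ν * (s2 : ↥(centralizer ({J} : Set G)) ⧸ zpowers j)⁻¹) * (s1 : ↥(centralizer ({J} : Set G)) ⧸ zpowers j)⁻¹ := by group
      _ = ν := by rw [i2 ν hν, i1 _ (inv_mem hν), inv_inv]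
  have hcw := comm_lift hj2 hj1 hjc hyo hw
  have hcw' : ((s1 : G) * s2) * y = y * ((s1 : G) * s2) := congrArg Subtype.val hcw
  have hprod : (s1 : G) * s2 = Φ (mkE 1 d5 (by decide +kernel)) := by
    show (Φ (mkE 1 ρ1 hs1) * Φ tE * (Φ (mkE 1 ρ1 hs1))⁻¹) * (Φ (mkE 1 ρ2 hs2) * Φ tE * (Φ (mkE 1 ρ2 hs2))⁻¹) = _
    rw [← map_inv, ← map_inv, ← map_mul, ← map_mul, ← map_mul, ← map_mul, ← map_mul]
    congr 1
    refine Subtype.ext (Prod.ext ?_ ?_)
    · show (1 * t5 * 1⁻¹) * (1 * t5 * 1⁻¹) = 1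
      rw [inv_one, one_mul, mul_one, d_tt]
    · show (ρ1 * t5 * ρ1⁻¹) * (ρ2 * t5 * ρ2⁻¹) = d5
      rw [e1, e2]; rfl
  rw [hprod] at hcw'
  have hn : n * Φ (mkE d5 1 (by decide +kernel)) * n⁻¹ = Φ (mkE 1 d5 (by decide +kernel)) := h.nc d5 1 _
  have h7 : (n⁻¹ * (y : G) * n) * Φ (mkE d5 1 (by decide +kernel)) =
      Φ (mkE d5 1 (by decide +kernel)) * (n⁻¹ * (y : G) * n) := by
    calc (n⁻¹ * (y : G) * n) * Φ (mkE d5 1 (by decide +kernel))
        = n⁻¹ * (y * (n * Φ (mkE d5 1 (by decide +kernel)) * n⁻¹)) * n := by group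
      _ = n⁻¹ * ((n * Φ (mkE d5 1 (by decide +kernel)) * n⁻¹) * y) * n := by rw [hn, hcw']
      _ = Φ (mkE d5 1 (by decide +kernel)) * (n⁻¹ * (y : G) * n) := by group
  obtain ⟨x, hx⟩ := h.cw _ h7
  obtain ⟨x', -, -, hx'⟩ := nconj h x
  have h8 : (y : G) ∈ Φ.range := ⟨x', by rw [← hx', hx]; group⟩
  rw [← hy, hc y (by rw [hy]; exact hν) hyo h8]
  rfl

end H57.RCU
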