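import Cfsg.Agent.Lib.H57.RCUc

set_option autoImplicit false
set_option maxRecDepth 100000

/-! S3330 (helper54), piece CU, part 4. -/

open Equiv Subgroup H54.RA

namespace H57.RCU

universe u

variable {G : Type u} [Group G] [Finite G] {Φ : EE →* G} {n : G}

lemma conj_u (h : TM Φ n) {g : G} (hg : g * Φ (mkE b0 1 sb0) = Φ (mkE b0 1 sb0) * g) :
    g * Φ (mkE u0 1 su0) * g⁻¹ = Φ (mkE u0 1 su0) ∨
      g * Φ (mkE u0 1 su0) * g⁻¹ = Φ (mkE u0 1 su0) * Φ (mkE b0 1 sb0) := by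
  obtain ⟨Q, hQr, hQj⟩ := exQ h
  have hmem : ∀ g : G, g ∈ centralizer ({Φ (mkE b0 1 sb0)} : Set G) ↔
      g * Φ (mkE b0 1 sb0) = Φ (mkE b0 1 sb0) * g := fun g => by
    rw [mem_centralizer_singleton_iff]
  let j : ↥(centralizer ({Φ (mkE b0 1 sb0)} : Set G)) := ⟨Φ (mkE b0 1 sb0), (hmem _).2 rfl⟩
  have hub : Φ (mkE u0 1 su0) * Φ (mkE b0 1 sb0) = Φ (mkE b0 1 sb0) * Φ (mkE u0 1 su0) := by
    rw [comm_iff h]; exact Subtype.ext (Prod.ext d_ub rfl)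
  let u : ↥(centralizer ({Φ (mkE b0 1 sb0)} : Set G)) := ⟨Φ (mkE u0 1 su0), (hmem _).2 hub⟩
  have hj2 : j * j = 1 := Subtype.ext (by
    show Φ (mkE b0 1 sb0) * Φ (mkE b0 1 sb0) = 1
    rw [← map_mul]
    have : mkE b0 1 sb0 * mkE b0 1 sb0 = 1 := Subtype.ext (Prod.ext d_bb (one_mul 1))
    rw [this, map_one])
  have hu2 : u * u = 1 := Subtype.ext (by
    show Φ (mkE u0 1 su0) * Φ (mkE u0 1 su0) = 1
    rw [← map_mul]
    have : mkE u0 1 su0 * mkE u0 1 su0 = 1 := Subtype.ext (Prod.ext d_uu (one_mul 1))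
    rw [this, map_one])
  have hjc : ∀ g : ↥(centralizer ({Φ (mkE b0 1 sb0)} : Set G)), g * j = j * g := fun g =>
    Subtype.ext ((hmem g).1 g.2)
  have hu1 : u ≠ 1 := by
    intro h1
    have h5 : Φ (mkE u0 1 su0) = Φ 1 := (congrArg Subtype.val h1).trans (map_one Φ).symm
    exact d_u1 (congrArg (fun z : EE => z.1.1) (h.inj h5))
  have huj : u ≠ j := by
    intro h1
    have h5 : Φ (mkE u0 1 su0) = Φ (mkE b0 1 sb0) := congrArg Subtype.val h1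
    exact d_ub1 (congrArg (fun z : EE => z.1.1) (h.inj h5))
  haveI : (zpowers j).Normal := zp_normal hjc
  have key := zmod hj2 hjc Q (hQj j rfl) hu2 hu1 huj
    (by
      intro x hx
      have h1 := isol h (exhP h) ((hmem _).1 x.2) (hQr _ hx)
      rcases h1 with h1 | h1
      · left; exact Subtype.ext h1
      · right; exact Subtype.ext h1)
    (fun N hN ho => noN h rfl (j := j) rfl N hN ho) ⟨g, (hmem g).2 hg⟩
  rcases key with h1 | h1
  · left; exact congrArg Subtype.val h1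
  · right; exact congrArg Subtype.val h1

theorem cu_of (h : TM Φ n)
    (hV : ∀ g : G, g * Φ (mkE b0 1 sb0) = Φ (mkE b0 1 sb0) * g →
      g * Φ (mkE (swap 0 1 * swap 2 4) 1 (by decide +kernel)) =
        Φ (mkE (swap 0 1 * swap 2 4) 1 (by decide +kernel)) * g → g ∈ Φ.range)
    (g : G) (hg : g * Φ (mkE b0 1 sb0) = Φ (mkE b0 1 sb0) * g) : g ∈ Φ.range := by
  rcases conj_u h hg with h1 | h1
  · apply hV g hg
    show g * Φ (mkE u0 1 su0) = Φ (mkE u0 1 su0) * g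
    calc g * Φ (mkE u0 1 su0) = (g * Φ (mkE u0 1 su0) * g⁻¹) * g := by group
      _ = Φ (mkE u0 1 su0) * g := by rw [h1]
  · have htj : Φ tE * Φ (mkE b0 1 sb0) = Φ (mkE b0 1 sb0) * Φ tE := by
      rw [comm_iff h]; exact Subtype.ext (Prod.ext d_tb rfl)
    have htu : Φ tE * Φ (mkE u0 1 su0) * (Φ tE)⁻¹ = Φ (mkE u0 1 su0) * Φ (mkE b0 1 sb0) := by
      rw [← map_inv, ← map_mul, ← map_mul, ← map_mul]
      congr 1
      refine Subtype.ext (Prod.ext d_tu ?_)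
      show t5 * 1 * t5⁻¹ = 1 * 1
      rw [mul_one, mul_inv_cancel, one_mul]
    have hjj : Φ (mkE b0 1 sb0) * Φ (mkE b0 1 sb0) = 1 := by
      rw [← map_mul]
      have : mkE b0 1 sb0 * mkE b0 1 sb0 = 1 := Subtype.ext (Prod.ext d_bb (one_mul 1))
      rw [this, map_one]
    have h2 : (Φ tE * g) * Φ (mkE u0 1 su0) * (Φ tE * g)⁻¹ = Φ (mkE u0 1 su0) := by
      calc (Φ tE * g) * Φ (mkE u0 1 su0) * (Φ tE * g)⁻¹
          = Φ tE * (g * Φ (mkE u0 1 su0) * g⁻¹) * (Φ tE)⁻¹ := by group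
        _ = Φ tE * (Φ (mkE u0 1 su0) * Φ (mkE b0 1 sb0)) * (Φ tE)⁻¹ := by rw [h1]
        _ = (Φ tE * Φ (mkE u0 1 su0) * (Φ tE)⁻¹) * (Φ tE * Φ (mkE b0 1 sb0) * (Φ tE)⁻¹) := by group
        _ = Φ (mkE u0 1 su0) * Φ (mkE b0 1 sb0) * (Φ (mkE b0 1 sb0) * Φ tE * (Φ tE)⁻¹) := by rw [htu, htj]
        _ = Φ (mkE u0 1 su0) * (Φ (mkE b0 1 sb0) * Φ (mkE b0 1 sb0)) := by group
        _ = Φ (mkE u0 1 su0) := by rw [hjj, mul_one]
    have h3 : Φ tE * g ∈ Φ.range := by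
      apply hV
      · calc Φ tE * g * Φ (mkE b0 1 sb0) = Φ tE * (g * Φ (mkE b0 1 sb0)) := by group
          _ = (Φ tE * Φ (mkE b0 1 sb0)) * g := by rw [hg]; group
          _ = Φ (mkE b0 1 sb0) * (Φ tE * g) := by rw [htj]; group
      · show Φ tE * g * Φ (mkE u0 1 su0) = Φ (mkE u0 1 su0) * (Φ tE * g)
        calc Φ tE * g * Φ (mkE u0 1 su0)
            = ((Φ tE * g) * Φ (mkE u0 1 su0) * (Φ tE * g)⁻¹) * (Φ tE * g) := by group
          _ = Φ (mkE u0 1 su0) * (Φ tE * g) := by rw [h2]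
    have h4 : g = (Φ tE)⁻¹ * (Φ tE * g) := by group
    rw [h4]
    exact mul_mem (inv_mem ⟨tE, rfl⟩) h3

end H57.RCU
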