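import Cfsg.Statements.S1904
import Cfsg.Agent.Lib.H3.Extraspecial
import Cfsg.Agent.Lib.H1.UniqueSub

/-! 2-groups with central squares and commutators and few involutions. -/

set_option autoImplicit false

namespace H57.Sc

open Subgroup
open scoped commutatorElement

/-- squares and commutators central, centre of exponent two -/
structure C2 (Y : Type*) [Group Y] : Prop where
  two : IsPGroup 2 Y
  sq : ∀ x : Y, x * x ∈ center Y
  cm : ∀ x y : Y, ⁅x, y⁆ ∈ center Y
  z2 : ∀ z ∈ center Y, z * z = 1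

/-- every noncentral coset of the centre is moved by an automorphism trivial on the centre -/
def Mv (Y : Type*) [Group Y] : Prop :=
  ∀ x : Y, x ∉ center Y → ∃ φ : Y ≃* Y, (∀ z ∈ center Y, φ z = z) ∧ x⁻¹ * φ x ∉ center Y

variable {Y : Type*} [Group Y] [Finite Y]

theorem C2.comm_left (h : C2 Y) (x y w : Y) : ⁅x * y, w⁆ = ⁅x, w⁆ * ⁅y, w⁆ := by
  have h1 := mem_center_iff.1 (h.cm y w) x
  simp only [commutatorElement_def] at h1 ⊢
  calc x * y * w * (x * y)⁻¹ * w⁻¹ = (x * (y * w * y⁻¹ * w⁻¹)) * w * x⁻¹ * w⁻¹ := by group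
    _ = ((y * w * y⁻¹ * w⁻¹) * x) * w * x⁻¹ * w⁻¹ := by rw [h1]
    _ = (y * w * y⁻¹ * w⁻¹) * (x * w * x⁻¹ * w⁻¹) := by group
    _ = x * w * x⁻¹ * w⁻¹ * (y * w * y⁻¹ * w⁻¹) :=
        (mem_center_iff.1 (h.cm y w) (x * w * x⁻¹ * w⁻¹)).symm

theorem C2.comm_right (h : C2 Y) (x y w : Y) : ⁅x, y * w⁆ = ⁅x, y⁆ * ⁅x, w⁆ := by
  have h1 : ∀ a b : Y, ⁅a, b⁆ = ⁅b, a⁆⁻¹ := fun a b => (commutatorElement_inv b a).symm
  rw [h1 x (y * w), h.comm_left, mul_inv_rev, ← h1, ← h1]
  exact mem_center_iff.1 (h.cm x y) _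

theorem C2.comm_sq (h : C2 Y) (x y : Y) : ⁅x, y⁆ * ⁅x, y⁆ = 1 := h.z2 _ (h.cm x y)

theorem C2.comm_inv (h : C2 Y) (x y : Y) : ⁅x, y⁆⁻¹ = ⁅x, y⁆ :=
  inv_eq_of_mul_eq_one_left (h.comm_sq x y)

theorem C2.comm_symm (h : C2 Y) (x y : Y) : ⁅x, y⁆ = ⁅y, x⁆ := by
  rw [← h.comm_inv, commutatorElement_inv]

theorem C2.sq_mul (h : C2 Y) (x y : Y) : x * y * (x * y) = x * x * (y * y) * ⁅y, x⁆ := by
  have h1 := mem_center_iff.1 (h.cm y x) x
  have h2 := mem_center_iff.1 (h.cm y x) (x * x * (y * y))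
  rw [h2]
  simp only [commutatorElement_def] at h1 ⊢
  calc x * y * (x * y) = (x * (y * x * y⁻¹ * x⁻¹)) * x * y * y := by group
    _ = ((y * x * y⁻¹ * x⁻¹) * x) * x * y * y := by rw [h1]
    _ = _ := by group

theorem comm_eq_one {x y : Y} : ⁅x, y⁆ = 1 ↔ x * y = y * x := by
  rw [commutatorElement_eq_one_iff_mul_comm]

/-- `y ↦ ⁅x, y⁆` as homomorphism to the centre -/
def C2.ch (h : C2 Y) (x : Y) : Y →* center Y where
  toFun y := ⟨⁅x, y⁆, h.cm x y⟩
  map_one' := by ext; simp
  map_mul' a b := by ext; exact h.comm_right x a b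

theorem C2.mem_ker (h : C2 Y) {x y : Y} : y ∈ (h.ch x).ker ↔ x * y = y * x := by
  rw [MonoidHom.mem_ker, ← comm_eq_one]
  constructor
  · intro h1; exact congrArg Subtype.val h1
  · intro h1; exact Subtype.ext h1

theorem C2.ker_eq (h : C2 Y) (x : Y) : (h.ch x).ker = centralizer ({x} : Set Y) := by
  ext y
  rw [h.mem_ker, mem_centralizer_singleton_iff]
  exact eq_comm

theorem card_le_ker {H K : Type*} [Group H] [Finite H] [Group K] (f : H →* K) {n : ℕ}
    (hn : Nat.card f.range ≤ n) : Nat.card H ≤ Nat.card f.ker * n := by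
  rw [← card_mul_index f.ker, index_ker]
  exact Nat.mul_le_mul_left _ hn

theorem ncard_le_of_subset {S : Subgroup Y} {T : Set Y} (h : ∀ x ∈ S, x ∈ T) :
    Nat.card S ≤ T.ncard := by
  rw [← Nat.card_coe_set_eq]
  exact Nat.card_mono (Set.toFinite _) h

theorem ncard_coset {T : Set Y} (x : Y) : {y | x * y ∈ T}.ncard = T.ncard := by
  rw [← Set.ncard_image_of_injective {y | x * y ∈ T} (mul_right_injective x)]
  congr 1
  ext y
  constructor
  · rintro ⟨w, hw, rfl⟩; exact hw
  · intro hy; exact ⟨x⁻¹ * y, by simpa using hy, by simp⟩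

theorem ncard_union_coset {T : Set Y} (x : Y) : (T ∪ {y | x * y ∈ T}).ncard ≤ 2 * T.ncard := by
  refine (Set.ncard_union_le _ _).trans ?_
  rw [ncard_coset]; omega

theorem ncard_center : (center Y : Set Y).ncard = Nat.card (center Y) :=
  (Nat.card_coe_set_eq _).symm

/-- centraliser bound when the centre has order four -/
theorem C2.card_centralizer_le (h : C2 Y) (h4 : Nat.card (center Y) = 4)
    (hno : ∀ x : Y, x * x = 1 → x ∈ center Y) {x : Y} (hx : x ∉ center Y) :
    Nat.card (centralizer ({x} : Set Y)) ≤ 32 := by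
  classical
  have hq1 : x * x ≠ 1 := fun h1 => hx (hno x h1)
  set T : Set Y := (center Y : Set Y) ∪ {y | x * y ∈ (center Y : Set Y)} with hT
  have hTc : T.ncard ≤ 8 := by
    refine (ncard_union_coset x).trans ?_
    rw [ncard_center, h4]
  by_cases hC : ∀ y ∈ centralizer ({x} : Set Y), y ∈ T
  · exact (ncard_le_of_subset hC).trans (hTc.trans (by norm_num))
  push Not at hC
  obtain ⟨y₁, hy₁, hy₁T⟩ := hC
  -- the quotient of the centre by the square of `x`
  let q : center Y := ⟨x * x, h.sq x⟩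
  have hq : q ≠ 1 := fun h1 => hq1 (congrArg Subtype.val h1)
  have hqq : q ^ 2 = 1 := by
    apply Subtype.ext
    change (x * x) ^ 2 = 1
    rw [pow_two]; exact h.z2 _ (h.sq x)
  have hqo : orderOf q = 2 := orderOf_eq_prime hqq hq
  haveI hn : (zpowers q).Normal := by
    constructor
    intro n hn g
    have : g * n * g⁻¹ = n := by
      apply Subtype.ext
      have := mem_center_iff.1 n.2 (g : Y)
      change (g : Y) * n * (g : Y)⁻¹ = n
      rw [this]; group
    rw [this]; exact hn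
  have hQ2 : Nat.card (center Y ⧸ zpowers q) = 2 := by
    have h1 := card_eq_card_quotient_mul_card_subgroup (zpowers q)
    rw [Nat.card_zpowers, hqo, h4] at h1
    omega
  have hQ : ∀ a b : center Y ⧸ zpowers q, a ≠ 1 → b ≠ 1 → a * b = 1 := by
    intro a b ha hb
    by_contra hab
    have h1 : ({1, a, a * b} : Set (center Y ⧸ zpowers q)).ncard ≤ 2 := by
      rw [← hQ2, ← Set.ncard_univ]
      exact Set.ncard_le_ncard (Set.subset_univ _) (Set.toFinite _)
    have h2 : ({1, a, a * b} : Set (center Y ⧸ zpowers q)).ncard = 3 := by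
      apply Set.ncard_eq_three.2
      refine ⟨1, a, a * b, Ne.symm ha, Ne.symm hab, ?_, rfl⟩
      intro h3
      exact hb (by simpa using h3)
    omega
  let σ : center Y →* center Y ⧸ zpowers q := QuotientGroup.mk' _
  -- squares of elements of `C \ T`
  have hsq : ∀ w ∈ centralizer ({x} : Set Y), w ∉ T → σ ⟨w * w, h.sq w⟩ ≠ 1 := by
    intro w hw hwT h1
    have hwx : x * w = w * x := (mem_centralizer_singleton_iff.1 hw).symm
    have h2 : (⟨w * w, h.sq w⟩ : center Y) ∈ zpowers q := (QuotientGroup.eq_one_iff _).1 h1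
    rw [mem_zpowers_iff_mem_range_orderOf, hqo] at h2
    simp only [Finset.mem_image, Finset.mem_range] at h2
    obtain ⟨i, hi, hi2⟩ := h2
    interval_cases i
    · rw [pow_zero] at hi2
      have h3 : w * w = 1 := (congrArg Subtype.val hi2).symm
      exact hwT (Or.inl (hno w h3))
    · rw [pow_one] at hi2
      have h3 : w * w = x * x := (congrArg Subtype.val hi2).symm
      apply hwT
      right
      apply hno
      calc x * w * (x * w) = x * (w * x) * w := by group
        _ = x * (x * w) * w := by rw [hwx]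
        _ = x * x * (w * w) := by group
        _ = x * x * (x * x) := by rw [h3]
        _ = 1 := h.z2 _ (h.sq x)
  let f : centralizer ({x} : Set Y) →* center Y ⧸ zpowers q :=
    (σ.comp (h.ch y₁)).comp (centralizer ({x} : Set Y)).subtype
  have hker : ∀ y : centralizer ({x} : Set Y), y ∈ f.ker →
      (y : Y) ∈ T ∪ {y | y₁ * y ∈ T} := by
    intro y hy
    by_contra hcon
    rw [Set.mem_union, not_or] at hcon
    obtain ⟨hc1, hc2⟩ := hcon
    have h1 := hsq y₁ hy₁ hy₁T
    have h2 := hsq y y.2 hc1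
    have h3 := hsq (y₁ * y) (mul_mem hy₁ y.2) hc2
    apply h3
    have h4' : (⟨y₁ * y * (y₁ * y), h.sq _⟩ : center Y) =
        ⟨y₁ * y₁, h.sq _⟩ * ⟨(y : Y) * y, h.sq _⟩ * ⟨⁅y₁, (y : Y)⁆, h.cm _ _⟩ := by
      apply Subtype.ext
      change y₁ * y * (y₁ * y) = y₁ * y₁ * ((y : Y) * y) * ⁅y₁, (y : Y)⁆
      rw [h.sq_mul, h.comm_symm]
    rw [h4', map_mul, map_mul, hQ _ _ h1 h2, one_mul]
    exact hy
  have hk : Nat.card f.ker ≤ 16 := by
    have h1 : Nat.card f.ker ≤ (T ∪ {y | y₁ * y ∈ T}).ncard := by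
      have h2 : Nat.card (f.ker.map (centralizer ({x} : Set Y)).subtype) = Nat.card f.ker :=
        card_map_of_injective (subtype_injective _)
      rw [← h2]
      apply ncard_le_of_subset
      rintro _ ⟨y, hy, rfl⟩
      exact hker y hy
    refine h1.trans ((ncard_union_coset y₁).trans ?_)
    omega
  have hr : Nat.card f.range ≤ 2 := by
    rw [← hQ2]; exact card_le_card_group _
  have := card_le_ker f hr
  omega

theorem C2.card_le_mul (h : C2 Y) (x : Y) {n : ℕ} (hn : Nat.card (h.ch x).range ≤ n) :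
    Nat.card Y ≤ Nat.card (centralizer ({x} : Set Y)) * n := by
  rw [← h.ker_eq]; exact card_le_ker _ hn

/-- elements with all commutators in `⟨z⟩` -/
def C2.R (h : C2 Y) (z : Y) : Subgroup Y where
  carrier := {x | ∀ y, ⁅x, y⁆ ∈ zpowers z}
  one_mem' := by intro y; rw [commutatorElement_one_left]; exact one_mem _
  mul_mem' := by
    intro a b ha hb y
    rw [h.comm_left]; exact mul_mem (ha y) (hb y)
  inv_mem' := by
    intro a ha y
    have h1 := h.comm_left a a⁻¹ y
    rw [mul_inv_cancel, commutatorElement_one_left] at h1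
    have h2 : ⁅a⁻¹, y⁆ = ⁅a, y⁆⁻¹ := (inv_eq_of_mul_eq_one_right h1.symm).symm
    rw [h2]; exact inv_mem (ha y)

theorem C2.mem_R (h : C2 Y) {z x : Y} : x ∈ h.R z ↔ ∀ y, ⁅x, y⁆ ∈ zpowers z := Iff.rfl

theorem C2.center_le_R (h : C2 Y) (z : Y) : center Y ≤ h.R z := by
  intro x hx y
  have : ⁅x, y⁆ = 1 := comm_eq_one.2 (mem_center_iff.1 hx y).symm
  rw [this]; exact one_mem _

theorem pow_card {H : Subgroup Y} (h : IsPGroup 2 Y) : ∃ n, Nat.card H = 2 ^ n := by
  have : Fact (Nat.Prime 2) := ⟨Nat.prime_two⟩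
  exact IsPGroup.iff_card.1 (h.to_subgroup H)

theorem C2.R_card (h : C2 Y) (hM : Mv Y) (h4 : Nat.card (center Y) = 4) {z : Y} (hz : z ∈ center Y)
    {x : Y} (hx : x ∈ h.R z) (hxc : x ∉ center Y) : 16 ≤ Nat.card (h.R z) := by
  obtain ⟨φ, hφ, hφx⟩ := hM x hxc
  have hφR : φ x ∈ h.R z := by
    intro y
    obtain ⟨y', rfl⟩ := φ.surjective y
    rw [← map_commutatorElement]
    obtain ⟨i, hi⟩ := hx y'
    refine ⟨i, ?_⟩
    change z ^ i = φ ⁅x, y'⁆
    rw [← hi]
    change z ^ i = φ (z ^ i)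
    rw [map_zpow, hφ z hz]
  have hle := h.center_le_R z
  have h1 := card_mul_index ((center Y).subgroupOf (h.R z))
  have h2 : Nat.card ((center Y).subgroupOf (h.R z)) = 4 := by
    rw [← h4]; exact Nat.card_congr (subgroupOfEquivOfLe hle).toEquiv
  rw [h2] at h1
  obtain ⟨n, hn⟩ := pow_card (H := h.R z) h.two
  have h3 : 3 ≤ ((center Y).subgroupOf (h.R z)).index := by
    rw [Subgroup.index_eq_card]
    let a : h.R z ⧸ (center Y).subgroupOf (h.R z) := QuotientGroup.mk ⟨x, hx⟩
    let b : h.R z ⧸ (center Y).subgroupOf (h.R z) := QuotientGroup.mk ⟨φ x, hφR⟩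
    let e : h.R z ⧸ (center Y).subgroupOf (h.R z) := QuotientGroup.mk 1
    have hea : e ≠ a := by
      intro h5
      have h6 := QuotientGroup.eq.1 h5
      rw [mem_subgroupOf] at h6
      apply hxc
      simpa using h6
    have hφxc : φ x ∉ center Y := by
      intro h5
      apply hxc
      rw [mem_center_iff] at h5 ⊢
      intro g
      apply φ.injective
      rw [map_mul, map_mul]; exact h5 (φ g)
    have heb : e ≠ b := by
      intro h5
      have h6 := QuotientGroup.eq.1 h5
      rw [mem_subgroupOf] at h6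
      apply hφxc
      simpa using h6
    have hab : a ≠ b := by
      intro h5
      have h6 := QuotientGroup.eq.1 h5
      rw [mem_subgroupOf] at h6
      exact hφx h6
    have h5 : ({e, a, b} : Set (h.R z ⧸ (center Y).subgroupOf (h.R z))).ncard = 3 :=
      Set.ncard_eq_three.2 ⟨e, a, b, hea, heb, hab, rfl⟩
    rw [← h5, ← Set.ncard_univ]
    exact Set.ncard_le_ncard (Set.subset_univ _) (Set.toFinite _)
  rw [hn] at h1 ⊢
  by_contra hcon
  push Not at hcon
  have h5 : n < 4 := by
    by_contra h6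
    push Not at h6
    have : 2 ^ 4 ≤ 2 ^ n := Nat.pow_le_pow_right (by norm_num) h6
    omega
  interval_cases n <;> omega

theorem C2.no_big_R (h : C2 Y) (h4 : Nat.card (center Y) = 4) (hD : center Y ≤ commutator Y)
    {z : Y} (hz : z ∈ center Y) (hR : Nat.card Y ≤ 2 * Nat.card (h.R z)) : False := by
  have hidx : (h.R z).index ≤ 2 := by
    have h1 := card_mul_index (h.R z)
    have h2 : 0 < Nat.card (h.R z) := Nat.card_pos
    nlinarith
  have hall : ∀ x y : Y, ⁅x, y⁆ ∈ zpowers z := by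
    intro x y
    by_cases hx : x ∈ h.R z
    · exact hx y
    by_cases hy : y ∈ h.R z
    · rw [h.comm_symm]; exact hy x
    have h2 : (h.R z).index = 2 := by
      have h3 : (h.R z).index ≠ 1 := by
        intro h4
        rw [index_eq_one] at h4
        rw [h4] at hx
        exact hx (mem_top x)
      have h4 : (h.R z).index ≠ 0 := index_ne_zero_of_finite
      omega
    have h3 : x * y⁻¹ ∈ h.R z := by
      rw [mul_mem_iff_of_index_two h2]
      rw [inv_mem_iff]
      exact ⟨fun h => absurd h hx, fun h => absurd h hy⟩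
    have h4 := h3 y
    rw [h.comm_left] at h4
    have h5 : ⁅y⁻¹, y⁆ = 1 := comm_eq_one.2 (by group)
    rw [h5, mul_one] at h4
    exact h4
  have h1 : commutator Y ≤ zpowers z := by
    rw [_root_.commutator_def, commutator_le]
    intro x _ y _
    exact hall x y
  have h2 : Nat.card (zpowers z) ≤ 2 := by
    rw [Nat.card_zpowers]
    apply orderOf_le_of_pow_eq_one (by norm_num)
    rw [pow_two]; exact h.z2 z hz
  have h3 : Nat.card (center Y) ≤ Nat.card (zpowers z) :=
    Nat.card_mono (Set.toFinite _) (hD.trans h1)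
  omega

theorem C2.parity (h : C2 Y) (h4 : Nat.card (center Y) = 4) {z : Y} (hz : z ∈ center Y) (hz1 : z ≠ 1)
    (hR : ∀ x ∈ h.R z, x ∈ center Y) : ∃ n, Nat.card Y = 2 ^ (2 * n + 2) := by
  haveI : Fact (Nat.Prime 2) := ⟨Nat.prime_two⟩
  haveI hn : (zpowers z).Normal := by
    constructor
    rintro _ ⟨i, rfl⟩ g
    refine ⟨i, ?_⟩
    have h1 : z ^ i ∈ center Y := (center Y).zpow_mem hz i
    have := mem_center_iff.1 h1 g
    change z ^ i = g * z ^ i * g⁻¹
    rw [this]; group
  have hzo : orderOf z = 2 := orderOf_eq_prime (by rw [pow_two]; exact h.z2 z hz) hz1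
  have hcen : center (Y ⧸ zpowers z) = (center Y).map (QuotientGroup.mk' (zpowers z)) := by
    apply le_antisymm
    · intro a ha
      obtain ⟨x, rfl⟩ := QuotientGroup.mk'_surjective (zpowers z) a
      refine mem_map_of_mem _ (hR x ?_)
      intro y
      have h1 := mem_center_iff.1 ha (QuotientGroup.mk' (zpowers z) y)
      rw [← QuotientGroup.eq_one_iff]
      change QuotientGroup.mk' (zpowers z) ⁅x, y⁆ = 1
      rw [map_commutatorElement, commutatorElement_eq_one_iff_mul_comm]
      exact h1.symm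
    · rintro _ ⟨x, hx, rfl⟩
      rw [mem_center_iff]
      intro a
      obtain ⟨y, rfl⟩ := QuotientGroup.mk'_surjective (zpowers z) a
      rw [← map_mul, ← map_mul, mem_center_iff.1 hx y]
  have hle : zpowers z ≤ center Y := by rw [zpowers_le]; exact hz
  have hcc : Nat.card (center (Y ⧸ zpowers z)) = 2 := by
    have h1 := H1.Cores.card_map_mk' (zpowers z) (center Y) hle
    rw [← hcen, h4, Nat.card_zpowers, hzo] at h1
    omega
  have hcom : commutator (Y ⧸ zpowers z) ≤ center (Y ⧸ zpowers z) := by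
    rw [_root_.commutator_def, commutator_le]
    intro a _ b _
    obtain ⟨x, rfl⟩ := QuotientGroup.mk'_surjective (zpowers z) a
    obtain ⟨y, rfl⟩ := QuotientGroup.mk'_surjective (zpowers z) b
    rw [← map_commutatorElement, hcen]
    exact mem_map_of_mem _ (h.cm x y)
  obtain ⟨n, hn'⟩ := H3.Extraspecial.card_eq_odd_pow (p := 2) (Nat.card (Y ⧸ zpowers z)) hcom hcc le_rfl
  refine ⟨n, ?_⟩
  have h1 := card_eq_card_quotient_mul_card_subgroup (zpowers z)
  rw [h1, hn', Nat.card_zpowers, hzo]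
  ring

theorem C2.exists_ne {n : ℕ} (h4 : Nat.card (center Y) = n) (hn : 1 < n) :
    ∃ z ∈ center Y, z ≠ 1 := by
  by_contra hcon
  push Not at hcon
  have : Nat.card (center Y) = 1 := by
    rw [card_eq_one, eq_bot_iff]
    intro z hz
    rw [mem_bot]; exact hcon z hz
  omega

theorem C2.T_card (h : C2 Y) {n : ℕ} (hc : Nat.card (center Y) = n) {x : Y} (hx : x ∉ center Y) :
    2 * n ≤ Nat.card (centralizer ({x} : Set Y)) := by
  have h1 : ((center Y : Set Y) ∪ {y | x⁻¹ * y ∈ (center Y : Set Y)}).ncard = 2 * n := by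
    rw [Set.ncard_union_eq, ncard_coset, ncard_center, hc]
    · omega
    · rw [Set.disjoint_left]
      intro y hy hy2
      apply hx
      have : x = y * (x⁻¹ * y)⁻¹ := by group
      rw [this]; exact mul_mem hy (inv_mem hy2)
  rw [← h1, ← Nat.card_coe_set_eq]
  apply Nat.card_mono (Set.toFinite _)
  rintro y (hy | hy)
  · rw [SetLike.mem_coe, mem_centralizer_singleton_iff]
    exact (mem_center_iff.1 hy x).symm
  · rw [SetLike.mem_coe, mem_centralizer_singleton_iff]
    have h2 := mem_center_iff.1 hy x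
    calc y * x = x * ((x⁻¹ * y) * x) := by group
      _ = x * (x * (x⁻¹ * y)) := by rw [h2]
      _ = x * y := by group

end H57.Sc
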