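import Cfsg.Agent.Lib.H57.Sc1

/-! Order 64, order 32 and order 8 cases. -/

set_option autoImplicit false

namespace H57.Sc

open Subgroup
open scoped commutatorElement

variable {Y : Type*} [Group Y] [Finite Y]

theorem C2.card_eq_64 (h : C2 Y) (hM : Mv Y) (h4 : Nat.card (center Y) = 4)
    (hD : center Y ≤ commutator Y) (hno : ∀ x : Y, x * x = 1 → x ∈ center Y) : Nat.card Y = 64 := by
  obtain ⟨x, hx⟩ : ∃ x : Y, x ∉ center Y := by
    by_contra hcon
    push Not at hcon
    obtain ⟨z, hz, hz1⟩ := C2.exists_ne h4 (by norm_num)
    have h1 : commutator Y ≤ ⊥ := by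
      rw [_root_.commutator_def, commutator_le]
      intro a _ b _
      rw [mem_bot, comm_eq_one]
      exact (mem_center_iff.1 (hcon a) b).symm
    exact hz1 ((mem_bot).1 (h1 (hD hz)))
  obtain ⟨m, hm⟩ : ∃ m, Nat.card Y = 2 ^ m := by
    have : Fact (Nat.Prime 2) := ⟨Nat.prime_two⟩
    exact IsPGroup.iff_card.1 h.two
  have hr4 : ∀ x : Y, Nat.card (h.ch x).range ≤ 4 := fun x => by
    rw [← h4]; exact card_le_card_group _
  have h128 : Nat.card Y ≤ 128 := by
    have h1 := h.card_le_mul x (hr4 x)
    have h2 := h.card_centralizer_le h4 hno hx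
    omega
  obtain ⟨z, hz, hz1⟩ := C2.exists_ne h4 (by norm_num)
  have hRbig : ∀ z ∈ center Y, Nat.card Y ≤ 32 → ∀ x ∈ h.R z, x ∈ center Y := by
    intro z hz hc x hx
    by_contra hxc
    have h1 := h.R_card hM h4 hz hx hxc
    exact h.no_big_R h4 hD hz (by omega)
  have hparity : ∀ n, m ≠ 2 * n + 1 ∨ ∃ x ∈ h.R z, x ∉ center Y := by
    intro n
    by_contra hcon
    push Not at hcon
    obtain ⟨h1, h2⟩ := hcon
    obtain ⟨l, hl⟩ := h.parity h4 hz hz1 h2
    rw [hm] at hl
    have := Nat.pow_right_injective (le_refl 2) hl
    omega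
  have hm7 : m ≤ 7 := by
    by_contra hcon
    push Not at hcon
    have : 2 ^ 8 ≤ 2 ^ m := Nat.pow_le_pow_right (by norm_num) hcon
    omega
  have hm5 : ¬ m ≤ 5 := by
    intro hm5
    have hc32 : Nat.card Y ≤ 32 := by
      rw [hm]
      calc 2 ^ m ≤ 2 ^ 5 := Nat.pow_le_pow_right (by norm_num) hm5
        _ = 32 := by norm_num
    rcases hparity 2 with h5 | ⟨y, hy, hyc⟩
    · have hm4 : m ≤ 4 := by omega
      have hc16 : Nat.card Y ≤ 16 := by
        rw [hm]
        calc 2 ^ m ≤ 2 ^ 4 := Nat.pow_le_pow_right (by norm_num) hm4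
          _ = 16 := by norm_num
      have hT := h.T_card h4 hx
      -- the range of `ch x` has order two
      obtain ⟨y₀, hy₀⟩ : ∃ y₀ : Y, ⁅x, y₀⁆ ≠ 1 := by
        by_contra hcon
        push Not at hcon
        apply hx
        rw [mem_center_iff]
        intro g
        exact (comm_eq_one.1 (hcon g)).symm
      have hidx : (centralizer ({x} : Set Y)).index ≤ 2 := by
        have h1 := card_mul_index (centralizer ({x} : Set Y))
        nlinarith
      have hxR : x ∈ h.R ⁅x, y₀⁆ := by
        intro y
        have hr : Nat.card (h.ch x).range ≤ 2 := by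
          rw [← index_ker, h.ker_eq]; exact hidx
        by_contra hcon
        have h1 : ⁅x, y⁆ ≠ 1 := fun h1 => hcon (by rw [h1]; exact one_mem _)
        have h2 : ⁅x, y⁆ ≠ ⁅x, y₀⁆ := fun h1 => hcon (by rw [h1]; exact mem_zpowers _)
        have h3 : ({1, h.ch x y, h.ch x y₀} : Set (center Y)).ncard = 3 := by
          apply Set.ncard_eq_three.2
          refine ⟨1, h.ch x y, h.ch x y₀, ?_, ?_, ?_, rfl⟩
          · intro h4; exact h1 (congrArg Subtype.val h4).symm
          · intro h4; exact hy₀ (congrArg Subtype.val h4).symm
          · intro h4; exact h2 (congrArg Subtype.val h4)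
        have h4 : ({1, h.ch x y, h.ch x y₀} : Set (center Y)).ncard ≤ 2 := by
          have h5 : Nat.card (h.ch x).range = ((h.ch x).range : Set (center Y)).ncard :=
            Nat.card_coe_set_eq _
          refine le_trans ?_ (h5 ▸ hr)
          apply Set.ncard_le_ncard _ (Set.toFinite _)
          rintro w (rfl | rfl | rfl)
          · exact one_mem _
          · exact ⟨y, rfl⟩
          · exact ⟨y₀, rfl⟩
        omega
      exact hx (hRbig _ (h.cm x y₀) hc32 x hxR)
    · exact hyc (hRbig z hz hc32 y hy)
  have hm6 : m ≠ 7 := by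
    intro h7
    rcases hparity 3 with h5 | ⟨y, hy, hyc⟩
    · omega
    · have hr : Nat.card (h.ch y).range ≤ 2 := by
        have h1 : (h.ch y).range.map (center Y).subtype ≤ zpowers z := by
          rintro _ ⟨_, ⟨w, rfl⟩, rfl⟩
          exact hy w
        have h2 : Nat.card ((h.ch y).range.map (center Y).subtype) = Nat.card (h.ch y).range :=
          card_map_of_injective (subtype_injective _)
        rw [← h2]
        have h3 : Nat.card (zpowers z) ≤ 2 := by
          rw [Nat.card_zpowers]
          apply orderOf_le_of_pow_eq_one (by norm_num)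
          rw [pow_two]; exact h.z2 z hz
        exact (Nat.card_mono (Set.toFinite _) h1).trans h3
      have h1 := h.card_le_mul y hr
      have h2 := h.card_centralizer_le h4 hno hyc
      rw [hm, h7] at h1
      omega
  have : m = 6 := by omega
  rw [hm, this]; norm_num

theorem center_two {z : Y} (hz : z ∈ center Y) (hz1 : z ≠ 1) (hc : Nat.card (center Y) = 2) {x : Y}
    (hx : x ∈ center Y) : x = 1 ∨ x = z := by
  by_contra hcon
  push Not at hcon
  have h1 : ({1, x, z} : Set Y).ncard = 3 :=
    Set.ncard_eq_three.2 ⟨1, x, z, Ne.symm hcon.1, Ne.symm hz1, hcon.2, rfl⟩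
  have h2 : ({1, x, z} : Set Y).ncard ≤ 2 := by
    rw [← hc, ← SetLike.coe_sort_coe, Nat.card_coe_set_eq]
    apply Set.ncard_le_ncard _ (Set.toFinite _)
    rintro w (rfl | rfl | rfl)
    · exact one_mem _
    · exact hx
    · exact hz
  omega

theorem C2.extra_cases (h : C2 Y) (hM : Mv Y) (hc : Nat.card (center Y) = 2)
    (hnc : ∃ a b : Y, a * b ≠ b * a)
    (hE : ∀ x y : Y, x ∉ center Y → y ∉ center Y → x * y ∉ center Y → x * x = 1 → y * y = 1 →
      x * y = y * x → False) :
    Nonempty (Y ≃* QuaternionGroup 2) ∨
      (Cfsg.IsExtraspecial 2 Y ∧ Nat.card Y = 32 ∧ Nat.card {x : Y // orderOf x = 2} = 11) := by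
  classical
  have : Fact (Nat.Prime 2) := ⟨Nat.prime_two⟩
  obtain ⟨z, hz, hz1⟩ := C2.exists_ne hc (by norm_num)
  have hzz : z * z = 1 := h.z2 z hz
  have hcen : ∀ x ∈ center Y, x = 1 ∨ x = z := fun x hx => center_two hz hz1 hc hx
  have hcom : commutator Y ≤ center Y := by
    rw [_root_.commutator_def, commutator_le]
    intro a _ b _
    exact h.cm a b
  have hext : Cfsg.IsExtraspecial 2 Y := by
    apply H3.Extraspecial.isExtraspecial_of hcom hc
    obtain ⟨a, b, hab⟩ := hnc
    exact ⟨a, b, fun h1 => hab (comm_eq_one.1 h1)⟩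
  obtain ⟨n, hn⟩ := H3.Extraspecial.card_eq_odd_pow (p := 2) (Nat.card Y) hcom hc le_rfl
  have hr2 : ∀ x : Y, Nat.card (h.ch x).range ≤ 2 := fun x => by
    rw [← hc]; exact card_le_card_group _
  have hn1 : n ≠ 0 := by
    rintro rfl
    obtain ⟨a, b, hab⟩ := hnc
    apply hab
    have h1 : Nat.card Y = Nat.card (center Y) := by rw [hn, hc]; norm_num
    have h2 : center Y = ⊤ := eq_top_of_card_eq _ h1.symm
    have h3 : a ∈ center Y := by rw [h2]; exact mem_top a
    exact (mem_center_iff.1 h3 b).symm
  have hsq : ∀ x : Y, x * x = 1 ∨ x * x = z := fun x => hcen _ (h.sq x)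
  have hne_comm : ∀ x y : Y, x * y ≠ y * x → ⁅x, y⁆ = z := by
    intro x y hxy
    rcases hcen _ (h.cm x y) with h1 | h1
    · exact absurd (comm_eq_one.1 h1) hxy
    · exact h1
  by_cases hinv : ∃ x : Y, x ∉ center Y ∧ x * x = 1
  swap
  · left
    push Not at hinv
    obtain ⟨x, hx⟩ : ∃ x : Y, x ∉ center Y := by
      obtain ⟨a, b, hab⟩ := hnc
      exact ⟨a, fun h1 => hab (mem_center_iff.1 h1 b).symm⟩
    have hCx : Nat.card (centralizer ({x} : Set Y)) ≤ 4 := by
      have h1 : ∀ y ∈ centralizer ({x} : Set Y),
          y ∈ (center Y : Set Y) ∪ {y | x * y ∈ (center Y : Set Y)} := by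
        intro y hy
        by_contra hcon
        rw [Set.mem_union, not_or] at hcon
        have hxy : x * y = y * x := (mem_centralizer_singleton_iff.1 hy).symm
        have h2 : x * x = z := (hsq x).resolve_left (hinv x hx)
        have h3 : y * y = z := (hsq y).resolve_left (hinv y hcon.1)
        apply hinv (x * y) hcon.2
        rw [h.sq_mul, h2, h3, hzz, one_mul, comm_eq_one]
        exact hxy.symm
      have h2 := (ncard_le_of_subset h1).trans (ncard_union_coset x)
      rw [ncard_center, hc] at h2
      exact h2
    have h8 : Nat.card Y ≤ 8 := by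
      have := h.card_le_mul x (hr2 x)
      omega
    have hn1' : n = 1 := by
      by_contra hcon
      have : 2 ≤ n := by omega
      have h3 : 2 ^ 5 ≤ 2 ^ (2 * n + 1) := Nat.pow_le_pow_right (by norm_num) (by omega)
      omega
    have hY8 : Nat.card Y = 8 := by rw [hn, hn1']; norm_num
    rcases H1.UniqueSub.cyclic_or_quaternion (G := Y) 2 h.two (by
      have key : ∀ H : Subgroup Y, Nat.card H = 2 → H = zpowers z := by
        intro H hH
        obtain ⟨g, hg⟩ := exists_prime_orderOf_dvd_card' (G := H) 2 (by rw [hH])
        have hg2 : (g : Y) * g = 1 := by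
          have h1 : g ^ 2 = 1 := by rw [← hg]; exact pow_orderOf_eq_one g
          rw [pow_two] at h1
          exact congrArg Subtype.val h1
        have hgc : (g : Y) ∈ center Y := by
          by_contra hcon
          exact hinv _ hcon hg2
        have hgz : (g : Y) = z := by
          rcases hcen _ hgc with h1 | h1
          · exfalso
            have : g = 1 := Subtype.ext h1
            rw [this, orderOf_one] at hg
            omega
          · exact h1
        have hle : zpowers z ≤ H := by rw [zpowers_le, ← hgz]; exact g.2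
        have hzo : orderOf z = 2 := orderOf_eq_prime (by rw [pow_two]; exact hzz) hz1
        exact (eq_of_le_of_card_ge hle (by rw [hH, Nat.card_zpowers, hzo])).symm
      intro H K hH hK
      rw [key H hH, key K hK]) with hcyc | ⟨_, l, ⟨e⟩⟩
    · exfalso
      obtain ⟨a, b, hab⟩ := hnc
      apply hab
      letI := IsCyclic.commGroup (α := Y)
      obtain ⟨g, hg⟩ := hcyc.exists_generator
      obtain ⟨i, rfl⟩ := hg a
      obtain ⟨j, rfl⟩ := hg b
      exact (Commute.zpow_zpow_self g i j).eq
    · have h1 : Nat.card (QuaternionGroup (2 ^ l)) = 8 := by rw [← Nat.card_congr e.toEquiv, hY8]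
      rw [Nat.card_eq_fintype_card, QuaternionGroup.card] at h1
      · have h2 : l = 1 := by
          rcases l with _ | _ | l
          · norm_num at h1
          · rfl
          · exfalso
            have : 2 ^ (l + 1 + 1) = 4 * 2 ^ l := by ring
            have h3 : 0 < 2 ^ l := by positivity
            omega
        subst h2
        exact ⟨e⟩
  · obtain ⟨x, hx, hxx⟩ := hinv
    obtain ⟨y₂, hy₂⟩ : ∃ y, x * y ≠ y * x := by
      by_contra hcon
      push Not at hcon
      exact hx (mem_center_iff.2 fun g => (hcon g).symm)
    have hTC := h.T_card hc hx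
    have hidx : (centralizer ({x} : Set Y)).index = 2 := by
      have h1 : (centralizer ({x} : Set Y)).index ≤ 2 := by
        rw [← h.ker_eq, index_ker]; exact hr2 x
      have h2 : (centralizer ({x} : Set Y)).index ≠ 1 := by
        intro h3
        rw [index_eq_one] at h3
        apply hy₂
        have h4 : y₂ ∈ centralizer ({x} : Set Y) := by rw [h3]; exact mem_top _
        exact (mem_centralizer_singleton_iff.1 h4).symm
      have h3 : (centralizer ({x} : Set Y)).index ≠ 0 := index_ne_zero_of_finite
      omega
    have hcardC : Nat.card (centralizer ({x} : Set Y)) * 2 = Nat.card Y := by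
      rw [← hidx]; exact card_mul_index _
    have hmem : ∀ y : Y, y ∈ centralizer ({x} : Set Y) ↔ x * y = y * x := fun y => by
      rw [mem_centralizer_singleton_iff]; exact eq_comm
    -- elements outside `T`
    set T : Set Y := (center Y : Set Y) ∪ {y | x * y ∈ (center Y : Set Y)} with hT
    have hTc : T.ncard = 4 := by
      rw [hT, Set.ncard_union_eq, ncard_coset, ncard_center, hc]
      rw [Set.disjoint_left]
      intro y hy hy2
      apply hx
      have : x = (x * y) * y⁻¹ := by group
      rw [this]; exact mul_mem hy2 (inv_mem hy)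
    have hTsub : ∀ y ∈ T, x * y = y * x := by
      rintro y (hy | hy)
      · exact mem_center_iff.1 hy x
      · have h2 := mem_center_iff.1 hy x
        have h3 : x * (x * y) = y := by rw [← mul_assoc, hxx, one_mul]
        calc x * y = x * y * (x * x) := by rw [hxx, mul_one]
          _ = (x * y * x) * x := by group
          _ = (x * (x * y)) * x := by rw [h2]
          _ = y * x := by rw [h3]
    have hTsq : ∀ y ∈ T, y * y = 1 := by
      rintro y (hy | hy)
      · exact h.z2 y hy
      · have h1 := h.z2 _ hy
        have h2 := hTsub y (Or.inr hy)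
        rw [h.sq_mul, hxx, one_mul, (comm_eq_one.2 h2.symm), mul_one] at h1
        exact h1
    have hout : ∀ y, x * y = y * x → y ∉ T → y * y = z := by
      intro y hxy hyT
      rw [hT, Set.mem_union, not_or] at hyT
      rcases hsq y with h1 | h1
      · exact (hE x y hx hyT.1 hyT.2 hxx h1 hxy).elim
      · exact h1
    by_cases hCT : ∀ y ∈ centralizer ({x} : Set Y), y ∈ T
    · -- order 8
      exfalso
      have hC4 : Nat.card (centralizer ({x} : Set Y)) ≤ 4 := by
        rw [← hTc]; exact ncard_le_of_subset hCT
      have hw : ∃ w, x * w ≠ w * x ∧ w * w = z := by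
        rcases hsq y₂ with h1 | h1
        · refine ⟨y₂ * x, ?_, ?_⟩
          · intro h2
            apply hy₂
            have : x * y₂ * x = y₂ * x * x := by rw [mul_assoc]; exact h2
            exact mul_right_cancel this
          · rw [h.sq_mul, h1, hxx, one_mul, one_mul]
            exact hne_comm x y₂ hy₂
        · exact ⟨y₂, hy₂, h1⟩
      obtain ⟨w, hxw, hww⟩ := hw
      have hwc : w ∉ center Y := fun h1 => hxw (mem_center_iff.1 h1 x)
      obtain ⟨φ, hφ, hφw⟩ := hM w hwc
      have hφ2 : φ w * φ w = z := by rw [← map_mul, hww, hφ z hz]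
      have hφx : x * φ w ≠ φ w * x := by
        intro h1
        have h2 := hTsq (φ w) (hCT _ ((hmem _).2 h1))
        rw [hφ2] at h2
        exact hz1 h2
      have h1 : w⁻¹ * φ w ∈ centralizer ({x} : Set Y) := by
        rw [mul_mem_iff_of_index_two hidx, inv_mem_iff, hmem, hmem]
        exact ⟨fun h => absurd h hxw, fun h => absurd h hφx⟩
      have h2 := hCT _ h1
      rcases h2 with h2 | h2
      · exact hφw h2
      · -- `x * (w⁻¹ * φ w)` central
        have h3 : φ w = w * x * (x * (w⁻¹ * φ w)) := by
          calc φ w = w * (x * x) * (w⁻¹ * φ w) := by rw [hxx]; group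
            _ = _ := by group
        set ζ := x * (w⁻¹ * φ w) with hζ
        have hζc : ζ ∈ center Y := h2
        have h4 : φ w * φ w = w * x * (w * x) * (ζ * ζ) := by
          rw [h3]
          have := mem_center_iff.1 hζc (w * x)
          calc w * x * ζ * (w * x * ζ) = w * x * (ζ * (w * x)) * ζ := by group
            _ = w * x * ((w * x) * ζ) * ζ := by rw [this]
            _ = _ := by group
        rw [h.z2 ζ hζc, mul_one, hφ2, h.sq_mul, hww, hxx, mul_one, hne_comm x w hxw, hzz] at h4
        exact hz1 h4
    · right
      push Not at hCT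
      obtain ⟨y₁, hy₁, hy₁T⟩ := hCT
      have hy₁x : x * y₁ = y₁ * x := (hmem _).1 hy₁
      have hC16 : Nat.card (centralizer ({x} : Set Y)) ≤ 16 := by
        let f : centralizer ({x} : Set Y) →* center Y :=
          (h.ch y₁).comp (centralizer ({x} : Set Y)).subtype
        have hk : Nat.card f.ker ≤ 8 := by
          have h2 : Nat.card (f.ker.map (centralizer ({x} : Set Y)).subtype) = Nat.card f.ker :=
            card_map_of_injective (subtype_injective _)
          rw [← h2]
          have h3 : ∀ y ∈ f.ker.map (centralizer ({x} : Set Y)).subtype,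
              y ∈ T ∪ {y | y₁ * y ∈ T} := by
            rintro _ ⟨y, hy, rfl⟩
            by_contra hcon
            rw [Set.mem_union, not_or] at hcon
            obtain ⟨hc1, hc2⟩ := hcon
            have hyx : x * (y : Y) = y * x := (hmem _).1 y.2
            have h4 := hout y hyx hc1
            have h5 := hout y₁ hy₁x hy₁T
            have h6 := hout (y₁ * y) ((hmem _).1 (mul_mem hy₁ y.2)) hc2
            have h7 : y₁ * (y : Y) = y * y₁ := by
              have : (y : Y) ∈ (h.ch y₁).ker := hy
              exact h.mem_ker.1 this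
            rw [h.sq_mul, h4, h5, hzz, one_mul, comm_eq_one.2 h7.symm] at h6
            exact hz1 h6.symm
          refine (ncard_le_of_subset h3).trans ((ncard_union_coset y₁).trans ?_)
          rw [hTc]
        have hr : Nat.card f.range ≤ 2 := by
          rw [← hc]; exact card_le_card_group _
        have := card_le_ker f hr
        omega
      have hn2 : n = 2 := by
        have h1 : n ≤ 2 := by
          by_contra hcon
          have h3 : 2 ^ 7 ≤ 2 ^ (2 * n + 1) := Nat.pow_le_pow_right (by norm_num) (by omega)
          omega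
        have h2 : n ≠ 1 := by
          rintro rfl
          have h3 : Nat.card (centralizer ({x} : Set Y)) = 4 := by
            rw [hn] at hcardC; omega
          have h4 : T = (centralizer ({x} : Set Y) : Set Y) := by
            apply Set.eq_of_subset_of_ncard_le
            · intro y hy; exact (hmem y).2 (hTsub y hy)
            · rw [hTc, ← Nat.card_coe_set_eq]; exact h3.le
            · exact Set.toFinite _
          exact hy₁T (by rw [h4]; exact hy₁)
        omega
      have h32 : Nat.card Y = 32 := by rw [hn, hn2]; norm_num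
      refine ⟨hext, h32, ?_⟩
      -- count involutions
      set C : Set Y := (centralizer ({x} : Set Y) : Set Y) with hC
      have hCn : C.ncard = 16 := by
        rw [hC, ← Nat.card_coe_set_eq]
        have : Nat.card (centralizer ({x} : Set Y)) = 16 := by omega
        exact this
      set I₁ : Set Y := {g | g ∉ C ∧ g * g = 1} with hI₁
      set I₂ : Set Y := {g | g ∉ C ∧ g * g ≠ 1} with hI₂
      have hI : I₁.ncard = I₂.ncard := by
        apply Set.ncard_congr (fun g _ => g * x)
        · rintro g ⟨hg, hgg⟩
          have hxg : x * g ≠ g * x := fun h1 => hg ((hmem g).2 h1)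
          refine ⟨?_, ?_⟩
          · intro h1
            apply hg
            have h2 : g = g * x * x := by rw [mul_assoc, hxx, mul_one]
            rw [h2]
            exact mul_mem h1 ((hmem x).2 rfl)
          · rw [h.sq_mul, hgg, hxx, one_mul, one_mul, hne_comm x g hxg]
            exact hz1
        · intro a b _ _ hab; exact mul_right_cancel hab
        · rintro g ⟨hg, hgg⟩
          have hxg : x * g ≠ g * x := fun h1 => hg ((hmem g).2 h1)
          have hgz : g * g = z := (hsq g).resolve_left hgg
          refine ⟨g * x, ⟨?_, ?_⟩, by rw [mul_assoc, hxx, mul_one]⟩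
          · intro h1
            apply hg
            have h2 : g = g * x * x := by rw [mul_assoc, hxx, mul_one]
            rw [h2]
            exact mul_mem h1 ((hmem x).2 rfl)
          · rw [h.sq_mul, hgz, hxx, mul_one, hne_comm x g hxg, hzz]
      have hcompl : (Cᶜ : Set Y).ncard = 16 := by
        have := Set.ncard_add_ncard_compl C
        rw [hCn, h32] at this
        omega
      have hsum : I₁.ncard + I₂.ncard = 16 := by
        rw [← hcompl, ← Set.ncard_union_eq]
        · congr 1
          ext g
          simp only [hI₁, hI₂, Set.mem_union, Set.mem_setOf_eq, Set.mem_compl_iff]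
          tauto
        · rw [Set.disjoint_left]
          rintro g ⟨_, h1⟩ ⟨_, h2⟩
          exact h2 h1
      have hI8 : I₁.ncard = 8 := by omega
      have hset : {g : Y | orderOf g = 2} = (T \ {1}) ∪ I₁ := by
        ext g
        constructor
        · intro hg
          have hg' : orderOf g = 2 := hg
          have hgg : g * g = 1 := by rw [← pow_two, ← hg']; exact pow_orderOf_eq_one g
          have hg1 : g ≠ 1 := by rintro rfl; rw [orderOf_one] at hg'; omega
          by_cases hgC : g ∈ C
          · left
            refine ⟨?_, hg1⟩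
            by_contra hgT
            have := hout g ((hmem g).1 hgC) hgT
            rw [hgg] at this
            exact hz1 this.symm
          · right; exact ⟨hgC, hgg⟩
        · rintro (⟨hgT, hg1⟩ | ⟨hgC, hgg⟩)
          · exact orderOf_eq_prime (by rw [pow_two]; exact hTsq g hgT) hg1
          · refine orderOf_eq_prime (by rw [pow_two]; exact hgg) ?_
            rintro rfl
            exact hgC (one_mem _)
      have h1 : Nat.card {x : Y // orderOf x = 2} = ({g : Y | orderOf g = 2} : Set Y).ncard :=
        Nat.card_coe_set_eq _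
      rw [h1, hset, Set.ncard_union_eq, hI8, Set.ncard_diff_singleton_of_mem, hTc]
      · left; exact one_mem _
      · rw [Set.disjoint_left]
        rintro g ⟨hgT, _⟩ ⟨hgC, _⟩
        exact hgC ((hmem g).2 (hTsub g hgT))

end H57.Sc
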