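import Cfsg.Agent.Lib.H57.Sc2
import Cfsg.Agent.Lib.H1.Coprime2
import Cfsg.Agent.Lib.H66.CopAb
import Cfsg.Agent.Lib.H3.Critical

/-! Ambient coprime action lemmas. -/

set_option autoImplicit false

namespace H57.Sc

open Subgroup
open scoped commutatorElement

variable {G : Type*} [Group G]

theorem bot_of_comm {A B : Subgroup G} (h : ∀ a ∈ A, ∀ b ∈ B, a * b = b * a) : ⁅A, B⁆ = ⊥ := by
  rw [eq_bot_iff, commutator_le]
  intro a ha b hb
  rw [mem_bot]
  exact commutatorElement_eq_one_iff_mul_comm.2 (h a ha b hb)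

theorem comm_of_bot {A B : Subgroup G} (h : ⁅A, B⁆ = ⊥) : ∀ a ∈ A, ∀ b ∈ B, a * b = b * a := by
  intro a ha b hb
  have h1 : ⁅a, b⁆ ∈ ⁅A, B⁆ := commutator_mem_commutator ha hb
  rw [h, mem_bot] at h1
  exact commutatorElement_eq_one_iff_mul_comm.1 h1

theorem comm_le_of_norm {A B : Subgroup G} (h : B ≤ normalizer (A : Set G)) : ⁅A, B⁆ ≤ A := by
  rw [commutator_le]
  intro a ha b hb
  rw [commutatorElement_def]
  have h1 : b * a⁻¹ * b⁻¹ ∈ A := (mem_normalizer_iff.1 (h hb) _).1 (A.inv_mem ha)
  have h2 : a * b * a⁻¹ * b⁻¹ = a * (b * a⁻¹ * b⁻¹) := by group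
  rw [h2]; exact A.mul_mem ha h1

/-- three subgroups -/
theorem cent3 {Y A N : Subgroup G} (h : ⁅Y, A⁆ = Y) (hN : Y ≤ normalizer (N : Set G))
    (hNA : ∀ a ∈ A, ∀ n ∈ N, a * n = n * a) : ∀ y ∈ Y, ∀ n ∈ N, y * n = n * y := by
  have h1 : ⁅⁅Y, A⁆, N⁆ = ⊥ := by
    apply commutator_commutator_eq_bot_of_rotate
    · rw [bot_of_comm hNA, commutator_bot_left]
    · rw [eq_bot_iff]
      refine (commutator_mono (comm_le_of_norm hN) le_rfl).trans ?_
      rw [bot_of_comm (fun n hn a ha => (hNA a ha n hn).symm)]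
  rw [h] at h1
  exact comm_of_bot h1

/-- fixed points lie in every normal subgroup with abelian quotient -/
theorem fix_le [Finite G] {Y A N : Subgroup G} [N.Normal] (hAY : A ≤ normalizer (Y : Set G))
    (hcop : (Nat.card A).Coprime (Nat.card Y)) (h : ⁅Y, A⁆ = Y)
    (hYY : ∀ x ∈ Y, ∀ y ∈ Y, ⁅x, y⁆ ∈ N) : ∀ c ∈ Y, (∀ a ∈ A, a * c = c * a) → c ∈ N := by
  intro c hc hca
  set π := QuotientGroup.mk' N with hπ
  have h1 := H66.CopAb.commutator_inf_centralizer (A.map π) (Y.map π) ?_ ?_ ?_
  · rw [← map_commutator, h] at h1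
    have h2 : π c ∈ Y.map π ⊓ centralizer (A.map π : Set (G ⧸ N)) := by
      refine mem_inf.2 ⟨mem_map_of_mem _ hc, ?_⟩
      rw [mem_centralizer_iff]
      rintro _ ⟨a, ha, rfl⟩
      rw [← map_mul, ← map_mul, hca a ha]
    rw [h1, mem_bot] at h2
    exact (QuotientGroup.eq_one_iff c).1 h2
  · rintro _ ⟨x, hx, rfl⟩ _ ⟨y, hy, rfl⟩
    have h2 : π ⁅x, y⁆ = 1 := (QuotientGroup.eq_one_iff _).2 (hYY x hx y hy)
    rw [map_commutatorElement] at h2
    exact comm_eq_one.1 h2
  · rintro _ ⟨a, ha, rfl⟩
    exact (le_normalizer_map π) (mem_map_of_mem _ (hAY ha))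
  · exact Nat.Coprime.coprime_dvd_left (card_map_dvd A π)
      (Nat.Coprime.coprime_dvd_right (card_map_dvd Y π) hcop)

/-- abelian 2-group: an odd group trivial on involutions is trivial -/
theorem omega_cent [Finite G] {M A : Subgroup G} (hM2 : IsPGroup 2 M)
    (hM : ∀ x ∈ M, ∀ y ∈ M, x * y = y * x) (hAM : A ≤ normalizer (M : Set G))
    (hcop : (Nat.card A).Coprime (Nat.card M))
    (h : ∀ m ∈ M, m * m = 1 → ∀ a ∈ A, a * m = m * a) : ∀ m ∈ M, ∀ a ∈ A, a * m = m * a := by
  have : Fact (Nat.Prime 2) := ⟨Nat.prime_two⟩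
  have h1 := H66.CopAb.commutator_inf_centralizer A M hM hAM hcop
  have h2 : ⁅M, A⁆ = ⊥ := by
    by_contra hne
    have hle : ⁅M, A⁆ ≤ M := comm_le_of_norm hAM
    obtain ⟨n, hn⟩ := IsPGroup.iff_card.1 (hM2.to_le hle)
    have h3 : 2 ∣ Nat.card (⁅M, A⁆ : Subgroup G) := by
      rw [hn]
      apply dvd_pow_self
      rintro rfl
      rw [pow_zero] at hn
      exact hne (card_eq_one.1 hn)
    obtain ⟨m, hm⟩ := exists_prime_orderOf_dvd_card' (G := (⁅M, A⁆ : Subgroup G)) 2 h3
    have hmm : (m : G) * m = 1 := by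
      have h4 : m ^ 2 = 1 := by rw [← hm]; exact pow_orderOf_eq_one m
      rw [pow_two] at h4
      exact congrArg Subtype.val h4
    have h5 : (m : G) ∈ ⁅M, A⁆ ⊓ centralizer (A : Set G) := by
      refine mem_inf.2 ⟨m.2, ?_⟩
      rw [mem_centralizer_iff]
      intro a ha
      exact h m (hle m.2) hmm a ha
    rw [h1, mem_bot] at h5
    have : m = 1 := Subtype.ext h5
    rw [this, orderOf_one] at hm
    omega
  intro m hm a ha
  exact (comm_of_bot h2 m hm a ha).symm

theorem cop_of_odd [Finite G] {A K : Subgroup G} (hA : (Nat.card A).Coprime 2) (hK : IsPGroup 2 K) :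
    (Nat.card A).Coprime (Nat.card K) := by
  have : Fact (Nat.Prime 2) := ⟨Nat.prime_two⟩
  obtain ⟨n, hn⟩ := IsPGroup.iff_card.1 hK
  rw [hn]; exact Nat.Coprime.pow_right n hA

theorem solv_two [Finite G] {K : Subgroup G} (hK : IsPGroup 2 K) : Group.IsSolvable K := by
  have : Fact (Nat.Prime 2) := ⟨Nat.prime_two⟩
  have h1 := hK.isNilpotent
  infer_instance

/-- hypothesis: an odd group `B` with `[Y, B] = Y` centralising all characteristic abelian
subgroups of the 2-group `Y` -/
structure Sp (Y B : Subgroup G) : Prop where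
  nY : Y.Normal
  two : IsPGroup 2 Y
  odd : (Nat.card B).Coprime 2
  comm : ⁅Y, B⁆ = Y
  char : ∀ M : Subgroup Y, M.Characteristic → (∀ a ∈ M, ∀ b ∈ M, a * b = b * a) →
    ∀ m ∈ M, ∀ b ∈ B, b * (m : G) = (m : G) * b

theorem Sp.char_center {Y B : Subgroup G} (h : Sp Y B) {M : Subgroup Y} (hM : M.Characteristic)
    (hMa : ∀ a ∈ M, ∀ b ∈ M, a * b = b * a) : M ≤ center Y := by
  have := h.nY
  have h1 := h.char M hM hMa
  have h2 := cent3 (N := M.map Y.subtype) h.comm (by
    have : (M.map Y.subtype).Normal := inferInstance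
    rw [normalizer_eq_top]; exact le_top) (by
      rintro a ha _ ⟨m, hm, rfl⟩
      exact h1 m hm a ha)
  intro m hm
  rw [mem_center_iff]
  intro y
  exact Subtype.ext (h2 y y.2 m ⟨m, hm, rfl⟩)

theorem Sp.main [Finite G] {Y B : Subgroup G} (h : Sp Y B) : C2 Y ∧ center Y ≤ _root_.commutator Y ∧
    (∀ z ∈ center Y, ∀ b ∈ B, b * (z : G) = (z : G) * b) ∧
    (∀ c : Y, (∀ b ∈ B, b * (c : G) = (c : G) * b) → c ∈ center Y) := by
  have hYn := h.nY
  have : Fact (Nat.Prime 2) := ⟨Nat.prime_two⟩
  obtain ⟨C, hC, hC1, hC2, hC3⟩ := H3.Critical.exists_critical h.two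
  have hZc : (C ⊓ centralizer (C : Set Y)).Characteristic := by
    haveI := hC
    infer_instance
  have hZ : C ⊓ centralizer (C : Set Y) ≤ center Y := by
    apply h.char_center hZc
    intro a ha b hb
    exact (mem_centralizer_iff.1 (mem_inf.1 ha).2 b (mem_inf.1 hb).1).symm
  have hconj : ∀ x : Y, ∀ c ∈ C, ⁅c, x⁆ ∈ center Y := fun x c hc => hZ (hC2 c hc x)
  have hsq : ∀ x : Y, x * x ∈ center Y := by
    intro x
    apply hZ
    have h1 : x * x ∈ centralizer (C : Set Y) := by
      rw [mem_centralizer_iff]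
      intro c hc
      have hc2 : c * c ∈ center Y := by
        have := hC1 c hc
        rw [pow_two] at this
        exact hZ this
      have hk := hconj x c hc
      set k := ⁅c, x⁆ with hk'
      have h2 : c * x = k * (x * c) := by rw [hk', commutatorElement_def]; group
      have hkc : ∀ g, g * k = k * g := fun g => mem_center_iff.1 hk g
      -- `k * k = 1`
      have h3 : k * k = 1 := by
        have h4 : (c * c) * x = k * k * (x * (c * c)) := by
          calc (c * c) * x = c * (c * x) := by group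
            _ = c * (k * (x * c)) := by rw [h2]
            _ = (c * k) * x * c := by group
            _ = (k * c) * x * c := by rw [hkc c]
            _ = k * (c * x) * c := by group
            _ = k * (k * (x * c)) * c := by rw [h2]
            _ = k * k * (x * (c * c)) := by group
        have h5 : (c * c) * x = x * (c * c) := (mem_center_iff.1 hc2 x).symm
        rw [h5] at h4
        have h6 : (1 : Y) * (x * (c * c)) = k * k * (x * (c * c)) := by rw [one_mul]; exact h4
        exact (mul_right_cancel h6).symm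
      calc c * (x * x) = (c * x) * x := by group
        _ = k * (x * c) * x := by rw [h2]
        _ = k * x * (c * x) := by group
        _ = k * x * (k * (x * c)) := by rw [h2]
        _ = k * (x * k) * x * c := by group
        _ = k * (k * x) * x * c := by rw [hkc x]
        _ = (k * k) * (x * x * c) := by group
        _ = x * x * c := by rw [h3, one_mul]
    exact mem_inf.2 ⟨hC3 h1, h1⟩
  have hcm : ∀ x y : Y, ⁅x, y⁆ ∈ center Y := by
    intro x y
    apply hZ
    have h1 : ⁅x, y⁆ ∈ centralizer (C : Set Y) := by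
      rw [mem_centralizer_iff]
      intro c hc
      have hk := hconj x c hc
      have hl := hconj y c hc
      set k := ⁅c, x⁆ with hk'
      set l := ⁅c, y⁆ with hl'
      have h2 : c * x = k * (x * c) := by rw [hk', commutatorElement_def]; group
      have h3 : c * y = l * (y * c) := by rw [hl', commutatorElement_def]; group
      have hkc : ∀ g, g * k = k * g := fun g => mem_center_iff.1 hk g
      have hlc : ∀ g, g * l = l * g := fun g => mem_center_iff.1 hl g
      have h4 : c * (x * y) = k * l * (x * y * c) := by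
        calc c * (x * y) = (c * x) * y := by group
          _ = k * (x * c) * y := by rw [h2]
          _ = k * x * (c * y) := by group
          _ = k * x * (l * (y * c)) := by rw [h3]
          _ = k * (x * l) * y * c := by group
          _ = k * (l * x) * y * c := by rw [hlc x]
          _ = k * l * (x * y * c) := by group
      have h5 : c * (y * x) = k * l * (y * x * c) := by
        calc c * (y * x) = (c * y) * x := by group
          _ = l * (y * c) * x := by rw [h3]
          _ = l * y * (c * x) := by group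
          _ = l * y * (k * (x * c)) := by rw [h2]
          _ = l * (y * k) * x * c := by group
          _ = l * (k * y) * x * c := by rw [hkc y]
          _ = (l * k) * (y * x * c) := by group
          _ = (k * l) * (y * x * c) := by rw [hkc l]
      -- `x y = ⁅x,y⁆ y x`
      have h6 : x * y = ⁅x, y⁆ * (y * x) := by rw [commutatorElement_def]; group
      have hkl : ∀ g, g * (k * l) = k * l * g := by
        intro g
        rw [← mul_assoc, hkc g, mul_assoc, hlc g, ← mul_assoc]
      have h7 : c * ⁅x, y⁆ * (y * x) = ⁅x, y⁆ * c * (y * x) := by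
        calc c * ⁅x, y⁆ * (y * x) = c * (⁅x, y⁆ * (y * x)) := by group
          _ = c * (x * y) := by rw [← h6]
          _ = k * l * (x * y * c) := h4
          _ = k * l * (⁅x, y⁆ * (y * x) * c) := by rw [← h6]
          _ = (k * l * ⁅x, y⁆) * (y * x * c) := by group
          _ = (⁅x, y⁆ * (k * l)) * (y * x * c) := by rw [hkl]
          _ = ⁅x, y⁆ * (k * l * (y * x * c)) := by group
          _ = ⁅x, y⁆ * (c * (y * x)) := by rw [← h5]
          _ = ⁅x, y⁆ * c * (y * x) := by group
      exact mul_right_cancel h7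
    exact mem_inf.2 ⟨hC3 h1, h1⟩
  have hZB := h.char (center Y) inferInstance (fun a _ b hb => mem_center_iff.1 hb a)
  have hcop := cop_of_odd h.odd h.two
  have hfix : ∀ N : Subgroup G, N.Normal → (∀ x ∈ Y, ∀ y ∈ Y, ⁅x, y⁆ ∈ N) →
      ∀ c ∈ Y, (∀ a ∈ B, a * c = c * a) → c ∈ N := by
    intro N hN hYY
    exact fix_le (by rw [normalizer_eq_top]; exact le_top) hcop h.comm hYY
  have hder : ∀ z ∈ center Y, z ∈ _root_.commutator Y := by
    intro z hz
    have h1 := hfix ((_root_.commutator Y).map Y.subtype) inferInstance (by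
      intro x hx y hy
      exact ⟨⁅⟨x, hx⟩, ⟨y, hy⟩⁆, commutator_mem_commutator (mem_top _) (mem_top _), rfl⟩) z z.2
      (hZB z hz)
    obtain ⟨w, hw, hwz⟩ := h1
    have : w = z := Subtype.ext hwz
    rw [← this]; exact hw
  have hz2 : ∀ z ∈ center Y, z * z = 1 := by
    intro z hz
    have h1 := hder z hz
    rw [_root_.commutator_def] at h1
    have h2 : (⁅(⊤ : Subgroup Y), ⊤⁆ : Subgroup Y) ≤
        { carrier := {w | w ∈ center Y ∧ w * w = 1}
          one_mem' := ⟨one_mem _, by simp⟩
          mul_mem' := by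
            rintro a b ⟨ha, ha2⟩ ⟨hb, hb2⟩
            refine ⟨mul_mem ha hb, ?_⟩
            calc a * b * (a * b) = a * (b * a) * b := by group
              _ = a * (a * b) * b := by rw [mem_center_iff.1 ha b]
              _ = (a * a) * (b * b) := by group
              _ = 1 := by rw [ha2, hb2, one_mul]
          inv_mem' := by
            rintro a ⟨ha, ha2⟩
            refine ⟨inv_mem ha, ?_⟩
            rw [← mul_inv_rev, ha2, inv_one] } := by
      rw [commutator_le]
      intro x _ y _
      refine ⟨hcm x y, ?_⟩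
      have hk := hcm x y
      set k := ⁅x, y⁆ with hk'
      have hkc : ∀ g, g * k = k * g := fun g => mem_center_iff.1 hk g
      have h2 : x * y = k * (y * x) := by rw [hk', commutatorElement_def]; group
      have h3 : (x * x) * y = k * k * (y * (x * x)) := by
        calc (x * x) * y = x * (x * y) := by group
          _ = x * (k * (y * x)) := by rw [h2]
          _ = (x * k) * y * x := by group
          _ = (k * x) * y * x := by rw [hkc x]
          _ = k * (x * y) * x := by group
          _ = k * (k * (y * x)) * x := by rw [h2]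
          _ = k * k * (y * (x * x)) := by group
      have h4 : (x * x) * y = y * (x * x) := (mem_center_iff.1 (hsq x) y).symm
      rw [h4] at h3
      have h5 : (1 : Y) * (y * (x * x)) = k * k * (y * (x * x)) := by rw [one_mul]; exact h3
      exact (mul_right_cancel h5).symm
    exact (h2 h1).2
  refine ⟨⟨h.two, hsq, hcm, hz2⟩, hder, hZB, ?_⟩
  intro c hc
  have h1 := hfix ((center Y).map Y.subtype) inferInstance (by
    intro x hx y hy
    exact ⟨⁅⟨x, hx⟩, ⟨y, hy⟩⁆, hcm _ _, rfl⟩) c c.2 hc
  obtain ⟨w, hw, hwz⟩ := h1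
  have : w = c := Subtype.ext hwz
  rw [← this]; exact hw

/-- moving cosets -/
theorem mv_of [Finite G] {Y B : Subgroup G} [hYn : Y.Normal] (hY2 : IsPGroup 2 Y)
    (hodd : (Nat.card B).Coprime 2)
    (hZB : ∀ z ∈ center Y, ∀ b ∈ B, b * (z : G) = (z : G) * b)
    (hfix : ∀ c : Y, (∀ b ∈ B, b * (c : G) = (c : G) * b) → c ∈ center Y) : Mv Y := by
  intro x hx
  by_contra hcon
  push Not at hcon
  apply hx
  have hZn : ((center Y).map Y.subtype).Normal := inferInstance
  have hZ2 : IsPGroup 2 ((center Y).map Y.subtype) := (hY2.to_subgroup _).map _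
  have h1 : ∀ b ∈ B, (x : G)⁻¹ * b * x * b⁻¹ ∈ (center Y).map Y.subtype := by
    intro b hb
    have h2 := hcon (MulAut.conjNormal b) (by
      intro z hz
      apply Subtype.ext
      rw [MulAut.conjNormal_apply, hZB z hz b hb]; group)
    have h3 : ((x⁻¹ * MulAut.conjNormal b x : Y) : G) = (x : G)⁻¹ * b * x * b⁻¹ := by
      rw [coe_mul, MulAut.conjNormal_apply, coe_inv]; group
    rw [← h3]
    exact ⟨_, h2, rfl⟩
  obtain ⟨c, hc, hxc⟩ := H1.Coprime.exists_fixed_in_coset B ((center Y).map Y.subtype)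
    (by rw [normalizer_eq_top]; exact le_top) (cop_of_odd hodd hZ2) (Or.inr (solv_two hZ2)) x h1
  obtain ⟨w, hw, hwx⟩ := hxc
  have hcY : c ∈ Y := by
    have : c = (x : G) * w := by rw [show (w : G) = (x : G)⁻¹ * c from hwx]; group
    rw [this]; exact Y.mul_mem x.2 w.2
  have h2 := hfix ⟨c, hcY⟩ (fun b hb => mem_centralizer_iff.1 hc b hb)
  have h3 : x = ⟨c, hcY⟩ * w⁻¹ := by
    apply Subtype.ext
    change (x : G) = c * (w : G)⁻¹
    rw [show (w : G) = (x : G)⁻¹ * c from hwx]; group
  rw [h3]; exact mul_mem h2 (inv_mem hw)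

end H57.Sc
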