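import Cfsg.Agent.Lib.H57.Sc3
import Cfsg.Agent.Lib.H1.Frat

/-! Ambient setting for S1904; the case where the odd group centralises `Ω₁(Z(X))`. -/

set_option autoImplicit false

namespace H57.Sc

open Subgroup
open scoped commutatorElement

/-- the conclusion -/
def Concl (Y : Type*) [Group Y] : Prop :=
  Nonempty (Y ≃* QuaternionGroup 2) ∨
      (Cfsg.IsSpecial 2 Y ∧ Nat.card Y = 64 ∧ Nat.card {x : Y // orderOf x = 2} = 3 ∧
        ∀ x : Y, orderOf x = 2 → x ∈ Subgroup.center Y) ∨
      (Cfsg.IsExtraspecial 2 Y ∧ Nat.card Y = 32 ∧ Nat.card {x : Y // orderOf x = 2} = 11)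

theorem special64 {Y : Type*} [Group Y] [Finite Y] (h : C2 Y) (h4 : Nat.card (center Y) = 4)
    (hD : center Y ≤ _root_.commutator Y) (hno : ∀ x : Y, x * x = 1 → x ∈ center Y)
    (h64 : Nat.card Y = 64) : Concl Y := by
  have : Fact (Nat.Prime 2) := ⟨Nat.prime_two⟩
  right; left
  have hcom : _root_.commutator Y ≤ center Y := by
    rw [_root_.commutator_def, commutator_le]
    intro a _ b _
    exact h.cm a b
  have hnil : Group.IsNilpotent Y := h.two.isNilpotent
  have hinv : ∀ x : Y, orderOf x = 2 → x ∈ center Y := by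
    intro x hx
    apply hno
    rw [← pow_two, ← hx]; exact pow_orderOf_eq_one x
  refine ⟨⟨h.two, ?_, le_antisymm hcom hD⟩, h64, ?_, hinv⟩
  · apply le_antisymm
    · exact H1.Frat.frattini_le_of_elementary hcom (fun x => by rw [pow_two]; exact h.sq x)
    · exact hD.trans H1.Frat.commutator_le_frattini
  · have hset : {g : Y | orderOf g = 2} = (center Y : Set Y) \ {1} := by
      ext g
      constructor
      · intro hg
        refine ⟨hinv g hg, ?_⟩
        rintro rfl
        have hg' : orderOf (1 : Y) = 2 := hg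
        rw [orderOf_one] at hg'
        omega
      · rintro ⟨hg, hg1⟩
        exact orderOf_eq_prime (by rw [pow_two]; exact h.z2 g hg) hg1
    have h1 : Nat.card {x : Y // orderOf x = 2} = ({g : Y | orderOf g = 2} : Set Y).ncard :=
      Nat.card_coe_set_eq _
    rw [h1, hset, Set.ncard_diff_singleton_of_mem (one_mem _), ncard_center, h4]

variable {G : Type*} [Group G]

/-- elementary abelian closure -/
theorem EA_closure {S : Set G} (hc : ∀ a ∈ S, ∀ b ∈ S, a * b = b * a) (h2 : ∀ a ∈ S, a * a = 1) :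
    (∀ a ∈ closure S, ∀ b ∈ closure S, a * b = b * a) ∧ ∀ a ∈ closure S, a * a = 1 := by
  have h1 : closure S ≤ centralizer S := by
    rw [closure_le]
    intro a ha
    rw [SetLike.mem_coe, mem_centralizer_iff]
    intro b hb
    exact hc b hb a ha
  have h3 : closure S ≤ centralizer (closure S : Set G) := by
    rw [closure_le]
    intro a ha
    rw [SetLike.mem_coe, mem_centralizer_iff]
    intro b hb
    exact (mem_centralizer_iff.1 (h1 hb) a ha).symm
  have hcomm : ∀ a ∈ closure S, ∀ b ∈ closure S, a * b = b * a :=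
    fun a ha b hb => (mem_centralizer_iff.1 (h3 ha) b hb).symm
  refine ⟨hcomm, ?_⟩
  intro a ha
  induction ha using closure_induction with
  | mem x hx => exact h2 x hx
  | one => simp
  | mul x y hx hy hxx hyy =>
    calc x * y * (x * y) = x * (y * x) * y := by group
      _ = x * (x * y) * y := by rw [hcomm x hx y hy]
      _ = (x * x) * (y * y) := by group
      _ = 1 := by rw [hxx, hyy, one_mul]
  | inv x _ hxx => rw [← mul_inv_rev, hxx, inv_one]

/-- ambient setting -/
structure Amb (X A : Subgroup G) : Prop where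
  nX : X.Normal
  gen : X ⊔ A = ⊤
  two : IsPGroup 2 X
  odd : (Nat.card A).Coprime 2
  comm : ⁅X, A⁆ = X
  noE : ∀ E : Subgroup G, E ≤ X → X ≤ normalizer (E : Set G) → (∀ a ∈ E, ∀ b ∈ E, a * b = b * a) →
    (∀ a ∈ E, a * a = 1) → Nat.card E ≤ 4

variable {X A : Subgroup G}

theorem Amb.normal_of (h : Amb X A) {N : Subgroup G} (hX : X ≤ normalizer (N : Set G))
    (hA : A ≤ normalizer (N : Set G)) : N.Normal := by
  rw [← normalizer_eq_top_iff, eq_top_iff, ← h.gen]
  exact sup_le hX hA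

/-- no elementary abelian subgroup above `Z` with `[X,E] ≤ Z` and more than four elements -/
theorem Amb.noE' (h : Amb X A) {S : Set G} (hS : S ⊆ X) (hc : ∀ a ∈ S, ∀ b ∈ S, a * b = b * a)
    (h2 : ∀ a ∈ S, a * a = 1) (hn : ∀ x ∈ X, ∀ a ∈ S, ⁅x, a⁆ ∈ closure S) :
    Nat.card (closure S) ≤ 4 := by
  obtain ⟨h3, h4⟩ := EA_closure hc h2
  refine h.noE (closure S) ((closure_le _).2 hS) ?_ h3 h4
  apply H1.Coprime.le_normalizer_of_conj_mem
  intro x hx k hk
  induction hk using closure_induction with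
  | mem a ha =>
    have : x * a * x⁻¹ = ⁅x, a⁆ * a := by rw [commutatorElement_def]; group
    rw [this]; exact mul_mem (hn x hx a ha) (subset_closure ha)
  | one => simp
  | mul a b _ _ ha hb =>
    have : x * (a * b) * x⁻¹ = (x * a * x⁻¹) * (x * b * x⁻¹) := by group
    rw [this]; exact mul_mem ha hb
  | inv a _ ha =>
    have : x * a⁻¹ * x⁻¹ = (x * a * x⁻¹)⁻¹ := by group
    rw [this]; exact inv_mem ha

/-- `Ω₁(Z(X))` -/
def Z1 (X : Subgroup G) : Subgroup G where
  carrier := {z | z ∈ X ∧ (∀ x ∈ X, x * z = z * x) ∧ z * z = 1}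
  one_mem' := ⟨X.one_mem, by simp, by simp⟩
  mul_mem' := by
    rintro a b ⟨ha, hac, ha2⟩ ⟨hb, hbc, hb2⟩
    refine ⟨X.mul_mem ha hb, ?_, ?_⟩
    · intro x hx
      rw [← mul_assoc, hac x hx, mul_assoc, hbc x hx, mul_assoc]
    · calc a * b * (a * b) = a * (b * a) * b := by group
        _ = a * (a * b) * b := by rw [hac b hb]
        _ = (a * a) * (b * b) := by group
        _ = 1 := by rw [ha2, hb2, one_mul]
  inv_mem' := by
    rintro a ⟨ha, hac, ha2⟩
    have h1 : a⁻¹ = a := inv_eq_of_mul_eq_one_right ha2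
    rw [h1]; exact ⟨ha, hac, ha2⟩

theorem mem_Z1 {z : G} : z ∈ Z1 X ↔ z ∈ X ∧ (∀ x ∈ X, x * z = z * x) ∧ z * z = 1 := Iff.rfl

theorem Z1_le : Z1 X ≤ X := fun _ hz => hz.1

instance Z1_normal [hX : X.Normal] : (Z1 X).Normal := by
  constructor
  rintro z ⟨hz, hzc, hz2⟩ g
  refine ⟨hX.conj_mem z hz g, ?_, ?_⟩
  · intro x hx
    have h1 := hzc (g⁻¹ * x * g) (by have := hX.conj_mem x hx g⁻¹; rwa [inv_inv] at this)
    calc x * (g * z * g⁻¹) = g * ((g⁻¹ * x * g) * z) * g⁻¹ := by group
      _ = g * (z * (g⁻¹ * x * g)) * g⁻¹ := by rw [h1]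
      _ = g * z * g⁻¹ * x := by group
  · calc g * z * g⁻¹ * (g * z * g⁻¹) = g * (z * z) * g⁻¹ := by group
      _ = 1 := by rw [hz2]; group

theorem Amb.Z1_card (h : Amb X A) : Nat.card (Z1 X) ≤ 4 := by
  have := h.nX
  refine h.noE (Z1 X) Z1_le (by rw [normalizer_eq_top]; exact le_top) ?_ ?_
  · intro a ha b hb; exact hb.2.1 a ha.1
  · intro a ha; exact ha.2.2

section Fin
variable [Finite G]

theorem cent_card_two {N A : Subgroup G} (hc : Nat.card N ≤ 2) (hA : A ≤ normalizer (N : Set G)) :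
    ∀ a ∈ A, ∀ n ∈ N, a * n = n * a := by
  intro a ha n hn
  by_cases hn1 : n = 1
  · rw [hn1]; simp
  have h1 : a * n * a⁻¹ ∈ N := (mem_normalizer_iff.1 (hA ha) n).1 hn
  have h2 : a * n * a⁻¹ ≠ 1 := by
    intro h3
    apply hn1
    have : n = a⁻¹ * (a * n * a⁻¹) * a := by group
    rw [this, h3]; group
  have h3 : a * n * a⁻¹ = n := by
    by_contra h4
    have h5 : ({1, a * n * a⁻¹, n} : Set G).ncard = 3 :=
      Set.ncard_eq_three.2 ⟨1, _, n, Ne.symm h2, Ne.symm hn1, h4, rfl⟩
    have h6 : Nat.card N = (N : Set G).ncard := Nat.card_coe_set_eq _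
    have h7 : ({1, a * n * a⁻¹, n} : Set G).ncard ≤ (N : Set G).ncard := by
      apply Set.ncard_le_ncard _ (Set.toFinite _)
      rintro w (rfl | rfl | rfl)
      · exact one_mem _
      · exact h1
      · exact hn
    omega
  calc a * n = (a * n * a⁻¹) * a := by group
    _ = n * a := by rw [h3]

theorem Amb.cent_of_EA (h : Amb X A) {N : Subgroup G} [hN : N.Normal] (hNX : N ≤ X)
    (hc : Nat.card N ≤ 4) : ∀ x ∈ X, ∀ n ∈ N, x * n = n * x := by
  have : Fact (Nat.Prime 2) := ⟨Nat.prime_two⟩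
  have hXn := h.nX
  have htop : ∀ (M : Subgroup G) [M.Normal] (K : Subgroup G), K ≤ normalizer (M : Set G) := by
    intro M _ K; rw [normalizer_eq_top]; exact le_top
  by_cases hb : N = ⊥
  · intro x _ n hn
    rw [hb, mem_bot] at hn
    rw [hn]; simp
  have hN2 : IsPGroup 2 N := h.two.to_le hNX
  set N₁ : Subgroup G := ⁅N, X⁆ with hN₁
  have hN₁n : N₁.Normal := commutator_normal N X
  have hlt : N₁ < N := H1.Coprime2.commutator_lt_of_isPGroup h.two hN2 (htop N X) hb
  have hc1 : Nat.card N₁ ≤ 2 := by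
    obtain ⟨k, hk⟩ := card_dvd_of_le hlt.le
    have h1 : 0 < Nat.card N₁ := Nat.card_pos
    have h2 : Nat.card N₁ ≠ Nat.card N := by
      intro h3
      exact hlt.ne (eq_of_le_of_card_ge hlt.le h3.ge)
    have h3 : 2 ≤ k := by
      rcases k with _ | _ | k
      · rw [mul_zero] at hk; have : 0 < Nat.card N := Nat.card_pos; omega
      · rw [zero_add, mul_one] at hk; exact absurd hk.symm h2
      · omega
    nlinarith
  by_cases hb1 : N₁ = ⊥
  · intro x hx n hn
    exact (comm_of_bot hb1 n hn x hx).symm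
  -- `|N₁| = 2`, `|N| = 4`
  have hc2 : Nat.card N₁ = 2 := by
    have h1 : Nat.card N₁ ≠ 1 := fun h2 => hb1 (card_eq_one.1 h2)
    have h2 : 0 < Nat.card N₁ := Nat.card_pos
    omega
  have hrel : N₁.relIndex N = 2 := by
    have h1 := card_mul_index (N₁.subgroupOf N)
    have h2 : Nat.card (N₁.subgroupOf N) = 2 := by
      rw [← hc2]; exact Nat.card_congr (subgroupOfEquivOfLe hlt.le).toEquiv
    rw [h2] at h1
    have h3 : (N₁.subgroupOf N).index ≠ 1 := by
      intro h4
      have : N₁.relIndex N = 1 := h4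
      rw [relIndex_eq_one] at this
      exact not_le_of_gt hlt this
    have h4 : (N₁.subgroupOf N).index ≠ 0 := index_ne_zero_of_finite
    change (N₁.subgroupOf N).index = 2
    omega
  have hser : ⁅N, A⁆ ≤ N₁ := by
    rw [commutator_le]
    intro n hn a ha
    have h1 : a * n⁻¹ * a⁻¹ ∈ N := hN.conj_mem _ (N.inv_mem hn) a
    have h2 : ⁅n, a⁆ = n * (a * n⁻¹ * a⁻¹) := by rw [commutatorElement_def]; group
    rw [h2]
    have h3 := mul_mem_iff_of_index_two (H := N₁.subgroupOf N) hrel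
      (a := ⟨n, hn⟩) (b := ⟨_, h1⟩)
    rw [mem_subgroupOf, mem_subgroupOf, mem_subgroupOf] at h3
    change n * (a * n⁻¹ * a⁻¹) ∈ N₁ ↔ (n ∈ N₁ ↔ a * n⁻¹ * a⁻¹ ∈ N₁) at h3
    rw [h3]
    constructor
    · intro h4; exact hN₁n.conj_mem _ (N₁.inv_mem h4) a
    · intro h4
      have h5 := hN₁n.conj_mem _ h4 a⁻¹
      have h6 : a⁻¹ * (a * n⁻¹ * a⁻¹) * a⁻¹⁻¹ = n⁻¹ := by group
      rw [h6] at h5
      exact N₁.inv_mem_iff.1 h5
  have hA1 : ⁅N₁, A⁆ = ⊥ := by
    apply bot_of_comm
    intro n hn a ha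
    exact (cent_card_two hc1 (htop N₁ A) a ha n hn).symm
  have hAN := H1.Coprime2.le_centralizer_of_series A N N₁ (htop N A) (cop_of_odd h.odd hN2)
    (Or.inr (solv_two hN2)) hser hA1
  exact cent3 h.comm (htop N X) (fun a ha n hn => (mem_centralizer_iff.1 (hAN ha) n hn).symm)

/-- normal elementary abelian subgroups lie in `Z1` -/
theorem Amb.le_Z1 (h : Amb X A) {N : Subgroup G} [hN : N.Normal] (hNX : N ≤ X)
    (hNc : ∀ a ∈ N, ∀ b ∈ N, a * b = b * a) (hN2 : ∀ a ∈ N, a * a = 1) : N ≤ Z1 X := by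
  have h1 := h.noE N hNX (by rw [normalizer_eq_top]; exact le_top) hNc hN2
  have h2 := h.cent_of_EA hNX h1
  intro n hn
  exact ⟨hNX hn, fun x hx => h2 x hx n hn, hN2 n hn⟩

/-- involutions of a normal abelian subgroup lie in `Z1` -/
theorem Amb.inv_mem_Z1 (h : Amb X A) {M : Subgroup G} [hM : M.Normal] (hMX : M ≤ X)
    (hMc : ∀ a ∈ M, ∀ b ∈ M, a * b = b * a) {m : G} (hm : m ∈ M) (hm2 : m * m = 1) : m ∈ Z1 X := by
  let N : Subgroup G :=
    { carrier := {z | z ∈ M ∧ z * z = 1}
      one_mem' := ⟨M.one_mem, by simp⟩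
      mul_mem' := by
        rintro a b ⟨ha, ha2⟩ ⟨hb, hb2⟩
        refine ⟨M.mul_mem ha hb, ?_⟩
        calc a * b * (a * b) = a * (b * a) * b := by group
          _ = a * (a * b) * b := by rw [hMc a ha b hb]
          _ = (a * a) * (b * b) := by group
          _ = 1 := by rw [ha2, hb2, one_mul]
      inv_mem' := by
        rintro a ⟨ha, ha2⟩
        refine ⟨M.inv_mem ha, ?_⟩
        rw [← mul_inv_rev, ha2, inv_one] }
  have hN : N.Normal := by
    constructor
    rintro z ⟨hz, hz2⟩ g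
    refine ⟨hM.conj_mem z hz g, ?_⟩
    calc g * z * g⁻¹ * (g * z * g⁻¹) = g * (z * z) * g⁻¹ := by group
      _ = 1 := by rw [hz2]; group
  have h1 : N ≤ Z1 X := h.le_Z1 (fun z hz => hMX hz.1) (fun a ha b hb => hMc a ha.1 b hb.1)
    (fun a ha => ha.2)
  exact h1 ⟨hm, hm2⟩

/-- if `B ≤ A` centralises `Z1` then it centralises every normal abelian subgroup of `X` -/
theorem Amb.cent_abelian (h : Amb X A) {B : Subgroup G} (hB : (Nat.card B).Coprime 2)
    (hBZ : ∀ b ∈ B, ∀ z ∈ Z1 X, b * z = z * b) {M : Subgroup G} [hM : M.Normal] (hMX : M ≤ X)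
    (hMc : ∀ a ∈ M, ∀ b ∈ M, a * b = b * a) : ∀ m ∈ M, ∀ b ∈ B, b * m = m * b := by
  have hM2 := h.two.to_le hMX
  apply omega_cent hM2 hMc (by rw [normalizer_eq_top]; exact le_top) (cop_of_odd hB hM2)
  intro m hm hm2 b hb
  exact hBZ b hb m (h.inv_mem_Z1 hMX hMc hm hm2)

/-- the general `Sp` fact -/
theorem Amb.sp (h : Amb X A) {Y B : Subgroup G} [hY : Y.Normal] (hYX : Y ≤ X)
    (hB : (Nat.card B).Coprime 2) (hBZ : ∀ b ∈ B, ∀ z ∈ Z1 X, b * z = z * b) (hYB : ⁅Y, B⁆ = Y) :
    Sp Y B := by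
  refine ⟨hY, h.two.to_le hYX, hB, hYB, ?_⟩
  intro M hM hMc m hm b hb
  have h1 : (M.map Y.subtype).Normal := inferInstance
  refine h.cent_abelian hB hBZ (M := M.map Y.subtype) ?_ ?_ m ⟨m, hm, rfl⟩ b hb
  · exact (map_subtype_le M).trans hYX
  · rintro _ ⟨a, ha, rfl⟩ _ ⟨c, hc, rfl⟩
    exact congrArg Subtype.val (hMc a ha c hc)

theorem card_sup_of_not_mem {E : Subgroup G} {n : ℕ} (hE : n ≤ Nat.card E) {F : Subgroup G}
    (hEF : E ≤ F) {x : G} (hxF : x ∈ F) (hxE : x ∉ E) : 2 * n ≤ Nat.card F := by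
  obtain ⟨k, hk⟩ := card_dvd_of_le hEF
  have h1 : 2 ≤ k := by
    rcases k with _ | _ | k
    · rw [mul_zero] at hk; have : 0 < Nat.card F := Nat.card_pos; omega
    · rw [zero_add, mul_one] at hk
      have := eq_of_le_of_card_ge hEF hk.le
      exact absurd (this ▸ hxF) hxE
    · omega
  rw [hk]; nlinarith

/-- Case I -/
theorem Amb.caseI (h : Amb X A) (hnc : ∃ a ∈ X, ∃ b ∈ X, a * b ≠ b * a)
    (hAZ : ∀ b ∈ A, ∀ z ∈ Z1 X, b * z = z * b) : Concl X := by
  have : Fact (Nat.Prime 2) := ⟨Nat.prime_two⟩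
  have hXn := h.nX
  have hsp := h.sp le_rfl h.odd hAZ h.comm
  obtain ⟨hC2, hD, hZA, hfix⟩ := hsp.main
  have hM := mv_of h.two h.odd hZA hfix
  have hZ : ∀ z : X, z ∈ center X ↔ (z : G) ∈ Z1 X := by
    intro z
    constructor
    · intro hz
      refine ⟨z.2, ?_, congrArg Subtype.val (hC2.z2 z hz)⟩
      intro x hx
      exact congrArg Subtype.val (mem_center_iff.1 hz ⟨x, hx⟩)
    · intro hz
      rw [mem_center_iff]
      intro x
      exact Subtype.ext (hz.2.1 x x.2)
  have hcard : Nat.card (center X) = Nat.card (Z1 X) := by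
    have h1 : (center X).map X.subtype = Z1 X := by
      ext z
      constructor
      · rintro ⟨w, hw, rfl⟩; exact (hZ w).1 hw
      · intro hz; exact ⟨⟨z, Z1_le hz⟩, (hZ _).2 hz, rfl⟩
    rw [← h1, card_map_of_injective X.subtype_injective]
  have hnt : Nontrivial X := by
    obtain ⟨a, ha, b, hb, hab⟩ := hnc
    refine ⟨⟨⟨a, ha⟩, 1, fun h1 => hab ?_⟩⟩
    have : a = 1 := congrArg Subtype.val h1
    rw [this]; simp
  have hc4 : Nat.card (center X) ≤ 4 := by rw [hcard]; exact h.Z1_card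
  obtain ⟨n, hn⟩ := IsPGroup.iff_card.1 (h.two.to_subgroup (center X))
  have hn0 : n ≠ 0 := by
    rintro rfl
    have h1 := h.two.center_nontrivial
    have h2 : Nat.card (center X) = 1 := by rw [hn]; norm_num
    have h3 := Finite.one_lt_card_iff_nontrivial.2 h1
    omega
  have hn2 : n ≤ 2 := by
    by_contra hcon
    have : 2 ^ 3 ≤ 2 ^ n := Nat.pow_le_pow_right (by norm_num) (by omega)
    omega
  have hZs : ∀ g ∈ X, ∀ x ∈ X, ⁅g, x⁆ ∈ Z1 X := by
    intro g hg x hx
    exact (hZ ⁅⟨g, hg⟩, ⟨x, hx⟩⁆).1 (hC2.cm _ _)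
  have hcases : n = 1 ∨ n = 2 := by omega
  rcases hcases with rfl | rfl
  · have h2 : Nat.card (center X) = 2 := by rw [hn]; norm_num
    have hres := hC2.extra_cases hM h2 (by
      obtain ⟨a, ha, b, hb, hab⟩ := hnc
      exact ⟨⟨a, ha⟩, ⟨b, hb⟩, fun h1 => hab (congrArg Subtype.val h1)⟩) (by
      intro x y hx hy hxy hxx hyy hcomm
      have hx' : (x : G) ∉ Z1 X := fun h1 => hx ((hZ x).2 h1)
      have hy' : (y : G) ∉ Z1 X := fun h1 => hy ((hZ y).2 h1)
      have hxy' : (x : G) * y ∉ Z1 X := fun h1 => hxy ((hZ (x * y)).2 h1)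
      have hxx' : (x : G) * x = 1 := congrArg Subtype.val hxx
      have hyy' : (y : G) * y = 1 := congrArg Subtype.val hyy
      have hcomm' : (x : G) * y = y * x := congrArg Subtype.val hcomm
      have hle := h.noE' (S := (Z1 X : Set G) ∪ {(x : G), (y : G)}) ?_ ?_ ?_ ?_
      · have h3 : Z1 X ≤ closure ((Z1 X : Set G) ∪ {(x : G)}) := by
          intro z hz; exact subset_closure (Or.inl hz)
        have h4 : closure ((Z1 X : Set G) ∪ {(x : G)}) ≤
            closure ((Z1 X : Set G) ∪ {(x : G), (y : G)}) := by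
          apply Subgroup.closure_mono
          rintro z (hz | hz)
          · exact Or.inl hz
          · right; left; exact hz
        have h5 : 2 * 2 ≤ Nat.card (closure ((Z1 X : Set G) ∪ {(x : G)})) :=
          card_sup_of_not_mem (by rw [← hcard, h2]) h3 (subset_closure (Or.inr rfl)) hx'
        have hyn : (y : G) ∉ closure ((Z1 X : Set G) ∪ {(x : G)}) := by
          intro h6
          have h7 : closure ((Z1 X : Set G) ∪ {(x : G)}) ≤ Z1 X ⊔ zpowers (x : G) := by
            rw [closure_le]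
            rintro z (hz | hz)
            · exact mem_sup_left hz
            · rw [Set.mem_singleton_iff] at hz
              rw [hz]; exact mem_sup_right (mem_zpowers _)
          obtain ⟨z, hz, w, hw, hzw⟩ := mem_sup_of_normal_left.1 (h7 h6)
          obtain ⟨i, rfl⟩ := hw
          rcases Int.even_or_odd i with ⟨j, hj⟩ | ⟨j, hj⟩
          · have h8 : (x : G) ^ i = 1 := by
              rw [hj, ← two_mul, zpow_mul, zpow_two, hxx', one_zpow]
            change z * (x : G) ^ i = y at hzw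
            rw [h8, mul_one] at hzw
            exact hy' (hzw ▸ hz)
          · have h8 : (x : G) ^ i = x := by
              rw [hj, zpow_add, zpow_mul, zpow_two, hxx', one_zpow, one_mul, zpow_one]
            change z * (x : G) ^ i = y at hzw
            rw [h8] at hzw
            apply hxy'
            rw [hcomm', ← hzw, mul_assoc, hxx', mul_one]
            exact hz
        have h6 : 2 * (2 * 2) ≤ Nat.card (closure ((Z1 X : Set G) ∪ {(x : G), (y : G)})) :=
          card_sup_of_not_mem h5 h4 (subset_closure (Or.inr (Or.inr rfl))) hyn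
        omega
      · rintro z (hz | rfl | rfl)
        · exact Z1_le hz
        · exact x.2
        · exact y.2
      · rintro a (ha | rfl | rfl) b (hb | rfl | rfl)
        · exact hb.2.1 a ha.1
        · exact (ha.2.1 x x.2).symm
        · exact (ha.2.1 y y.2).symm
        · exact hb.2.1 x x.2
        · rfl
        · exact hcomm'
        · exact hb.2.1 y y.2
        · exact hcomm'.symm
        · rfl
      · rintro a (ha | rfl | rfl)
        · exact ha.2.2
        · exact hxx'
        · exact hyy'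
      · rintro g hg a (ha | rfl | rfl)
        · exact subset_closure (Or.inl (hZs g hg a ha.1))
        · exact subset_closure (Or.inl (hZs g hg x x.2))
        · exact subset_closure (Or.inl (hZs g hg y y.2)))
    rcases hres with h3 | h3
    · exact Or.inl h3
    · exact Or.inr (Or.inr h3)
  · have h4 : Nat.card (center X) = 4 := by rw [hn]; norm_num
    have hno : ∀ x : X, x * x = 1 → x ∈ center X := by
      intro x hxx
      by_contra hx
      have hx' : (x : G) ∉ Z1 X := fun h1 => hx ((hZ x).2 h1)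
      have hxx' : (x : G) * x = 1 := congrArg Subtype.val hxx
      have hle := h.noE' (S := (Z1 X : Set G) ∪ {(x : G)}) ?_ ?_ ?_ ?_
      · have h3 : Z1 X ≤ closure ((Z1 X : Set G) ∪ {(x : G)}) := by
          intro z hz; exact subset_closure (Or.inl hz)
        have h5 : 2 * 4 ≤ Nat.card (closure ((Z1 X : Set G) ∪ {(x : G)})) :=
          card_sup_of_not_mem (by rw [← hcard, h4]) h3 (subset_closure (Or.inr rfl)) hx'
        omega
      · rintro z (hz | rfl)
        · exact Z1_le hz
        · exact x.2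
      · rintro a (ha | rfl) b (hb | rfl)
        · exact hb.2.1 a ha.1
        · exact (ha.2.1 x x.2).symm
        · exact hb.2.1 x x.2
        · rfl
      · rintro a (ha | rfl)
        · exact ha.2.2
        · exact hxx'
      · rintro g hg a (ha | rfl)
        · exact subset_closure (Or.inl (hZs g hg a ha.1))
        · exact subset_closure (Or.inl (hZs g hg x x.2))
    exact special64 hC2 h4 hD hno (hC2.card_eq_64 hM h4 hD hno)

end Fin

end H57.Sc
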