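import Cfsg.Agent.Lib.H57.Sc4

/-! Case II of S1904: an element of odd order permuting the three involutions of `Z1`. -/

set_option autoImplicit false

namespace H57.Sc

open Subgroup
open scoped commutatorElement

variable {G : Type*} [Group G] {X A : Subgroup G}

theorem odd_comm {b z : G} (hA : (Nat.card A).Coprime 2) (hb : b ∈ A)
    (h : b * (b * z) = z * b * b) : b * z = z * b := by
  have h1 : (orderOf b).Coprime 2 :=
    Nat.Coprime.coprime_dvd_left (Subgroup.orderOf_dvd_natCard A hb) hA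
  obtain ⟨k, hk⟩ : Odd (orderOf b) := Nat.coprime_two_right.1 h1
  have h2 : (b * b) ^ (k + 1) = b := by
    rw [← pow_two, ← pow_mul]
    have : 2 * (k + 1) = orderOf b + 1 := by omega
    rw [this, pow_succ, pow_orderOf_eq_one, one_mul]
  have h3 : Commute (b * b) z := by
    change b * b * z = z * (b * b)
    rw [mul_assoc, h, mul_assoc]
  have h4 := h3.pow_left (k + 1)
  rw [h2] at h4
  exact h4

/-- closure of a commuting set -/
theorem AB_closure {S : Set G} (hc : ∀ a ∈ S, ∀ b ∈ S, a * b = b * a) :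
    ∀ a ∈ closure S, ∀ b ∈ closure S, a * b = b * a := by
  have h1 : closure S ≤ centralizer S := by
    rw [closure_le]
    intro a ha
    rw [SetLike.mem_coe, mem_centralizer_iff]
    intro b hb
    exact hc b hb a ha
  have h3 : closure S ≤ centralizer (closure S : Set G) := by
    rw [closure_le]
    intro a ha
    rw [SetLike.mem_coe, mem_centralizer_iff]
    intro b hb
    exact (mem_centralizer_iff.1 (h1 hb) a ha).symm
  exact fun a ha b hb => (mem_centralizer_iff.1 (h3 ha) b hb).symm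

theorem cl (x y m : G) : ⁅x * y, m⁆ = x * ⁅y, m⁆ * x⁻¹ * ⁅x, m⁆ := by
  simp only [commutatorElement_def]; group

theorem cr (x m n : G) : ⁅x, m * n⁆ = ⁅x, m⁆ * (m * ⁅x, n⁆ * m⁻¹) := by
  simp only [commutatorElement_def]; group

theorem comm_mem {x y : G} (hx : x ∈ X) (hy : y ∈ X) : ⁅x, y⁆ ∈ X := by
  rw [commutatorElement_def]
  exact X.mul_mem (X.mul_mem (X.mul_mem hx hy) (X.inv_mem hx)) (X.inv_mem hy)

theorem conjZ {x z : G} (hx : x ∈ X) (hz : z ∈ Z1 X) : x * z * x⁻¹ = z := by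
  rw [hz.2.1 x hx]; group

theorem invZ {z : G} (hz : z ∈ Z1 X) : z⁻¹ = z := inv_eq_of_mul_eq_one_right hz.2.2

theorem clZ {x y m : G} (hx : x ∈ X) (hm : m ∈ X) (h : ⁅y, m⁆ ∈ Z1 X) :
    ⁅x * y, m⁆ = ⁅x, m⁆ * ⁅y, m⁆ := by
  rw [cl, conjZ hx h, h.2.1 _ (comm_mem hx hm)]

theorem crZ {x m n : G} (hm : m ∈ X) (h : ⁅x, n⁆ ∈ Z1 X) : ⁅x, m * n⁆ = ⁅x, m⁆ * ⁅x, n⁆ := by
  rw [cr, conjZ hm h]

structure II (X A : Subgroup G) (a : G) (σ : G ≃* G) (z0 : G) : Prop where
  amb : Amb X A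
  ha : a ∈ A
  hσ : ∀ x, σ x = a * x * a⁻¹
  hz0 : z0 ∈ Z1 X
  ne : z0 ≠ 1
  mv : σ z0 ≠ z0
  cov : ∀ z ∈ Z1 X, z = 1 ∨ z = z0 ∨ z = σ z0 ∨ z = σ (σ z0)
  cyc : σ (σ z0) = z0 * σ z0
  c4 : 4 ≤ Nat.card (Z1 X)

variable {a z0 : G} {σ : G ≃* G}

theorem II.mem (h : II X A a σ z0) {N : Subgroup G} [hN : N.Normal] {x : G} (hx : x ∈ N) :
    σ x ∈ N := by
  rw [h.hσ]; exact hN.conj_mem x hx a

theorem II.memX (h : II X A a σ z0) {x : G} (hx : x ∈ X) : σ x ∈ X := by
  have := h.amb.nX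
  exact h.mem hx

theorem II.memZ (h : II X A a σ z0) {x : G} (hx : x ∈ Z1 X) : σ x ∈ Z1 X := by
  have := h.amb.nX
  exact h.mem hx

theorem II.cyc3 (h : II X A a σ z0) : σ (σ (σ z0)) = z0 := by
  rw [h.cyc, map_mul, h.cyc]
  have h1 : z0 * σ z0 = σ z0 * z0 := (h.memZ h.hz0).2.1 z0 h.hz0.1
  calc σ z0 * (z0 * σ z0) = σ z0 * (σ z0 * z0) := by rw [h1]
    _ = (σ z0 * σ z0) * z0 := by group
    _ = z0 := by rw [(h.memZ h.hz0).2.2, one_mul]

theorem II.cubeZ (h : II X A a σ z0) {z : G} (hz : z ∈ Z1 X) : σ (σ (σ z)) = z := by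
  rcases h.cov z hz with h1 | h1 | h1 | h1
  · rw [h1]; simp
  · rw [h1]; exact h.cyc3
  · rw [h1, h.cyc3]
  · rw [h1, h.cyc3]

theorem II.fixZ (h : II X A a σ z0) {z : G} (hz : z ∈ Z1 X) (hf : σ z = z) : z = 1 := by
  rcases h.cov z hz with h1 | h1 | h1 | h1
  · exact h1
  · rw [h1] at hf; exact absurd hf h.mv
  · rw [h1] at hf; exact absurd (σ.injective hf) h.mv
  · rw [h1] at hf; exact absurd (σ.injective (σ.injective hf)) h.mv

theorem II.trans (h : II X A a σ z0) {z w : G} (hz : z ∈ Z1 X) (hw : w ∈ Z1 X) (hz1 : z ≠ 1)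
    (hw1 : w ≠ 1) : w = z ∨ w = σ z ∨ w = σ (σ z) := by
  rcases h.cov z hz with h1 | h1 | h1 | h1
  · exact absurd h1 hz1
  · rcases h.cov w hw with h2 | h2 | h2 | h2
    · exact absurd h2 hw1
    · left; rw [h1, h2]
    · right; left; rw [h1, h2]
    · right; right; rw [h1, h2]
  · rcases h.cov w hw with h2 | h2 | h2 | h2
    · exact absurd h2 hw1
    · right; right; rw [h1, h2, h.cyc3]
    · left; rw [h1, h2]
    · right; left; rw [h1, h2]
  · rcases h.cov w hw with h2 | h2 | h2 | h2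
    · exact absurd h2 hw1
    · right; left; rw [h1, h2, h.cyc3]
    · right; right; rw [h1, h2, h.cyc3]
    · left; rw [h1, h2]

theorem II.prodZ (h : II X A a σ z0) {z : G} (hz : z ∈ Z1 X) : z * σ z * σ (σ z) = 1 := by
  have h0 : z0 * σ z0 * σ (σ z0) = 1 := by
    rw [h.cyc]
    have h1 : z0 * σ z0 ∈ Z1 X := mul_mem h.hz0 (h.memZ h.hz0)
    exact h1.2.2
  have h1 := congrArg σ h0
  have h2 := congrArg σ h1
  rw [map_mul, map_mul, map_one] at h1
  rw [map_mul, map_mul, map_mul, map_mul, map_one, map_one] at h2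
  rcases h.cov z hz with h3 | h3 | h3 | h3
  · rw [h3]; simp
  · rw [h3]; exact h0
  · rw [h3]; exact h1
  · rw [h3]; exact h2

theorem II.cent_of_fix (h : II X A a σ z0) {b : G} (hb : b ∈ A) (hf : b * z0 = z0 * b) :
    ∀ z ∈ Z1 X, b * z = z * b := by
  have := h.amb.nX
  set y := σ z0 with hy
  have hyZ : y ∈ Z1 X := h.memZ h.hz0
  have hby : b * y * b⁻¹ ∈ Z1 X := Z1_normal.conj_mem y hyZ b
  have h1 : b * y = y * b := by
    rcases h.cov _ hby with h2 | h2 | h2 | h2
    · exfalso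
      have h3 : y = 1 := by
        have : y = b⁻¹ * (b * y * b⁻¹) * b := by group
        rw [this, h2]; group
      exact h.ne (by
        have h4 : σ z0 = σ 1 := by rw [map_one]; exact h3
        exact σ.injective h4)
    · exfalso
      apply h.mv
      have h3 : y = b⁻¹ * (b * y * b⁻¹) * b := by group
      rw [h2] at h3
      change y = z0
      rw [h3, mul_assoc, ← hf]; group
    · calc b * y = b * y * b⁻¹ * b := by group
        _ = y * b := by rw [h2]
    · apply odd_comm h.amb.odd hb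
      rw [h.cyc] at h2
      have h3 : b * y = z0 * y * b := by
        calc b * y = b * y * b⁻¹ * b := by group
          _ = z0 * y * b := by rw [h2]
      calc b * (b * y) = b * (z0 * y * b) := by rw [h3]
        _ = (b * z0) * y * b := by group
        _ = z0 * (b * y) * b := by rw [hf]; group
        _ = z0 * (z0 * y * b) * b := by rw [h3]
        _ = (z0 * z0) * y * b * b := by group
        _ = y * b * b := by rw [h.hz0.2.2, one_mul]
  intro z hz
  rcases h.cov z hz with h2 | h2 | h2 | h2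
  · rw [h2]; simp
  · rw [h2]; exact hf
  · rw [h2]; exact h1
  · rw [h2, h.cyc, ← mul_assoc, hf, mul_assoc, h1, mul_assoc]

structure II2 (X A : Subgroup G) (a : G) (σ : G ≃* G) (z0 : G) : Prop extends
    II X A a σ z0 where
  cX : ∀ b ∈ A, (∀ z ∈ Z1 X, b * z = z * b) → ∀ x ∈ X, b * x = x * b

theorem II2.act (h : II2 X A a σ z0) {b : G} (hb : b ∈ A) :
    (∀ x ∈ X, b * x * b⁻¹ = x) ∨ (∀ x ∈ X, b * x * b⁻¹ = σ x) ∨
      (∀ x ∈ X, b * x * b⁻¹ = σ (σ x)) := by
  have := h.amb.nX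
  have hbz : b * z0 * b⁻¹ ∈ Z1 X := Z1_normal.conj_mem z0 h.hz0 b
  rcases h.cov _ hbz with h2 | h2 | h2 | h2
  · exfalso
    apply h.ne
    have : z0 = b⁻¹ * (b * z0 * b⁻¹) * b := by group
    rw [this, h2]; group
  · left
    have h3 : b * z0 = z0 * b := by
      calc b * z0 = b * z0 * b⁻¹ * b := by group
        _ = z0 * b := by rw [h2]
    intro x hx
    rw [h.cX b hb (h.cent_of_fix hb h3) x hx]; group
  · right; left
    have h3 : (a⁻¹ * b) * z0 = z0 * (a⁻¹ * b) := by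
      calc (a⁻¹ * b) * z0 = a⁻¹ * (b * z0 * b⁻¹) * b := by group
        _ = a⁻¹ * (a * z0 * a⁻¹) * b := by rw [h2, h.hσ]
        _ = z0 * (a⁻¹ * b) := by group
    have hab := A.mul_mem (A.inv_mem h.ha) hb
    intro x hx
    have h4 := h.cX _ hab (h.cent_of_fix hab h3) x hx
    calc b * x * b⁻¹ = a * ((a⁻¹ * b) * x) * b⁻¹ := by group
      _ = a * (x * (a⁻¹ * b)) * b⁻¹ := by rw [h4]
      _ = σ x := by rw [h.hσ]; group
  · right; right
    have h3 : (a⁻¹ * (a⁻¹ * b)) * z0 = z0 * (a⁻¹ * (a⁻¹ * b)) := by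
      calc (a⁻¹ * (a⁻¹ * b)) * z0 = a⁻¹ * a⁻¹ * (b * z0 * b⁻¹) * b := by group
        _ = a⁻¹ * a⁻¹ * (a * (a * z0 * a⁻¹) * a⁻¹) * b := by rw [h2, h.hσ, h.hσ]
        _ = z0 * (a⁻¹ * (a⁻¹ * b)) := by group
    have hab := A.mul_mem (A.inv_mem h.ha) (A.mul_mem (A.inv_mem h.ha) hb)
    intro x hx
    have h4 := h.cX _ hab (h.cent_of_fix hab h3) x hx
    calc b * x * b⁻¹ = a * a * ((a⁻¹ * (a⁻¹ * b)) * x) * b⁻¹ := by group
      _ = a * a * (x * (a⁻¹ * (a⁻¹ * b))) * b⁻¹ := by rw [h4]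
      _ = σ (σ x) := by rw [h.hσ, h.hσ]; group

theorem II2.cube (h : II2 X A a σ z0) {x : G} (hx : x ∈ X) : σ (σ (σ x)) = x := by
  have h1 := h.cyc3
  simp only [h.hσ] at h1
  have h2 : (a * a * a) * z0 = z0 * (a * a * a) := by
    calc (a * a * a) * z0 = (a * (a * (a * z0 * a⁻¹) * a⁻¹) * a⁻¹) * (a * a * a) := by group
      _ = z0 * (a * a * a) := by rw [h1]
  have h3 : a * a * a ∈ A := A.mul_mem (A.mul_mem h.ha h.ha) h.ha
  have h4 := h.cX _ h3 (h.cent_of_fix h3 h2) x hx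
  simp only [h.hσ]
  calc a * (a * (a * x * a⁻¹) * a⁻¹) * a⁻¹ = ((a * a * a) * x) * (a * a * a)⁻¹ := by group
    _ = x := by rw [h4]; group

theorem II2.normal (h : II2 X A a σ z0) {N : Subgroup G} (hNX : N ≤ X)
    (hX : ∀ x ∈ X, ∀ n ∈ N, x * n * x⁻¹ ∈ N) (hs : ∀ n ∈ N, σ n ∈ N) : N.Normal := by
  apply h.amb.normal_of (H1.Coprime.le_normalizer_of_conj_mem hX)
  apply H1.Coprime.le_normalizer_of_conj_mem
  intro b hb n hn
  rcases h.act hb with h1 | h1 | h1
  · rw [h1 n (hNX hn)]; exact hn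
  · rw [h1 n (hNX hn)]; exact hs n hn
  · rw [h1 n (hNX hn)]; exact hs _ (hs n hn)

/-- normality of closures -/
theorem II2.closure_normal (h : II2 X A a σ z0) {S : Set G} (hSX : S ⊆ X)
    (hX : ∀ x ∈ X, ∀ s ∈ S, ⁅x, s⁆ ∈ closure S) (hs : ∀ s ∈ S, σ s ∈ closure S) :
    (closure S).Normal := by
  apply h.normal ((closure_le _).2 hSX)
  · intro x hx k hk
    induction hk using closure_induction with
    | mem a ha =>
      have : x * a * x⁻¹ = ⁅x, a⁆ * a := by rw [commutatorElement_def]; group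
      rw [this]; exact mul_mem (hX x hx a ha) (subset_closure ha)
    | one => simp
    | mul a b _ _ ha hb =>
      have : x * (a * b) * x⁻¹ = (x * a * x⁻¹) * (x * b * x⁻¹) := by group
      rw [this]; exact mul_mem ha hb
    | inv a _ ha =>
      have : x * a⁻¹ * x⁻¹ = (x * a * x⁻¹)⁻¹ := by group
      rw [this]; exact inv_mem ha
  · intro k hk
    induction hk using closure_induction with
    | mem a ha => exact hs a ha
    | one => rw [map_one]; exact one_mem _
    | mul a b _ _ ha hb => rw [map_mul]; exact mul_mem ha hb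
    | inv a _ ha => rw [map_inv]; exact inv_mem ha

/-- elements of `X` central and of order two modulo `N` -/
def E2 (X N : Subgroup G) [hN : N.Normal] : Subgroup G where
  carrier := {t | t ∈ X ∧ t * t ∈ N ∧ ∀ x ∈ X, ⁅x, t⁆ ∈ N}
  one_mem' := ⟨X.one_mem, by simp, by intro x _; simp⟩
  mul_mem' := by
    rintro s t ⟨hs, hs2, hsc⟩ ⟨ht, ht2, htc⟩
    refine ⟨X.mul_mem hs ht, ?_, ?_⟩
    · have h1 : s * t * (s * t) = (s * ⁅t, s⁆ * s⁻¹) * ((s * s) * (t * t)) := by
        simp only [commutatorElement_def]; group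
      rw [h1]
      exact mul_mem (hN.conj_mem _ (hsc t ht) s) (mul_mem hs2 ht2)
    · intro x hx
      rw [cr]
      exact mul_mem (hsc x hx) (hN.conj_mem _ (htc x hx) s)
  inv_mem' := by
    rintro t ⟨ht, ht2, htc⟩
    refine ⟨X.inv_mem ht, ?_, ?_⟩
    · rw [← mul_inv_rev]; exact inv_mem ht2
    · intro x hx
      have h1 : ⁅x, t⁻¹⁆ = t⁻¹ * ⁅x, t⁆⁻¹ * t⁻¹⁻¹ := by
        simp only [commutatorElement_def]; group
      rw [h1]; exact hN.conj_mem _ (inv_mem (htc x hx)) _

instance E2_normal {N : Subgroup G} [hN : N.Normal] [hX : X.Normal] : (E2 X N).Normal := by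
  constructor
  rintro t ⟨ht, ht2, htc⟩ g
  refine ⟨hX.conj_mem t ht g, ?_, ?_⟩
  · have : g * t * g⁻¹ * (g * t * g⁻¹) = g * (t * t) * g⁻¹ := by group
    rw [this]; exact hN.conj_mem _ ht2 g
  · intro x hx
    have h1 := htc (g⁻¹ * x * g) (by have := hX.conj_mem x hx g⁻¹; rwa [inv_inv] at this)
    have h2 : ⁅x, g * t * g⁻¹⁆ = g * ⁅g⁻¹ * x * g, t⁆ * g⁻¹ := by
      simp only [commutatorElement_def]; group
    rw [h2]; exact hN.conj_mem _ h1 g

section Fin
variable [Finite G]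

theorem exists_mod {N C : Subgroup G} [hN : N.Normal] [hC : C.Normal] [hXn : X.Normal]
    (hX : IsPGroup 2 X) (hNC : N < C) (hCX : C ≤ X) : ∃ w ∈ C, w ∉ N ∧ w ∈ E2 X N := by
  have : Fact (Nat.Prime 2) := ⟨Nat.prime_two⟩
  set π := QuotientGroup.mk' N with hπ
  have hπs : Function.Surjective π := QuotientGroup.mk'_surjective N
  have hCb : C.map π ≠ ⊥ := by
    intro h1
    apply not_le_of_gt hNC
    intro c hc
    have h2 : π c ∈ C.map π := mem_map_of_mem _ hc
    rw [h1, mem_bot] at h2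
    exact (QuotientGroup.eq_one_iff c).1 h2
  obtain ⟨D, ⟨hDn, hDC, hDb⟩, hDm⟩ := Set.exists_min_image
    {D : Subgroup (G ⧸ N) | D.Normal ∧ D ≤ C.map π ∧ D ≠ ⊥} (fun D => Nat.card D)
    (Set.toFinite _) ⟨C.map π, hC.map π hπs, le_rfl, hCb⟩
  have hXp : IsPGroup 2 (X.map π) := hX.map π
  have hXn' : (X.map π).Normal := hXn.map π hπs
  have hDp : IsPGroup 2 D := hXp.to_le (hDC.trans (map_mono hCX))
  have hlt : ⁅D, X.map π⁆ < D := H1.Coprime2.commutator_lt_of_isPGroup hXp hDp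
    (by rw [normalizer_eq_top]; exact le_top) hDb
  have hbot : ⁅D, X.map π⁆ = ⊥ := by
    by_contra hne
    have h1 := hDm ⁅D, X.map π⁆ ⟨commutator_normal _ _, hlt.le.trans hDC, hne⟩
    exact hlt.ne (eq_of_le_of_card_ge hlt.le h1)
  obtain ⟨n, hn⟩ := IsPGroup.iff_card.1 hDp
  have h3 : 2 ∣ Nat.card D := by
    rw [hn]
    apply dvd_pow_self
    rintro rfl
    rw [pow_zero] at hn
    exact hDb (card_eq_one.1 hn)
  obtain ⟨d, hd⟩ := exists_prime_orderOf_dvd_card' (G := D) 2 h3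
  obtain ⟨w, hw, hwd⟩ := hDC d.2
  have hdd : (d : G ⧸ N) * d = 1 := by
    have h4 : d ^ 2 = 1 := by rw [← hd]; exact pow_orderOf_eq_one d
    rw [pow_two] at h4
    exact congrArg Subtype.val h4
  refine ⟨w, hw, ?_, hCX hw, ?_, ?_⟩
  · intro h4
    have h5 : (d : G ⧸ N) = 1 := by
      rw [← hwd]; exact (QuotientGroup.eq_one_iff w).2 h4
    have h6 : d = 1 := Subtype.ext h5
    rw [h6, orderOf_one] at hd
    omega
  · apply (QuotientGroup.eq_one_iff _).1
    change π (w * w) = 1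
    rw [map_mul, hwd, hdd]
  · intro x hx
    apply (QuotientGroup.eq_one_iff _).1
    change π ⁅x, w⁆ = 1
    rw [map_commutatorElement, hwd, comm_eq_one]
    exact (comm_of_bot hbot d d.2 (π x) (mem_map_of_mem _ hx)).symm

/-- maximal normal abelian -/
structure MaxN (X N : Subgroup G) : Prop where
  nN : N.Normal
  le : N ≤ X
  ab : ∀ a ∈ N, ∀ b ∈ N, a * b = b * a
  mx : ∀ M : Subgroup G, M.Normal → M ≤ X → (∀ a ∈ M, ∀ b ∈ M, a * b = b * a) → N ≤ M → M = N

theorem exists_maxN (X : Subgroup G) : ∃ N, MaxN X N := by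
  obtain ⟨N, ⟨hN, hNX, hNc⟩, hm⟩ := Set.exists_max_image
    {N : Subgroup G | N.Normal ∧ N ≤ X ∧ ∀ a ∈ N, ∀ b ∈ N, a * b = b * a} (fun D => Nat.card D)
    (Set.toFinite _) ⟨⊥, inferInstance, bot_le, by
      intro a ha b hb
      rw [mem_bot] at ha hb
      rw [ha, hb]⟩
  refine ⟨N, hN, hNX, hNc, ?_⟩
  intro M hM hMX hMc hNM
  exact (eq_of_le_of_card_ge hNM (hm M ⟨hM, hMX, hMc⟩)).symm

theorem II2.fixN (h : II2 X A a σ z0) {N : Subgroup G} [hN : N.Normal] (hNX : N ≤ X)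
    (hab : ∀ a ∈ N, ∀ b ∈ N, a * b = b * a) {m : G} (hm : m ∈ N) (hf : σ m = m) : m = 1 := by
  have : Fact (Nat.Prime 2) := ⟨Nat.prime_two⟩
  by_contra hne
  have hp : IsPGroup 2 (zpowers m) := (h.amb.two.to_le hNX).to_le ((zpowers_le).2 hm)
  obtain ⟨n, hn⟩ := IsPGroup.iff_card.1 hp
  have h3 : 2 ∣ Nat.card (zpowers m) := by
    rw [hn]
    apply dvd_pow_self
    rintro rfl
    rw [pow_zero] at hn
    have := card_eq_one.1 hn
    rw [zpowers_eq_bot] at this
    exact hne this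
  obtain ⟨d, hd⟩ := exists_prime_orderOf_dvd_card' (G := zpowers m) 2 h3
  obtain ⟨k, hk⟩ := d.2
  have hdd : (d : G) * d = 1 := by
    have h4 : d ^ 2 = 1 := by rw [← hd]; exact pow_orderOf_eq_one d
    rw [pow_two] at h4
    exact congrArg Subtype.val h4
  have hdN : (d : G) ∈ N := (zpowers_le.2 hm) d.2
  have h4 := h.amb.inv_mem_Z1 hNX hab hdN hdd
  have h5 : σ (d : G) = d := by
    rw [← hk]
    change σ (m ^ k) = m ^ k
    rw [map_zpow, hf]
  have h6 := h.fixZ h4 h5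
  have h7 : d = 1 := Subtype.ext h6
  rw [h7, orderOf_one] at hd
  omega

theorem II2.conjE2 (h : II2 X A a σ z0) {N : Subgroup G} [hN : N.Normal] {w : G}
    (hw : w ∈ E2 X N) : (σ w ∈ E2 X N) ∧ (σ (σ w) ∈ E2 X N) := by
  have := h.amb.nX
  exact ⟨h.mem hw, h.mem (h.mem hw)⟩

theorem II2.prod_fix (h : II2 X A a σ z0) {w : G} (hw : w ∈ X) :
    σ (w * σ w * σ (σ w)) = w⁻¹ * (w * σ w * σ (σ w)) * w := by
  rw [map_mul, map_mul, h.cube hw]; group

theorem II2.self_cent (h : II2 X A a σ z0) {N : Subgroup G} (hN : MaxN X N) :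
    ∀ x ∈ X, (∀ n ∈ N, x * n = n * x) → x ∈ N := by
  have hXn := h.amb.nX
  have hNn := hN.nN
  by_contra hcon
  push Not at hcon
  obtain ⟨x0, hx0, hx0c, hx0N⟩ := hcon
  have hCn : (X ⊓ centralizer (N : Set G)).Normal := inferInstance
  have hNC : N < X ⊓ centralizer (N : Set G) := by
    refine lt_of_le_of_ne ?_ ?_
    · refine le_inf hN.le ?_
      intro n hn
      rw [mem_centralizer_iff]
      intro m hm
      exact hN.ab m hm n hn
    · intro h1
      apply hx0N
      rw [h1]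
      refine mem_inf.2 ⟨hx0, ?_⟩
      rw [mem_centralizer_iff]
      intro m hm
      exact (hx0c m hm).symm
  obtain ⟨w, hwC, hwN, hwE⟩ := exists_mod h.amb.two hNC inf_le_left
  have hwX : w ∈ X := hwE.1
  have hcen : ∀ t ∈ X ⊓ centralizer (N : Set G), ∀ n ∈ N, t * n = n * t := by
    intro t ht n hn
    exact (mem_centralizer_iff.1 (mem_inf.1 ht).2 n hn).symm
  have hsC : σ w ∈ X ⊓ centralizer (N : Set G) := h.mem hwC
  have hssC : σ (σ w) ∈ X ⊓ centralizer (N : Set G) := h.mem hsC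
  obtain ⟨hsE, hssE⟩ := h.conjE2 hwE
  set v := w * σ w * σ (σ w) with hv
  have hvC : v ∈ X ⊓ centralizer (N : Set G) := mul_mem (mul_mem hwC hsC) hssC
  have hvE : v ∈ E2 X N := mul_mem (mul_mem hwE hsE) hssE
  have hσv : σ v = w⁻¹ * v * w := h.prod_fix hwX
  have hvN : v ∈ N := by
    have hMn : (closure ((N : Set G) ∪ {v})).Normal := by
      apply h.closure_normal
      · rintro t (ht | ht)
        · exact hN.le ht
        · rw [Set.mem_singleton_iff] at ht; rw [ht]; exact hvE.1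
      · rintro x hx t (ht | ht)
        · apply Subgroup.subset_closure; left
          rw [SetLike.mem_coe, commutatorElement_def]
          exact mul_mem (hNn.conj_mem t ht x) (inv_mem ht)
        · rw [Set.mem_singleton_iff] at ht; rw [ht]
          exact subset_closure (Or.inl (hvE.2.2 x hx))
      · rintro t (ht | ht)
        · exact subset_closure (Or.inl (h.mem (N := N) ht))
        · rw [Set.mem_singleton_iff] at ht
          rw [ht, hσv]
          have h1 : w⁻¹ * v * w = ⁅w⁻¹, v⁆ * v := by rw [commutatorElement_def]; group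
          rw [h1]
          exact mul_mem (subset_closure (Or.inl (hvE.2.2 _ (X.inv_mem hwX))))
            (subset_closure (Or.inr rfl))
    have hMc := AB_closure (S := (N : Set G) ∪ {v}) (by
      rintro s (hs | hs) t (ht | ht)
      · exact hN.ab s hs t ht
      · rw [Set.mem_singleton_iff] at ht; rw [ht]; exact (hcen v hvC s hs).symm
      · rw [Set.mem_singleton_iff] at hs; rw [hs]; exact hcen v hvC t ht
      · rw [Set.mem_singleton_iff] at hs ht; rw [hs, ht])
    have hMX : closure ((N : Set G) ∪ {v}) ≤ X := by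
      rw [closure_le]
      rintro t (ht | ht)
      · exact hN.le ht
      · rw [Set.mem_singleton_iff] at ht; rw [ht]; exact hvE.1
    have h1 := hN.mx _ hMn hMX hMc (fun n hn => subset_closure (Or.inl hn))
    rw [← h1]; exact subset_closure (Or.inr rfl)
  set y := σ w with hy
  set c := ⁅w, y⁆ with hc
  have hcN : c ∈ N := hsE.2.2 w hwX
  have hcw : w * c = c * w := hcen w hwC c hcN
  have hcc : c * c = 1 := by
    have h1 : (w * w) * y = y * (w * w) := (hcen y hsC _ hwE.2.1).symm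
    have h2 : ⁅w * w, y⁆ = 1 := comm_eq_one.2 h1
    rw [cl, ← hc, hcw] at h2
    rw [← h2]; group
  have hcZ : c ∈ Z1 X := h.amb.inv_mem_Z1 hN.le hN.ab hcN hcc
  have hssw : σ y = y⁻¹ * w⁻¹ * v := by rw [hv]; group
  have hvy : v * y⁻¹ = y⁻¹ * v := by
    have h1 := hcen y hsC v hvN
    calc v * y⁻¹ = y⁻¹ * (y * v) * y⁻¹ := by group
      _ = y⁻¹ * (v * y) * y⁻¹ := by rw [h1]
      _ = y⁻¹ * v := by group
  have hσc : σ c = c := by
    rw [hc, map_commutatorElement, ← hy, hssw]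
    have h1 : ⁅y, y⁻¹ * w⁻¹ * v⁆ = w⁻¹ * (v * y⁻¹) * v⁻¹ * w * y := by
      simp only [commutatorElement_def]; group
    rw [h1, hvy]
    have h2 : w⁻¹ * (y⁻¹ * v) * v⁻¹ * w * y = (w⁻¹ * y⁻¹) * c * (w⁻¹ * y⁻¹)⁻¹ := by
      rw [hc]; simp only [commutatorElement_def]; group
    rw [h2]
    exact conjZ (X.mul_mem (X.inv_mem hwX) (X.inv_mem hsE.1)) hcZ
  have hc1 : c = 1 := h.fixZ hcZ hσc
  have hwy : w * y = y * w := comm_eq_one.1 hc1
  have hMn : (closure ((N : Set G) ∪ {w, y})).Normal := by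
    apply h.closure_normal
    · rintro t (ht | rfl | ht)
      · exact hN.le ht
      · exact hwX
      · rw [Set.mem_singleton_iff] at ht; rw [ht]; exact hsE.1
    · rintro x hx t (ht | rfl | ht)
      · apply Subgroup.subset_closure; left
        rw [SetLike.mem_coe, commutatorElement_def]
        exact mul_mem (hNn.conj_mem t ht x) (inv_mem ht)
      · exact subset_closure (Or.inl (hwE.2.2 x hx))
      · rw [Set.mem_singleton_iff] at ht; rw [ht]
        exact subset_closure (Or.inl (hsE.2.2 x hx))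
    · rintro t (ht | rfl | ht)
      · exact subset_closure (Or.inl (h.mem (N := N) ht))
      · exact subset_closure (Or.inr (Or.inr rfl))
      · rw [Set.mem_singleton_iff] at ht
        rw [ht, hssw]
        exact mul_mem (mul_mem (inv_mem (subset_closure (Or.inr (Or.inr rfl))))
          (inv_mem (subset_closure (Or.inr (Or.inl rfl))))) (subset_closure (Or.inl hvN))
  have hMc := AB_closure (S := (N : Set G) ∪ {w, y}) (by
    have h1 : ∀ s ∈ ({w, y} : Set G), ∀ n ∈ N, s * n = n * s := by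
      rintro s (rfl | hs)
      · exact hcen s hwC
      · rw [Set.mem_singleton_iff] at hs; rw [hs]; exact hcen y hsC
    have h2 : ∀ s ∈ ({w, y} : Set G), ∀ t ∈ ({w, y} : Set G), s * t = t * s := by
      rintro s (hs | hs) t (ht | ht)
      · rw [hs, ht]
      · rw [Set.mem_singleton_iff] at ht; rw [hs, ht]; exact hwy
      · rw [Set.mem_singleton_iff] at hs; rw [hs, ht]; exact hwy.symm
      · rw [Set.mem_singleton_iff] at hs ht; rw [hs, ht]
    rintro s (hs | hs) t (ht | ht)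
    · exact hN.ab s hs t ht
    · exact (h1 t ht s hs).symm
    · exact h1 s hs t ht
    · exact h2 s hs t ht)
  have hMX : closure ((N : Set G) ∪ {w, y}) ≤ X := by
    rw [closure_le]
    rintro t (ht | rfl | ht)
    · exact hN.le ht
    · exact hwX
    · rw [Set.mem_singleton_iff] at ht; rw [ht]; exact hsE.1
  have h1 := hN.mx _ hMn hMX hMc (fun n hn => subset_closure (Or.inl hn))
  apply hwN
  rw [← h1]; exact subset_closure (Or.inr (Or.inl rfl))

end Fin

end H57.Sc
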