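import Cfsg.Agent.Lib.H57.Sc5

/-! Case II.2 of S1904: `C_A(Z1)` centralises `X`. -/

set_option autoImplicit false

namespace H57.Sc

open Subgroup
open scoped commutatorElement

variable {G : Type*} [Group G] {X A : Subgroup G} {a z0 : G} {σ : G ≃* G}

theorem exists_pow_ord {N : Subgroup G} (hN : IsPGroup 2 N) {n : G} (hn : n ∈ N) {i : ℕ}
    (h : n ^ (2 ^ i) ≠ 1) : ∃ k, (n ^ k) ^ (2 ^ i) ≠ 1 ∧ (n ^ k) ^ (2 ^ (i + 1)) = 1 := by
  classical
  have hex : ∃ j, n ^ (2 ^ j) = 1 := by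
    obtain ⟨j, hj⟩ := hN ⟨n, hn⟩
    exact ⟨j, congrArg Subtype.val hj⟩
  set j := Nat.find hex with hjd
  have hj : n ^ (2 ^ j) = 1 := Nat.find_spec hex
  have hij : i < j := by
    by_contra hcon
    push Not at hcon
    apply h
    obtain ⟨d, hd⟩ := Nat.exists_eq_add_of_le hcon
    rw [hd, pow_add, pow_mul, hj, one_pow]
  obtain ⟨d, hd⟩ := Nat.exists_eq_add_of_lt hij
  refine ⟨2 ^ d, ?_, ?_⟩
  · rw [← pow_mul, ← pow_add]
    exact Nat.find_min hex (by omega)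
  · rw [← pow_mul, ← pow_add]
    have : d + (i + 1) = j := by omega
    rw [this, hj]

theorem inv4 {N : Subgroup G} (hN : IsPGroup 2 N) {t n : G} (hn : n ∈ N)
    (ht : ∀ m ∈ N, m * m * (m * m) = 1 → t * m = m * t) (hi : t * n * t⁻¹ = n⁻¹) : n * n = 1 := by
  by_contra hne
  obtain ⟨k, hk1, hk2⟩ := exists_pow_ord hN hn (i := 1) (by rw [pow_one, pow_two]; exact hne)
  rw [pow_one, pow_two] at hk1
  have h4 : n ^ k * n ^ k * (n ^ k * n ^ k) = 1 := by
    rw [← hk2]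
    have : (2 : ℕ) ^ (1 + 1) = 1 + 1 + 1 + 1 := by norm_num
    rw [this, pow_succ, pow_succ, pow_succ, pow_one]; group
  have h5 := ht (n ^ k) (N.pow_mem hn k) h4
  have h6 : t * n ^ k * t⁻¹ = (n ^ k)⁻¹ := by
    have h7 := congrArg (fun g => g ^ k) hi
    simp only [conj_pow, inv_pow] at h7
    exact h7
  apply hk1
  have h8 : t * n ^ k * t⁻¹ = n ^ k := by rw [h5]; group
  rw [h8] at h6
  calc n ^ k * n ^ k = (n ^ k)⁻¹ * n ^ k := by rw [← h6]
    _ = 1 := by group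

section Fin
variable [Finite G]

theorem II.no_inv (h : II X A a σ z0) {t : G} (htX : t ∈ X) (ht : t ∉ Z1 X) (ht2 : t * t = 1)
    (hc : ∀ x ∈ X, ⁅x, t⁆ ∈ Z1 X) : False := by
  have h1 := h.amb.noE' (S := (Z1 X : Set G) ∪ {t}) (by
    rintro s (hs | hs)
    · exact Z1_le hs
    · rw [Set.mem_singleton_iff] at hs; rw [hs]; exact htX) (by
    rintro s (hs | hs) r (hr | hr)
    · exact hr.2.1 s hs.1
    · rw [Set.mem_singleton_iff] at hr; rw [hr]; exact (hs.2.1 t htX).symm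
    · rw [Set.mem_singleton_iff] at hs; rw [hs]; exact hr.2.1 t htX
    · rw [Set.mem_singleton_iff] at hs hr; rw [hs, hr]) (by
    rintro s (hs | hs)
    · exact hs.2.2
    · rw [Set.mem_singleton_iff] at hs; rw [hs]; exact ht2) (by
    rintro x hx s (hs | hs)
    · have : ⁅x, s⁆ = 1 := comm_eq_one.2 (hs.2.1 x hx)
      rw [this]; exact one_mem _
    · rw [Set.mem_singleton_iff] at hs; rw [hs]
      exact Subgroup.subset_closure (Or.inl (hc x hx)))
  have h2 := card_sup_of_not_mem (n := 4) h.c4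
    (F := closure ((Z1 X : Set G) ∪ {t})) (fun z hz => Subgroup.subset_closure (Or.inl hz))
    (Subgroup.subset_closure (Or.inr rfl)) ht
  omega

/-- data: `X` nonabelian and `N` maximal normal abelian -/
structure II3 (X A N : Subgroup G) (a : G) (σ : G ≃* G) (z0 : G) : Prop extends
    II2 X A a σ z0 where
  hN : MaxN X N
  hnc : ∃ x ∈ X, ∃ y ∈ X, x * y ≠ y * x

variable {N : Subgroup G}

theorem II3.N2 (h : II3 X A N a σ z0) : IsPGroup 2 N := h.amb.two.to_le h.hN.le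

theorem II3.selfc (h : II3 X A N a σ z0) : ∀ x ∈ X, (∀ n ∈ N, x * n = n * x) → x ∈ N :=
  h.toII2.self_cent h.hN

theorem II3.Z1_le_N (h : II3 X A N a σ z0) : Z1 X ≤ N := by
  intro z hz
  exact h.selfc z hz.1 (fun n hn => (hz.2.1 n (h.hN.le hn)).symm)

theorem II3.memZ1 (h : II3 X A N a σ z0) {m : G} (hm : m ∈ N) (hm2 : m * m = 1) : m ∈ Z1 X := by
  have := h.hN.nN
  exact h.amb.inv_mem_Z1 h.hN.le h.hN.ab hm hm2

/-- members of order dividing 4 -/
theorem II3.mem4 (h : II3 X A N a σ z0) {m : G} (hm : m ∈ N) (hm4 : m * m * (m * m) = 1) :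
    m * m ∈ Z1 X := h.memZ1 (mul_mem hm hm) hm4

theorem II3.N_lt (h : II3 X A N a σ z0) : N < X := by
  refine lt_of_le_of_ne h.hN.le ?_
  intro h1
  obtain ⟨x, hx, y, hy, hxy⟩ := h.hnc
  rw [← h1] at hx hy
  exact hxy (h.hN.ab x hx y hy)

theorem II3.sqrt (h : II3 X A N a σ z0) {z : G} (hz : z ∈ Z1 X) : ∃ m ∈ N, m * m = z := by
  have hNn := h.hN.nN
  obtain ⟨n, hn, hnn⟩ : ∃ n ∈ N, n * n ≠ 1 := by
    by_contra hcon
    push Not at hcon
    have h1 : N ≤ Z1 X := fun n hn => h.memZ1 hn (hcon n hn)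
    apply not_le_of_gt h.N_lt
    intro x hx
    exact h.selfc x hx (fun n hn => (h1 hn).2.1 x hx)
  obtain ⟨k, hk1, hk2⟩ := exists_pow_ord h.N2 hn (i := 1) (by rw [pow_one, pow_two]; exact hnn)
  rw [pow_one, pow_two] at hk1
  have h4 : n ^ k * n ^ k * (n ^ k * n ^ k) = 1 := by
    rw [← hk2]
    have : (2 : ℕ) ^ (1 + 1) = 1 + 1 + 1 + 1 := by norm_num
    rw [this, pow_succ, pow_succ, pow_succ, pow_one]; group
  set m := n ^ k with hm
  have hmN : m ∈ N := N.pow_mem hn k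
  have hmZ := h.mem4 hmN h4
  by_cases hz1 : z = 1
  · exact ⟨1, one_mem _, by rw [hz1, one_mul]⟩
  rcases h.trans hmZ hz hk1 hz1 with h5 | h5 | h5
  · exact ⟨m, hmN, h5.symm⟩
  · exact ⟨σ m, h.mem hmN, by rw [h5, map_mul]⟩
  · exact ⟨σ (σ m), h.mem (h.mem hmN), by rw [h5, map_mul, map_mul]⟩

/-- `[X, N₂] ≤ Z₁` -/
theorem II3.commN2 (h : II3 X A N a σ z0) {x m : G} (hx : x ∈ X) (hm : m ∈ N)
    (hm2 : m * m ∈ Z1 X) : ⁅x, m⁆ ∈ Z1 X := by
  have hNn := h.hN.nN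
  have h1 : x * m * x⁻¹ ∈ N := hNn.conj_mem m hm x
  have h2 : ⁅x, m⁆ ∈ N := by rw [commutatorElement_def]; exact mul_mem h1 (inv_mem hm)
  apply h.memZ1 h2
  have h3 := h.hN.ab _ h1 _ (inv_mem hm)
  calc ⁅x, m⁆ * ⁅x, m⁆ = (x * m * x⁻¹ * m⁻¹) * (x * m * x⁻¹ * m⁻¹) := by
        rw [commutatorElement_def]
    _ = x * m * x⁻¹ * (m⁻¹ * (x * m * x⁻¹)) * m⁻¹ := by group
    _ = x * m * x⁻¹ * (x * m * x⁻¹ * m⁻¹) * m⁻¹ := by rw [h3]
    _ = (x * (m * m) * x⁻¹) * (m * m)⁻¹ := by group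
    _ = 1 := by rw [conjZ hx hm2]; group

/-- fixed points of `A` centralise `N₂` -/
theorem II3.fix_cent (h : II3 X A N a σ z0) {c : G} (hc : c ∈ X) (hcA : ∀ b ∈ A, b * c = c * b) :
    ∀ m ∈ N, m * m * (m * m) = 1 → c * m = m * c := by
  have hXn := h.amb.nX
  have hNn := h.hN.nN
  let K : Subgroup G :=
    { carrier := {x | x ∈ X ∧ ∀ m ∈ N, m * m * (m * m) = 1 → x * m = m * x}
      one_mem' := ⟨X.one_mem, by simp⟩
      mul_mem' := by
        rintro x y ⟨hx, hxm⟩ ⟨hy, hym⟩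
        refine ⟨X.mul_mem hx hy, ?_⟩
        intro m hm h4
        rw [mul_assoc, hym m hm h4, ← mul_assoc, hxm m hm h4, mul_assoc]
      inv_mem' := by
        rintro x ⟨hx, hxm⟩
        refine ⟨X.inv_mem hx, ?_⟩
        intro m hm h4
        have h1 := hxm m hm h4
        calc x⁻¹ * m = x⁻¹ * (m * x) * x⁻¹ := by group
          _ = x⁻¹ * (x * m) * x⁻¹ := by rw [h1]
          _ = m * x⁻¹ := by group }
  have hK : K.Normal := by
    constructor
    rintro x ⟨hx, hxm⟩ g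
    refine ⟨hXn.conj_mem x hx g, ?_⟩
    intro m hm h4
    have h1 : g⁻¹ * m * g ∈ N := by have := hNn.conj_mem m hm g⁻¹; rwa [inv_inv] at this
    have h2 := hxm _ h1 (by
      calc g⁻¹ * m * g * (g⁻¹ * m * g) * (g⁻¹ * m * g * (g⁻¹ * m * g)) =
          g⁻¹ * (m * m * (m * m)) * g := by group
        _ = 1 := by rw [h4]; group)
    calc g * x * g⁻¹ * m = g * (x * (g⁻¹ * m * g)) * g⁻¹ := by group
      _ = g * ((g⁻¹ * m * g) * x) * g⁻¹ := by rw [h2]
      _ = m * (g * x * g⁻¹) := by group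
  have hf := fix_le (Y := X) (A := A) (N := K) (by rw [normalizer_eq_top]; exact le_top)
    (cop_of_odd h.amb.odd h.amb.two) h.amb.comm (by
      intro x hx y hy
      refine ⟨comm_mem hx hy, ?_⟩
      intro m hm h4
      have hmZ := h.mem4 hm h4
      have hl : ∀ u ∈ X, u * m * u⁻¹ = ⁅u, m⁆ * m := by
        intro u _; rw [commutatorElement_def]; group
      have h1 := h.commN2 hx hm hmZ
      have h2 := h.commN2 hy hm hmZ
      have h3 : ⁅x * y, m⁆ = ⁅y * x, m⁆ := by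
        rw [clZ hx (h.hN.le hm) h2, clZ hy (h.hN.le hm) h1, h2.2.1 _ h1.1]
      have h5 : (x * y) * m * (x * y)⁻¹ = (y * x) * m * (y * x)⁻¹ := by
        rw [hl _ (X.mul_mem hx hy), hl _ (X.mul_mem hy hx), h3]
      have hmm : m ∈ X := h.hN.le hm
      have h6 := h.commN2 (comm_mem hx hy) hm hmZ
      -- `x y = [x,y] (y x)`
      have h7 : ⁅x * y, m⁆ = ⁅⁅x, y⁆ * (y * x), m⁆ := by
        congr 1; rw [commutatorElement_def]; group
      have h8 : ⁅y * x, m⁆ ∈ Z1 X := by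
        rw [clZ hy hmm h1]; exact mul_mem h2 h1
      rw [clZ (comm_mem hx hy) hmm h8, h3] at h7
      have h9 : ⁅⁅x, y⁆, m⁆ = 1 := by
        have : (1 : G) * ⁅y * x, m⁆ = ⁅⁅x, y⁆, m⁆ * ⁅y * x, m⁆ := by rw [one_mul]; exact h7
        exact (mul_right_cancel this).symm
      exact comm_eq_one.1 h9)
  exact (hf c hc hcA).2

/-- an involution in a coset `tN` centralising `N₂` -/
theorem II3.inv_coset (h : II3 X A N a σ z0) [hNn : N.Normal] {t : G} (htN : t ∉ N)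
    (htE : t ∈ E2 X N) (ht2 : t * t = 1)
    (htc : ∀ m ∈ N, m * m * (m * m) = 1 → t * m = m * t) : False := by
  refine h.no_inv htE.1 (fun h1 => htN (h.Z1_le_N h1)) ht2 ?_
  intro x hx
  have hn := htE.2.2 x hx
  set n := ⁅x, t⁆ with hnd
  have hti : t⁻¹ = t := inv_eq_of_mul_eq_one_right ht2
  have h1 : n * t = x * t * x⁻¹ := by rw [hnd, commutatorElement_def]; group
  have h2 : (n * t) * (n * t) = 1 := by
    rw [h1]
    calc x * t * x⁻¹ * (x * t * x⁻¹) = x * (t * t) * x⁻¹ := by group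
      _ = 1 := by rw [ht2]; group
  have h3 : t * n * t⁻¹ = n⁻¹ := by
    rw [hti]
    calc t * n * t = n⁻¹ * ((n * t) * (n * t)) := by group
      _ = n⁻¹ := by rw [h2, mul_one]
  exact h.memZ1 hn (inv4 h.N2 hn htc h3)

/-- case 2a -/
theorem II3.prodN (h : II3 X A N a σ z0) [hNn : N.Normal] {w : G} (hw : w ∈ E2 X N) :
    w * σ w * σ (σ w) ∈ N := by
  have hXn := h.amb.nX
  by_contra hvN
  have hwX : w ∈ X := hw.1
  obtain ⟨hsE, hssE⟩ := h.toII2.conjE2 hw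
  set v := w * σ w * σ (σ w) with hv
  have hvE : v ∈ E2 X N := mul_mem (mul_mem hw hsE) hssE
  have hσv : σ v = w⁻¹ * v * w := h.prod_fix hwX
  have h1 : v⁻¹ * σ v ∈ N := by
    have h2 : v⁻¹ * σ v = v⁻¹ * ⁅w⁻¹, v⁆ * v⁻¹⁻¹ := by
      rw [hσv, commutatorElement_def]; group
    rw [h2]; exact hNn.conj_mem _ (hvE.2.2 _ (X.inv_mem hwX)) _
  have h2 : ∀ b ∈ A, v⁻¹ * b * v * b⁻¹ ∈ N := by
    intro b hb
    have h3 : v⁻¹ * b * v * b⁻¹ = v⁻¹ * (b * v * b⁻¹) := by group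
    rw [h3]
    rcases h.act hb with h4 | h4 | h4
    · rw [h4 v hvE.1, inv_mul_cancel]; exact one_mem _
    · rw [h4 v hvE.1]; exact h1
    · rw [h4 v hvE.1]
      have h5 : v⁻¹ * σ (σ v) = (v⁻¹ * σ v) * σ (v⁻¹ * σ v) := by
        have h6 := map_mul σ v⁻¹ (σ v)
        have h7 := map_inv σ v
        rw [h6, h7]; group
      rw [h5]; exact mul_mem h1 (h.mem h1)
  obtain ⟨c, hc, hvc⟩ := H1.Coprime.exists_fixed_in_coset A N
    (by rw [normalizer_eq_top]; exact le_top) (cop_of_odd h.amb.odd h.N2)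
    (Or.inr (solv_two h.N2)) v h2
  have hcv : c = v * (v⁻¹ * c) := by group
  have hcE : c ∈ E2 X N := by
    rw [hcv]
    refine mul_mem hvE ⟨h.hN.le hvc, mul_mem hvc hvc, ?_⟩
    intro x hx
    rw [commutatorElement_def]
    exact mul_mem (hNn.conj_mem _ hvc x) (inv_mem hvc)
  have hcN : c ∉ N := by
    intro h3
    apply hvN
    have : v = c * (v⁻¹ * c)⁻¹ := by group
    rw [this]; exact mul_mem h3 (inv_mem hvc)
  have hcA : ∀ b ∈ A, b * c = c * b := fun b hb => mem_centralizer_iff.1 hc b hb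
  have hσc : σ c = c := by rw [h.hσ, hcA a h.ha]; group
  have hcc : c * c = 1 := h.fixN h.hN.le h.hN.ab hcE.2.1 (by rw [map_mul, hσc])
  exact h.inv_coset hcN hcE hcc (h.fix_cent hcE.1 hcA)

/-- the commutator pairing argument -/
theorem II3.ker_lemma (h : II3 X A N a σ z0) [hNn : N.Normal] {w m m₀ l : G} (hw : w ∈ E2 X N)
    (hm : m ∈ N) (hlN : l ∈ N) (hwl : ⁅w, l⁆ = 1)
    (hwm : ⁅w, m⁆ = 1) (hp : ⁅w, σ m⁆ ∈ Z1 X) (hq : ⁅w, σ (σ m)⁆ ∈ Z1 X) (h0 : ⁅w, m₀⁆ ≠ 1)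
    (hc : m₀ = l ∨ m₀ = l * m ∨ m₀ = l * σ m ∨ m₀ = l * σ (σ m)) : False := by
  have hXn := h.amb.nX
  have hwX := hw.1
  have hmX := h.hN.le hm
  have hlX := h.hN.le hlN
  have hprod : m * σ m * σ (σ m) = 1 := by
    apply h.fixN h.hN.le h.hN.ab (mul_mem (mul_mem hm (h.mem hm)) (h.mem (h.mem hm)))
    rw [map_mul, map_mul, h.cube hmX]
    have h1 := h.hN.ab (σ m * σ (σ m)) (mul_mem (h.mem hm) (h.mem (h.mem hm))) m hm
    rw [h1]; group
  -- `p = q`
  have hpq : ⁅w, σ m⁆ * ⁅w, σ (σ m)⁆ = 1 := by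
    have h1 : ⁅w, m * (σ m * σ (σ m))⁆ = 1 := by
      rw [← mul_assoc, hprod]; simp
    have h2 : ⁅w, σ m * σ (σ m)⁆ = ⁅w, σ m⁆ * ⁅w, σ (σ m)⁆ := crZ (h.memX hmX) hq
    rw [crZ hmX (by rw [h2]; exact mul_mem hp hq), hwm, one_mul, h2] at h1
    exact h1
  have hqp : ⁅w, σ (σ m)⁆ = ⁅w, σ m⁆ := by
    have h1 : ⁅w, σ (σ m)⁆ = ⁅w, σ m⁆⁻¹ := (inv_eq_of_mul_eq_one_right hpq).symm
    rw [h1, invZ hp]
  have hp1 : ⁅w, σ m⁆ ≠ 1 := by
    intro h1
    apply h0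
    rcases hc with h2 | h2 | h2 | h2
    · rw [h2]; exact hwl
    · rw [h2, crZ hlX (by rw [hwm]; exact one_mem _), hwl, hwm, one_mul]
    · rw [h2, crZ hlX hp, hwl, h1, one_mul]
    · rw [h2, crZ hlX hq, hwl, hqp, h1, one_mul]
  -- apply σ
  have h1 : ⁅σ w, m⁆ = σ ⁅w, σ m⁆ := by
    rw [← hqp, map_commutatorElement, h.cube hmX]
  have h2 : ⁅σ (σ w), m⁆ = σ (σ ⁅w, σ m⁆) := by
    rw [map_commutatorElement, map_commutatorElement, h.cube hmX]
  have hv := h.prodN hw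
  have h3 : ⁅w * (σ w * σ (σ w)), m⁆ = 1 := by
    rw [← mul_assoc]
    exact comm_eq_one.2 (h.hN.ab _ hv m hm)
  have h4 : ⁅σ w * σ (σ w), m⁆ = σ ⁅w, σ m⁆ * σ (σ ⁅w, σ m⁆) := by
    rw [clZ (h.memX hwX) hmX (by rw [h2]; exact h.memZ (h.memZ hp)), h1, h2]
  rw [clZ hwX hmX (by rw [h4]; exact mul_mem (h.memZ hp) (h.memZ (h.memZ hp))), hwm, one_mul,
    h4] at h3
  apply hp1
  have h5 := h.prodZ hp
  rw [mul_assoc, h3, mul_one] at h5
  exact h5

/-- `w² ∈ N` centralises `N`, so `w` inverts commutators -/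
theorem II3.inverts (h : II3 X A N a σ z0) [hNn : N.Normal] {w m : G} (hw : w ∈ E2 X N)
    (hm : m ∈ N) : w * ⁅w, m⁆ * w⁻¹ = ⁅w, m⁆⁻¹ := by
  have h1 := h.hN.ab _ hw.2.1 m hm
  have h2 : w * ⁅w, m⁆ * w⁻¹ = (w * w * m) * (w * w)⁻¹ * (w * m⁻¹ * w⁻¹) := by
    rw [commutatorElement_def]; group
  rw [h2, h1, commutatorElement_def]; group

/-- squares in `N` -/
theorem II3.cover (h : II3 X A N a σ z0) {m m₀ : G} (hm : m ∈ N) (hm₀ : m₀ ∈ N)
    (hns : ∀ n ∈ N, n * n ≠ m) : ∃ n ∈ N, m₀ = n * n ∨ m₀ = n * n * m ∨ m₀ = n * n * σ m ∨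
      m₀ = n * n * σ (σ m) := by
  have hNn := h.hN.nN
  have hcomm : ∀ x y : N, x * y = y * x := fun x y => Subtype.ext (h.hN.ab x x.2 y y.2)
  let f : N →* N :=
    { toFun := fun x => x * x
      map_one' := by simp
      map_mul' := by
        intro x y
        calc x * y * (x * y) = x * (y * x) * y := by group
          _ = x * (x * y) * y := by rw [hcomm y x]
          _ = x * x * (y * y) := by group }
  have hker : Nat.card f.ker = 4 := by
    have h1 : f.ker.map N.subtype = Z1 X := by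
      ext z
      constructor
      · rintro ⟨w, hw, rfl⟩
        exact h.memZ1 w.2 (congrArg Subtype.val (MonoidHom.mem_ker.1 hw))
      · intro hz
        exact ⟨⟨z, h.Z1_le_N hz⟩, Subtype.ext hz.2.2, rfl⟩
    have h2 : Nat.card (Z1 X) = 4 := le_antisymm h.amb.Z1_card h.c4
    rw [← h2, ← h1, card_map_of_injective N.subtype_injective]
  have hidx : f.range.index = 4 := by
    have h1 := f.ker.card_mul_index
    rw [index_ker, hker] at h1
    have h2 := f.range.card_mul_index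
    rw [← h1, mul_comm 4] at h2
    exact Nat.eq_of_mul_eq_mul_left Nat.card_pos h2
  have hrn : f.range.Normal := by
    constructor
    intro x hx g
    have : g * x * g⁻¹ = x := by rw [hcomm g x]; group
    rw [this]; exact hx
  have hsm : σ m ∈ N := h.mem hm
  have hssm : σ (σ m) ∈ N := h.mem hsm
  have hmX := h.hN.le hm
  have hprod : m * σ m * σ (σ m) = 1 := by
    apply h.fixN h.hN.le h.hN.ab (mul_mem (mul_mem hm (h.mem hm)) (h.mem (h.mem hm)))
    rw [map_mul, map_mul, h.cube hmX]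
    have h1 := h.hN.ab (σ m * σ (σ m)) (mul_mem (h.mem hm) (h.mem (h.mem hm))) m hm
    rw [h1]; group
  -- membership in the range
  have hmem : ∀ x : N, x ∈ f.range ↔ ∃ n ∈ N, n * n = (x : G) := by
    intro x
    constructor
    · rintro ⟨y, rfl⟩; exact ⟨y, y.2, rfl⟩
    · rintro ⟨n, hn, hnx⟩; exact ⟨⟨n, hn⟩, Subtype.ext hnx⟩
  have hσr : ∀ x : G, (hx : x ∈ N) → (⟨x, hx⟩ : N) ∈ f.range → (⟨σ x, h.mem hx⟩ : N) ∈ f.range := by
    intro x hx hxr
    obtain ⟨n, hn, hnx⟩ := (hmem _).1 hxr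
    refine (hmem _).2 ⟨σ n, h.mem hn, ?_⟩
    rw [← map_mul, hnx]
  let m' : N := ⟨m, hm⟩
  let s' : N := ⟨σ m, hsm⟩
  let t' : N := ⟨σ (σ m), hssm⟩
  have hp' : m' * s' * t' = 1 := Subtype.ext hprod
  have hm'r : m' ∉ f.range := by
    intro h1
    obtain ⟨n, hn, hnx⟩ := (hmem _).1 h1
    exact hns n hn hnx
  have hs'r : s' ∉ f.range := by
    intro h1
    have h2 := hσr _ _ (hσr _ _ h1)
    apply hm'r
    have h3 : m' = ⟨σ (σ (σ m)), h.mem (h.mem hsm)⟩ := Subtype.ext (h.cube hmX).symm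
    rw [h3]; exact h2
  have ht'r : t' ∉ f.range := by
    intro h1
    have h2 := hσr _ _ h1
    apply hm'r
    have h3 : m' = ⟨σ (σ (σ m)), h.mem hssm⟩ := Subtype.ext (h.cube hmX).symm
    rw [h3]; exact h2
  have hsq : ∀ x : N, x * x ∈ f.range := fun x => ⟨x, rfl⟩
  have hq : ∀ x y : N, x ∉ f.range → x⁻¹ * y ∈ f.range → y ∉ f.range := by
    intro x y hx hxy hy
    apply hx
    have : x = y * (x⁻¹ * y)⁻¹ := by group
    rw [this]; exact mul_mem hy (inv_mem hxy)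
  -- pairwise distinct cosets
  have hms : m'⁻¹ * s' ∉ f.range := by
    intro h1
    -- `t'⁻¹ = m' s' = m' m' (m'⁻¹ s')`
    apply ht'r
    have h2 : t'⁻¹ = (m' * m') * (m'⁻¹ * s') := by
      have : t'⁻¹ = m' * s' := by rw [← eq_inv_of_mul_eq_one_left hp']
      rw [this]; group
    have h3 : t'⁻¹ ∈ f.range := by rw [h2]; exact mul_mem (hsq m') h1
    exact (inv_mem_iff).1 h3
  have hmt : m'⁻¹ * t' ∉ f.range := by
    intro h1
    apply hs'r
    have h2 : s'⁻¹ = (m' * m') * (m'⁻¹ * t') := by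
      have : s'⁻¹ = m' * t' := by
        have h5 : s' * (m' * t') = 1 := by rw [← mul_assoc, hcomm s' m']; exact hp'
        exact inv_eq_of_mul_eq_one_right h5
      rw [this]; group
    have h3 : s'⁻¹ ∈ f.range := by rw [h2]; exact mul_mem (hsq m') h1
    exact (inv_mem_iff).1 h3
  have hst : s'⁻¹ * t' ∉ f.range := by
    intro h1
    apply hm'r
    have h2 : m'⁻¹ = (s' * s') * (s'⁻¹ * t') := by
      have : m'⁻¹ = s' * t' := by
        have h5 : m' * (s' * t') = 1 := by rw [← mul_assoc]; exact hp'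
        exact inv_eq_of_mul_eq_one_right h5
      rw [this]; group
    have h3 : m'⁻¹ ∈ f.range := by rw [h2]; exact mul_mem (hsq s') h1
    exact (inv_mem_iff).1 h3
  let π : N → N ⧸ f.range := QuotientGroup.mk
  have hπ : ∀ x y : N, x⁻¹ * y ∉ f.range → π x ≠ π y := by
    intro x y hxy h1
    exact hxy (QuotientGroup.eq.1 h1)
  have h1m : π 1 ≠ π m' := hπ _ _ (by simpa using hm'r)
  have h1s : π 1 ≠ π s' := hπ _ _ (by simpa using hs'r)
  have h1t : π 1 ≠ π t' := hπ _ _ (by simpa using ht'r)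
  have hms' := hπ _ _ hms
  have hmt' := hπ _ _ hmt
  have hst' := hπ _ _ hst
  let x0 : N := ⟨m₀, hm₀⟩
  have hcov : π x0 = π 1 ∨ π x0 = π m' ∨ π x0 = π s' ∨ π x0 = π t' := by
    by_contra hcon
    push Not at hcon
    obtain ⟨c1, c2, c3, c4⟩ := hcon
    classical
    have : Fintype (N ⧸ f.range) := Fintype.ofFinite _
    have h5 : ({π x0, π 1, π m', π s', π t'} : Finset (N ⧸ f.range)).card ≤
        Fintype.card (N ⧸ f.range) := Finset.card_le_univ _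
    rw [← Nat.card_eq_fintype_card, ← index_eq_card, hidx] at h5
    rw [Finset.card_insert_of_notMem (by simp [c1, c2, c3, c4]),
      Finset.card_insert_of_notMem (by simp [h1m, h1s, h1t]),
      Finset.card_insert_of_notMem (by simp [hms', hmt']),
      Finset.card_insert_of_notMem (by simp [hst']), Finset.card_singleton] at h5
    omega
  have hfin : ∀ y : N, π x0 = π y → ∃ n ∈ N, m₀ = n * n * y := by
    intro y hy
    have h1 : y⁻¹ * x0 ∈ f.range := QuotientGroup.eq.1 hy.symm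
    obtain ⟨n, hn, hnx⟩ := (hmem _).1 h1
    refine ⟨n, hn, ?_⟩
    have h2 : (y : G) * (n * n) = n * n * y := h.hN.ab _ y.2 _ (mul_mem hn hn)
    rw [← h2, hnx, coe_mul, coe_inv]; group
    rfl
  rcases hcov with h1 | h1 | h1 | h1
  · obtain ⟨n, hn, hnx⟩ := hfin 1 h1
    exact ⟨n, hn, Or.inl (by rw [hnx]; simp)⟩
  · obtain ⟨n, hn, hnx⟩ := hfin m' h1
    exact ⟨n, hn, Or.inr (Or.inl hnx)⟩
  · obtain ⟨n, hn, hnx⟩ := hfin s' h1
    exact ⟨n, hn, Or.inr (Or.inr (Or.inl hnx))⟩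
  · obtain ⟨n, hn, hnx⟩ := hfin t' h1
    exact ⟨n, hn, Or.inr (Or.inr (Or.inr hnx))⟩

end Fin

end H57.Sc
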