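import Cfsg.Agent.Lib.H57.Sc6

/-! Case II.2 of S1904, conclusion. -/

set_option autoImplicit false

namespace H57.Sc

open Subgroup
open scoped commutatorElement

variable {G : Type*} [Group G] {X A : Subgroup G} {a z0 : G} {σ : G ≃* G} {N : Subgroup G}
variable [Finite G]

omit [Finite G] in
theorem N_le_E2 [hNn : N.Normal] (hNX : N ≤ X) : N ≤ E2 X N := by
  intro n hn
  refine ⟨hNX hn, mul_mem hn hn, ?_⟩
  intro x _
  rw [commutatorElement_def]
  exact mul_mem (hNn.conj_mem _ hn x) (inv_mem hn)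

theorem II3.alpha (h : II3 X A N a σ z0) [hNn : N.Normal] {w : G} (hw : w ∈ E2 X N)
    (hwN : w ∉ N) (hc : ∀ m ∈ N, m * m * (m * m) = 1 → w * m = m * w) : False := by
  have hwX : w ∈ X := hw.1
  have hZ : ∀ m ∈ N, ⁅w, m⁆ ∈ Z1 X := by
    intro m hm
    have hy : ⁅w, m⁆ ∈ N := by
      rw [commutatorElement_def]; exact mul_mem (hNn.conj_mem m hm w) (inv_mem hm)
    exact h.memZ1 hy (inv4 h.N2 hy hc (h.inverts hw hm))
  obtain ⟨m₀, hm₀, hwm₀⟩ : ∃ m₀ ∈ N, ⁅w, m₀⁆ ≠ 1 := by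
    by_contra hcon
    push Not at hcon
    exact hwN (h.selfc w hwX (fun n hn => comm_eq_one.1 (hcon n hn)))
  have hsqr : ∃ n ∈ N, n * n = w * w := by
    by_contra hcon
    push Not at hcon
    obtain ⟨n, hn, hn'⟩ := h.cover (m := w * w) hw.2.1 hm₀ hcon
    have hnn : ⁅w, n * n⁆ = 1 := by
      rw [crZ (h.hN.le hn) (hZ n hn)]; exact (hZ n hn).2.2
    refine h.ker_lemma hw hw.2.1 (mul_mem hn hn) hnn ?_ (hZ _ (h.mem hw.2.1))
      (hZ _ (h.mem (h.mem hw.2.1))) hwm₀ hn'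
    rw [comm_eq_one, mul_assoc]
  obtain ⟨n, hn, hnw⟩ := hsqr
  have hnX := h.hN.le hn
  have hζ : ⁅n⁻¹, w⁆ ∈ Z1 X := by
    rw [← commutatorElement_inv]; exact inv_mem (hZ _ (inv_mem hn))
  have htt : (w * n⁻¹) * (w * n⁻¹) = ⁅n⁻¹, w⁆ := by
    have h1 : (w * n⁻¹) * (w * n⁻¹) = (w * ⁅n⁻¹, w⁆ * w⁻¹) * (w * w) * (n * n)⁻¹ := by
      rw [commutatorElement_def]; group
    rw [h1, hnw, conjZ hwX hζ]; group
  obtain ⟨m, hm, hmm⟩ := h.sqrt hζ
  have hm4 : m * m * (m * m) = 1 := by rw [hmm]; exact hζ.2.2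
  have hwm := hc m hm hm4
  have hnm := h.hN.ab n⁻¹ (inv_mem hn) m hm
  have htm : (w * n⁻¹) * m = m * (w * n⁻¹) := by
    rw [mul_assoc, hnm, ← mul_assoc, hwm, mul_assoc]
  have huu : (w * n⁻¹ * m) * (w * n⁻¹ * m) = 1 := by
    calc (w * n⁻¹ * m) * (w * n⁻¹ * m) = (w * n⁻¹) * (m * (w * n⁻¹)) * m := by group
      _ = (w * n⁻¹) * ((w * n⁻¹) * m) * m := by rw [htm]
      _ = ((w * n⁻¹) * (w * n⁻¹)) * (m * m) := by group
      _ = 1 := by rw [htt, hmm]; exact hζ.2.2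
  have hnmN : n⁻¹ * m ∈ N := mul_mem (inv_mem hn) hm
  refine h.inv_coset (t := w * n⁻¹ * m) ?_ ?_ huu ?_
  · intro h1
    apply hwN
    have : w = (w * n⁻¹ * m) * (n⁻¹ * m)⁻¹ := by group
    rw [this]; exact mul_mem h1 (inv_mem hnmN)
  · rw [mul_assoc]
    exact mul_mem hw (N_le_E2 h.hN.le hnmN)
  · intro k hk hk4
    have h1 := h.hN.ab _ hnmN k hk
    have h2 := hc k hk hk4
    calc w * n⁻¹ * m * k = w * ((n⁻¹ * m) * k) := by group
      _ = w * (k * (n⁻¹ * m)) := by rw [h1]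
      _ = (w * k) * (n⁻¹ * m) := by group
      _ = (k * w) * (n⁻¹ * m) := by rw [h2]
      _ = k * (w * n⁻¹ * m) := by group

theorem II3.kerb (h : II3 X A N a σ z0) [hNn : N.Normal] {w m : G} (hw : w ∈ E2 X N)
    (hwN : w ∉ N) (hm : m ∈ N) (hm2 : m * m ∈ Z1 X) (hwm : ⁅w, m⁆ = 1) : m ∈ Z1 X := by
  by_contra hmZ
  have hmm : m * m ≠ 1 := fun h1 => hmZ (h.memZ1 hm h1)
  obtain ⟨m₀, hm₀, hm₀4, hwm₀⟩ : ∃ m₀ ∈ N, m₀ * m₀ * (m₀ * m₀) = 1 ∧ w * m₀ ≠ m₀ * w := by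
    by_contra hcon
    push Not at hcon
    exact h.alpha hw hwN hcon
  have hm₀Z := h.mem4 hm₀ hm₀4
  have hm₀1 : m₀ * m₀ ≠ 1 := by
    intro h1
    exact hwm₀ ((h.memZ1 hm₀ h1).2.1 w hw.1)
  have hwl : ∀ l ∈ N, l * l = 1 → ⁅w, l⁆ = 1 := by
    intro l hl hll
    exact comm_eq_one.2 ((h.memZ1 hl hll).2.1 w hw.1)
  have hs : σ m ∈ N := h.mem hm
  have hss : σ (σ m) ∈ N := h.mem hs
  have hs2 : σ m * σ m ∈ Z1 X := by rw [← map_mul]; exact h.memZ hm2
  have hss2 : σ (σ m) * σ (σ m) ∈ Z1 X := by rw [← map_mul]; exact h.memZ hs2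
  have hkey : ∀ y ∈ N, m₀ * m₀ = y * y → (m₀ * y⁻¹) * (m₀ * y⁻¹) = 1 := by
    intro y hy hyy
    have h1 := h.hN.ab y⁻¹ (inv_mem hy) m₀ hm₀
    calc (m₀ * y⁻¹) * (m₀ * y⁻¹) = m₀ * (y⁻¹ * m₀) * y⁻¹ := by group
      _ = m₀ * (m₀ * y⁻¹) * y⁻¹ := by rw [h1]
      _ = (m₀ * m₀) * (y * y)⁻¹ := by group
      _ = 1 := by rw [hyy]; group
  have h0 : ⁅w, m₀⁆ ≠ 1 := fun h1 => hwm₀ (comm_eq_one.1 h1)
  have hp := h.commN2 hw.1 hs hs2
  have hq := h.commN2 hw.1 hss hss2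
  rcases h.trans hm2 hm₀Z hmm hm₀1 with h1 | h1 | h1
  · have hl : m₀ * m⁻¹ ∈ N := mul_mem hm₀ (inv_mem hm)
    exact h.ker_lemma hw hm hl (hwl _ hl (hkey m hm h1)) hwm hp hq h0
      (Or.inr (Or.inl (by group)))
  · have hl : m₀ * (σ m)⁻¹ ∈ N := mul_mem hm₀ (inv_mem hs)
    exact h.ker_lemma hw hm hl (hwl _ hl (hkey _ hs (by rw [h1, map_mul]))) hwm hp hq h0
      (Or.inr (Or.inr (Or.inl (by group))))
  · have hl : m₀ * (σ (σ m))⁻¹ ∈ N := mul_mem hm₀ (inv_mem hss)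
    exact h.ker_lemma hw hm hl (hwl _ hl (hkey _ hss (by rw [h1, map_mul, map_mul]))) hwm hp hq h0
      (Or.inr (Or.inr (Or.inr (by group))))

theorem II3.exists_w (h : II3 X A N a σ z0) [hNn : N.Normal] : ∃ w ∈ X, w ∉ N ∧ w ∈ E2 X N := by
  have hXn := h.amb.nX
  exact exists_mod h.amb.two h.N_lt le_rfl

omit [Finite G] in
theorem II3.not_mem (h : II3 X A N a σ z0) [hNn : N.Normal] {w : G} (hw : w ∈ X) (hwN : w ∉ N) :
    σ w ∉ N ∧ σ (σ w) ∉ N := by
  have h1 : σ (σ w) ∉ N := by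
    intro h1
    apply hwN
    rw [← h.cube hw]; exact h.mem h1
  exact ⟨fun h2 => h1 (h.mem h2), h1⟩

theorem II3.expN (h : II3 X A N a σ z0) [hNn : N.Normal] : ∀ m ∈ N, m * m ∈ Z1 X := by
  by_contra hcon
  push Not at hcon
  obtain ⟨m, hm, hmZ⟩ := hcon
  have hm4 : m ^ (2 ^ 2) ≠ 1 := by
    intro h1
    apply hmZ
    apply h.mem4 hm
    rw [← h1]
    have : (2 : ℕ) ^ 2 = 1 + 1 + 1 + 1 := by norm_num
    rw [this, pow_succ, pow_succ, pow_succ, pow_one]; group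
  obtain ⟨k, hk1, hk2⟩ := exists_pow_ord h.N2 hm hm4
  set r := m ^ k with hr
  have hrN : r ∈ N := N.pow_mem hm k
  have h4 : (r * r) * (r * r) ≠ 1 := by
    intro h1
    apply hk1
    rw [← h1]
    have : (2 : ℕ) ^ 2 = 1 + 1 + 1 + 1 := by norm_num
    rw [this, pow_succ, pow_succ, pow_succ, pow_one]; group
  have h8 : ((r * r) * (r * r)) * ((r * r) * (r * r)) = 1 := by
    rw [← hk2]
    have : (2 : ℕ) ^ (2 + 1) = 1 + 1 + 1 + 1 + 1 + 1 + 1 + 1 := by norm_num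
    rw [this, pow_succ, pow_succ, pow_succ, pow_succ, pow_succ, pow_succ, pow_succ, pow_one]; group
  have hrr : r * r ∈ N := mul_mem hrN hrN
  have hρ : (r * r) * (r * r) ∈ Z1 X := h.mem4 hrr h8
  have hrX := h.hN.le hrN
  have hrrX := h.hN.le hrr
  have key : ∀ t ∈ E2 X N, t ∉ N → ⁅t, r * r⁆ = (r * r) * (r * r) := by
    intro t ht htN
    set d := ⁅t, r⁆ with hd
    have hdN : d ∈ N := by
      rw [hd, commutatorElement_def]; exact mul_mem (hNn.conj_mem r hrN t) (inv_mem hrN)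
    have hti := h.inverts ht hrN
    rw [← hd] at hti
    have h1 : ⁅t, r * r⁆ = d * d := by
      rw [cr, ← hd, h.hN.ab r hrN d hdN]; group
    have h2 : ⁅t, r * r⁆ ∈ Z1 X := h.commN2 ht.1 hrr hρ
    rw [h1] at h2
    have h3 : ⁅t, d⁆ = d * d := by
      rw [commutatorElement_def, hti, ← mul_inv_rev, invZ h2]
    have hdr : d * (r * r)⁻¹ ∈ N := mul_mem hdN (inv_mem hrr)
    have h5 : d * (r * r)⁻¹ * (d * (r * r)⁻¹) = (d * d) * ((r * r) * (r * r))⁻¹ := by
      have h6 := h.hN.ab (r * r)⁻¹ (inv_mem hrr) d hdN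
      calc d * (r * r)⁻¹ * (d * (r * r)⁻¹) = d * ((r * r)⁻¹ * d) * (r * r)⁻¹ := by group
        _ = d * (d * (r * r)⁻¹) * (r * r)⁻¹ := by rw [h6]
        _ = (d * d) * ((r * r) * (r * r))⁻¹ := by group
    have h7 : ⁅t, d * (r * r)⁻¹⁆ = 1 := by
      have h8 : ⁅t, d⁆ = ⁅t, d * (r * r)⁻¹⁆ * ⁅t, r * r⁆ := by
        rw [← crZ (h.hN.le hdr) (by rw [h1]; exact h2)]
        congr 1; group
      rw [h3, h1] at h8
      have h9 : 1 * (d * d) = ⁅t, d * (r * r)⁻¹⁆ * (d * d) := by rw [one_mul]; exact h8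
      exact (mul_right_cancel h9).symm
    have h10 := h.kerb ht htN hdr (by rw [h5]; exact mul_mem h2 (inv_mem hρ)) h7
    have h11 := h10.2.2
    rw [h5] at h11
    rw [h1]
    exact mul_inv_eq_one.1 h11
  obtain ⟨w, hwX, hwN, hwE⟩ := h.exists_w
  obtain ⟨hsE, hssE⟩ := h.toII2.conjE2 hwE
  obtain ⟨hsN, hssN⟩ := h.not_mem hwX hwN
  have hv := h.prodN hwE
  have h1 : ⁅w * (σ w * σ (σ w)), r * r⁆ = 1 := by
    rw [← mul_assoc]
    exact comm_eq_one.2 (h.hN.ab _ hv _ hrr)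
  have h2 := key w hwE hwN
  have h3 := key _ hsE hsN
  have h5 := key _ hssE hssN
  have h6 : ⁅σ w * σ (σ w), r * r⁆ = 1 := by
    rw [clZ hsE.1 hrrX (by rw [h5]; exact hρ), h3, h5]; exact h8
  rw [clZ hwX hrrX (by rw [h6]; exact one_mem _), h6, mul_one, h2] at h1
  exact h4 h1

theorem II3.commN (h : II3 X A N a σ z0) [hNn : N.Normal] {x m : G} (hx : x ∈ X) (hm : m ∈ N) :
    ⁅x, m⁆ ∈ Z1 X := h.commN2 hx hm (h.expN m hm)

theorem II3.E2top (h : II3 X A N a σ z0) [hNn : N.Normal] {x : G} (hx : x ∈ X) :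
    x ∈ E2 X N := by
  refine ⟨hx, ?_, ?_⟩
  · apply h.selfc _ (X.mul_mem hx hx)
    intro n hn
    apply comm_eq_one.1
    rw [clZ hx (h.hN.le hn) (h.commN hx hn)]
    exact (h.commN hx hn).2.2
  · intro y hy
    apply h.selfc _ (comm_mem hy hx)
    intro n hn
    apply comm_eq_one.1
    have hnX := h.hN.le hn
    have h1 := h.commN hx hn
    have h2 := h.commN hy hn
    have h3 : ⁅x * y, n⁆ = ⁅y * x, n⁆ := by
      rw [clZ hx hnX h2, clZ hy hnX h1, h2.2.1 _ h1.1]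
    have h8 : ⁅x * y, n⁆ ∈ Z1 X := h.commN (X.mul_mem hx hy) hn
    have h7 : ⁅y * x, n⁆ = ⁅⁅y, x⁆ * (x * y), n⁆ := by
      congr 1; rw [commutatorElement_def]; group
    rw [clZ (comm_mem hy hx) hnX h8, ← h3] at h7
    have : (1 : G) * ⁅x * y, n⁆ = ⁅⁅y, x⁆, n⁆ * ⁅x * y, n⁆ := by rw [one_mul]; exact h7
    exact (mul_right_cancel this).symm

theorem II3.sqX (h : II3 X A N a σ z0) [hNn : N.Normal] {x : G} (hx : x ∈ X) :
    x * x ∈ Z1 X := by
  by_cases hxN : x ∈ N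
  · exact h.expN x hxN
  · have hE := h.E2top hx
    refine h.kerb hE hxN hE.2.1 (h.expN _ hE.2.1) ?_
    rw [comm_eq_one, mul_assoc]

theorem II3.cmX (h : II3 X A N a σ z0) [hNn : N.Normal] {x y : G} (hx : x ∈ X) (hy : y ∈ X) :
    ⁅x, y⁆ ∈ Z1 X := by
  have hXn := h.amb.nX
  have h1 : ⁅x, y⁆ = (x * y) * (x * y) * ((y⁻¹ * (x * x)⁻¹ * y⁻¹⁻¹) * (y * y)⁻¹) := by
    rw [commutatorElement_def]; group
  rw [h1]
  exact mul_mem (h.sqX (X.mul_mem hx hy)) (mul_mem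
    (Z1_normal.conj_mem _ (inv_mem (h.sqX hx)) _) (inv_mem (h.sqX hy)))

theorem II3.concl (h : II3 X A N a σ z0) : Concl X := by
  have : Fact (Nat.Prime 2) := ⟨Nat.prime_two⟩
  have hNn := h.hN.nN
  have hXn := h.amb.nX
  obtain ⟨w, hwX, hwN, hwE⟩ := h.exists_w
  have hZ1c : Nat.card (Z1 X) = 4 := le_antisymm h.amb.Z1_card h.c4
  have hZ : ∀ z : X, z ∈ center X ↔ (z : G) ∈ Z1 X := by
    intro z
    constructor
    · intro hz
      have h1 : ∀ x ∈ X, x * (z : G) = z * x := fun x hx =>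
        congrArg Subtype.val (mem_center_iff.1 hz ⟨x, hx⟩)
      have hzN := h.selfc z z.2 (fun n hn => (h1 n (h.hN.le hn)).symm)
      exact h.kerb hwE hwN hzN (h.expN _ hzN) (comm_eq_one.2 (h1 w hwX))
    · intro hz
      rw [mem_center_iff]
      intro x
      exact Subtype.ext (hz.2.1 x x.2)
  have hC2 : C2 X := by
    refine ⟨h.amb.two, ?_, ?_, ?_⟩
    · intro x; exact (hZ _).2 (h.sqX x.2)
    · intro x y; exact (hZ _).2 (h.cmX x.2 y.2)
    · intro z hz; exact Subtype.ext ((hZ z).1 hz).2.2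
  have hcard : Nat.card (center X) = 4 := by
    have h1 : (center X).map X.subtype = Z1 X := by
      ext z
      constructor
      · rintro ⟨w, hw, rfl⟩; exact (hZ w).1 hw
      · intro hz; exact ⟨⟨z, Z1_le hz⟩, (hZ _).2 hz, rfl⟩
    rw [← hZ1c, ← h1, card_map_of_injective X.subtype_injective]
  have hno : ∀ x : X, x * x = 1 → x ∈ center X := by
    intro x hx
    rw [hZ]
    by_contra hcon
    exact h.no_inv x.2 hcon (congrArg Subtype.val hx) (fun y hy => h.cmX hy x.2)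
  -- an element of order 4 in `N`
  obtain ⟨m, hm, hmm⟩ := h.sqrt h.hz0
  have hmX := h.hN.le hm
  have hmZ : m ∉ Z1 X := by
    intro h1
    apply h.ne
    rw [← hmm]; exact h1.2.2
  have hne : ∀ x ∈ X, x ∉ N → ⁅x, m⁆ ≠ 1 := by
    intro x hx hxN h1
    exact hmZ (h.kerb (h.E2top hx) hxN hm (h.expN m hm) h1)
  obtain ⟨hsN, hssN⟩ := h.not_mem hwX hwN
  -- the derived group
  have hD : center X ≤ _root_.commutator X := by
    have hcomN : ((_root_.commutator X).map X.subtype).Normal := inferInstance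
    have hp : ⁅w, m⁆ ∈ (_root_.commutator X).map X.subtype :=
      ⟨⁅⟨w, hwX⟩, ⟨m, hmX⟩⁆, commutator_mem_commutator (mem_top _) (mem_top _), rfl⟩
    have hpZ := h.commN hwX hm
    have hp1 := hne w hwX hwN
    intro z hz
    have hz' : (z : G) ∈ (_root_.commutator X).map X.subtype := by
      by_cases hz1 : (z : G) = 1
      · rw [hz1]; exact one_mem _
      rcases h.trans hpZ ((hZ z).1 hz) hp1 hz1 with h1 | h1 | h1
      · rw [h1]; exact hp
      · rw [h1]; exact h.mem hp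
      · rw [h1]; exact h.mem (h.mem hp)
    obtain ⟨u, hu, huz⟩ := hz'
    have : u = z := Subtype.ext huz
    rw [← this]; exact hu
  -- card of N
  let g : N →* Z1 X :=
    { toFun := fun n => ⟨(n : G) * n, h.expN n n.2⟩
      map_one' := Subtype.ext (one_mul 1)
      map_mul' := by
        intro x y
        apply Subtype.ext
        change (x : G) * y * (x * y) = x * x * (y * y)
        have h1 := h.hN.ab y y.2 x x.2
        calc (x : G) * y * (x * y) = x * (y * x) * y := by group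
          _ = x * (x * y) * y := by rw [h1]
          _ = x * x * (y * y) := by group }
  have hgs : g.range = ⊤ := by
    rw [eq_top_iff]
    rintro z _
    obtain ⟨n, hn, hnz⟩ := h.sqrt z.2
    exact ⟨⟨n, hn⟩, Subtype.ext hnz⟩
  have hgk : Nat.card g.ker = 4 := by
    have h1 : g.ker.map N.subtype = Z1 X := by
      ext z
      constructor
      · rintro ⟨w, hw, rfl⟩
        exact h.memZ1 w.2 (congrArg Subtype.val (MonoidHom.mem_ker.1 hw))
      · intro hz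
        exact ⟨⟨z, h.Z1_le_N hz⟩, Subtype.ext hz.2.2, rfl⟩
    have h2 := card_map_of_injective N.subtype_injective (K := g.ker)
    rw [h1, hZ1c] at h2
    exact h2.symm
  have hNc : Nat.card N = 16 := by
    have h1 := g.ker.card_mul_index
    rw [index_ker, hgk, hgs, card_top, hZ1c] at h1
    omega
  -- card of X
  let f : X →* Z1 X :=
    { toFun := fun x => ⟨⁅(x : G), m⁆, h.commN x.2 hm⟩
      map_one' := by
        apply Subtype.ext
        change ⁅(1 : G), m⁆ = 1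
        simp
      map_mul' := by
        intro x y
        apply Subtype.ext
        exact clZ x.2 hmX (h.commN y.2 hm) }
  have hfk : Nat.card f.ker = 16 := by
    have h1 : f.ker.map X.subtype = N := by
      ext z
      constructor
      · rintro ⟨u, hu, rfl⟩
        by_contra hcon
        exact hne u u.2 hcon (congrArg Subtype.val (MonoidHom.mem_ker.1 hu))
      · intro hz
        exact ⟨⟨z, h.hN.le hz⟩, Subtype.ext (comm_eq_one.2 (h.hN.ab z hz m hm)), rfl⟩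
    have h2 := card_map_of_injective X.subtype_injective (K := f.ker)
    rw [h1, hNc] at h2
    exact h2.symm
  have hfr : Nat.card f.range = 4 := by
    have h1 : Nat.card f.range ∣ 4 := by rw [← hZ1c]; exact card_subgroup_dvd_card _
    let p : Z1 X := f ⟨w, hwX⟩
    let q : Z1 X := f ⟨σ w, h.memX hwX⟩
    have hp1 : p ≠ 1 := fun h2 => hne w hwX hwN (congrArg Subtype.val h2)
    have hq1 : q ≠ 1 := fun h2 => hne _ (h.memX hwX) hsN (congrArg Subtype.val h2)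
    have hpq : p ≠ q := by
      intro h2
      have h3 : p * q = 1 := by
        rw [← h2]; exact Subtype.ext p.2.2.2
      have h4 : f ⟨w * σ w, X.mul_mem hwX (h.memX hwX)⟩ = 1 := by
        have h5 : (⟨w * σ w, X.mul_mem hwX (h.memX hwX)⟩ : X) = ⟨w, hwX⟩ * ⟨σ w, h.memX hwX⟩ := rfl
        rw [h5, map_mul]; exact h3
      refine hne _ (X.mul_mem hwX (h.memX hwX)) ?_ (congrArg Subtype.val h4)
      intro h6
      apply hssN
      have h7 : σ (σ w) = (w * σ w)⁻¹ * (w * σ w * σ (σ w)) := by group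
      rw [h7]; exact mul_mem (inv_mem h6) (h.prodN hwE)
    have h5 : ({1, p, q} : Set (Z1 X)).ncard = 3 :=
      Set.ncard_eq_three.2 ⟨1, p, q, Ne.symm hp1, Ne.symm hq1, hpq, rfl⟩
    have h6 : Nat.card f.range = (f.range : Set (Z1 X)).ncard := Nat.card_coe_set_eq _
    have h7 : ({1, p, q} : Set (Z1 X)).ncard ≤ (f.range : Set (Z1 X)).ncard := by
      apply Set.ncard_le_ncard _ (Set.toFinite _)
      rintro u (rfl | rfl | rfl)
      · exact one_mem _
      · exact ⟨_, rfl⟩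
      · exact ⟨_, rfl⟩
    have h8 : Nat.card f.range ≤ 4 := Nat.le_of_dvd (by norm_num) h1
    have h9 : Nat.card f.range ≠ 3 := by
      intro h10; rw [h10] at h1; revert h1; decide
    omega
  have hX64 : Nat.card X = 64 := by
    have h1 := f.ker.card_mul_index
    rw [index_ker, hfk, hfr] at h1
    omega
  exact special64 hC2 hcard hD hno hX64

end H57.Sc
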