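import Cfsg.Agent.Lib.H57.Sc7

/-! Existence of the data `II`, and case II.1 of S1904. -/

set_option autoImplicit false

namespace H57.Sc

open Subgroup
open scoped commutatorElement

variable {G : Type*} [Group G] {X A : Subgroup G} {a z0 : G} {σ : G ≃* G} [Finite G]

theorem Amb.exists_II (h : Amb X A) (ha : a ∈ A) (hz0 : z0 ∈ Z1 X) (hne : a * z0 ≠ z0 * a) :
    II X A a (MulAut.conj a) z0 := by
  have hXn := h.nX
  set y := MulAut.conj a z0 with hy
  have hy' : y = a * z0 * a⁻¹ := MulAut.conj_apply a z0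
  have hyZ : y ∈ Z1 X := by rw [hy']; exact Z1_normal.conj_mem z0 hz0 a
  have hz1 : z0 ≠ 1 := by rintro rfl; apply hne; simp
  have hmv : y ≠ z0 := by
    intro h1
    apply hne
    calc a * z0 = a * z0 * a⁻¹ * a := by group
      _ = z0 * a := by rw [← hy', h1]
  have hy1 : y ≠ 1 := by
    intro h1
    apply hz1
    have h2 : MulAut.conj a z0 = MulAut.conj a 1 := by rw [map_one]; exact h1
    exact (MulAut.conj a).injective h2
  have hzz := hz0.2.2
  have hyy := hyZ.2.2
  have hzy : z0 * y ≠ 1 := by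
    intro h1
    apply hmv
    have h2 : z0 * y = z0 * z0 := by rw [h1, hzz]
    exact mul_left_cancel h2
  have hzyZ : z0 * y ∈ Z1 X := mul_mem hz0 hyZ
  have h4 : ({1, z0, y, z0 * y} : Set G).ncard = 4 := by
    rw [Set.ncard_insert_of_notMem, Set.ncard_insert_of_notMem, Set.ncard_pair]
    · intro h1
      apply hz1
      have : 1 * y = z0 * y := by rw [one_mul]; exact h1
      exact (mul_right_cancel this).symm
    · rintro (h1 | h1)
      · exact hmv h1.symm
      · rw [Set.mem_singleton_iff] at h1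
        apply hy1
        have : z0 * 1 = z0 * y := by rw [mul_one]; exact h1
        exact (mul_left_cancel this).symm
    · rintro (h1 | h1 | h1)
      · exact hz1 h1.symm
      · exact hy1 h1.symm
      · rw [Set.mem_singleton_iff] at h1; exact hzy h1.symm
  have hsub : ({1, z0, y, z0 * y} : Set G) ⊆ (Z1 X : Set G) := by
    rintro w (rfl | rfl | rfl | rfl)
    · exact one_mem _
    · exact hz0
    · exact hyZ
    · exact hzyZ
  have hcZ : Nat.card (Z1 X) = (Z1 X : Set G).ncard := Nat.card_coe_set_eq _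
  have hle := h.Z1_card
  have hc4 : 4 ≤ Nat.card (Z1 X) := by
    rw [hcZ, ← h4]; exact Set.ncard_le_ncard hsub (Set.toFinite _)
  have hset : ({1, z0, y, z0 * y} : Set G) = (Z1 X : Set G) :=
    Set.eq_of_subset_of_ncard_le hsub (by rw [h4, ← hcZ]; exact hle)
  have hcov : ∀ z ∈ Z1 X, z = 1 ∨ z = z0 ∨ z = y ∨ z = z0 * y := by
    intro z hz
    have h1 : z ∈ (Z1 X : Set G) := hz
    rw [← hset] at h1
    exact h1
  have hcyc : MulAut.conj a y = z0 * y := by
    have h1 : MulAut.conj a y ∈ Z1 X := by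
      rw [MulAut.conj_apply]; exact Z1_normal.conj_mem y hyZ a
    rcases hcov _ h1 with h2 | h2 | h2 | h2
    · exfalso; apply hy1
      have h3 : MulAut.conj a y = MulAut.conj a 1 := by rw [map_one]; exact h2
      exact (MulAut.conj a).injective h3
    · exfalso
      apply hne
      apply odd_comm h.odd ha
      have h3 : a * y = z0 * a := by
        rw [MulAut.conj_apply] at h2
        calc a * y = a * y * a⁻¹ * a := by group
          _ = z0 * a := by rw [h2]
      calc a * (a * z0) = a * (a * z0 * a⁻¹) * a := by group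
        _ = (a * y) * a := by rw [hy']
        _ = z0 * a * a := by rw [h3]
    · exfalso
      apply hmv
      exact (MulAut.conj a).injective h2
    · exact h2
  refine ⟨h, ha, fun x => MulAut.conj_apply a x, hz0, hz1, hmv, ?_, hcyc, hc4⟩
  intro z hz
  rcases hcov z hz with h1 | h1 | h1 | h1
  · exact Or.inl h1
  · exact Or.inr (Or.inl h1)
  · exact Or.inr (Or.inr (Or.inl h1))
  · right; right; right
    change z = MulAut.conj a y
    rw [hcyc]; exact h1

omit [Finite G] in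
/-- elements of `Y` acting on `X` modulo `Z` -/
def Y0 (X Y Z : Subgroup G) [hZ : Z.Normal] : Subgroup G where
  carrier := {t | t ∈ Y ∧ ∀ x ∈ X, ⁅x, t⁆ ∈ Z}
  one_mem' := ⟨Y.one_mem, by intro x _; simp⟩
  mul_mem' := by
    rintro s t ⟨hs, hsc⟩ ⟨ht, htc⟩
    refine ⟨Y.mul_mem hs ht, ?_⟩
    intro x hx
    rw [cr]
    exact mul_mem (hsc x hx) (hZ.conj_mem _ (htc x hx) s)
  inv_mem' := by
    rintro t ⟨ht, htc⟩
    refine ⟨Y.inv_mem ht, ?_⟩
    intro x hx
    have h1 : ⁅x, t⁻¹⁆ = t⁻¹ * ⁅x, t⁆⁻¹ * t⁻¹⁻¹ := by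
      simp only [commutatorElement_def]; group
    rw [h1]; exact hZ.conj_mem _ (inv_mem (htc x hx)) _

omit [Finite G] in
instance Y0_normal {Y Z : Subgroup G} [hZ : Z.Normal] [hX : X.Normal] [hY : Y.Normal] :
    (Y0 X Y Z).Normal := by
  constructor
  rintro t ⟨ht, htc⟩ g
  refine ⟨hY.conj_mem t ht g, ?_⟩
  intro x hx
  have h1 := htc (g⁻¹ * x * g) (by have := hX.conj_mem x hx g⁻¹; rwa [inv_inv] at this)
  have h2 : ⁅x, g * t * g⁻¹⁆ = g * ⁅g⁻¹ * x * g, t⁆ * g⁻¹ := by
    simp only [commutatorElement_def]; group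
  rw [h2]; exact hZ.conj_mem _ h1 g

theorem II.caseB (h : II X A a σ z0) {B : Subgroup G} (hBA : B ≤ A)
    (hAB : A ≤ normalizer (B : Set G)) (hBZ : ∀ b ∈ B, ∀ z ∈ Z1 X, b * z = z * b)
    (hB1 : ⁅X, B⁆ ≠ ⊥) : Concl X := by
  have : Fact (Nat.Prime 2) := ⟨Nat.prime_two⟩
  have hXn := h.amb.nX
  have htop : ∀ (M : Subgroup G) [M.Normal] (K : Subgroup G), K ≤ normalizer (M : Set G) := by
    intro M _ K; rw [normalizer_eq_top]; exact le_top
  have hBodd : (Nat.card B).Coprime 2 :=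
    Nat.Coprime.coprime_dvd_left (card_dvd_of_le hBA) h.amb.odd
  have hcopX := cop_of_odd hBodd h.amb.two
  have hsX : Group.IsSolvable B ∨ Group.IsSolvable X := Or.inr (solv_two h.amb.two)
  obtain ⟨Y, hYd⟩ : ∃ Y, Y = ⁅X, B⁆ := ⟨_, rfl⟩
  rw [← hYd] at hB1
  have hYn : Y.Normal := by
    apply h.amb.normal_of
    · rw [hYd]; exact H1.Coprime2.le_normalizer_commutator_left X B
    · apply H1.Coprime.le_normalizer_of_conj_mem
      intro b hb k hk
      rw [hYd] at hk ⊢
      have h1 : ⁅X, B⁆ ≤ (⁅X, B⁆ : Subgroup G).comap (MulAut.conj b).toMonoidHom := by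
        rw [commutator_le]
        intro x hx c hc
        rw [mem_comap]
        change MulAut.conj b ⁅x, c⁆ ∈ _
        rw [map_commutatorElement, MulAut.conj_apply, MulAut.conj_apply]
        exact commutator_mem_commutator (hXn.conj_mem x hx b)
          ((mem_normalizer_iff.1 (hAB hb) c).1 hc)
      exact h1 hk
  have hYX : Y ≤ X := by rw [hYd]; exact comm_le_of_norm (htop X B)
  have hYB : ⁅Y, B⁆ = Y := by
    rw [hYd]; exact H1.Coprime2.commutator_commutator_eq B X (htop X B) hcopX hsX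
  have hsp := h.amb.sp hYX hBodd hBZ hYB
  obtain ⟨hC2, hD, hZB, hfix⟩ := hsp.main
  have hM := mv_of hsp.two hBodd hZB hfix
  -- the centre of Y
  have hcZ1 : (center Y).map Y.subtype ≤ Z1 X := by
    apply h.amb.le_Z1 ((map_subtype_le _).trans hYX)
    · rintro _ ⟨u, hu, rfl⟩ _ ⟨v, hv, rfl⟩
      exact congrArg Subtype.val (mem_center_iff.1 hv u)
    · rintro _ ⟨u, hu, rfl⟩
      exact congrArg Subtype.val (hC2.z2 u hu)
  have hZ1c : Z1 X ≤ (center Y).map Y.subtype := by
    have hnt : Nontrivial Y := (nontrivial_iff_ne_bot Y).2 hB1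
    have h1 := hsp.two.center_nontrivial
    obtain ⟨u, hu⟩ := exists_ne (1 : center Y)
    have hu1 : ((u : Y) : G) ≠ 1 := fun h2 => hu (Subtype.ext (Subtype.ext h2))
    have huM : ((u : Y) : G) ∈ (center Y).map Y.subtype := ⟨u, u.2, rfl⟩
    intro z hz
    by_cases hz1 : z = 1
    · rw [hz1]; exact one_mem _
    rcases h.trans (hcZ1 huM) hz hu1 hz1 with h2 | h2 | h2
    · rw [h2]; exact huM
    · rw [h2]; exact h.mem huM
    · rw [h2]; exact h.mem (h.mem huM)
  have hZY : Z1 X ≤ Y := hZ1c.trans (map_subtype_le _)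
  have hZ : ∀ z : Y, z ∈ center Y ↔ (z : G) ∈ Z1 X := by
    intro z
    constructor
    · intro hz; exact hcZ1 ⟨z, hz, rfl⟩
    · intro hz
      obtain ⟨u, hu, huz⟩ := hZ1c hz
      have : u = z := Subtype.ext huz
      rw [← this]; exact hu
  have hcard : Nat.card (center Y) = 4 := by
    have h2 := card_map_of_injective Y.subtype_injective (K := center Y)
    rw [le_antisymm hcZ1 hZ1c] at h2
    rw [← h2]; exact le_antisymm h.amb.Z1_card h.c4
  have hfixY : ∀ c ∈ Y, (∀ b ∈ B, b * c = c * b) → c ∈ Z1 X := by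
    intro c hc hcb
    exact (hZ ⟨c, hc⟩).1 (hfix ⟨c, hc⟩ hcb)
  have hYY : ∀ x ∈ Y, ∀ y ∈ Y, ⁅x, y⁆ ∈ Z1 X := by
    intro x hx y hy
    exact (hZ ⁅⟨x, hx⟩, ⟨y, hy⟩⁆).1 (hC2.cm _ _)
  -- `Y₀`
  obtain ⟨W, hW⟩ : ∃ W, W = Y0 X Y (Z1 X) := ⟨_, rfl⟩
  have hWmem : ∀ t, t ∈ W ↔ t ∈ Y ∧ ∀ x ∈ X, ⁅x, t⁆ ∈ Z1 X := by
    intro t; rw [hW]; exact Iff.rfl
  have hWn : W.Normal := by rw [hW]; infer_instance
  have hWY : W ≤ Y := fun t ht => ((hWmem t).1 ht).1
  have hZW : Z1 X ≤ W := by
    intro z hz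
    refine (hWmem z).2 ⟨hZY hz, ?_⟩
    intro x hx
    have : ⁅x, z⁆ = 1 := comm_eq_one.2 (hz.2.1 x hx)
    rw [this]; exact one_mem _
  have hcWn : (W ⊓ centralizer (W : Set G)).Normal := inferInstance
  have hcW : ∀ t ∈ W, (∀ s ∈ W, t * s = s * t) → t ∈ Z1 X := by
    intro t ht hts
    have h1 := h.amb.cent_abelian hBodd hBZ (M := W ⊓ centralizer (W : Set G))
      (inf_le_left.trans (hWY.trans hYX)) (by
        intro u hu v hv
        exact (mem_centralizer_iff.1 (mem_inf.1 hu).2 v (mem_inf.1 hv).1).symm) t (by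
        refine mem_inf.2 ⟨ht, ?_⟩
        rw [mem_centralizer_iff]
        intro s hs
        exact (hts s hs).symm)
    exact hfixY t (hWY ht) h1
  -- `C_Y(W) = Z1`
  have hCY : Y ⊓ centralizer (W : Set G) = Z1 X := by
    by_contra hne
    have hlt : Z1 X < Y ⊓ centralizer (W : Set G) := by
      refine lt_of_le_of_ne ?_ (Ne.symm hne)
      refine le_inf hZY ?_
      intro z hz
      rw [mem_centralizer_iff]
      intro s hs
      exact hz.2.1 s (hYX (hWY hs))
    obtain ⟨y, hy, hyZ, hyE⟩ := exists_mod h.amb.two hlt (inf_le_left.trans hYX)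
    apply hyZ
    have hyW : y ∈ W := (hWmem y).2 ⟨(mem_inf.1 hy).1, hyE.2.2⟩
    apply hcW y hyW
    intro s hs
    exact (mem_centralizer_iff.1 (mem_inf.1 hy).2 s hs).symm
  -- `C_X(B)` centralises `W`
  have hCW : ∀ c ∈ X, (∀ b ∈ B, b * c = c * b) → ∀ s ∈ W, c * s = s * c := by
    obtain ⟨C, hC⟩ : ∃ C, C = X ⊓ centralizer (B : Set G) := ⟨_, rfl⟩
    have hCm : ∀ c ∈ C, ∀ b ∈ B, c * b = b * c := by
      intro c hc b hb
      rw [hC] at hc
      exact (mem_centralizer_iff.1 (mem_inf.1 hc).2 b hb).symm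
    have hCX : C ≤ X := by rw [hC]; exact inf_le_left
    have h1 : ⁅⁅W, B⁆, C⁆ = ⊥ := by
      apply commutator_commutator_eq_bot_of_rotate
      · rw [bot_of_comm (fun b hb c hc => (hCm c hc b hb).symm), commutator_bot_left]
      · have h2 : ⁅C, W⁆ ≤ Z1 X := by
          rw [commutator_le]
          intro c hc s hs
          exact ((hWmem s).1 hs).2 c (hCX hc)
        rw [eq_bot_iff]
        refine (commutator_mono h2 le_rfl).trans ?_
        rw [bot_of_comm (fun z hz b hb => (hBZ b hb z hz).symm)]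
    have h3 := comm_of_bot h1
    intro c hcX hcB s hs
    have hcC : c ∈ C := by
      rw [hC]
      exact mem_inf.2 ⟨hcX, mem_centralizer_iff.2 (fun b hb => hcB b hb)⟩
    have hWX := hWY.trans hYX
    obtain ⟨u, hu, v, hv, huv⟩ := H1.Coprime2.exists_mul_of_mem B W (htop W B)
      (cop_of_odd hBodd (h.amb.two.to_le hWX)) (Or.inr (solv_two (h.amb.two.to_le hWX))) hs
    have hvZ : v ∈ Z1 X := by
      apply hfixY v (hWY (mem_inf.1 hv).1)
      intro b hb
      exact mem_centralizer_iff.1 (mem_inf.1 hv).2 b hb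
    rw [huv]
    calc c * (u * v) = (c * u) * v := by group
      _ = (u * c) * v := by rw [h3 u hu c hcC]
      _ = u * (c * v) := by group
      _ = u * (v * c) := by rw [hvZ.2.1 c hcX]
      _ = u * v * c := by group
  -- `[T', Y] ≤ Z1`, where `T' = C_X(W)`
  have hTn : (X ⊓ centralizer (W : Set G)).Normal := inferInstance
  have hTY : ∀ t ∈ X ⊓ centralizer (W : Set G), ∀ y ∈ Y, ⁅t, y⁆ ∈ Z1 X := by
    intro t ht y hy
    rw [← hCY]
    refine mem_inf.2 ⟨?_, ?_⟩
    · rw [commutatorElement_def]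
      exact mul_mem (hYn.conj_mem y hy t) (inv_mem hy)
    · have h1 : ⁅t, y⁆ ∈ X ⊓ centralizer (W : Set G) := by
        have : ⁅t, y⁆ = t * (y * t⁻¹ * y⁻¹) := by rw [commutatorElement_def]; group
        rw [this]; exact mul_mem ht (hTn.conj_mem _ (inv_mem ht) y)
      exact (mem_inf.1 h1).2
  have hWeq : ∀ y ∈ Y, ∀ x ∈ X, ⁅x, y⁆ ∈ Z1 X := by
    intro y hy x hx
    obtain ⟨u, hu, c, hc, rfl⟩ := H1.Coprime2.exists_mul_of_mem B X (htop X B) hcopX hsX hx
    rw [← hYd] at hu
    rw [cl]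
    refine mul_mem (Z1_normal.conj_mem _ (hTY c ?_ y hy) u) (hYY u hu y hy)
    refine mem_inf.2 ⟨(mem_inf.1 hc).1, ?_⟩
    rw [mem_centralizer_iff]
    intro s hs
    exact (hCW c (mem_inf.1 hc).1 (fun b hb => mem_centralizer_iff.1 (mem_inf.1 hc).2 b hb) s
      hs).symm
  have hno : ∀ x : Y, x * x = 1 → x ∈ center Y := by
    intro x hx
    rw [hZ]
    by_contra hcon
    exact h.no_inv (hYX x.2) hcon (congrArg Subtype.val hx) (fun y hy => hWeq x x.2 y hy)
  have h64 := hC2.card_eq_64 hM hcard hD hno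
  have hConY := special64 hC2 hcard hD hno h64
  have hWtop : ∀ y ∈ Y, y ∈ W := fun y hy => (hWmem y).2 ⟨hy, hWeq y hy⟩
  -- `X = Y`
  have hXY : X = Y := by
    have hT2n : (X ⊓ centralizer (Y : Set G)).Normal := inferInstance
    by_cases hT : X ⊓ centralizer (Y : Set G) = Z1 X
    · apply le_antisymm _ hYX
      intro x hx
      obtain ⟨u, hu, c, hc, rfl⟩ := H1.Coprime2.exists_mul_of_mem B X (htop X B) hcopX hsX hx
      rw [← hYd] at hu
      refine mul_mem hu (hZY ?_)
      rw [← hT]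
      refine mem_inf.2 ⟨(mem_inf.1 hc).1, ?_⟩
      rw [mem_centralizer_iff]
      intro s hs
      exact (hCW c (mem_inf.1 hc).1 (fun b hb => mem_centralizer_iff.1 (mem_inf.1 hc).2 b hb) s
        (hWtop s hs)).symm
    · exfalso
      have hlt : Z1 X < X ⊓ centralizer (Y : Set G) := by
        refine lt_of_le_of_ne ?_ (Ne.symm hT)
        refine le_inf Z1_le ?_
        intro z hz
        rw [mem_centralizer_iff]
        intro s hs
        exact hz.2.1 s (hYX hs)
      obtain ⟨w, hw, hwZ, hwE⟩ := exists_mod h.amb.two hlt inf_le_left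
      have hwX := hwE.1
      have hwY : ∀ y ∈ Y, y * w = w * y := fun y hy =>
        mem_centralizer_iff.1 (mem_inf.1 hw).2 y hy
      have hww : w * w ≠ 1 := fun h1 => h.no_inv hwX hwZ h1 hwE.2.2
      obtain ⟨y₁, hy₁, hy₁Z⟩ : ∃ y₁ ∈ Y, y₁ ∉ Z1 X := by
        by_contra hcon
        push Not at hcon
        have h1 : Nat.card Y ≤ Nat.card (Z1 X) := card_le_of_le hcon
        have h2 := h.amb.Z1_card
        omega
      have hy₁s : y₁ * y₁ ∈ Z1 X := (hZ _).1 (hC2.sq ⟨y₁, hy₁⟩)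
      have hy₁1 : y₁ * y₁ ≠ 1 := by
        intro h1
        exact hy₁Z ((hZ ⟨y₁, hy₁⟩).1 (hno ⟨y₁, hy₁⟩ (Subtype.ext h1)))
      obtain ⟨y, hy, hyw⟩ : ∃ y ∈ Y, y * y = w * w := by
        rcases h.trans hy₁s hwE.2.1 hy₁1 hww with h1 | h1 | h1
        · exact ⟨y₁, hy₁, h1.symm⟩
        · exact ⟨σ y₁, h.mem hy₁, by rw [h1, map_mul]⟩
        · exact ⟨σ (σ y₁), h.mem (h.mem hy₁), by rw [h1, map_mul, map_mul]⟩
      refine h.no_inv (t := w * y) (X.mul_mem hwX (hYX hy)) ?_ ?_ ?_
      · intro h1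
        apply hwZ
        have h2 : w ∈ Y := by
          have : w = (w * y) * y⁻¹ := by group
          rw [this]; exact mul_mem (hZY h1) (inv_mem hy)
        refine (hZ ⟨w, h2⟩).1 ?_
        rw [mem_center_iff]
        intro s
        exact Subtype.ext (hwY s s.2)
      · calc w * y * (w * y) = w * (y * w) * y := by group
          _ = w * (w * y) * y := by rw [hwY y hy]
          _ = (w * w) * (y * y) := by group
          _ = 1 := by rw [hyw]; exact hwE.2.1.2.2
      · intro x hx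
        rw [cr]
        exact mul_mem (hwE.2.2 x hx) (Z1_normal.conj_mem _ (hWeq y hy x hx) w)
  rw [hXY]
  exact hConY

end H57.Sc
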