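import Cfsg.Agent.Lib.H57.Sc8
import Cfsg.Agent.Lib.H56.Heis
import Cfsg.Agent.S1894

/-! Main theorem of S1904 in ambient form, and transport. -/

set_option autoImplicit false

namespace H57.Sc

open Subgroup
open scoped commutatorElement

theorem Amb.main {G : Type*} [Group G] {X A : Subgroup G} [Finite G] (h : Amb X A)
    (hnc : ∃ x ∈ X, ∃ y ∈ X, x * y ≠ y * x) : Concl X := by
  have hXn := h.nX
  by_cases hAZ : ∀ b ∈ A, ∀ z ∈ Z1 X, b * z = z * b
  · exact h.caseI hnc hAZ
  push Not at hAZ
  obtain ⟨a, ha, z0, hz0, hne⟩ := hAZ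
  have hII := h.exists_II ha hz0 hne
  have hcn : (centralizer (Z1 X : Set G)).Normal := inferInstance
  have hBm : ∀ b ∈ A ⊓ centralizer (Z1 X : Set G), ∀ z ∈ Z1 X, b * z = z * b := fun b hb z hz =>
    (mem_centralizer_iff.1 (mem_inf.1 hb).2 z hz).symm
  by_cases hB1 : ⁅X, A ⊓ centralizer (Z1 X : Set G)⁆ = ⊥
  · obtain ⟨N, hN⟩ := exists_maxN X
    have h2 : II2 X A a (MulAut.conj a) z0 := by
      refine ⟨hII, ?_⟩
      intro b hb hbz x hx
      refine (comm_of_bot hB1 x hx b ?_).symm
      refine mem_inf.2 ⟨hb, ?_⟩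
      rw [mem_centralizer_iff]
      intro z hz
      exact (hbz z hz).symm
    have h3 : II3 X A N a (MulAut.conj a) z0 := ⟨h2, hN, hnc⟩
    exact h3.concl
  · refine hII.caseB inf_le_left ?_ hBm hB1
    apply H1.Coprime.le_normalizer_of_conj_mem
    intro b hb k hk
    exact mem_inf.2 ⟨mul_mem (mul_mem hb (mem_inf.1 hk).1) (inv_mem hb),
      hcn.conj_mem k (mem_inf.1 hk).2 b⟩

theorem special_congr {G H : Type*} [Group G] [Group H] (e : G ≃* H) {p : ℕ}
    (h : Cfsg.IsSpecial p G) : Cfsg.IsSpecial p H := by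
  have hf : frattini H = (frattini G).map e.toMonoidHom := by
    apply le_antisymm
    · intro x hx
      have h1 := frattini_le_comap_frattini_of_surjective (φ := e.symm.toMonoidHom)
        e.symm.surjective hx
      exact ⟨e.symm x, h1, e.apply_symm_apply x⟩
    · rintro _ ⟨x, hx, rfl⟩
      exact frattini_le_comap_frattini_of_surjective (φ := e.toMonoidHom) e.surjective hx
  have hc : center H = (center G).map e.toMonoidHom := by
    ext x
    constructor
    · intro hx
      refine ⟨e.symm x, ?_, e.apply_symm_apply x⟩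
      rw [SetLike.mem_coe, mem_center_iff]
      intro g
      apply e.injective
      rw [map_mul, map_mul, e.apply_symm_apply]
      exact mem_center_iff.1 hx (e g)
    · rintro ⟨x, hx, rfl⟩
      rw [mem_center_iff]
      intro g
      obtain ⟨g, rfl⟩ := e.surjective g
      change e g * e x = e x * e g
      rw [← map_mul, ← map_mul, mem_center_iff.1 hx g]
  have hd : _root_.commutator H = (_root_.commutator G).map e.toMonoidHom := by
    rw [_root_.commutator_def, _root_.commutator_def, map_commutator,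
      map_top_of_surjective _ e.surjective]
  refine ⟨h.1.of_equiv e, ?_, ?_⟩
  · rw [hf, hc, h.2.1]
  · rw [hd, hc, h.2.2]

theorem card_invol_congr {G H : Type*} [Group G] [Group H] (e : G ≃* H) :
    Nat.card {x : G // orderOf x = 2} = Nat.card {x : H // orderOf x = 2} := by
  apply Nat.card_congr
  refine e.toEquiv.subtypeEquiv ?_
  intro x
  change orderOf x = 2 ↔ orderOf (e x) = 2
  rw [MulEquiv.orderOf_eq]

theorem Concl.congr {G H : Type*} [Group G] [Group H] [Finite G] (e : G ≃* H) (h : Concl G) :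
    Concl H := by
  rcases h with ⟨⟨f⟩⟩ | ⟨h1, h2, h3, h4⟩ | ⟨h1, h2, h3⟩
  · exact Or.inl ⟨e.symm.trans f⟩
  · refine Or.inr (Or.inl ⟨special_congr e h1, ?_, ?_, ?_⟩)
    · rw [← h2]; exact (Nat.card_congr e.toEquiv).symm
    · rw [← h3]; exact (card_invol_congr e).symm
    · intro x hx
      obtain ⟨y, rfl⟩ := e.surjective x
      rw [MulEquiv.orderOf_eq] at hx
      have h5 := h4 y hx
      rw [mem_center_iff] at h5 ⊢
      intro g
      obtain ⟨g, rfl⟩ := e.surjective g
      rw [← map_mul, ← map_mul, h5 g]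
  · have : Fact (Nat.Prime 2) := ⟨Nat.prime_two⟩
    refine Or.inr (Or.inr ⟨H56.Heis.isExtraspecial_congr e h1, ?_, ?_⟩)
    · rw [← h2]; exact (Nat.card_congr e.toEquiv).symm
    · rw [← h3]; exact (card_invol_congr e).symm

theorem final {X : Type*} [Group X] [Finite X] (hX : IsPGroup 2 X) (hna : ¬ IsMulCommutative X)
    (hscn : ¬ ∃ A : Subgroup X, A.Normal ∧ Subgroup.centralizer (A : Set X) = A ∧
      ∃ E : Subgroup X, E ≤ A ∧ Cfsg.IsElementaryAbelian 2 E ∧ Nat.card E = 8)
    (A : Subgroup (MulAut X)) (hA : Odd (Nat.card A))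
    (hXA : Subgroup.closure {g : X | ∃ φ ∈ A, ∃ x : X, g = x⁻¹ * φ x} = ⊤) : Concl X := by
  have : Fact (Nat.Prime 2) := ⟨Nat.prime_two⟩
  have hfA : Finite (MulAut X) := Finite.of_injective (fun e : MulAut X => (e : X → X))
    (fun a b h => MulEquiv.ext (fun x => congrFun h x))
  have hfG : Finite (X ⋊[A.subtype] A) := Finite.of_equiv (X × A)
    SemidirectProduct.equivProd.symm
  have hncX : ∃ x y : X, x * y ≠ y * x := by
    by_contra hcon
    push Not at hcon
    exact hna ⟨⟨hcon⟩⟩
  obtain ⟨x1, y1, hxy1⟩ := hncX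
  let i : X →* X ⋊[A.subtype] A := SemidirectProduct.inl
  let j : A →* X ⋊[A.subtype] A := SemidirectProduct.inr
  have hi : Function.Injective i := SemidirectProduct.inl_injective
  have hj : Function.Injective j := SemidirectProduct.inr_injective
  have hiX : IsPGroup 2 i.range := hX.of_surjective i.rangeRestrict i.rangeRestrict_surjective
  have hni : i.range.Normal := by
    have : i.range = (SemidirectProduct.rightHom : X ⋊[A.subtype] A →* A).ker :=
      SemidirectProduct.range_inl_eq_ker_rightHom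
    rw [this]; infer_instance
  have hamb : Amb i.range j.range := by
    refine ⟨hni, ?_, hiX, ?_, ?_, ?_⟩
    · rw [eq_top_iff]
      intro g _
      have : g = i g.left * j g.right := (SemidirectProduct.inl_left_mul_inr_right g).symm
      rw [this]
      exact Subgroup.mul_mem_sup ⟨_, rfl⟩ ⟨_, rfl⟩
    · have h1 : Nat.card j.range = Nat.card A :=
        (Nat.card_congr (MonoidHom.ofInjective hj).toEquiv).symm
      rw [h1]; exact Nat.coprime_two_right.2 hA
    · apply le_antisymm
      · exact comm_le_of_norm (by rw [normalizer_eq_top]; exact le_top)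
      · have h1 : i.range = (closure {g : X | ∃ φ ∈ A, ∃ x : X, g = x⁻¹ * φ x}).map i := by
          rw [hXA, ← MonoidHom.range_eq_map]
        have h5 : (closure {g : X | ∃ φ ∈ A, ∃ x : X, g = x⁻¹ * φ x}).map i ≤
            ⁅i.range, j.range⁆ := by
          rw [MonoidHom.map_closure, closure_le]
          rintro _ ⟨_, ⟨φ, hφ, x, rfl⟩, rfl⟩
          have h2 : i (x⁻¹ * φ x) = ⁅i x⁻¹, j ⟨φ, hφ⟩⁆ := by
            have h3 : i (φ x) = j ⟨φ, hφ⟩ * i x * (j ⟨φ, hφ⟩)⁻¹ := by
              rw [← map_inv]
              exact SemidirectProduct.inl_aut (φ := A.subtype) ⟨φ, hφ⟩ x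
            rw [map_mul, h3, commutatorElement_def, map_inv, inv_inv]; group
          rw [h2]
          exact commutator_mem_commutator ⟨_, rfl⟩ ⟨_, rfl⟩
        exact h1.le.trans h5
    · intro E hEX hXE hEc hE2
      by_contra hcon
      push Not at hcon
      have hE' : Nat.card (E.comap i) = Nat.card E := by
        have h1 : (E.comap i).map i = E := by
          rw [map_comap_eq]; exact inf_eq_right.2 hEX
        have h2 := card_map_of_injective hi (K := E.comap i)
        rw [h1] at h2
        exact h2.symm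
      have hEn : (E.comap i).Normal := by
        constructor
        intro n hn g
        rw [mem_comap] at hn ⊢
        rw [map_mul, map_mul, map_inv]
        exact (mem_normalizer_iff.1 (hXE ⟨g, rfl⟩) _).1 hn
      have hcm : ∀ a ∈ E.comap i, ∀ b ∈ E.comap i, a * b = b * a := by
        intro a ha b hb
        apply hi
        rw [map_mul, map_mul]
        exact hEc _ ha _ hb
      have hsq : ∀ a ∈ E.comap i, a * a = 1 := by
        intro a ha
        apply hi
        rw [map_mul, map_one]
        exact hE2 _ ha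
      have hEp : IsPGroup 2 (E.comap i) := hX.to_subgroup _
      obtain ⟨n, hn⟩ := IsPGroup.iff_card.1 hEp
      have hn3 : 3 ≤ n := by
        by_contra h1
        have h2 : 2 ^ n ≤ 2 ^ 2 := Nat.pow_le_pow_right (by norm_num) (by omega)
        rw [← hn, hE'] at h2
        omega
      have h8 : 2 ^ 3 ∣ Nat.card (E.comap i) := by rw [hn]; exact pow_dvd_pow 2 hn3
      obtain ⟨F, hF⟩ := Sylow.exists_subgroup_card_pow_prime 2 h8
      obtain ⟨C, hCn, hEC, hC1, hC2, hC3⟩ := Cfsg.Agent.S1894.result (P := X) hX ⊤ (E.comap i)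
        le_top ⟨⟨fun a b => Subtype.ext (hcm a a.2 b b.2)⟩⟩
      apply hscn
      refine ⟨C, hCn, ?_, F.map (E.comap i).subtype, ?_, ⟨?_, ?_⟩, ?_⟩
      · rw [top_inf_eq] at hC3; exact hC3
      · exact (map_subtype_le F).trans hEC
      · refine ⟨⟨?_⟩⟩
        rintro ⟨_, a, ha, rfl⟩ ⟨_, b, hb, rfl⟩
        exact Subtype.ext (hcm a a.2 b b.2)
      · rintro _ ⟨a, ha, rfl⟩
        rw [pow_two]
        exact hsq a a.2
      · rw [card_map_of_injective (subtype_injective _), hF]; norm_num
  have hmain := hamb.main ⟨i x1, ⟨_, rfl⟩, i y1, ⟨_, rfl⟩, fun h1 => hxy1 (by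
    rw [← map_mul, ← map_mul] at h1
    exact hi h1)⟩
  exact hmain.congr (MonoidHom.ofInjective hi).symm

end H57.Sc
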