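import Cfsg.Agent.Lib.H57.Td2
import Cfsg.Agent.Lib.H57.Sc4
import Cfsg.Agent.Lib.H61.A8Emb

/-! A `2`-constrained group of sectional `2`-rank at most `4` does not involve `S₆` modulo its
largest normal `2`-subgroup. -/

set_option autoImplicit false

namespace H57.Td

open Subgroup Cfsg

section Planes
variable {V : Type*} [Group V] [Finite V]

theorem range2 (hc : ∀ a b : V, a * b = b * a) (h2 : ∀ a : V, a * a = 1) (h16 : Nat.card V = 16)
    {γ : MulAut V} (h8 : Nat.card (Fx γ) = 8) :
    ∃ v : V, v ≠ 1 ∧ (∃ x, x * γ x = v) ∧ ∀ x, x * γ x = 1 ∨ x * γ x = v := by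
  have hne : Fx γ ≠ ⊤ := by
    intro h
    rw [h, card_top, h16] at h8
    omega
  obtain ⟨x0, -, hx0⟩ := SetLike.exists_of_lt (lt_top_iff_ne_top.2 hne)
  have hi : (Fx γ).index = 2 := by
    have := (Fx γ).card_mul_index; rw [h8, h16] at this; omega
  have hinv : ∀ a : V, a⁻¹ = a := fun a => inv_eq_of_mul_eq_one_right (h2 a)
  refine ⟨x0 * γ x0, ?_, ⟨x0, rfl⟩, ?_⟩
  · intro h
    apply hx0
    rw [mem_Fx, ← hinv x0]
    rw [hinv x0]
    have := eq_inv_of_mul_eq_one_right h
    rw [this, hinv]
  · intro x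
    by_cases hx : x ∈ Fx γ
    · left
      rw [mem_Fx.1 hx, h2]
    · right
      have h3 : x * x0 ∈ Fx γ := by
        rw [mul_mem_iff_of_index_two hi]
        exact ⟨fun h => absurd h hx, fun h => absurd h hx0⟩
      rw [mem_Fx, map_mul] at h3
      -- γ x * γ x0 = x * x0
      have h4 : x * γ x * (x0 * γ x0) = 1 := by
        calc x * γ x * (x0 * γ x0) = x * (γ x * (x0 * γ x0)) := by rw [mul_assoc]
          _ = x * (γ x * (γ x0 * x0)) := by rw [hc x0 (γ x0)]
          _ = x * (γ x * γ x0 * x0) := by rw [mul_assoc (γ x)]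
          _ = x * (x * x0 * x0) := by rw [h3]
          _ = (x * x) * (x0 * x0) := by simp only [mul_assoc]
          _ = 1 := by rw [h2, h2, one_mul]
      rw [← hinv (x * γ x)]
      exact (eq_inv_of_mul_eq_one_right h4).symm

omit [Finite V] in
theorem v_fix {γ δ : MulAut V} (hcm : δ * γ = γ * δ) {v : V} (hv : v ≠ 1) (hx : ∃ x, x * γ x = v)
    (hr : ∀ x, x * γ x = 1 ∨ x * γ x = v) : δ v = v := by
  obtain ⟨x, hx⟩ := hx
  have h1 : δ (γ x) = γ (δ x) := congrArg (fun f : MulAut V => f x) hcm
  have h3 : δ v = δ x * γ (δ x) := by rw [← hx, map_mul, h1]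
  rcases hr (δ x) with h4 | h4
  · exfalso
    rw [h4] at h3
    apply hv
    exact δ.injective (by rw [h3, map_one])
  · rw [h3, h4]

/-- the common plane -/
theorem planes (hc : ∀ a b : V, a * b = b * a) (h2 : ∀ a : V, a * a = 1) (h16 : Nat.card V = 16)
    (α : Fin 3 → MulAut V) (hcm : ∀ i j, α i * α j = α j * α i)
    (h8 : ∀ i, Nat.card (Fx (α i)) = 8) (h4 : ∀ i j, i ≠ j → Nat.card (Fx (α i * α j)) = 4) :
    ∃ U : Subgroup V, Nat.card U = 4 ∧ (∀ i x, x * α i x ∈ U) ∧ (∀ i, U ≤ Fx (α i)) ∧
      (∀ i j, i ≠ j → Fx (α i * α j) = U) := by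
  have hinv : ∀ a : V, a⁻¹ = a := fun a => inv_eq_of_mul_eq_one_right (h2 a)
  choose v hv hvx hvr using fun i => range2 hc h2 h16 (h8 i)
  have hvf : ∀ i j, α j (v i) = v i := fun i j => v_fix (hcm j i) (hv i) (hvx i) (hvr i)
  have hinf : ∀ i j, i ≠ j → Fx (α i) ⊓ Fx (α j) = Fx (α i * α j) := by
    intro i j hij
    apply eq_of_le_of_card_ge inf_le_mul
    rw [h4 i j hij]
    exact two_tv h16 (h8 i) (h8 j)
  have h01 : v 0 ≠ v 1 := by
    intro h
    -- the hom `x ↦ x * α₀ (α₁ x)` has range in `{1, v}`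
    have h3 : ∀ x, x * α 0 (α 1 x) = 1 ∨ x * α 0 (α 1 x) = v 0 := by
      intro x
      have h5 : x * α 0 (α 1 x) = (x * α 1 x) * (α 1 x * α 0 (α 1 x)) := by
        calc x * α 0 (α 1 x) = x * (α 1 x * α 1 x) * α 0 (α 1 x) := by rw [h2, mul_one]
          _ = _ := by simp only [mul_assoc]
      rw [h5]
      rcases hvr 1 x with h6 | h6 <;> rcases hvr 0 (α 1 x) with h7 | h7 <;> rw [h6, h7]
      · left; exact one_mul 1
      · right; exact one_mul _
      · right; rw [mul_one, h]
      · left; rw [← h, h2]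
    let f : V →* V :=
      { toFun := fun x => x * α 0 (α 1 x)
        map_one' := by rw [map_one, map_one, one_mul]
        map_mul' := by
          intro x y
          rw [map_mul, map_mul]
          calc x * y * (α 0 (α 1 x) * α 0 (α 1 y)) = x * (y * α 0 (α 1 x)) * α 0 (α 1 y) := by
                simp only [mul_assoc]
            _ = x * (α 0 (α 1 x) * y) * α 0 (α 1 y) := by rw [hc y]
            _ = _ := by simp only [mul_assoc] }
    have hker : f.ker = Fx (α 0 * α 1) := by
      ext x
      rw [MonoidHom.mem_ker, mem_Fx]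
      change x * α 0 (α 1 x) = 1 ↔ α 0 (α 1 x) = x
      constructor
      · intro h5
        have := eq_inv_of_mul_eq_one_right h5
        rw [this, hinv]
      · intro h5
        rw [h5, h2]
    have hrange : Nat.card f.range ≤ 2 := by
      have h5 : (f.range : Set V) ⊆ {1, v 0} := by
        rintro _ ⟨x, rfl⟩
        rcases h3 x with h6 | h6
        · left; exact h6
        · right; exact h6
      have h6 := Set.ncard_le_ncard h5 (Set.toFinite _)
      have h7 := Set.ncard_insert_le (1 : V) {v 0}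
      rw [Set.ncard_singleton] at h7
      calc Nat.card f.range = (f.range : Set V).ncard := rfl
        _ ≤ 2 := h6.trans h7
    have h5 := f.ker.card_mul_index
    rw [index_ker, hker, h4 0 1 (by decide), h16] at h5
    omega
  let U := Fx (α 0 * α 1)
  have hU4 : Nat.card U = 4 := h4 0 1 (by decide)
  have hvU : ∀ i, v i ∈ U := by
    intro i
    change v i ∈ Fx (α 0 * α 1)
    rw [← hinf 0 1 (by decide)]
    exact mem_inf.2 ⟨hvf i 0, hvf i 1⟩
  have hUc : U = closure {v 0, v 1} := by
    symm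
    apply eq_of_le_of_card_ge
    · rw [closure_le]
      rintro _ (rfl | rfl)
      · exact hvU 0
      · exact hvU 1
    · rw [hU4]
      have h5 : ({1, v 0, v 1, v 0 * v 1} : Set V) ⊆ closure {v 0, v 1} := by
        have ha : v 0 ∈ closure {v 0, v 1} := subset_closure (by simp)
        have hb : v 1 ∈ closure {v 0, v 1} := subset_closure (by simp)
        rintro _ (rfl | rfl | rfl | rfl)
        · exact one_mem _
        · exact ha
        · exact hb
        · exact mul_mem ha hb
      have h6 := Set.ncard_le_ncard h5 (Set.toFinite _)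
      have h7 : ({1, v 0, v 1, v 0 * v 1} : Set V).ncard = 4 := by
        have hn1 : v 1 ∉ ({v 0 * v 1} : Set V) := by
          intro h; rw [Set.mem_singleton_iff] at h
          exact hv 0 (right_eq_mul.1 h)
        have hn2 : v 0 ∉ ({v 1, v 0 * v 1} : Set V) := by
          rintro (h | h)
          · exact h01 h
          · exact hv 1 (left_eq_mul.1 h)
        have hn3 : (1 : V) ∉ ({v 0, v 1, v 0 * v 1} : Set V) := by
          rintro (h | h | h)
          · exact hv 0 h.symm
          · exact hv 1 h.symm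
          · have h8 := eq_inv_of_mul_eq_one_right h.symm
            rw [hinv] at h8
            exact h01 h8.symm
        rw [Set.ncard_insert_of_notMem hn3, Set.ncard_insert_of_notMem hn2,
          Set.ncard_insert_of_notMem hn1, Set.ncard_singleton]
      rw [h7] at h6
      exact h6
  have hUle : ∀ i, U ≤ Fx (α i) := by
    intro i
    rw [hUc, closure_le]
    rintro _ (rfl | rfl)
    · exact hvf 0 i
    · exact hvf 1 i
  refine ⟨U, hU4, ?_, hUle, ?_⟩
  · intro i x
    rcases hvr i x with h | h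
    · rw [h]; exact one_mem _
    · rw [h]; exact hvU i
  · intro i j hij
    symm
    apply eq_of_le_of_card_ge
    · rw [← hinf i j hij]; exact le_inf (hUle i) (hUle j)
    · rw [h4 i j hij, hU4]

/-- an element of order 3 commuting with a transvection -/
theorem three_fix (hc : ∀ a b : V, a * b = b * a) (h2 : ∀ a : V, a * a = 1)
    (h16 : Nat.card V = 16) {γ β : MulAut V} (h8 : Nat.card (Fx γ) = 8) (hcm : β * γ = γ * β)
    (h3 : β ^ 3 = 1) (h1 : β ≠ 1) {s p : V} (hs : s ∈ Fx γ) (hβ : β s = s * (p * γ p)) :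
    ∃ x, s = x * γ x := by
  obtain ⟨v, hv, hvx, hvr⟩ := range2 hc h2 h16 h8
  have hβv : β v = v := v_fix hcm hv hvx hvr
  have hcm' : ∀ x, β (γ x) = γ (β x) := fun x => congrArg (fun f : MulAut V => f x) hcm
  have h33 : ∀ x, β (β (β x)) = x := by
    intro x
    have := congrArg (fun f : MulAut V => f x) h3
    rw [pow_succ, pow_two] at this
    exact this
  have hγv : γ v = v := v_fix rfl hv hvx hvr
  have hβs : β s = s := by
    rcases hvr p with h | h
    · rw [hβ, h, mul_one]
    · exfalso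
      rw [h] at hβ
      have h4 : β (β s) = s := by rw [hβ, map_mul, hβ, hβv, mul_assoc, h2, mul_one]
      have h5 : β (β (β s)) = s * v := by rw [h4, hβ]
      rw [h33] at h5
      exact hv (left_eq_mul.1 h5)
  -- the restricted automorphism
  haveI : Fact (Nat.Prime 3) := ⟨Nat.prime_three⟩
  have hβi : ∀ x, β⁻¹ x = β (β x) := by
    intro x
    apply β.injective
    rw [h33]; exact MulAut.apply_inv_self V β x
  let βK : MulAut (Fx γ) :=
    { toFun := fun x => ⟨β x, by
        rw [mem_Fx, ← hcm', mem_Fx.1 x.2]⟩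
      invFun := fun x => ⟨β (β x), by
        rw [mem_Fx, ← hcm', ← hcm', mem_Fx.1 x.2]⟩
      left_inv := fun x => Subtype.ext (h33 x)
      right_inv := fun x => Subtype.ext (h33 x)
      map_mul' := fun x y => Subtype.ext (map_mul β (x : V) y) }
  have hβK : ∀ x : Fx γ, ((βK x : Fx γ) : V) = β x := fun x => rfl
  have h5 := Fx_modEq (p := 3) (α := βK) (by
    ext x
    rw [pow_succ, pow_two]
    exact h33 x)
  have h6 : Nat.card (Fx βK) = Nat.card (Fx γ ⊓ Fx β : Subgroup V) := by
    refine Nat.card_congr ⟨fun x => ⟨x.1.1, mem_inf.2 ⟨x.1.2, ?_⟩⟩,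
      fun x => ⟨⟨x.1, (mem_inf.1 x.2).1⟩, Subtype.ext (mem_inf.1 x.2).2⟩, ?_, ?_⟩
    · exact congrArg Subtype.val x.2
    · intro x; rfl
    · intro x; rfl
  rw [h8, h6] at h5
  have h7 := Fx_modEq (p := 3) h3
  rw [h16] at h7
  have h9 : Nat.card (Fx β) ≤ 4 := by
    have h10 : Nat.card (Fx β) ∣ 16 := by rw [← h16]; exact card_subgroup_dvd_card _
    have h11 : Nat.card (Fx β) ≠ 16 := by
      intro h
      apply h1
      rw [← Fx_eq_top]
      exact eq_top_of_card_eq _ (by rw [h, h16])
    have h12 : Nat.card (Fx β) ≤ 16 := Nat.le_of_dvd (by norm_num) h10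
    unfold Nat.ModEq at h7
    by_contra hcon
    push Not at hcon
    generalize Nat.card (Fx β) = c at *
    interval_cases c <;> omega
  have h10 : Nat.card (Fx γ ⊓ Fx β : Subgroup V) ≤ 4 :=
    (Nat.card_le_card_of_injective (inclusion (inf_le_right : Fx γ ⊓ Fx β ≤ Fx β))
      (inclusion_injective _)).trans h9
  have h11 : Nat.card (Fx γ ⊓ Fx β : Subgroup V) = 2 := by
    unfold Nat.ModEq at h5
    have h12 : 0 < Nat.card (Fx γ ⊓ Fx β : Subgroup V) := Nat.card_pos
    omega
  by_cases hs1 : s = 1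
  · exact ⟨1, by rw [hs1, map_one, mul_one]⟩
  · have h12 : s = v := by
      by_contra hsv
      have h13 : ({1, s, v} : Set V) ⊆ (Fx γ ⊓ Fx β : Subgroup V) := by
        rintro _ (rfl | rfl | rfl)
        · exact one_mem _
        · exact mem_inf.2 ⟨hs, hβs⟩
        · exact mem_inf.2 ⟨hγv, hβv⟩
      have h14 := Set.ncard_le_ncard h13 (Set.toFinite _)
      have h15 : ({1, s, v} : Set V).ncard = 3 := by
        rw [Set.ncard_insert_of_notMem, Set.ncard_pair hsv]
        rintro (h | h)
        · exact hs1 h.symm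
        · exact hv h.symm
      rw [h15] at h14
      have h16 : ((Fx γ ⊓ Fx β : Subgroup V) : Set V).ncard = 2 := h11
      omega
    obtain ⟨x, hx⟩ := hvx
    exact ⟨x, by rw [h12, hx]⟩

end Planes

end H57.Td
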