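import Cfsg.Agent.Lib.H57.Td3

/-! A `2`-constrained group of sectional `2`-rank at most `4` does not involve `S₆` modulo its
largest normal `2`-subgroup. -/

set_option autoImplicit false

namespace H57.Td

open Subgroup Cfsg

theorem contra {X V : Type*} [Group X] [Finite X] [Group V] [Finite V] (P : Subgroup X) [P.Normal]
    (hc : ∀ a b : V, a * b = b * a) (h2 : ∀ a : V, a * a = 1) (hV : Nat.card V ∣ 16)
    (π : ↥P →* V) (hπ : Function.Surjective π) (act : X →* MulAut V)
    (hact : ∀ (x : X) (q : ↥P), act x (π q) = π (MulAut.conjNormal x q)) (hker : act.ker = P)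
    (h4 : SectionalPRankLE 2 4 X) (ψ : P6 →* X ⧸ P) (hψ : Function.Injective ψ) : False := by
  have hinv : ∀ a : V, a⁻¹ = a := fun a => inv_eq_of_mul_eq_one_right (h2 a)
  have hle : P ≤ act.ker := hker.ge
  let φ : P6 →* MulAut V := (QuotientGroup.lift P act hle).comp ψ
  have hlift : Function.Injective (QuotientGroup.lift P act hle) := by
    rw [← MonoidHom.ker_eq_bot_iff, QuotientGroup.ker_lift, hker, QuotientGroup.map_mk'_self]
  have hφ : Function.Injective φ := hlift.comp hψ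
  obtain ⟨h16, t, g, ht2, htc, ht8, ht4, hg, htinj⟩ := exists_three hc h2 hV φ hφ
  choose x hx using fun i => QuotientGroup.mk_surjective (s := P) (ψ (t i))
  choose y hy using fun i => QuotientGroup.mk_surjective (s := P) (ψ (g i))
  have hφx : ∀ i, φ (t i) = act (x i) := by
    intro i
    change QuotientGroup.lift P act hle (ψ (t i)) = _
    rw [← hx i]; rfl
  have hφy : ∀ i, φ (g i) = act (y i) := by
    intro i
    change QuotientGroup.lift P act hle (ψ (g i)) = _
    rw [← hy i]; rfl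
  obtain ⟨U, hU4, hUc, hUf, hUeq⟩ := planes hc h2 h16 (fun i => act (x i))
    (fun i j => by rw [← hφx, ← hφx, ← map_mul, ← map_mul, htc])
    (fun i => by rw [← hφx]; exact ht8 i)
    (fun i j hij => by rw [← hφx, ← hφx, ← map_mul]; exact ht4 i j hij)
  have hπact : ∀ (z : X) (hz : z * z ∈ P), act z (π ⟨z * z, hz⟩) = π ⟨z * z, hz⟩ := by
    intro z hz
    rw [hact]
    congr 1
    apply Subtype.ext
    rw [MulAut.conjNormal_apply]
    change z * (z * z) * z⁻¹ = z * z
    group
  have hxx : ∀ i, x i * x i ∈ P := by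
    intro i
    rw [← QuotientGroup.eq_one_iff, QuotientGroup.mk_mul, hx, ← map_mul, ht2, map_one]
  have hact2 : ∀ (i : Fin 3) (v : V), act (x i) (act (x i) v) = v := by
    intro i v
    have h3 : act (x i) * act (x i) = 1 := by
      rw [← hφx, ← map_mul, ht2, map_one]
    exact congrArg (fun f : MulAut V => f v) h3
  have hsU : ∀ i, π ⟨x i * x i, hxx i⟩ ∈ U := by
    intro i
    obtain ⟨hg3, hg1, hgt⟩ := hg i
    have hp : (x i)⁻¹ * (y i * x i * (y i)⁻¹) ∈ P := by
      rw [← QuotientGroup.eq_one_iff]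
      simp only [QuotientGroup.mk_mul, QuotientGroup.mk_inv, hx, hy]
      rw [← map_mul, hgt, map_mul]
      group
    have h5 : act (y i) (π ⟨x i * x i, hxx i⟩) = π ⟨x i * x i, hxx i⟩ *
        (π ⟨_, hp⟩ * act (x i) (π ⟨_, hp⟩)) := by
      have h6 : act (x i) (π ⟨_, hp⟩) = (act (x i))⁻¹ (π ⟨_, hp⟩) := by
        apply (act (x i)).injective
        rw [hact2]; exact (MulAut.apply_inv_self V _ _).symm
      rw [h6, ← map_inv, hact, hact, hc (π ⟨_, hp⟩), ← map_mul, ← map_mul]
      congr 1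
      apply Subtype.ext
      simp only [Subgroup.coe_mul, MulAut.conjNormal_apply]
      group
    obtain ⟨z, hz⟩ := three_fix hc h2 h16 (γ := act (x i)) (β := act (y i))
      (by rw [← hφx]; exact ht8 i)
      (by rw [← hφx, ← hφy, ← map_mul, ← map_mul, hgt])
      (by rw [← hφy, ← map_pow, hg3, map_one])
      (by rw [← hφy]; intro h; exact hg1 (hφ (by rw [h, map_one]))) (hπact _ (hxx i)) h5
    rw [hz]
    exact hUc i z
  have hxyP : ∀ i j, (x i * x j) * (x i * x j) ∈ P := by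
    intro i j
    rw [← QuotientGroup.eq_one_iff]
    simp only [QuotientGroup.mk_mul, hx]
    rw [← map_mul, ← map_mul]
    have : t i * t j * (t i * t j) = 1 := by
      calc t i * t j * (t i * t j) = t i * (t j * t i) * t j := by simp only [mul_assoc]
        _ = t i * (t i * t j) * t j := by rw [htc j i]
        _ = (t i * t i) * (t j * t j) := by simp only [mul_assoc]
        _ = 1 := by rw [ht2, ht2, one_mul]
    rw [this, map_one]
  have hxyU : ∀ i j, i ≠ j → π ⟨(x i * x j) * (x i * x j), hxyP i j⟩ ∈ U := by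
    intro i j hij
    rw [← hUeq i j hij, mem_Fx, ← map_mul]
    exact hπact _ _
  -- the subgroup `N`
  let N : Subgroup X := (U.comap π).map P.subtype
  have hNP : N ≤ P := map_subtype_le _
  have hmemN : ∀ {z : X} (hz : z ∈ P), z ∈ N ↔ π ⟨z, hz⟩ ∈ U := by
    intro z hz
    constructor
    · rintro ⟨w, hw, hwz⟩
      have : w = ⟨z, hz⟩ := Subtype.ext hwz
      rw [← this]; exact hw
    · intro h
      exact ⟨⟨z, hz⟩, h, rfl⟩
  have hactP : ∀ z ∈ P, act z = 1 := fun z hz => hker.ge hz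
  -- elements fixing `U`
  have hnorm : ∀ z : X, (∀ u ∈ U, act z u = u) → z ∈ normalizer (N : Set X) := by
    intro z hz
    have key : ∀ w : X, (∀ u ∈ U, act w u = u) → ∀ n ∈ N, w * n * w⁻¹ ∈ N := by
      intro w hw n hn
      have hnP := hNP hn
      have hwP : w * n * w⁻¹ ∈ P := (inferInstance : P.Normal).conj_mem n hnP w
      rw [hmemN hwP]
      have h3 : (⟨w * n * w⁻¹, hwP⟩ : P) = MulAut.conjNormal w ⟨n, hnP⟩ := by
        apply Subtype.ext; simp
      rw [h3, ← hact, hw _ ((hmemN hnP).1 hn)]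
      exact (hmemN hnP).1 hn
    have hz' : ∀ u ∈ U, act z⁻¹ u = u := by
      intro u hu
      apply (act z).injective
      rw [map_inv, hz u hu]; exact MulAut.apply_inv_self V _ _
    rw [mem_normalizer_iff]
    intro n
    constructor
    · exact key z hz n
    · intro h
      have h3 := key z⁻¹ hz' _ h
      have h4 : z⁻¹ * (z * n * z⁻¹) * z⁻¹⁻¹ = n := by group
      rwa [h4] at h3
  have hPM : P ≤ normalizer (N : Set X) := by
    intro z hz
    apply hnorm
    intro u _
    rw [hactP z hz]; rfl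
  have hxM : ∀ i, x i ∈ normalizer (N : Set X) := by
    intro i
    apply hnorm
    intro u hu
    exact hUf i hu
  have hNM : N ≤ normalizer (N : Set X) := hNP.trans hPM
  -- the elementary abelian section
  let M : Subgroup X := normalizer (N : Set X)
  haveI hNn : (N.subgroupOf M).Normal := normal_in_normalizer
  let q : M →* M ⧸ N.subgroupOf M := QuotientGroup.mk' _
  have hq1 : ∀ m : M, q m = 1 ↔ (m : X) ∈ N := by
    intro m
    change (QuotientGroup.mk' (N.subgroupOf M)) m = 1 ↔ _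
    rw [QuotientGroup.mk'_apply, QuotientGroup.eq_one_iff, mem_subgroupOf]
  let S : Set (M ⧸ N.subgroupOf M) := q '' {m : M | (m : X) ∈ P ∨ ∃ i, (m : X) = x i}
  have hPP : ∀ a ∈ P, ∀ b ∈ P, a * b * a⁻¹ * b⁻¹ ∈ N := by
    intro a ha b hb
    have hab : a * b * a⁻¹ * b⁻¹ ∈ P := mul_mem (mul_mem (mul_mem ha hb) (inv_mem ha)) (inv_mem hb)
    rw [hmemN hab]
    have : (⟨a * b * a⁻¹ * b⁻¹, hab⟩ : P) = ⟨a, ha⟩ * ⟨b, hb⟩ * ⟨a, ha⟩⁻¹ * ⟨b, hb⟩⁻¹ := rfl
    rw [this, map_mul, map_mul, map_mul, map_inv, map_inv, hinv, hinv, hc (π ⟨a, ha⟩) (π ⟨b, hb⟩),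
      mul_assoc (π ⟨b, hb⟩), h2, mul_one, h2]
    exact one_mem _
  have hPp2 : ∀ a ∈ P, a * a ∈ N := by
    intro a ha
    rw [hmemN (mul_mem ha ha)]
    have : (⟨a * a, mul_mem ha ha⟩ : P) = ⟨a, ha⟩ * ⟨a, ha⟩ := rfl
    rw [this, map_mul, h2]
    exact one_mem _
  have hPx : ∀ a ∈ P, ∀ i, a * x i * a⁻¹ * (x i)⁻¹ ∈ N := by
    intro a ha i
    have h3 : x i * a⁻¹ * (x i)⁻¹ ∈ P :=
      (inferInstance : P.Normal).conj_mem a⁻¹ (inv_mem ha) (x i)
    have h5 : a * x i * a⁻¹ * (x i)⁻¹ = a * (x i * a⁻¹ * (x i)⁻¹) := by group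
    have h6 : a * (x i * a⁻¹ * (x i)⁻¹) ∈ P := mul_mem ha h3
    rw [h5, hmemN h6]
    have h7 : (⟨a * (x i * a⁻¹ * (x i)⁻¹), h6⟩ : P) = ⟨a, ha⟩ * MulAut.conjNormal (x i) ⟨a, ha⟩⁻¹ := by
      apply Subtype.ext
      rw [coe_mul, MulAut.conjNormal_apply]
      rfl
    rw [h7, map_mul, ← hact, map_inv π, hinv]
    exact hUc i _
  have hcomm_symm : ∀ a ∈ M, ∀ b ∈ M, a * b * a⁻¹ * b⁻¹ ∈ N → b * a * b⁻¹ * a⁻¹ ∈ N := by
    intro a _ b _ h
    have := inv_mem h
    have h5 : (a * b * a⁻¹ * b⁻¹)⁻¹ = b * a * b⁻¹ * a⁻¹ := by group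
    rwa [h5] at this
  have hxx2 : ∀ i, x i * x i ∈ N := fun i => (hmemN (hxx i)).2 (hsU i)
  have hxy2 : ∀ i j, i ≠ j → (x i * x j) * (x i * x j) ∈ N :=
    fun i j hij => (hmemN (hxyP i j)).2 (hxyU i j hij)
  -- conversion
  have hqc : ∀ a b : M, (a : X) * b * (a : X)⁻¹ * (b : X)⁻¹ ∈ N → q a * q b = q b * q a := by
    intro a b h
    have h3 : q (a * b * a⁻¹ * b⁻¹) = 1 := (hq1 _).2 h
    rw [map_mul, map_mul, map_mul, map_inv, map_inv] at h3
    calc q a * q b = (q a * q b * (q a)⁻¹ * (q b)⁻¹) * (q b * q a) := by group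
      _ = q b * q a := by rw [h3, one_mul]
  have hq2 : ∀ a : M, (a : X) * a ∈ N → q a * q a = 1 := by
    intro a h
    rw [← map_mul]
    exact (hq1 _).2 h
  have hS2 : ∀ a ∈ S, a * a = 1 := by
    rintro _ ⟨m, hm, rfl⟩
    rcases hm with hm | ⟨i, hm⟩
    · exact hq2 m (hPp2 _ hm)
    · exact hq2 m (by rw [hm]; exact hxx2 i)
  have hSc : ∀ a ∈ S, ∀ b ∈ S, a * b = b * a := by
    rintro _ ⟨m, hm, rfl⟩ _ ⟨n, hn, rfl⟩
    rcases hm with hm | ⟨i, hm⟩ <;> rcases hn with hn | ⟨j, hn⟩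
    · exact hqc m n (hPP _ hm _ hn)
    · exact hqc m n (by rw [hn]; exact hPx _ hm j)
    · exact (hqc n m (by rw [hm]; exact hPx _ hn i)).symm
    · by_cases hij : i = j
      · have : m = n := Subtype.ext (by rw [hm, hn, hij])
        rw [this]
      · have h3 : q m * q m = 1 := hq2 m (by rw [hm]; exact hxx2 i)
        have h5 : q n * q n = 1 := hq2 n (by rw [hn]; exact hxx2 j)
        have h6 : q (m * n) * q (m * n) = 1 := hq2 (m * n) (by
          rw [coe_mul, hm, hn]; exact hxy2 i j hij)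
        rw [map_mul] at h6
        calc q m * q n = (q m * q n) * ((q n * q n) * (q m * q m)) := by
              rw [h3, h5, one_mul, mul_one]
          _ = q m * (q n * q n) * q n * q m * q m := by simp only [mul_assoc]
          _ = (q m * q n * q m * q m) := by rw [h5]; simp only [mul_one, mul_assoc]
          _ = q n * q m := by
              rw [mul_assoc (q m * q n), h3, mul_one]
              have h7 := eq_inv_of_mul_eq_one_right h6
              rw [mul_inv_rev] at h7
              have h8 : (q m)⁻¹ = q m := inv_eq_of_mul_eq_one_right h3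
              have h9 : (q n)⁻¹ = q n := inv_eq_of_mul_eq_one_right h5
              rw [h7, h8, h9]
  obtain ⟨hEc, hE2⟩ := H57.Sc.EA_closure hSc hS2
  let W : Subgroup X := ((closure S).comap q).map M.subtype
  have hWmem : ∀ w : X, w ∈ W ↔ ∃ hw : w ∈ M, q ⟨w, hw⟩ ∈ closure S := by
    intro w
    constructor
    · rintro ⟨m, hm, rfl⟩
      exact ⟨m.2, hm⟩
    · rintro ⟨hw, h⟩
      exact ⟨⟨w, hw⟩, h, rfl⟩
  have hPW : P ≤ W := by
    intro z hz
    rw [hWmem]
    exact ⟨hPM hz, subset_closure ⟨⟨z, hPM hz⟩, Or.inl hz, rfl⟩⟩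
  have hxW : ∀ i, x i ∈ W := by
    intro i
    rw [hWmem]
    exact ⟨hxM i, subset_closure ⟨⟨x i, hxM i⟩, Or.inr ⟨i, rfl⟩, rfl⟩⟩
  have h5 := H76.SecRank.relIndex_le h4 N W (hNP.trans hPW) (by
    intro a ha b hb
    obtain ⟨haM, ha⟩ := (hWmem a).1 ha
    obtain ⟨hbM, hb⟩ := (hWmem b).1 hb
    have h6 : q (⟨a, haM⟩ * ⟨b, hbM⟩ * ⟨a, haM⟩⁻¹ * ⟨b, hbM⟩⁻¹) = 1 := by
      rw [map_mul, map_mul, map_mul, map_inv, map_inv, hEc _ ha _ hb]
      group
    exact (hq1 _).1 h6) (by
    intro a ha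
    obtain ⟨haM, ha⟩ := (hWmem a).1 ha
    have h6 : q (⟨a, haM⟩ ^ 2) = 1 := by
      rw [map_pow, pow_two, hE2 _ ha]
    exact (hq1 _).1 h6)
  rw [← relIndex_mul_relIndex N P W hNP hPW] at h5
  have h6 : N.relIndex P = 4 := by
    have h7 : N.subgroupOf P = U.comap π := by
      change ((U.comap π).map P.subtype).comap P.subtype = _
      exact comap_map_eq_self_of_injective P.subtype_injective _
    rw [relIndex, h7, index_comap_of_surjective U hπ]
    have := U.card_mul_index
    rw [hU4, h16] at this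
    omega
  have h7 : 8 ≤ P.relIndex W := by
    have h8 : P.relIndex W = Nat.card (W.map (QuotientGroup.mk' P)) := by
      conv_lhs => rw [← QuotientGroup.ker_mk' P]
      rw [relIndex_ker]
    rw [h8]
    let F : Fin 2 × Fin 2 × Fin 2 → W.map (QuotientGroup.mk' P) := fun e =>
      ⟨ψ (t 0 ^ (e.1 : ℕ) * t 1 ^ (e.2.1 : ℕ) * t 2 ^ (e.2.2 : ℕ)), by
        refine ⟨x 0 ^ (e.1 : ℕ) * x 1 ^ (e.2.1 : ℕ) * x 2 ^ (e.2.2 : ℕ),
          mul_mem (mul_mem (pow_mem (hxW 0) _) (pow_mem (hxW 1) _)) (pow_mem (hxW 2) _), ?_⟩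
        simp only [map_mul, map_pow, QuotientGroup.mk'_apply, hx]⟩
    have hF : Function.Injective F := by
      intro e e' h
      apply htinj
      apply hψ
      exact congrArg Subtype.val h
    have h9 := Nat.card_le_card_of_injective F hF
    have h10 : Nat.card (Fin 2 × Fin 2 × Fin 2) = 8 := by simp
    rw [h10] at h9
    exact h9
  rw [h6] at h5
  omega

/-- `X / O₂(X)` does not contain `S₆`. -/
theorem no_s6 {X : Type*} [Group X] [Finite X] (hc : IsPConstrained 2 X) (hO : oddCore X = ⊥)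
    (h4X : SectionalPRankLE 2 4 X) (ψ : P6 →* X ⧸ pCore 2 X) (hψ : Function.Injective ψ) :
    False := by
  have h4 : SectionalPRankLE 2 4 ↥(pCore 2 X) := H76.SecRank.subgroup h4X _
  have hCT : H59.CharP.CT 2 X := H59.PCons.CT_of_isPConstrained hc hO
  have hC := H61.A8Emb.centralizer_pCore_le hCT
  set Q := pCore 2 X with hQ
  have hQp : IsPGroup 2 Q := H1.Cores.isPGroup_pCore 2
  let V := ↥Q ⧸ frattini ↥Q
  have hcV : ∀ a b : V, a * b = b * a := by
    intro a b
    obtain ⟨a, rfl⟩ := QuotientGroup.mk_surjective a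
    obtain ⟨b, rfl⟩ := QuotientGroup.mk_surjective b
    rw [← QuotientGroup.mk_mul, ← QuotientGroup.mk_mul, QuotientGroup.eq]
    have := H3.PBasic.commutator_le_frattini hQp (Subgroup.commutator_mem_commutator (Subgroup.mem_top b⁻¹) (Subgroup.mem_top a⁻¹))
    convert this using 1
    rw [commutatorElement_def]
    group
  have h2V : ∀ a : V, a * a = 1 := by
    intro a
    obtain ⟨a, rfl⟩ := QuotientGroup.mk_surjective a
    rw [← pow_two, ← QuotientGroup.mk_pow, QuotientGroup.eq_one_iff]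
    exact H3.PBasic.pow_mem_frattini hQp a
  have hcard : Nat.card V ≤ 2 ^ 4 := by
    have h1 := H76.SecRank.relIndex_le h4 (frattini ↥Q) ⊤ le_top (by
      intro x _ y _
      have := H3.PBasic.commutator_le_frattini hQp (Subgroup.commutator_mem_commutator (Subgroup.mem_top x) (Subgroup.mem_top y))
      rwa [commutatorElement_def] at this) (fun x _ => H3.PBasic.pow_mem_frattini hQp x)
    rwa [Subgroup.relIndex_top_right] at h1
  have hVp : IsPGroup 2 V := hQp.to_quotient _
  obtain ⟨n, hn⟩ := IsPGroup.iff_card.1 hVp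
  have hV16 : Nat.card V ∣ 16 := by
    have h1 : n ≤ 4 := by
      rw [hn] at hcard
      exact (Nat.pow_le_pow_iff_right (by norm_num)).1 hcard
    rw [hn, show (16 : ℕ) = 2 ^ 4 from rfl]
    exact pow_dvd_pow 2 h1
  let act : X →* MulAut V :=
    { toFun := fun x => QuotientGroup.congr (frattini ↥Q) (frattini ↥Q) (MulAut.conjNormal x) (by
        have : (frattini ↥Q).Characteristic := inferInstance
        exact Subgroup.characteristic_iff_map_eq.1 this _)
      map_one' := by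
        ext v
        obtain ⟨v, rfl⟩ := QuotientGroup.mk_surjective v
        simp
      map_mul' := by
        intro x y
        ext v
        obtain ⟨v, rfl⟩ := QuotientGroup.mk_surjective v
        change QuotientGroup.mk (MulAut.conjNormal (x * y) v) = QuotientGroup.mk (MulAut.conjNormal x (MulAut.conjNormal y v))
        rw [map_mul]
        rfl }
  have hact : ∀ (x : X) (q : ↥Q), act x (QuotientGroup.mk q) = QuotientGroup.mk (MulAut.conjNormal x q) := by
    intro x q; rfl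
  have hker : act.ker = Q := by
    apply le_antisymm
    · apply H11.PStabApp.mem_pCore_of_trivial 2 hC
      intro x hx n hn
      have h1 : act x (QuotientGroup.mk ⟨n, hn⟩) = QuotientGroup.mk ⟨n, hn⟩ := by
        rw [MonoidHom.mem_ker.1 hx]; rfl
      rw [hact, eq_comm, QuotientGroup.eq] at h1
      have h2 : (⟨n, hn⟩ : ↥Q) * ((⟨n, hn⟩ : ↥Q)⁻¹ * (MulAut.conjNormal x ⟨n, hn⟩)) * (⟨n, hn⟩ : ↥Q)⁻¹ ∈ frattini ↥Q :=
        (inferInstance : (frattini ↥Q).Normal).conj_mem _ h1 _
      refine ⟨_, h2, ?_⟩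
      simp
    · intro x hx
      rw [MonoidHom.mem_ker]
      ext v
      obtain ⟨v, rfl⟩ := QuotientGroup.mk_surjective v
      rw [hact]
      have : (MulAut.conjNormal x v : ↥Q) = ⟨x, hx⟩ * v * ⟨x, hx⟩⁻¹ := by
        apply Subtype.ext; simp
      rw [this, QuotientGroup.mk_mul, QuotientGroup.mk_mul, hcV (QuotientGroup.mk _) (QuotientGroup.mk v), mul_assoc, ← QuotientGroup.mk_mul, mul_inv_cancel]
      simp
  exact contra Q hcV h2V hV16 (QuotientGroup.mk' _) (QuotientGroup.mk'_surjective _) act hact hker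
    h4X ψ hψ

end H57.Td
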