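import Cfsg.Agent.Lib.H57.Ess4
import Cfsg.Agent.Lib.H57.IdxP4

/-!
Abelian essential subgroups containing `Z(S)` with index `p`, `p` odd: the involution `-1` of `SL_2(p)` acting on `Z(S)`
and the normal subgroup it determines.
-/

set_option autoImplicit false
open Cfsg Cfsg.FusionSystem H86.FusBasic H86.FusSat H86.FusAlperin H57.Ess H57.TvPair H57.IdxP

namespace H57.Zeta

variable {Ω : Type*} [Group Ω] {S : Subgroup Ω}

/-- Every `F`-map of `Z(S)` onto itself is induced by `Aut_F(S)`. -/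
theorem extend_ZZ [Finite S] {p : ℕ} [hp : Fact p.Prime] (hS : IsPGroup p S)
    {F : FusionSystem S} (hF : F.IsSaturated p) {φ : ZZ S →* Ω} (hφ : φ ∈ F.Hom (ZZ S))
    (hr : ∀ x, φ x ∈ ZZ S) : ∃ σ ∈ F.autGroup S, ∀ z : ZZ S, ((σ ⟨z, z.2.1⟩ : S) : Ω) = φ z := by
  have hfZ : Finite (ZZ S) := finite_of_le inf_le_left
  have hZN : S ≤ Subgroup.normalizer ((ZZ S : Subgroup Ω) : Set Ω) := by
    intro s hs
    rw [Subgroup.mem_normalizer_iff]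
    intro z
    constructor
    · intro hz
      rw [(mem_ZZ.1 hz).2 s hs, mul_inv_cancel_right]
      exact hz
    · intro hz
      have h1 := (mem_ZZ.1 hz).2 s⁻¹ (Subgroup.inv_mem _ hs)
      have h2 : z = s⁻¹ * (s * z * s⁻¹) * s := by group
      rw [h2, h1]
      have h3 : s * z * s⁻¹ * s⁻¹ * s = s * z * s⁻¹ := by group
      rw [h3]; exact hz
  have hfn : F.IsFullyNormalized (ZZ S) := by
    refine ⟨inf_le_left, fun Q _ => ?_⟩
    have h1 : normalizerIn S (ZZ S) = S := inf_eq_left.2 hZN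
    rw [h1]
    exact Subgroup.card_le_of_le (normalizerIn_le S Q)
  have hrec := receptive_of_fullyNormalized hS hF hfn
  have hrange : φ.range = ZZ S := by
    apply Subgroup.eq_of_le_of_card_ge
    · rintro _ ⟨x, rfl⟩; exact hr x
    · rw [← Nat.card_congr (MonoidHom.ofInjective (F.injective_of_mem hφ)).toEquiv]
  obtain ⟨e, he, hex⟩ : ∃ e : ZZ S ≃* ZZ S, IsIso F e ∧ ∀ x, ((e x : ZZ S) : Ω) = φ x :=
    ⟨_, isIso_toEquiv F hφ hrange, fun x => rfl⟩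
  obtain ⟨ψ, hψ, hψx⟩ := receptive_extend' hrec he (R := S) inf_le_left le_rfl hZN (by
    intro g hg
    rw [mem_autInducedBy]
    refine ⟨1, S.one_mem, fun x => ?_⟩
    have h1 : (MulAut.congr e (conjAut (ZZ S) (hZN hg))) = 1 := by
      ext y
      show ((e (conjAut (ZZ S) (hZN hg) (e.symm y)) : ZZ S) : Ω) = y
      have h2 : conjAut (ZZ S) (hZN hg) (e.symm y) = e.symm y := by
        apply Subtype.ext
        rw [conjAut_apply, (mem_ZZ.1 (e.symm y).2).2 g hg, mul_inv_cancel_right]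
      rw [h2, MulEquiv.apply_symm_apply]
    rw [h1]
    simp)
  have hr' : ψ.range = S := by
    apply Subgroup.eq_of_le_of_card_ge (range_le F hψ)
    rw [← Nat.card_congr (MonoidHom.ofInjective (F.injective_of_mem hψ)).toEquiv]
  refine ⟨_, (isIso_toEquiv F hψ hr').mem_autGroup, fun z => ?_⟩
  rw [← hex z, ← hψx z]
  rfl

/-- `τ ∈ Aut_F(S)` inverts `T ≤ Z(S)` and acts trivially on `Z(S)/T`. -/
structure Inv (F : FusionSystem S) (T : Subgroup Ω) (τ : MulAut S) : Prop where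
  mem : τ ∈ F.autGroup S
  quo : ∀ z : S, (z : Ω) ∈ ZZ S → ((z⁻¹ * τ z : S) : Ω) ∈ T
  inv : ∀ t : S, (t : Ω) ∈ T → τ t = t⁻¹

variable {F : FusionSystem S} {T : Subgroup Ω}

theorem cen_of_ZZ {z : S} (hz : (z : Ω) ∈ ZZ S) (s : S) : s * z = z * s :=
  Subtype.ext ((mem_ZZ.1 hz).2 s s.2)

theorem Inv.unique [Finite S] {p : ℕ} [hp : Fact p.Prime] (hS : IsPGroup p S)
    (hF : F.IsSaturated p) (hT : T ≤ ZZ S) {τ τ' : MulAut S} (h : Inv F T τ) (h' : Inv F T τ')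
    {z : S} (hz : (z : Ω) ∈ ZZ S) : τ z = τ' z := by
  have h1 : (τ⁻¹ * τ') z = z := by
    have hσ : τ⁻¹ * τ' ∈ F.autGroup S := mul_mem (Subgroup.inv_mem _ h.mem) h'.mem
    have hfixT : ∀ t : S, (t : Ω) ∈ T → (τ⁻¹ * τ') t = t := by
      intro t ht
      rw [MulAut.mul_apply, h'.inv t ht]
      have h2 := h.inv t ht
      have h3 : τ t⁻¹ = t := by rw [map_inv, h2, inv_inv]
      conv_lhs => rw [map_inv]
      have h4 : τ⁻¹ t = t⁻¹ := by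
        rw [← h3, MulAut.inv_apply_self, h3]
      rw [h4, inv_inv]
    apply rigid hS hF hσ (cen_of_ZZ hz)
    apply hfixT
    -- `z⁻¹ τ⁻¹ τ' z ∈ T`
    have h2 := h'.quo z hz
    have hyZ : ((τ' z : S) : Ω) ∈ ZZ S := by
      have h3 := mul_mem hz (hT h2)
      have h4 : (z : Ω) * ((z⁻¹ * τ' z : S) : Ω) = (τ' z : S) := by
        push_cast; group
      rwa [h4] at h3
    have h5 : ∀ y : S, (y : Ω) ∈ ZZ S → ((y⁻¹ * τ⁻¹ y : S) : Ω) ∈ T := by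
      intro y hy
      -- `w = τ⁻¹ y`; need `w ∈ Z`
      have h6 : ((τ⁻¹ y : S) : Ω) ∈ ZZ S := by
        rw [mem_ZZ]
        refine ⟨(τ⁻¹ y).2, fun s hs => ?_⟩
        have h7 := cen_of_ZZ hy (τ ⟨s, hs⟩)
        have h8 := congrArg (τ⁻¹ : MulAut S) h7
        rw [map_mul, map_mul, MulAut.inv_apply_self] at h8
        exact congrArg Subtype.val h8
      have h7 := h.quo _ h6
      rw [MulAut.apply_inv_self] at h7
      have h8 := T.inv_mem h7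
      have h9 : (((τ⁻¹ y)⁻¹ * y : S) : Ω)⁻¹ = ((y⁻¹ * τ⁻¹ y : S) : Ω) := by
        push_cast; group
      rwa [h9] at h8
    have h10 := h5 _ hyZ
    have h11 := mul_mem h2 h10
    have h12 : ((z⁻¹ * τ' z : S) : Ω) * (((τ' z)⁻¹ * τ⁻¹ (τ' z) : S) : Ω) =
        ((z⁻¹ * (τ⁻¹ * τ') z : S) : Ω) := by
      rw [MulAut.mul_apply]; push_cast; group
    rwa [h12] at h11
  have h2 : τ ((τ⁻¹ * τ') z) = τ z := by rw [h1]
  rw [MulAut.mul_apply, MulAut.apply_inv_self] at h2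
  exact h2.symm

theorem aut_ZZ (α : MulAut S) {z : S} (hz : (z : Ω) ∈ ZZ S) : ((α z : S) : Ω) ∈ ZZ S := by
  rw [mem_ZZ]
  refine ⟨(α z).2, fun s hs => ?_⟩
  have h1 := congrArg α (cen_of_ZZ hz (α⁻¹ ⟨s, hs⟩))
  rw [map_mul, map_mul, MulAut.apply_inv_self] at h1
  exact congrArg Subtype.val h1

theorem Inv.conj (hTinv : ∀ α ∈ F.autGroup S, ∀ t : S, (t : Ω) ∈ T → ((α t : S) : Ω) ∈ T)
    {τ α : MulAut S} (h : Inv F T τ) (hα : α ∈ F.autGroup S) : Inv F T (α * τ * α⁻¹) := by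
  have hα' := Subgroup.inv_mem _ hα
  refine ⟨mul_mem (mul_mem hα h.mem) hα', fun z hz => ?_, fun t ht => ?_⟩
  · have h1 := hTinv α hα _ (h.quo _ (aut_ZZ α⁻¹ hz))
    have h2 : α ((α⁻¹ z)⁻¹ * τ (α⁻¹ z)) = z⁻¹ * (α * τ * α⁻¹) z := by
      rw [map_mul, map_inv, MulAut.apply_inv_self]; rfl
    rwa [h2] at h1
  · show α (τ (α⁻¹ t)) = t⁻¹
    rw [h.inv _ (hTinv _ hα' t ht), map_inv, MulAut.apply_inv_self]

/-- The fixed points of `τ` on `Z(S)`. -/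
def Wof (τ : MulAut S) : Subgroup Ω where
  carrier := {z | ∃ hz : z ∈ S, z ∈ ZZ S ∧ τ ⟨z, hz⟩ = ⟨z, hz⟩}
  one_mem' := ⟨S.one_mem, one_mem _, map_one τ⟩
  mul_mem' := by
    rintro a b ⟨ha, haZ, ha'⟩ ⟨hb, hbZ, hb'⟩
    refine ⟨mul_mem ha hb, mul_mem haZ hbZ, ?_⟩
    have : (⟨a * b, mul_mem ha hb⟩ : S) = ⟨a, ha⟩ * ⟨b, hb⟩ := rfl
    rw [this, map_mul, ha', hb']
  inv_mem' := by
    rintro a ⟨ha, haZ, ha'⟩
    refine ⟨Subgroup.inv_mem _ ha, Subgroup.inv_mem _ haZ, ?_⟩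
    have : (⟨a⁻¹, Subgroup.inv_mem _ ha⟩ : S) = (⟨a, ha⟩ : S)⁻¹ := rfl
    rw [this, map_inv, ha']

theorem mem_Wof {τ : MulAut S} {z : S} : (z : Ω) ∈ Wof τ ↔ (z : Ω) ∈ ZZ S ∧ τ z = z :=
  ⟨fun ⟨_, h1, h2⟩ => ⟨h1, h2⟩, fun ⟨h1, h2⟩ => ⟨z.2, h1, h2⟩⟩

theorem Wof_le (τ : MulAut S) : Wof τ ≤ ZZ S := fun _ h => h.2.1

theorem Wof_inv [Finite S] {p : ℕ} [hp : Fact p.Prime] (hS : IsPGroup p S)
    (hF : F.IsSaturated p) (hT : T ≤ ZZ S)
    (hTinv : ∀ α ∈ F.autGroup S, ∀ t : S, (t : Ω) ∈ T → ((α t : S) : Ω) ∈ T)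
    {τ α : MulAut S} (h : Inv F T τ) (hα : α ∈ F.autGroup S) {z : S} (hz : (z : Ω) ∈ Wof τ) :
    ((α z : S) : Ω) ∈ Wof τ := by
  rw [mem_Wof] at hz ⊢
  refine ⟨aut_ZZ α hz.1, ?_⟩
  rw [h.unique hS hF hT (h.conj hTinv hα) (aut_ZZ α hz.1)]
  show α (τ (α⁻¹ (α z))) = α z
  rw [MulAut.inv_apply_self, hz.2]

/-- An abelian essential subgroup with a plane whose distinguished line is `T`. -/
structure AbEss {p : ℕ} [Fact p.Prime] (F : FusionSystem S) (T : Subgroup Ω) {P : Subgroup Ω} (D : Plane P p) : Prop where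
  ess : F.IsEssential p P
  comm : ∀ a b : P, a * b = b * a
  card : Nat.card (autInducedBy S P) = p
  rho_mem : ∀ A, D.rho A ∈ F.autGroup P
  up_iff : ∀ u, u ∈ autInducedBy S P ↔ ∃ t, u = D.rho (up t)
  ker_iff : ∀ v : P, (D.π v).toAdd 1 = 0 ↔ (v : Ω) ∈ ZZ S
  dir : ∀ v : P, (v : Ω) ∈ T ↔ ∃ t : ZMod p, v = D.ι (Multiplicative.ofAdd ![t, 0])
  leT : T ≤ P

variable {p : ℕ} [hp : Fact p.Prime]

theorem neg_one_mulVec (x : Fin 2 → ZMod p) :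
    ((-1 : Matrix.SpecialLinearGroup (Fin 2) (ZMod p)) : Matrix (Fin 2) (Fin 2) (ZMod p)).mulVec x = -x := by
  simp [Matrix.neg_mulVec]

theorem AbEss.exists_inv [Finite S] (hS : IsPGroup p S) (hF : F.IsSaturated p)
    {P : Subgroup Ω} {D : Plane P p} (h : AbEss F T D) :
    ∃ τ : MulAut S, Inv F T τ ∧ ∀ (z : P) (hz : (z : Ω) ∈ ZZ S),
      ((τ ⟨z, hz.1⟩ : S) : Ω) = D.rho (-1) z := by
  have hPS := h.ess.1.1
  have hZP : ZZ S ≤ P := ZZ_le_of_essential h.ess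
  -- `ζ` on `Z(S)`
  let φ : ZZ S →* Ω := P.subtype.comp ((D.rho (-1)).toMonoidHom.comp (Subgroup.inclusion hZP))
  have hφ : φ ∈ F.Hom (ZZ S) := by
    have h1 := (H86.FusBasic.mem_autGroup' F hPS).1 (h.rho_mem (-1))
    exact restrict_mem F h1 hZP
  have hact : ∀ v : P, D.rho (-1) v = v * D.ι (Multiplicative.ofAdd (-(D.π v).toAdd - (D.π v).toAdd)) := by
    intro v
    rw [D.rho_apply]
    show v * D.ι _ = _
    rw [neg_one_mulVec]
  have hr : ∀ z, φ z ∈ ZZ S := by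
    intro z
    show ((D.rho (-1) ⟨z, hZP z.2⟩ : P) : Ω) ∈ ZZ S
    rw [← h.ker_iff, D.rho_apply, D.π_act, toAdd_ofAdd, neg_one_mulVec]
    have h1 := (h.ker_iff ⟨z, hZP z.2⟩).2 z.2
    rw [Pi.neg_apply, h1, neg_zero]
  obtain ⟨τ, hτ, hτx⟩ := extend_ZZ hS hF hφ hr
  have hval : ∀ (z : P) (hz : (z : Ω) ∈ ZZ S), ((τ ⟨z, hz.1⟩ : S) : Ω) = D.rho (-1) z :=
    fun z hz => hτx ⟨z, hz⟩
  refine ⟨τ, ⟨hτ, fun z hz => ?_, fun t ht => ?_⟩, hval⟩
  · have h1 := hval ⟨z, hZP hz⟩ hz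
    have h2 : ((z⁻¹ * τ z : S) : Ω) = (((⟨z, hZP hz⟩ : P)⁻¹ * D.rho (-1) ⟨z, hZP hz⟩ : P) : Ω) := by
      show (z : Ω)⁻¹ * ((τ z : S) : Ω) = (z : Ω)⁻¹ * ((D.rho (-1) ⟨z, hZP hz⟩ : P) : Ω)
      rw [← h1]
    rw [h2, h.dir, hact, inv_mul_cancel_left]
    refine ⟨(-(D.π ⟨z, hZP hz⟩).toAdd - (D.π ⟨z, hZP hz⟩).toAdd) 0, ?_⟩
    congr 2
    have h3 := (h.ker_iff ⟨z, hZP hz⟩).2 hz
    ext i
    fin_cases i
    · rfl
    · simp [h3]
  · obtain ⟨a, ha⟩ := (h.dir ⟨t, h.leT ht⟩).1 ht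
    have htZ : (t : Ω) ∈ ZZ S := by
      have h4 := (h.ker_iff ⟨t, h.leT ht⟩)
      rw [← h4, ha, D.ret]
      rfl
    have h1 := hval ⟨t, h.leT ht⟩ htZ
    have h5 : D.rho (-1) ⟨t, h.leT ht⟩ = (⟨t, h.leT ht⟩ : P)⁻¹ := by
      conv_lhs => rw [D.rho_apply, ha, D.act_ι, neg_one_mulVec, ofAdd_neg, map_inv, ← ha]
    rw [h5] at h1
    exact Subtype.ext h1

theorem AbEss.mem_Wof_iff (hp2 : p ≠ 2) {P : Subgroup Ω} {D : Plane P p} (h : AbEss F T D) {τ : MulAut S}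
    (hval : ∀ (z : P) (hz : (z : Ω) ∈ ZZ S), ((τ ⟨z, hz.1⟩ : S) : Ω) = D.rho (-1) z) (z : P) :
    (z : Ω) ∈ Wof τ ↔ D.π z = 1 := by
  have hPS := h.ess.1.1
  have h2 : (2 : ZMod p) ≠ 0 := by
    intro h0
    have h1 : ((2 : ℕ) : ZMod p) = 0 := by exact_mod_cast h0
    rw [ZMod.natCast_eq_zero_iff] at h1
    exact hp2 ((Nat.prime_dvd_prime_iff_eq hp.out Nat.prime_two).1 h1)
  constructor
  · intro hz
    obtain ⟨hzS, hzZ, hzτ⟩ := hz
    have h3 := hval z hzZ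
    have h4 : τ ⟨(z : Ω), hzZ.1⟩ = ⟨z, hzZ.1⟩ := hzτ
    rw [h4] at h3
    have h5 : D.rho (-1) z = z := (Subtype.ext h3).symm
    have h6 := congrArg D.π h5
    rw [D.rho_apply, D.π_act, neg_one_mulVec] at h6
    have h7 := congrArg Multiplicative.toAdd h6
    rw [toAdd_ofAdd] at h7
    apply Multiplicative.toAdd.injective
    ext i
    have h8 := congrFun h7 i
    rw [Pi.neg_apply] at h8
    have h9 : 2 * (D.π z).toAdd i = 0 := by linear_combination (-1 : ZMod p) * h8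
    rcases mul_eq_zero.1 h9 with h10 | h10
    · exact absurd h10 h2
    · exact h10
  · intro hz
    have hzZ : (z : Ω) ∈ ZZ S := by
      rw [← h.ker_iff, hz]; rfl
    refine ⟨hzZ.1, hzZ, ?_⟩
    apply Subtype.ext
    rw [hval z hzZ, D.rho_apply, D.act_fix _ hz]

/-- `Aut_F(P)` preserves `W`. -/
theorem AbEss.W_inv [Finite S] (hS : IsPGroup p S) (hF : F.IsSaturated p)
    (hT : T ≤ ZZ S) (hp2 : p ≠ 2)
    (hTinv : ∀ α ∈ F.autGroup S, ∀ t : S, (t : Ω) ∈ T → ((α t : S) : Ω) ∈ T)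
    {P : Subgroup Ω} {D : Plane P p} (h : AbEss F T D) {τ : MulAut S} (hτ : Inv F T τ)
    {α : MulAut P} (hα : α ∈ F.autGroup P) {z : P} (hz : (z : Ω) ∈ Wof τ) :
    ((α z : P) : Ω) ∈ Wof τ := by
  have hfP : Finite P := finite_of_le h.ess.1.1
  have hPS := h.ess.1.1
  have hZP : ZZ S ≤ P := ZZ_le_of_essential h.ess
  obtain ⟨τ', hτ', hval⟩ := h.exists_inv hS hF
  have hWeq : ∀ y : S, (y : Ω) ∈ Wof τ ↔ (y : Ω) ∈ Wof τ' := by
    intro y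
    rw [mem_Wof, mem_Wof]
    constructor
    · rintro ⟨h1, h2⟩
      exact ⟨h1, by rw [← hτ.unique hS hF hT hτ' h1, h2]⟩
    · rintro ⟨h1, h2⟩
      exact ⟨h1, by rw [hτ.unique hS hF hT hτ' h1, h2]⟩
  obtain ⟨A, hA⟩ := frattini_plane (hS.to_le hPS) h.comm (sylIn_aut hS hF h.ess.2.1) h.card D
    h.rho_mem h.up_iff hα
  set ν := (D.rho A)⁻¹ * α with hν
  have hνF : ν ∈ F.autGroup P := mul_mem (Subgroup.inv_mem _ (h.rho_mem A)) hα
  -- `ν` preserves `Z(S)`, the fixed points of `U`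
  have hfixU : ∀ v : P, (v : Ω) ∈ ZZ S ↔ ∀ u ∈ autInducedBy S P, u v = v := by
    intro v
    constructor
    · intro hv u hu
      obtain ⟨g, hgN, hgS, rfl⟩ := mem_autInducedBy'.1 hu
      apply Subtype.ext
      rw [conjAut_apply, (mem_ZZ.1 hv).2 g hgS, mul_inv_cancel_right]
    · intro hv
      rw [← h.ker_iff]
      have h1 := hv _ ((h.up_iff _).2 ⟨1, rfl⟩)
      have h2 := congrArg D.π h1
      rw [D.rho_apply, D.π_act] at h2
      have h3 := congrFun (congrArg Multiplicative.toAdd h2) 0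
      rw [toAdd_ofAdd] at h3
      simpa [up, Matrix.mulVec, dotProduct, Fin.sum_univ_two] using h3
  have hUcard : ∀ u ∈ autInducedBy S P, ∃ w ∈ autInducedBy S P, u = ν * w * ν⁻¹ := by
    have hfU : Finite (autInducedBy S P) := by
      have := finMulAut (V := P)
      exact Subtype.finite
    have hinj : Function.Injective (fun w : autInducedBy S P => (⟨ν * w * ν⁻¹, hA w w.2⟩ : autInducedBy S P)) := by
      intro a b hab
      have h1 : ν * (a : MulAut P) * ν⁻¹ = ν * b * ν⁻¹ := congrArg Subtype.val hab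
      exact Subtype.ext (mul_left_cancel (mul_right_cancel h1))
    intro u hu
    obtain ⟨w, hw⟩ := (Finite.surjective_of_injective hinj) ⟨u, hu⟩
    exact ⟨w, w.2, (congrArg Subtype.val hw).symm⟩
  have hνZ : ∀ v : P, (v : Ω) ∈ ZZ S → ((ν v : P) : Ω) ∈ ZZ S := by
    intro v hv
    rw [hfixU] at hv ⊢
    intro u hu
    obtain ⟨w, hw, rfl⟩ := hUcard u hu
    show ν (w (ν⁻¹ (ν v))) = ν v
    rw [MulAut.inv_apply_self, hv w hw]
  let φ : ZZ S →* Ω := P.subtype.comp (ν.toMonoidHom.comp (Subgroup.inclusion hZP))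
  have hφ : φ ∈ F.Hom (ZZ S) := restrict_mem F ((H86.FusBasic.mem_autGroup' F hPS).1 hνF) hZP
  obtain ⟨σ, hσ, hσx⟩ := extend_ZZ hS hF hφ (fun z => hνZ ⟨z, hZP z.2⟩ z.2)
  have hzZ : (z : Ω) ∈ ZZ S := Wof_le _ hz
  have h1 : ((ν z : P) : Ω) ∈ Wof τ := by
    have h2 := Wof_inv hS hF hT hTinv hτ hσ (z := ⟨z, hzZ.1⟩) hz
    have h3 : ((σ ⟨z, hzZ.1⟩ : S) : Ω) = ν z := hσx ⟨z, hzZ⟩
    rwa [h3] at h2
  have h2 : α z = D.rho A (ν z) := by
    rw [hν, MulAut.mul_apply, MulAut.apply_inv_self]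
  rw [h2]
  have h3 : D.π (ν z) = 1 := by
    rw [← h.mem_Wof_iff hp2 hval (ν z)]
    exact (hWeq ⟨ν z, hPS (ν z).2⟩).1 h1
  rw [D.rho_apply, D.act_fix _ h3]
  exact h1

/-- `Z(S) = T W`, `T ∩ W = 1`. -/
theorem AbEss.ZZ_le_sup [Finite S] (hS : IsPGroup p S) (hF : F.IsSaturated p)
    (hT : T ≤ ZZ S) (hp2 : p ≠ 2) {P : Subgroup Ω} {D : Plane P p} (h : AbEss F T D) {τ : MulAut S}
    (hτ : Inv F T τ) (hW : Wof τ = ⊥) : ZZ S = T := by
  have hPS := h.ess.1.1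
  have hZP : ZZ S ≤ P := ZZ_le_of_essential h.ess
  apply le_antisymm _ hT
  intro z hz
  obtain ⟨τ', hτ', hval⟩ := h.exists_inv hS hF
  have hW' : Wof τ' = ⊥ := by
    rw [eq_bot_iff]
    intro y hy
    have hyZ := Wof_le _ hy
    rw [← hW]
    have h1 := (mem_Wof (z := ⟨y, hyZ.1⟩)).1 hy
    exact (mem_Wof (z := ⟨y, hyZ.1⟩)).2 ⟨h1.1, by rw [hτ.unique hS hF hT hτ' h1.1, h1.2]⟩
  let v : P := ⟨z, hZP hz⟩
  have hv1 := (h.ker_iff v).2 hz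
  let t : P := D.ι (D.π v)
  have ht : (t : Ω) ∈ T := by
    rw [h.dir]
    refine ⟨(D.π v).toAdd 0, ?_⟩
    show D.ι (D.π v) = _
    congr 1
    apply Multiplicative.toAdd.injective
    rw [toAdd_ofAdd]
    ext i
    fin_cases i
    · rfl
    · exact hv1
  have h1 : D.π (v * t⁻¹) = 1 := by
    rw [map_mul, map_inv]
    show D.π v * (D.π (D.ι (D.π v)))⁻¹ = 1
    rw [D.ret, mul_inv_cancel]
  have h2 := (h.mem_Wof_iff hp2 hval (v * t⁻¹)).2 h1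
  rw [hW', Subgroup.mem_bot] at h2
  have h3 : v * t⁻¹ = 1 := Subtype.ext h2
  have h4 : v = t := mul_inv_eq_one.1 h3
  have h5 : z = (t : Ω) := congrArg Subtype.val h4
  rw [h5]; exact ht

end H57.Zeta
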